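/-
Groups with abelian Sylow subgroups and a Hall `2'`-subgroup, part 1.
-/
import Cfsg.Agent.FT.BG01
import Cfsg.Agent.L.Invol
import Cfsg.Agent.L.SimpleRed
import Cfsg.Agent.H7.Frattini

set_option autoImplicit false

namespace Cfsg.Agent.H6

open Subgroup Cfsg Cfsg.Agent Cfsg.Agent.FT

universe u

/-- All Sylow subgroups are abelian. -/
def AGrp (G : Type u) [Group G] : Prop :=
  ∀ p : ℕ, p.Prime → ∀ P : Subgroup G, IsPGroup p P → IsMulCommutative P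

variable {G : Type u} [Group G]

theorem AGrp.subgroup (h : AGrp G) (H : Subgroup G) : AGrp H := fun p hp P hP =>
  (isMulComm_map_iff H.subtype_injective).1 (h p hp _ (hP.map _))

theorem AGrp.commute (h : AGrp G) {p : ℕ} (hp : p.Prime) {P : Subgroup G} (hP : IsPGroup p P)
    {x y : G} (hx : x ∈ P) (hy : y ∈ P) : Commute x y :=
  mem_cent.1 (isMulComm_iff_le_cent.1 (h p hp P hP) hy) x hx

theorem exists_fixed_of_odd_ncard {α : Type*} [Finite α] {A : Set α} (hA : Odd A.ncard) {f : α → α}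
    (hf : ∀ a ∈ A, f a ∈ A) (hff : ∀ a ∈ A, f (f a) = a) : ∃ a ∈ A, f a = a := by
  classical
  haveI := Fintype.ofFinite A
  haveI : Fact (Nat.Prime 2) := ⟨Nat.prime_two⟩
  let σ : Equiv.Perm A := Function.Involutive.toPerm (fun a => ⟨f a, hf a a.2⟩)
    fun a => Subtype.ext (hff a a.2)
  obtain ⟨a, ha⟩ := Equiv.Perm.exists_fixed_point_of_prime (p := 2) (n := 1) (σ := σ) (by
    rw [← Nat.card_eq_fintype_card, Nat.card_coe_set_eq]
    exact hA.not_two_dvd_nat) (by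
    rw [pow_one, pow_two]
    exact Equiv.ext fun a => Subtype.ext (hff a a.2))
  exact ⟨a, a.2, congrArg Subtype.val ha⟩

theorem eq_inv_of_odd_conj {w y : G} (hw : Odd (orderOf w)) (h : w * y * w⁻¹ = y⁻¹) : y⁻¹ = y := by
  obtain ⟨m, hm⟩ := hw
  have h2 : Commute (w * w) y := by
    have : w * w * y * (w * w)⁻¹ = y := by
      calc w * w * y * (w * w)⁻¹ = w * (w * y * w⁻¹) * w⁻¹ := by group
        _ = w * y⁻¹ * w⁻¹ := by rw [h]
        _ = (w * y * w⁻¹)⁻¹ := by group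
        _ = y := by rw [h, inv_inv]
    exact mul_inv_eq_iff_eq_mul.1 this
  have h3 : (w * w) ^ (m + 1) = w := by
    rw [← pow_two, ← pow_mul, show 2 * (m + 1) = orderOf w + 1 by omega, pow_succ,
      pow_orderOf_eq_one, one_mul]
  have h4 : Commute w y := h3 ▸ h2.pow_left (m + 1)
  rw [← h, h4.eq, mul_inv_cancel_right]

variable [Finite G]

theorem AGrp.of_surjective (h : AGrp G) {Q : Type u} [Group Q] {f : G →* Q}
    (hf : Function.Surjective f) : AGrp Q := by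
  intro p hp P hP
  haveI := Fact.mk hp
  haveI := Finite.of_surjective f hf
  obtain ⟨S, hS⟩ := hP.exists_le_sylow
  obtain ⟨T, rfl⟩ := Sylow.mapSurjective_surjective hf p S
  refine isMulComm_of_le hS ?_
  haveI := h p hp T T.isPGroup'
  exact map_isMulCommutative (T : Subgroup G) f

theorem AGrp.syl_le (h : AGrp G) {p : ℕ} (hp : p.Prime) {H P : Subgroup G}
    (hs : Group.IsSolvable H) (hP : IsPGroup p P) (hPH : P ≤ H) : P ≤ pPrimePCoreOf p H := by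
  obtain ⟨S, hS, hPS⟩ := exists_isSyl_ge hp hP hPH
  refine hPS.trans (le_trans (le_inf hS.le ?_)
    (solvable_p_constrained hp hs (hS.inf_normal hp (pPrimePCoreOf_normal p H))))
  exact (isMulComm_iff_le_cent.1 (h p hp S hS.pgrp)).trans (cent_anti inf_le_left)

theorem isPGroup_zpowers_invol {t : G} (ht : t * t = 1) : IsPGroup 2 (zpowers t) := by
  have : orderOf t ∣ 2 ^ 1 := orderOf_dvd_of_pow_eq_one (by rw [pow_one, pow_two, ht])
  obtain ⟨k, -, hk⟩ := (Nat.dvd_prime_pow Nat.prime_two).1 this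
  exact isPGroup_of_card_eq (by rw [Nat.card_zpowers, hk])

/-- The minimal counterexample. -/
structure ACtx (K : Subgroup G) : Prop where
  ag : AGrp G
  odd : Odd 𝐨(K)
  idx : ∃ n, K.index = 2 ^ n
  simple : IsSimpleGroup G
  ns : ¬ Group.IsSolvable G
  ih : ∀ H : Subgroup G, H ≠ ⊤ → (∃ n, K.relIndex H = 2 ^ n) → Group.IsSolvable H
  solK : Group.IsSolvable K

namespace ACtx

variable {K S : Subgroup G} (h : ACtx K)
include h

theorem core {M X : Subgroup G} (hM : M ≠ ⊤) (hX : ∀ g : G, ∀ x ∈ X, g * x * g⁻¹ ∈ M) : X = ⊥ := by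
  haveI := h.simple
  rcases (normalCore_normal M).eq_bot_or_eq_top with h1 | h1
  · exact eq_bot_iff.2 (h1 ▸ fun x hx g => hX g x hx)
  · exact (hM (eq_top_iff.2 (h1 ▸ normalCore_le M))).elim

theorem core1 {M : Subgroup G} (hM : M ≠ ⊤) {x : G} (hx : ∀ g : G, g * x * g⁻¹ ∈ M) : x = 1 := by
  have := h.core (X := zpowers x) hM fun g y hy => by
    obtain ⟨n, rfl⟩ := mem_zpowers_iff.1 hy
    rw [← conj_zpow]
    exact zpow_mem (hx g) n
  exact zpowers_eq_bot.1 this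

theorem ne_top_of_solv {H : Subgroup G} (hH : Group.IsSolvable H) : H ≠ ⊤ := by
  rintro rfl
  exact h.ns (L.isSolvable_of_mulEquiv (G := (⊤ : Subgroup G)) topEquiv)

theorem K_ne_top : K ≠ ⊤ := h.ne_top_of_solv h.solK

theorem syl_ne_top (hS : IsSyl 2 S ⊤) : S ≠ ⊤ :=
  h.ne_top_of_solv (isSolvable_of_isNilpotent (isNilpotent_of_isPGroup Nat.prime_two hS.pgrp))

theorem odd_orderOf {x : G} (hx : x ∈ K) : Odd (orderOf x) :=
  h.odd.of_dvd_nat (orderOf_dvd_card_of_mem hx)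

theorem eq_one {P : Subgroup G} (hP : IsPGroup 2 P) {x : G} (hx : x ∈ P) (hK : x ∈ K) : x = 1 := by
  obtain ⟨n, hn⟩ := exists_card_eq_pow Nat.prime_two hP
  have h1 := orderOf_dvd_card_of_mem hx
  rw [hn] at h1
  exact orderOf_eq_one_iff.1 (Nat.Coprime.eq_one_of_dvd
    ((Nat.coprime_two_right.2 (h.odd_orderOf hK)).pow_right n) h1)

theorem hall {H : Subgroup G} (hH : ∃ n, K.relIndex H = 2 ^ n) : IsPiHallOf {2}ᶜ (K ⊓ H) H := by
  obtain ⟨n, hn⟩ := hH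
  refine H1.isPiHallOf_iff.2 ⟨inf_le_right, (L.isPiNum_compl_singleton_iff Nat.prime_two).2
    (Nat.coprime_two_right.2 (h.odd.of_dvd_nat (FT.card_dvd_of_le inf_le_left))), ?_⟩
  rw [compl_compl, inf_relIndex_right, hn]
  exact (L.isPiNum_singleton_iff Nat.prime_two (by positivity)).2 ⟨n, rfl⟩

theorem isComplement (hS : IsSyl 2 S ⊤) : IsComplement' S K := by
  have h1 := h.hall (H := ⊤) (by rw [relIndex_top_right]; exact h.idx)
  rw [inf_top_eq] at h1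
  have h2 := (isSyl_iff_hall Nat.prime_two).1 hS
  refine isComplement'_of_coprime ?_ (isPi_coprime (hall_isPi h2) (hall_isPi h1))
  rw [hall_card_mul_card h2 h1, card_top]

theorem fac (hS : IsSyl 2 S ⊤) (g : G) : ∃ s ∈ S, ∃ k ∈ K, g = s * k := by
  obtain ⟨⟨s, k⟩, e⟩ := (h.isComplement hS).2 g
  exact ⟨s, s.2, k, k.2, e.symm⟩

theorem fac' (hS : IsSyl 2 S ⊤) (g : G) : ∃ k ∈ K, ∃ s ∈ S, g = k * s := by
  obtain ⟨s, hs, k, hk, e⟩ := h.fac hS g⁻¹
  exact ⟨k⁻¹, inv_mem hk, s⁻¹, inv_mem hs, by rw [← mul_inv_rev, ← e, inv_inv]⟩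

theorem uniq (hS : IsSyl 2 S ⊤) {s s' : G} (hs : s ∈ S) (hs' : s' ∈ S) (e : s⁻¹ * s' ∈ K) :
    s = s' :=
  inv_mul_eq_one.1 (h.eq_one hS.pgrp (mul_mem (inv_mem hs) hs') e)

theorem relIndex_pow {H S₀ : Subgroup G} (hS₀ : IsPGroup 2 S₀) (hle : S₀ ≤ H)
    (hH : ∀ x ∈ H, ∃ s ∈ S₀, s⁻¹ * x ∈ K) : ∃ n, K.relIndex H = 2 ^ n := by
  have : IsComplement' (S₀.subgroupOf H) (K.subgroupOf H) := by
    refine isComplement'_of_disjoint_and_mul_eq_univ ?_ ?_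
    · rw [disjoint_def]
      intro x h1 h2
      exact Subtype.ext (h.eq_one hS₀ h1 h2)
    · refine Set.eq_univ_of_forall fun x => ?_
      obtain ⟨s, hs, hk⟩ := hH x x.2
      exact ⟨⟨s, hle hs⟩, hs, ⟨s⁻¹ * x, mul_mem (inv_mem (hle hs)) x.2⟩, hk,
        Subtype.ext (by simp)⟩
  obtain ⟨n, hn⟩ := exists_card_eq_pow Nat.prime_two hS₀
  refine ⟨n, ?_⟩
  rw [relIndex, this.index_eq_card, ← hn]
  exact Nat.card_congr (subgroupOfEquivOfLe hle).toEquiv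

theorem odd_core_le {H : Subgroup G} (hH : ∃ n, K.relIndex H = 2 ^ n) :
    H2.pPrimeCoreOf 2 H ≤ K :=
  (le_hall_of_normal (h.hall hH) (pPrimeCoreOf_normal 2 H).1
    ((isPi_compl_singleton_iff' Nat.prime_two).2 (not_dvd_card_pPrimeCoreOf Nat.prime_two H))
    (inf_le_right.trans (pPrimeCoreOf_normal 2 H).2)).trans inf_le_left

theorem mul_mem_of_odd {H : Subgroup G} (hH : H ≠ ⊤) (hi : ∃ n, K.relIndex H = 2 ^ n) {t u : G}
    (ht : t * t = 1) (hu : u * u = 1) (htH : t ∈ H) (huH : u ∈ H) (ho : Odd (orderOf (t * u))) :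
    t * u ∈ K := by
  have hs := h.ih H hH hi
  have h1 : t * u ∈ pPrimePCoreOf 2 H := mul_mem
    (h.ag.syl_le Nat.prime_two hs (isPGroup_zpowers_invol ht) (zpowers_le.2 htH) (mem_zpowers t))
    (h.ag.syl_le Nat.prime_two hs (isPGroup_zpowers_invol hu) (zpowers_le.2 huH) (mem_zpowers u))
  refine h.odd_core_le hi ?_
  rw [← pPrimeCoreOf_pPrimePCoreOf Nat.prime_two]
  exact (hasNPC_pPrimePCoreOf Nat.prime_two H).le_pPrimeCoreOf Nat.prime_two (zpowers_le.2 h1)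
    (by rw [Nat.card_zpowers]; exact ho.not_two_dvd_nat) (mem_zpowers _)

theorem le_norm_syl (hS : IsSyl 2 S ⊤) {H : Subgroup G} (hH : H ≠ ⊤) (hle : S ≤ H) : H ≤ 𝐍(S) := by
  have hi : ∃ n, K.relIndex H = 2 ^ n := h.relIndex_pow hS.pgrp hle fun x _ => by
    obtain ⟨s, hs, k, hk, rfl⟩ := h.fac hS x
    exact ⟨s, hs, by rwa [inv_mul_cancel_left]⟩
  have h1 : H2.pPrimeCoreOf 2 H = ⊥ := h.core h.K_ne_top fun g x hx => by
    obtain ⟨k, hk, s, hs, rfl⟩ := h.fac' hS g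
    have := h.odd_core_le hi
      ((mem_normalizer_iff.1 ((pPrimeCoreOf_normal 2 H).2 (hle hs)) x).1 hx)
    have e : k * s * x * (k * s)⁻¹ = k * (s * x * s⁻¹) * k⁻¹ := by group
    rw [e]
    exact mul_mem (mul_mem hk this) (inv_mem hk)
  have h2 := h.ag.syl_le Nat.prime_two (h.ih H hH hi) hS.pgrp hle
  rw [pPrimePCoreOf_eq_pCoreOf Nat.prime_two h1] at h2
  have h3 := hS.eq_of_le Nat.prime_two h2 le_top (H2.isPGroup_pCoreOf 2 H)
  rw [← h3]
  exact (pCoreOf_normal 2 H).2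

theorem cent1_ne_top {x : G} (hx : x ≠ 1) : 𝐂[x] ≠ ⊤ := fun e =>
  hx (h.core1 (M := zpowers x) (h.ne_top_of_solv (isSolvable_of_isNilpotent
    (isNilpotent_of_isMulComm inferInstance))) fun g => by
      rw [mem_cent1_iff_conj.1 (e ▸ mem_top g)]; exact mem_zpowers x)

theorem mem_norm_of_commute (hS : IsSyl 2 S ⊤) {s x : G} (hs : s ∈ S) (h1 : s ≠ 1)
    (hc : Commute s x) : x ∈ 𝐍(S) :=
  h.le_norm_syl hS (h.cent1_ne_top h1)
    (fun _ hy => mem_cent1_iff_commute.2 (h.ag.commute Nat.prime_two hS.pgrp hs hy))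
    (mem_cent1_iff_commute.2 hc)

theorem mem_of_commute (hS : IsSyl 2 S ⊤) {s x : G} (hs : s ∈ S) (h1 : s ≠ 1)
    (hc : Commute s x) (hx : IsPGroup 2 (zpowers x)) : x ∈ S :=
  hS.le_of_norm Nat.prime_two hx le_top (zpowers_le.2 (h.mem_norm_of_commute hS hs h1 hc))
    (mem_zpowers x)

theorem mem_norm_of_conj (hS : IsSyl 2 S ⊤) {s x : G} (hs : s ∈ S) (h1 : s ≠ 1)
    (hc : x * s * x⁻¹ ∈ S) : x ∈ 𝐍(S) := by
  refine mem_norm_of_conj_le fun y hy => ?_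
  have hP := (hS.conj x).pgrp
  refine h.mem_of_commute hS hc (by simpa using h1)
    (h.ag.commute Nat.prime_two hP (conj_mem_conj hs x) hy) (hP.to_le (zpowers_le.2 hy))

theorem exists_invol (hS : IsSyl 2 S ⊤) : ∃ t ∈ S, t ≠ 1 ∧ t * t = 1 := by
  have h1 : S ≠ ⊥ := by
    rintro rfl
    refine h.K_ne_top (eq_top_iff.2 fun g _ => ?_)
    obtain ⟨s, hs, k, hk, rfl⟩ := h.fac hS g
    rwa [mem_bot.1 hs, one_mul]
  obtain ⟨t, ht, h2⟩ := exists_mem_orderOf_eq_prime Nat.prime_two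
    (prime_dvd_card_of_isPGroup Nat.prime_two hS.pgrp h1)
  refine ⟨t, ht, ?_, by rw [← pow_two, ← h2, pow_orderOf_eq_one]⟩
  rintro rfl
  simp at h2

theorem exists_invol_notMem (hS : IsSyl 2 S ⊤) : ∃ u, u ∉ S ∧ u * u = 1 := by
  obtain ⟨t, -, h1, h2⟩ := h.exists_invol hS
  by_contra hn
  push Not at hn
  refine h1 (h.core1 (h.syl_ne_top hS) fun g => ?_)
  by_contra hg
  exact hn _ hg (by
    calc g * t * g⁻¹ * (g * t * g⁻¹) = g * (t * t) * g⁻¹ := by group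
      _ = 1 := by rw [h2]; group)

theorem odd_of_notMem (hS : IsSyl 2 S ⊤) {t u : G} (ht : t ∈ S) (h1 : t ≠ 1) (h2 : t * t = 1)
    (hu : u ∉ S) (hu2 : u * u = 1) : Odd (orderOf (t * u)) := by
  rw [← Nat.not_even_iff_odd]
  intro he
  obtain ⟨k, a1, a2, a3, a4⟩ := L.exists_invol_commute_of_even h2 hu2 he
  exact hu (h.mem_of_commute hS (h.mem_of_commute hS ht h1 a3.symm (isPGroup_zpowers_invol a2)) a1 a4
    (isPGroup_zpowers_invol hu2))

omit h in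
theorem exists_syl {t : G} (ht : t * t = 1) : ∃ S : Subgroup G, IsSyl 2 S ⊤ ∧ t ∈ S := by
  obtain ⟨S, hS, hle⟩ := exists_isSyl_ge Nat.prime_two (isPGroup_zpowers_invol ht) le_top
  exact ⟨S, hS, hle (mem_zpowers t)⟩

theorem invol_conj {t u : G} (h1 : t ≠ 1) (h2 : t * t = 1) (hu1 : u ≠ 1) (hu2 : u * u = 1) :
    ∃ k ∈ K, u = k * t * k⁻¹ := by
  obtain ⟨S, hS, ht⟩ := exists_syl h2
  have key : ∀ a ∈ S, a ≠ 1 → a * a = 1 → ∀ b, b ∉ S → b * b = 1 → IsConj a b := by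
    intro a ha a1 a2 b hb b2
    obtain ⟨k, k1, k2⟩ := L.exists_invol_conj_of_odd a2 b2 (h.odd_of_notMem hS ha a1 a2 hb b2)
    exact isConj_iff.2 ⟨_, by rw [L.inv_eq_self_of_mul_self k1]; exact k2⟩
  have : IsConj t u := by
    by_cases hu : u ∈ S
    · obtain ⟨w, w1, w2⟩ := h.exists_invol_notMem hS
      exact (key t ht h1 h2 w w1 w2).trans (key u hu hu1 hu2 w w1 w2).symm
    · exact key t ht h1 h2 u hu hu2
  obtain ⟨g, rfl⟩ := isConj_iff.1 this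
  obtain ⟨k, hk, s, hs, rfl⟩ := h.fac' hS g
  refine ⟨k, hk, ?_⟩
  rw [mul_assoc k, (h.ag.commute Nat.prime_two hS.pgrp hs ht).eq]
  group

theorem invol_notMem {t : G} (h1 : t ≠ 1) (h2 : t * t = 1) : t ∉ K := fun hK =>
  h1 (h.eq_one (isPGroup_zpowers_invol h2) (mem_zpowers t) hK)

theorem ncard_eq (hS : IsSyl 2 S ⊤) {A : Set G} (hA : ∀ x, ∀ k ∈ K, x * k ∈ A ↔ x ∈ A) :
    A.ncard = (A ∩ S).ncard * 𝐨(K) := by
  rw [← Nat.card_coe_set_eq, ← Nat.card_coe_set_eq, ← Nat.card_prod]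
  symm
  refine Nat.card_congr (Equiv.ofBijective
    (fun p : ↥(A ∩ S) × K => (⟨p.1 * p.2, (hA _ _ p.2.2).2 p.1.2.1⟩ : A)) ⟨?_, ?_⟩)
  · rintro ⟨⟨s, hs⟩, k⟩ ⟨⟨s', hs'⟩, k'⟩ e
    have e1 : s * (k : G) = s' * k' := congrArg Subtype.val e
    have e2 : s = s' := h.uniq hS hs.2 hs'.2 (by
      have : s⁻¹ * s' = k * (k' : G)⁻¹ := by
        rw [eq_mul_inv_iff_mul_eq, mul_assoc, ← e1, inv_mul_cancel_left]
      rw [this]
      exact mul_mem k.2 (inv_mem k'.2))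
    subst e2
    rw [Subtype.ext (mul_left_cancel e1 : (k : G) = k')]
  · rintro ⟨x, hx⟩
    obtain ⟨s, hs, k, hk, rfl⟩ := h.fac hS x
    exact ⟨⟨⟨s, (hA _ _ hk).1 hx, hs⟩, ⟨k, hk⟩⟩, rfl⟩

end ACtx

end Cfsg.Agent.H6
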