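/-
Groups with abelian Sylow subgroups and a Hall `2'`-subgroup, part 2.
-/
import Cfsg.Agent.H6.AGroup1

set_option autoImplicit false

namespace Cfsg.Agent.H6

open Subgroup Cfsg Cfsg.Agent Cfsg.Agent.FT

universe u

variable {G : Type u} [Group G] [Finite G]

namespace ACtx

variable {K S : Subgroup G} (h : ACtx K)
include h

theorem odd_ncard_dcoset (hS : IsSyl 2 S ⊤) (g₀ : G) :
    Odd ({x : G | (x : G ⧸ K) ∈ MulAction.orbit K (g₀ : G ⧸ K)} ∩ S).ncard := by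
  have h1 : ({x : G | (x : G ⧸ K) ∈ MulAction.orbit K (g₀ : G ⧸ K)} ∩ S).ncard =
      (MulAction.orbit K (g₀ : G ⧸ K)).ncard := by
    refine Set.ncard_congr (fun x _ => (x : G ⧸ K)) (fun x hx => hx.1) ?_ ?_
    · intro a b ha hb e
      exact h.uniq hS ha.2 hb.2 (QuotientGroup.eq.1 e)
    · intro b hb
      obtain ⟨g, rfl⟩ := QuotientGroup.mk_surjective b
      obtain ⟨s, hs, k, hk, rfl⟩ := h.fac hS g
      have e : ((s * k : G) : G ⧸ K) = s := QuotientGroup.mk_mul_of_mem s hk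
      rw [e] at hb
      exact ⟨s, ⟨hb, hs⟩, e.symm⟩
  rw [h1, ← MulAction.index_stabilizer]
  exact h.odd.of_dvd_nat (index_dvd_card _)

theorem two_trans {g₀ : G} (hg : g₀ ∉ K) : ∃ t : G, t ≠ 1 ∧ t * t = 1 ∧ g₀⁻¹ * t ∈ K := by
  classical
  obtain ⟨S, hS⟩ := exists_isSyl (G := G) Nat.prime_two ⊤
  set D : Set G := {x : G | (x : G ⧸ K) ∈ MulAction.orbit K (g₀ : G ⧸ K)} with hD
  have hDr : ∀ x, ∀ k ∈ K, x * k ∈ D ↔ x ∈ D := fun x k hk => by
    simp only [hD, Set.mem_ofPred_eq, QuotientGroup.mk_mul_of_mem x hk]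
  have hDl : ∀ x, ∀ k ∈ K, k * x ∈ D ↔ x ∈ D := fun x k hk => by
    simp only [hD, Set.mem_ofPred_eq]
    have e : ((k * x : G) : G ⧸ K) = (⟨k, hk⟩ : K) • (x : G ⧸ K) := rfl
    rw [e]
    constructor
    · intro h1
      have := MulAction.mem_orbit_of_mem_orbit (⟨k, hk⟩ : K)⁻¹ h1
      rwa [inv_smul_smul] at this
    · exact MulAction.mem_orbit_of_mem_orbit _
  let A : G → Set G := fun g => {x | x ∈ D ∧ x⁻¹ * g ∈ D}
  have hAr : ∀ g x, ∀ k ∈ K, x * k ∈ A g ↔ x ∈ A g := fun g x k hk => by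
    simp only [A, Set.mem_ofPred_eq, hDr x k hk, mul_inv_rev, mul_assoc, hDl _ _ (inv_mem hk)]
  have hc : ∀ g, ∀ k ∈ K, ∀ k' ∈ K, (A (k * g * k') ∩ S).ncard = (A g ∩ S).ncard := by
    intro g k hk k' hk'
    refine Nat.eq_of_mul_eq_mul_right (Nat.card_pos (α := K)) ?_
    rw [← h.ncard_eq hS (hAr _), ← h.ncard_eq hS (hAr _)]
    symm
    refine Set.ncard_congr (fun x _ => k * x) (fun x hx => ⟨(hDl _ _ hk).2 hx.1, ?_⟩)
      (fun a b _ _ e => mul_left_cancel e) fun b hb => ⟨k⁻¹ * b, ⟨(hDl _ _ (inv_mem hk)).2 hb.1, ?_⟩,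
        by simp⟩
    · have e : (k * x)⁻¹ * (k * g * k') = x⁻¹ * g * k' := by group
      rw [e]
      exact (hDr _ _ hk').2 hx.2
    · have e : (k⁻¹ * b)⁻¹ * g = b⁻¹ * (k * g * k') * k'⁻¹ := by group
      rw [e]
      exact (hDr _ _ (inv_mem hk')).2 hb.2
  have hodd := h.odd_ncard_dcoset hS g₀
  rw [← hD] at hodd
  obtain ⟨g, hgS, hgo⟩ : ∃ g ∈ S, Odd (A g ∩ S).ncard := by
    by_contra hn
    push Not at hn
    haveI := Fintype.ofFinite G
    have e1 : ∀ g, (A g ∩ S).ncard =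
        ((D ∩ S).toFinset.filter fun x => x⁻¹ * g ∈ D).card := fun g => by
      rw [← Set.ncard_coe_finset]
      congr 1
      ext x
      simp only [A, Set.mem_inter_iff, Set.mem_ofPred_eq, Finset.coe_filter, Set.mem_toFinset]
      tauto
    have e2 : ∀ x ∈ (D ∩ S).toFinset,
        ((S : Set G).toFinset.filter fun g => x⁻¹ * g ∈ D).card = (D ∩ S).ncard := fun x hx => by
      rw [← Set.ncard_coe_finset]
      have hxS : x ∈ S := (Set.mem_toFinset.1 hx).2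
      refine Set.ncard_congr (fun g _ => x⁻¹ * g) (fun g hg => ?_)
        (fun a b _ _ e => mul_left_cancel e) fun b hb => ⟨x * b, ?_, by simp⟩
      · simp only [Finset.coe_filter, Set.mem_toFinset, Set.mem_ofPred_eq] at hg
        exact ⟨hg.2, mul_mem (inv_mem hxS) hg.1⟩
      · simp only [Finset.coe_filter, Set.mem_toFinset, Set.mem_ofPred_eq, inv_mul_cancel_left]
        exact ⟨mul_mem hxS hb.2, hb.1⟩
    have e3 : ∑ g ∈ (S : Set G).toFinset, (A g ∩ S).ncard = (D ∩ S).ncard * (D ∩ S).ncard := by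
      simp only [e1, Finset.card_filter]
      rw [Finset.sum_comm]
      simp only [← Finset.card_filter]
      rw [Finset.sum_congr rfl e2, Finset.sum_const, smul_eq_mul, Set.ncard_eq_toFinset_card']
    have e4 := Finset.even_sum (s := (S : Set G).toFinset) (fun g => (A g ∩ S).ncard)
      fun g hg => Nat.not_odd_iff_even.1 (hn g (Set.mem_toFinset.1 hg))
    rw [e3] at e4
    exact Nat.not_odd_iff_even.2 e4 (hodd.mul hodd)
  have hsq : ∀ g ∈ S, Odd (A g ∩ S).ncard → ∃ x ∈ S, x ∈ D ∧ x * x = g := by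
    intro g hg ho
    obtain ⟨x, hx, e⟩ := exists_fixed_of_odd_ncard ho (f := fun x => x⁻¹ * g) (fun a ha => by
      refine ⟨⟨ha.1.2, ?_⟩, mul_mem (inv_mem ha.2) hg⟩
      have : (a⁻¹ * g)⁻¹ * g = a := by
        rw [mul_inv_rev, inv_inv, mul_assoc, (h.ag.commute Nat.prime_two hS.pgrp ha.2 hg).eq,
          inv_mul_cancel_left]
      rw [this]
      exact ha.1.1) (fun a ha => by
        rw [mul_inv_rev, inv_inv, mul_assoc, (h.ag.commute Nat.prime_two hS.pgrp ha.2 hg).eq,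
          inv_mul_cancel_left])
    exact ⟨x, hx.2, hx.1.1, by rw [← inv_mul_eq_iff_eq_mul.1 e]⟩
  by_cases hg1 : g = 1
  · subst hg1
    obtain ⟨x, hx, ⟨k, hk⟩, e⟩ := hsq 1 hgS hgo
    have hk' : (((k : G) * g₀ : G) : G ⧸ K) = x := hk
    have h1 := QuotientGroup.eq.1 hk'
    refine ⟨(k : G)⁻¹ * x * k, ?_, ?_, ?_⟩
    · intro e1
      have : x = 1 := by
        have := congrArg (fun y => (k : G) * y * (k : G)⁻¹) e1
        simpa [mul_assoc] using this
      rw [this, mul_one, inv_mem_iff] at h1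
      exact hg ((mul_mem_cancel_left k.2).1 h1)
    · calc (k : G)⁻¹ * x * k * ((k : G)⁻¹ * x * k) = (k : G)⁻¹ * (x * x) * k := by group
        _ = 1 := by rw [e]; group
    · have : g₀⁻¹ * ((k : G)⁻¹ * x * k) = ((k : G) * g₀)⁻¹ * x * k := by group
      rw [this]
      exact mul_mem h1 k.2
  exfalso
  let Z₀ : Submonoid G :=
    { carrier := {x | ∀ k ∈ K, ∃ r ∈ S, ∃ k' ∈ K, k * x = r * r * k'}
      one_mem' := fun k hk => ⟨1, one_mem _, k, hk, by simp⟩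
      mul_mem' := fun {x y} hx hy k hk => by
        obtain ⟨r, hr, k', hk', e⟩ := hx k hk
        obtain ⟨r', hr', k'', hk'', e'⟩ := hy k' hk'
        refine ⟨r * r', mul_mem hr hr', k'', hk'', ?_⟩
        have c := (h.ag.commute Nat.prime_two hS.pgrp hr hr').eq
        calc k * (x * y) = r * r * (k' * y) := by rw [← mul_assoc, e, mul_assoc]
          _ = r * (r * r') * r' * k'' := by rw [e']; simp only [mul_assoc]
          _ = r * (r' * r) * r' * k'' := by rw [c]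
          _ = r * r' * (r * r') * k'' := by simp only [mul_assoc] }
  let Z : Subgroup G :=
    { Z₀ with
      inv_mem' := fun {x} hx => by
        have : Submonoid.powers x ≤ Z₀ := Submonoid.powers_le.2 hx
        exact this (mem_powers_iff_mem_zpowers.2 (inv_mem (mem_zpowers x))) }
  have hKZ : K ≤ Z := fun x hx k hk => ⟨1, one_mem _, k * x, mul_mem hk hx, by simp⟩
  have hgZ : g ∈ Z := fun k hk => by
    obtain ⟨s, hs, k', hk', e⟩ := h.fac hS (k * g)
    have e1 : s = k * g * k'⁻¹ := by rw [e, mul_inv_cancel_right]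
    obtain ⟨x, hx, -, e2⟩ := hsq s hs (by rw [e1, hc g k hk _ (inv_mem hk')]; exact hgo)
    exact ⟨x, hx, k', hk', by rw [e, e2]⟩
  have hZ : Z ≠ ⊤ := by
    intro e
    have hsurj : Function.Surjective fun r : S => r * r := by
      intro s
      obtain ⟨r, hr, k', hk', e1⟩ := (e ▸ mem_top (s : G) : (s : G) ∈ Z) 1 (one_mem _)
      refine ⟨⟨r, hr⟩, Subtype.ext ?_⟩
      refine h.uniq hS (mul_mem hr hr) s.2 ?_
      rw [one_mul] at e1
      change (r * r)⁻¹ * _ ∈ K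
      rw [e1, inv_mul_cancel_left]
      exact hk'
    obtain ⟨t, ht, t1, t2⟩ := h.exists_invol hS
    have := Finite.injective_iff_surjective.2 hsurj (a₁ := ⟨t, ht⟩) (a₂ := 1)
      (Subtype.ext (by simpa using t2))
    exact t1 (congrArg Subtype.val this)
  refine hg1 (h.core1 hZ fun y => ?_)
  obtain ⟨k, hk, s, hs, rfl⟩ := h.fac' hS y
  have : k * s * g * (k * s)⁻¹ = k * g * k⁻¹ := by
    rw [mul_assoc k, (h.ag.commute Nat.prime_two hS.pgrp hs hgS).eq]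
    group
  rw [this]
  exact mul_mem (mul_mem (hKZ hk) hgZ) (inv_mem (hKZ hk))

theorem eq_invol_mul {g : G} (hg : g ∉ K) :
    ∃ t : G, t ≠ 1 ∧ t * t = 1 ∧ ∃ k ∈ K, g = t * k := by
  obtain ⟨t, t1, t2, ht⟩ := h.two_trans hg
  exact ⟨t, t1, t2, _, inv_mem ht, by group⟩

theorem fix_normal {V : Subgroup G} (hV : V ⊲ K) (h1 : V ≠ ⊥) {g : G}
    (hg : ∀ v ∈ V, g⁻¹ * v * g ∈ K) : g ∈ K := by
  by_contra hn
  obtain ⟨t, t1, t2, k, hk, rfl⟩ := h.eq_invol_mul hn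
  have ht : ∀ v ∈ V, t⁻¹ * v * t ∈ K := fun v hv => by
    have e : t⁻¹ * v * t = k * ((t * k)⁻¹ * v * (t * k)) * k⁻¹ := by group
    rw [e]
    exact mul_mem (mul_mem hk (hg v hv)) (inv_mem hk)
  refine h1 (h.core h.K_ne_top fun y v hv => ?_)
  by_cases hy : y⁻¹ ∈ K
  · exact mul_mem (mul_mem (inv_mem_iff.1 hy) (hV.1 hv)) hy
  obtain ⟨u, u1, u2, k', hk', e⟩ := h.eq_invol_mul hy
  obtain ⟨l, hl, rfl⟩ := h.invol_conj t1 t2 u1 u2
  have e1 : y * v * y⁻¹ = k'⁻¹ * l * (t⁻¹ * (l⁻¹ * v * l⁻¹⁻¹) * t) * l⁻¹ * k' := by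
    rw [← inv_inv y, e]
    group
  rw [e1]
  exact mul_mem (mul_mem (mul_mem (mul_mem (inv_mem hk') hl)
    (ht _ ((mem_normalizer_iff.1 (hV.2 (inv_mem hl)) v).1 hv))) (inv_mem hl)) hk'

theorem eq_one_of_inv {y : G} (hy : y ∈ K) (e : y⁻¹ = y) : y = 1 :=
  h.eq_one (isPGroup_zpowers_invol (by nth_rw 1 [← e]; exact inv_mul_cancel y)) (mem_zpowers y) hy

theorem inverted_eq_one {r : ℕ} (hr : r.Prime) {A : Subgroup G} (hA : IsPGroup r A)
    (hfix : ∀ g, (∀ a ∈ A, g⁻¹ * a * g ∈ K) → g ∈ K) (hAK : A ≤ K) {t y : G} (hy : y ∈ K)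
    (e : t * y * t⁻¹ = y⁻¹) (hc : A ≤ 𝐂[y]) : y = 1 := by
  obtain ⟨R, hR, hAR⟩ := exists_isSyl_ge hr hA hc
  have hRK : R ≤ K := fun g hg => hfix g fun a ha => by
    rw [mul_assoc, (h.ag.commute hr hR.pgrp (hAR ha) hg).eq, inv_mul_cancel_left]
    exact hAK ha
  have ht : t ∈ 𝐍(𝐂[y]) := by rw [← conj_eq_self_iff, ← cent1_conj, e, cent1_inv]
  obtain ⟨c, hc1, hc2⟩ := hR.exists_conj_eq hr (hR.conj_of_mem_norm ht)
  rw [conj_conj, conj_eq_self_iff] at hc2
  have hw : c * t ∈ K := inv_mem_iff.1 (hfix _ fun a ha => by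
    rw [inv_inv]
    exact hRK ((mem_normalizer_iff.1 hc2 a).1 (hAR ha)))
  refine h.eq_one_of_inv hy (eq_inv_of_odd_conj (h.odd_orderOf hw) ?_)
  calc c * t * y * (c * t)⁻¹ = c * (t * y * t⁻¹) * c⁻¹ := by group
    _ = (c * y * c⁻¹)⁻¹ := by rw [e]; group
    _ = y⁻¹ := by rw [mem_cent1_iff_conj.1 hc1]

theorem commute_of_conj_mem {r : ℕ} (hr : r.Prime) {V : Subgroup G} (hV : V ⊲ K) (h1 : V ≠ ⊥)
    (hVr : IsPGroup r V) {t v : G} (t2 : t * t = 1) (hv : v ∈ V) (hc : t * v * t⁻¹ ∈ K) :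
    t * v * t⁻¹ = v := by
  have hti : t⁻¹ = t := L.inv_eq_self_of_mul_self t2
  have hp : IsPGroup r (zpowers (t * v * t⁻¹)) := by
    rw [zpowers_conj]
    exact (hVr.to_le (zpowers_le.2 hv)).map _
  have hP := isPGroup_sup hp hVr ((zpowers_le.2 hc).trans hV.2)
  have hw : t * v * t⁻¹ ∈ zpowers (t * v * t⁻¹) ⊔ V := mem_sup_left (mem_zpowers _)
  have := h.inverted_eq_one hr hVr (fun g => h.fix_normal hV h1) hV.1 (t := t)
    (y := v⁻¹ * (t * v * t⁻¹)) (mul_mem (inv_mem (hV.1 hv)) hc) (by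
      calc t * (v⁻¹ * (t * v * t⁻¹)) * t⁻¹ = t * v⁻¹ * t * v * (t * t)⁻¹ := by group
        _ = t * v⁻¹ * t⁻¹ * v := by rw [t2, hti]; group
        _ = (v⁻¹ * (t * v * t⁻¹))⁻¹ := by group) fun a ha =>
      mem_cent1_iff_commute.2 (h.ag.commute hr hP (mul_mem (inv_mem (mem_sup_right hv)) hw)
        (mem_sup_right ha))
  exact (inv_mul_eq_one.1 this).symm

theorem semireg {r : ℕ} (hr : r.Prime) {V : Subgroup G} (hV : V ⊲ K) (h1 : V ≠ ⊥)
    (hVr : IsPGroup r V) {v g : G} (hv : v ∈ V) (hv1 : v ≠ 1) (hg : g⁻¹ * v * g ∈ K) : g ∈ K := by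
  by_contra hn
  obtain ⟨t, t1, t2, k, hk, rfl⟩ := h.eq_invol_mul hn
  have hti : t⁻¹ = t := L.inv_eq_self_of_mul_self t2
  have ht : t * v * t⁻¹ = v := h.commute_of_conj_mem hr hV h1 hVr t2 hv (by
    have e : t * v * t⁻¹ = k * ((t * k)⁻¹ * v * (t * k)) * k⁻¹ := by
      rw [mul_inv_rev, hti]; group
    rw [e]
    exact mul_mem (mul_mem hk hg) (inv_mem hk))
  obtain ⟨S, hS, htS⟩ := exists_syl t2
  have hvN : v ∈ 𝐍(S) := h.mem_norm_of_commute hS htS t1 (mul_inv_eq_iff_eq_mul.1 ht)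
  have hi : ∃ n, K.relIndex 𝐂[v] = 2 ^ n :=
    h.relIndex_pow (S₀ := S ⊓ 𝐂[v]) (hS.pgrp.to_le inf_le_left) inf_le_right fun x hx => by
      obtain ⟨s, hs, l, hl, rfl⟩ := h.fac hS x
      refine ⟨s, ⟨hs, ?_⟩, by rwa [inv_mul_cancel_left]⟩
      have e1 := mem_cent1_iff_conj.1 (inv_mem hx)
      have e2 : s⁻¹ * (v * s * v⁻¹) = 1 := h.eq_one hS.pgrp
        (mul_mem (inv_mem hs) ((mem_normalizer_iff.1 hvN s).1 hs)) (by
          have : s⁻¹ * (v * s * v⁻¹) = l * ((s * l)⁻¹ * v * (s * l)⁻¹⁻¹) * l⁻¹ * v⁻¹ := by group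
          rw [this, e1]
          exact mul_mem (mul_mem (mul_mem hl (hV.1 hv)) (inv_mem hl)) (inv_mem (hV.1 hv)))
      exact mem_cent1_comm.1 (mem_cent1_iff_conj.2 (inv_mul_eq_one.1 e2).symm)
  have htC : t ∈ 𝐂[v] := mem_cent1_iff_conj.2 ht
  have hVN : V ≤ 𝐍(S) := fun x hx => by
    refine h.mem_norm_of_conj hS htS t1 ?_
    by_contra hu
    have hxC : x ∈ 𝐂[v] := mem_cent1_iff_commute.2 (h.ag.commute hr hVr hv hx)
    have u2 : x * t * x⁻¹ * (x * t * x⁻¹) = 1 := by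
      calc x * t * x⁻¹ * (x * t * x⁻¹) = x * (t * t) * x⁻¹ := by group
        _ = 1 := by rw [t2]; group
    have h2 := h.mul_mem_of_odd (h.cent1_ne_top hv1) hi t2 u2 htC
      (mul_mem (mul_mem hxC htC) (inv_mem hxC)) (h.odd_of_notMem hS htS t1 t2 hu u2)
    have h3 := h.commute_of_conj_mem hr hV h1 hVr t2 hx (by
      have : t * x * t⁻¹ = t * (x * t * x⁻¹) * x := by rw [hti]; group
      rw [this]
      exact mul_mem h2 (hV.1 hx))
    rw [← mul_inv_eq_iff_eq_mul.1 h3, mul_inv_cancel_right] at hu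
    exact hu htS
  have hN : 𝐍(S) ≠ ⊤ := fun e => t1 (h.core1 (h.syl_ne_top hS) fun y =>
    (mem_normalizer_iff.1 (e ▸ mem_top y : y ∈ 𝐍(S)) t).1 htS)
  refine h1 (h.core hN fun y x hx => ?_)
  obtain ⟨s, hs, l, hl, rfl⟩ := h.fac hS y
  have : s * l * x * (s * l)⁻¹ = s * (l * x * l⁻¹) * s⁻¹ := by group
  rw [this]
  exact mul_mem (mul_mem (le_normalizer hs) (hVN ((mem_normalizer_iff.1 (hV.2 hl) x).1 hx)))
    (inv_mem (le_normalizer hs))

theorem two_mul_fiber_le {t : G} (t1 : t ≠ 1) (t2 : t * t = 1) :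
    2 * {u : G | u * u = 1 ∧ t⁻¹ * u ∈ K}.ncard ≤ K.index := by
  have hK : K ≠ ⊥ := by
    rintro rfl
    obtain ⟨n, hn⟩ := h.idx
    haveI : Fact (Nat.Prime 2) := ⟨Nat.prime_two⟩
    rw [index_bot] at hn
    haveI := (IsPGroup.of_card hn).isNilpotent
    exact h.ns inferInstance
  have hF : fittingOf K ≠ ⊥ := fun e => hK (by
    have := cent_fittingOf_le h.solK
    rw [e] at this
    exact eq_bot_iff.2 fun x hx => this ⟨hx, mem_cent.2 fun y hy => by rw [mem_bot.1 hy]; simp⟩)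
  obtain ⟨r, hr, hrF⟩ := Nat.exists_prime_and_dvd (fun e => hF (card_eq_one.1 e))
  have h1 : pCoreOf r K ≠ ⊥ := fun e => not_dvd_card_fittingOf hr e hrF
  have hV := pCoreOf_normal r K
  have hVr := H2.isPGroup_pCoreOf r K
  set V := pCoreOf r K
  obtain ⟨⟨x, hx⟩, hx1⟩ := ne_bot_iff_exists_ne_one.1 h1
  replace hx1 : x ≠ 1 := fun e => hx1 (Subtype.ext e)
  set F := {u : G | u * u = 1 ∧ t⁻¹ * u ∈ K}
  have hinj : ∀ z ∈ V, z ≠ 1 → Set.InjOn (fun u => t⁻¹ * u * z * (t⁻¹ * u)⁻¹) F := by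
    intro z hz hz1 a ha b hb e
    have hai : a⁻¹ = a := L.inv_eq_self_of_mul_self ha.1
    have hbi : b⁻¹ = b := L.inv_eq_self_of_mul_self hb.1
    have := h.inverted_eq_one hr (hVr.to_le (zpowers_le.2 hz))
      (fun g hg => h.semireg hr hV h1 hVr hz hz1 (hg z (mem_zpowers z)))
      ((zpowers_le.2 hz).trans hV.1) (t := a) (y := a⁻¹ * b) (by
        have : a⁻¹ * b = (t⁻¹ * a)⁻¹ * (t⁻¹ * b) := by group
        rw [this]
        exact mul_mem (inv_mem ha.2) hb.2) (by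
        rw [mul_inv_cancel_left, mul_inv_rev, inv_inv, hai, hbi]) (zpowers_le.2 (mem_cent1_comm.1
          (mem_cent1_iff_conj.2 (by
        have e' : t⁻¹ * a * z * (t⁻¹ * a)⁻¹ = t⁻¹ * b * z * (t⁻¹ * b)⁻¹ := e
        calc a⁻¹ * b * z * (a⁻¹ * b)⁻¹
            = (t⁻¹ * a)⁻¹ * (t⁻¹ * b * z * (t⁻¹ * b)⁻¹) * (t⁻¹ * a) := by group
          _ = z := by rw [← e']; group))))
    exact inv_mul_eq_one.1 this
  have hsub : ∀ z ∈ V, (fun u => t⁻¹ * u * z * (t⁻¹ * u)⁻¹) '' F ⊆ V := by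
    rintro z hz _ ⟨u, hu, rfl⟩
    exact (mem_normalizer_iff.1 (hV.2 hu.2) z).1 hz
  have hdis : Disjoint ((fun u => t⁻¹ * u * x * (t⁻¹ * u)⁻¹) '' F)
      ((fun u => t⁻¹ * u * x⁻¹ * (t⁻¹ * u)⁻¹) '' F) := by
    rw [Set.disjoint_left]
    rintro _ ⟨a, ha, rfl⟩ ⟨b, hb, e⟩
    have e' : t⁻¹ * b * x⁻¹ * (t⁻¹ * b)⁻¹ = t⁻¹ * a * x * (t⁻¹ * a)⁻¹ := e
    refine hx1 (h.eq_one_of_inv (hV.1 hx) (eq_inv_of_odd_conj
      (h.odd_orderOf (mul_mem (inv_mem hb.2) ha.2)) ?_))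
    calc (t⁻¹ * b)⁻¹ * (t⁻¹ * a) * x * ((t⁻¹ * b)⁻¹ * (t⁻¹ * a))⁻¹
        = (t⁻¹ * b)⁻¹ * (t⁻¹ * a * x * (t⁻¹ * a)⁻¹) * (t⁻¹ * b) := by group
      _ = x⁻¹ := by rw [← e']; group
  have h2 := Set.ncard_le_ncard (Set.union_subset (hsub x hx) (hsub _ (inv_mem hx)))
  rw [Set.ncard_union_eq hdis, (hinj x hx hx1).ncard_image,
    (hinj _ (inv_mem hx) (inv_ne_one.2 hx1)).ncard_image] at h2
  have h3 : (V : Set G).ncard ≤ K.index := by
    rw [index, ← Set.ncard_univ]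
    refine Set.ncard_le_ncard_of_injOn (fun v => ((v * t : G) : G ⧸ K)) (fun _ _ => trivial)
      fun a ha b hb e => ?_
    by_contra hne
    refine h.invol_notMem t1 t2 (h.semireg hr hV h1 hVr (mul_mem (inv_mem ha) hb)
      (fun e1 => hne (inv_mul_eq_one.1 e1)) ?_)
    have := QuotientGroup.eq.1 e
    rwa [mul_inv_rev, mul_assoc, ← mul_assoc a⁻¹, ← mul_assoc] at this
  omega

theorem ncard_invol {t : G} (t1 : t ≠ 1) (t2 : t * t = 1) :
    {u : G | u ≠ 1 ∧ u * u = 1}.ncard =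
      (K.index - 1) * {u : G | u * u = 1 ∧ t⁻¹ * u ∈ K}.ncard := by
  classical
  haveI := Fintype.ofFinite G
  haveI := Fintype.ofFinite (G ⧸ K)
  rw [Set.ncard_eq_toFinset_card', Finset.card_eq_sum_card_fiberwise
    (f := fun u : G => (u : G ⧸ K)) (t := Finset.univ.erase ((1 : G) : G ⧸ K))]
  · rw [Finset.sum_congr rfl (g := fun _ => {u : G | u * u = 1 ∧ t⁻¹ * u ∈ K}.ncard),
      Finset.sum_const, smul_eq_mul, Finset.card_erase_of_mem (Finset.mem_univ _), index,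
      Nat.card_eq_fintype_card, Finset.card_univ]
    intro ω hω
    obtain ⟨g, rfl⟩ := QuotientGroup.mk_surjective ω
    have hg : g ∉ K := fun hg => (Finset.mem_erase.1 hω).1 (QuotientGroup.eq.2 (by simpa using hg))
    obtain ⟨u, u1, u2, k, hk, rfl⟩ := h.eq_invol_mul hg
    obtain ⟨l, hl, rfl⟩ := h.invol_conj t1 t2 u1 u2
    rw [← Set.ncard_coe_finset]
    symm
    refine Set.ncard_congr (fun a _ => l * a * l⁻¹) (fun a ha => ?_)
      (fun a b _ _ e => by simpa using e) fun b hb => ?_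
    · simp only [Finset.coe_filter, Set.mem_toFinset, Set.mem_ofPred_eq]
      refine ⟨⟨fun e => ?_, ?_⟩, QuotientGroup.eq.2 ?_⟩
      · have : a = 1 := by simpa using e
        have h3 := ha.2
        rw [this, mul_one, inv_mem_iff] at h3
        exact h.invol_notMem t1 t2 h3
      · calc l * a * l⁻¹ * (l * a * l⁻¹) = l * (a * a) * l⁻¹ := by group
          _ = 1 := by rw [ha.1]; group
      · have : (l * a * l⁻¹)⁻¹ * (l * t * l⁻¹ * k) = l * (t⁻¹ * a)⁻¹ * l⁻¹ * k := by group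
        rw [this]
        exact mul_mem (mul_mem (mul_mem hl (inv_mem ha.2)) (inv_mem hl)) hk
    · simp only [Finset.coe_filter, Set.mem_toFinset, Set.mem_ofPred_eq] at hb
      refine ⟨l⁻¹ * b * l, ⟨?_, ?_⟩, by group⟩
      · calc l⁻¹ * b * l * (l⁻¹ * b * l) = l⁻¹ * (b * b) * l := by group
          _ = 1 := by rw [hb.1.2]; group
      · have : t⁻¹ * (l⁻¹ * b * l) = l⁻¹ * (k * (b⁻¹ * (l * t * l⁻¹ * k))⁻¹) * l := by group
        rw [this]
        exact mul_mem (mul_mem (inv_mem hl) (mul_mem hk (inv_mem (QuotientGroup.eq.1 hb.2)))) hl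
  · intro u hu
    simp only [Set.coe_toFinset, Set.mem_ofPred_eq] at hu
    simp only [Finset.coe_erase, Finset.coe_univ, Set.mem_sdiff, Set.mem_univ, true_and,
      Set.mem_singleton_iff]
    intro e
    exact h.invol_notMem hu.1 hu.2 (by simpa using QuotientGroup.eq.1 e)

theorem false : False := by
  obtain ⟨S, hS⟩ := exists_isSyl (G := G) Nat.prime_two ⊤
  obtain ⟨t, ht, t1, t2⟩ := h.exists_invol hS
  have hq : K.index = 𝐨(S) := (h.isComplement hS).index_eq_card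
  have h1 := h.two_mul_fiber_le t1 t2
  have h2 := h.ncard_invol t1 t2
  set k := {u : G | u * u = 1 ∧ t⁻¹ * u ∈ K}.ncard
  let E : Subgroup G :=
    { carrier := {s | s ∈ S ∧ s * s = 1}
      one_mem' := ⟨one_mem _, one_mul _⟩
      mul_mem' := fun {a b} ha hb => ⟨mul_mem ha.1 hb.1, by
        rw [(h.ag.commute Nat.prime_two hS.pgrp hb.1 ha.1).mul_mul_mul_comm, ha.2, hb.2, one_mul]⟩
      inv_mem' := fun {a} ha => ⟨inv_mem ha.1, by rw [← mul_inv_rev, ha.2, inv_one]⟩ }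
  have h3 : 𝐨(E) ∣ 𝐨(S) := FT.card_dvd_of_le fun a ha => ha.1
  have h4 : 𝐨(S) ∣ {u : G | u ∉ S ∧ u * u = 1}.ncard := by
    letI : MulAction S {u : G | u ∉ S ∧ u * u = 1} :=
      { smul := fun s u => ⟨s * u * (s : G)⁻¹, fun hu => u.2.1
          ((mem_normalizer_iff.1 (le_normalizer s.2) _).2 hu), by
          calc (s : G) * u * (s : G)⁻¹ * (s * u * (s : G)⁻¹) = s * ((u : G) * u) * (s : G)⁻¹ := by
                group
            _ = 1 := by rw [u.2.2]; group⟩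
        one_smul := fun u => Subtype.ext (by
          change ((1 : S) : G) * u * ((1 : S) : G)⁻¹ = u
          simp)
        mul_smul := fun a b u => Subtype.ext (by
          change ((a * b : S) : G) * u * ((a * b : S) : G)⁻¹ =
            a * (b * u * (b : G)⁻¹) * (a : G)⁻¹
          rw [coe_mul]
          group) }
    rw [← Nat.card_coe_set_eq]
    refine H7.card_dvd_of_free_action fun s u e => ?_
    by_contra hs
    have e' : (s : G) * u * (s : G)⁻¹ = u := congrArg Subtype.val e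
    exact u.2.1 (h.mem_of_commute hS s.2 (fun e => hs (Subtype.ext e))
      (mul_inv_eq_iff_eq_mul.1 e') (isPGroup_zpowers_invol u.2.2))
  have h5 : {u : G | u ∉ S ∧ u * u = 1}.ncard ≠ 0 := by
    obtain ⟨u, hu⟩ := h.exists_invol_notMem hS
    exact ((Set.ncard_pos (Set.toFinite _)).2 ⟨u, hu⟩).ne'
  have h6 : {u : G | u ≠ 1 ∧ u * u = 1}.ncard + 1 =
      𝐨(E) + {u : G | u ∉ S ∧ u * u = 1}.ncard := by
    rw [← Set.ncard_insert_of_notMem (a := (1 : G)) (by simp), ← SetLike.coe_sort_coe,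
      Nat.card_coe_set_eq, ← Set.ncard_union_eq (Set.disjoint_left.2 fun a ha hb => hb.1 ha.1)]
    congr 1
    ext u
    constructor
    · rintro (rfl | hu)
      · exact Or.inl (one_mem E)
      · by_cases hS : u ∈ S
        · exact Or.inl ⟨hS, hu.2⟩
        · exact Or.inr ⟨hS, hu.2⟩
    · intro hu
      by_cases e : u = 1
      · exact Or.inl e
      · exact Or.inr ⟨e, hu.elim (fun a => a.2) fun a => a.2⟩
  obtain ⟨j, hj⟩ := h4
  obtain ⟨m, hm⟩ := h3
  rw [hj] at h5 h6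
  rw [h2, hq] at h6
  rw [hq] at h1
  have he : 0 < 𝐨(E) := Nat.card_pos
  have hs : 0 < 𝐨(S) := Nat.card_pos
  generalize 𝐨(E) = e at *
  generalize 𝐨(S) = q at *
  clear_value k
  obtain ⟨q, rfl⟩ : ∃ p, q = p + 1 := ⟨q - 1, by omega⟩
  rw [Nat.add_sub_cancel] at h6
  have hj1 : 1 ≤ j := Nat.one_le_iff_ne_zero.2 fun e => h5 (by rw [e, mul_zero])
  have hkj : j < k := by
    by_contra hn
    push Not at hn
    nlinarith
  obtain ⟨d, rfl⟩ : ∃ d, k = j + 1 + d := ⟨k - (j + 1), by omega⟩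
  have h7 : q * (1 + d) + 1 = e + j := by nlinarith
  rcases Nat.lt_or_ge m 2 with hm2 | hm2
  · have : m = 1 := by
      rcases m with _ | m
      · simp at hm
      · omega
    subst this
    rcases d with _ | d
    · omega
    · nlinarith
  · nlinarith

end ACtx

/-- A group with abelian Sylow subgroups and a Hall `2'`-subgroup is solvable. -/
theorem AGrp.isSolvable_of_hall
    (hFT : ∀ (G : Type u) [Group G] [Finite G], Odd (Nat.card G) → Group.IsSolvable G)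
    (G : Type u) [Group G] [Finite G] :
    AGrp G → (∃ K : Subgroup G, Odd 𝐨(K) ∧ ∃ n, K.index = 2 ^ n) → Group.IsSolvable G := by
  refine L.induction_on_card (P := fun G _ _ => AGrp G →
    (∃ K : Subgroup G, Odd 𝐨(K) ∧ ∃ n, K.index = 2 ^ n) → Group.IsSolvable G) G ?_
  rintro G _ _ ih hA ⟨K, hK, n, hn⟩
  by_contra hns
  have hsub : ∀ H : Subgroup G, H ≠ ⊤ → (∃ n, K.relIndex H = 2 ^ n) → Group.IsSolvable H :=
    fun H hH hi => ih H (L.card_lt_of_ne_top hH) (hA.subgroup H) ⟨K.subgroupOf H,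
      hK.of_dvd_nat (card_comap_dvd_of_injective K _ H.subtype_injective), hi⟩
  rcases subsingleton_or_nontrivial G with hG | hG
  · exact hns inferInstance
  have : IsSimpleGroup G := by
    refine ⟨fun N hN => ?_⟩
    by_contra hne
    push Not at hne
    refine hns (L.isSolvable_of_normal_of_quotient N (hsub N hne.2 ?_)
      (ih (G ⧸ N) (L.card_quotient_lt N hne.1) (hA.of_surjective (QuotientGroup.mk'_surjective N))
        ⟨K.map (QuotientGroup.mk' N), hK.of_dvd_nat (card_map_dvd _ _), ?_⟩))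
    · have hH : IsPiHallOf {2}ᶜ K ⊤ := by
        refine H1.isPiHallOf_iff.2 ⟨le_top, (L.isPiNum_compl_singleton_iff Nat.prime_two).2
          (Nat.coprime_two_right.2 hK), ?_⟩
        rw [compl_compl, relIndex_top_right, hn]
        exact (L.isPiNum_singleton_iff Nat.prime_two (by positivity)).2 ⟨n, rfl⟩
      have := (H1.isPiHallOf_iff.1 (hall_inf_normal hH (K := N)
        ⟨le_top, normalizer_eq_top N ▸ le_rfl⟩)).2.2
      rw [compl_compl, inf_relIndex_right] at this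
      exact (L.isPiNum_singleton_iff Nat.prime_two (index_ne_zero_of_finite)).1 this
    · obtain ⟨m, -, hm⟩ := (Nat.dvd_prime_pow Nat.prime_two).1
        (hn ▸ index_map_dvd K (QuotientGroup.mk'_surjective N))
      exact ⟨m, hm⟩
  exact ACtx.false (K := K) ⟨hA, hK, ⟨n, hn⟩, this, hns, hsub, hFT K hK⟩

end Cfsg.Agent.H6
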