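/-
Iterated commutators of a module with the derived series of a `2`-group.
-/
import Cfsg.Agent.H1.Der
import Cfsg.Agent.H1.HHB
import Cfsg.Agent.H3.PBasic

set_option autoImplicit false

open Module Subgroup
open scoped commutatorElement

namespace Cfsg.Agent.H6

open H1

variable {G : Type*} [Group G]

/-- The operator `(g₁ - 1) ⋯ (gₙ - 1)`. -/
def op {A : Type*} [Ring A] (ρ : G →* A) (l : List G) : A := (l.map fun g => ρ g - 1).prod

theorem op_nil {A : Type*} [Ring A] (ρ : G →* A) : op ρ [] = 1 := rfl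

theorem op_cons {A : Type*} [Ring A] (ρ : G →* A) (g : G) (l : List G) :
    op ρ (g :: l) = (ρ g - 1) * op ρ l := rfl

/-- The `i`-th entry from the right lies in the `i`-th derived subgroup of `P`. -/
def Valid (P : Subgroup G) : List G → Prop
  | [] => True
  | g :: l => g ∈ der P l.length ∧ Valid P l

/-- Iterated commutator. -/
def cw : List G → G → G
  | [], w => w
  | g :: l, w => ⁅g, cw l w⁆

/-- `[V, P, P', …, P^(n-1)] = 0`. -/
def DerZero {A : Type*} [Ring A] (ρ : G →* A) (P : Subgroup G) (n : ℕ) : Prop :=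
  ∀ l, Valid P l → l.length = n → op ρ l = 0

theorem Valid.mem {P : Subgroup G} : ∀ {l : List G}, Valid P l → ∀ g ∈ l, g ∈ P
  | _ :: _, h, _, .head _ => der_le P _ h.1
  | _ :: _, h, g, .tail _ hg => h.2.mem g hg

theorem Valid.cw_mem {P : Subgroup G} {w : G} (hw : w ∈ P) :
    ∀ {l : List G}, Valid P l → cw l w ∈ der P l.length
  | [], _ => hw
  | _ :: _, h => commutator_mem_commutator h.1 (h.2.cw_mem hw)

theorem cw_mem_of_norm {P T : Subgroup G} (hP : P ≤ normalizer (T : Set G)) {w : G} (hw : w ∈ T) :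
    ∀ {l : List G}, Valid P l → cw l w ∈ T
  | [], _ => hw
  | _ :: _, h => mul_mem (conj_mem_of_le_normalizer hP (der_le P _ h.1) (cw_mem_of_norm hP hw h.2))
      (inv_mem (cw_mem_of_norm hP hw h.2))

theorem Valid.mono {P Q : Subgroup G} (h : P ≤ Q) : ∀ {l : List G}, Valid P l → Valid Q l
  | [], _ => trivial
  | _ :: _, hl => ⟨der_mono h _ hl.1, hl.2.mono h⟩

theorem Valid.exists_map {H : Type*} [Group H] (f : G →* H) (P : Subgroup G) :
    ∀ {l : List H}, Valid (P.map f) l → ∃ l', Valid P l' ∧ l'.map f = l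
  | [], _ => ⟨[], trivial, rfl⟩
  | g :: l, h => by
    obtain ⟨l', h1, rfl⟩ := h.2.exists_map f P
    obtain ⟨x, hx, rfl⟩ := (map_der f P _).symm ▸ h.1
    exact ⟨x :: l', ⟨by simpa using hx, h1⟩, rfl⟩

theorem Valid.map {H : Type*} [Group H] (f : G →* H) {P : Subgroup G} :
    ∀ {l : List G}, Valid P l → Valid (P.map f) (l.map f)
  | [], _ => trivial
  | g :: l, h => ⟨by rw [← map_der, List.length_map]; exact ⟨g, h.1, rfl⟩, h.2.map f⟩

theorem op_map {H A : Type*} [Group H] [Ring A] (ρ : H →* A) (f : G →* H) (l : List G) :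
    op ρ (l.map f) = op (ρ.comp f) l := by
  simp [op, Function.comp_def]

theorem map_op {A B : Type*} [Ring A] [Ring B] (ρ : G →* A) (f : A →+* B) (l : List G) :
    f (op ρ l) = op (f.toMonoidHom.comp ρ) l := by
  induction l with
  | nil => exact map_one f
  | cons g l ih => rw [op_cons, op_cons, map_mul, ih, map_sub, map_one]; rfl

theorem map_cw {H : Type*} [Group H] (f : G →* H) (w : G) :
    ∀ l : List G, f (cw l w) = cw (l.map f) (f w)
  | [] => rfl
  | g :: l => by rw [cw, map_commutatorElement, map_cw f w l]; rfl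

theorem DerZero.comp {H A : Type*} [Group H] [Ring A] {ρ : H →* A} (f : G →* H) {P : Subgroup G}
    {n : ℕ} (h : DerZero ρ (P.map f) n) : DerZero (ρ.comp f) P n := fun l h1 h2 =>
  op_map ρ f l ▸ h _ (h1.map f) (by rw [List.length_map, h2])

variable {k V : Type*} [Field k] [AddCommGroup V] [Module k V]

theorem DerZero.mul_eq_zero {ρ : G →* End k V} {P : Subgroup G} {n : ℕ} (h : DerZero ρ P (n + 1))
    {a b : G} (ha : a ∈ der P n) (hb : b ∈ der P n) : (ρ a - 1) * (ρ b - 1) = 0 := by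
  let W : ℕ → Submodule k V := fun i => ⨆ l : {l // Valid P l ∧ l.length = i}, (op ρ l.1).range
  have h1 : ∀ i, ∀ g ∈ der P i, ∀ v ∈ W i, (ρ g - 1) v ∈ W (i + 1) := fun i g hg =>
    show W i ≤ (W (i + 1)).comap (ρ g - 1) from iSup_le fun l => by
      rintro _ ⟨v, rfl⟩
      exact Submodule.mem_iSup_of_mem ⟨g :: l.1, ⟨l.2.2.symm ▸ hg, l.2.1⟩, congrArg (· + 1) l.2.2⟩
        ⟨v, rfl⟩
  have h2 : ∀ i, ∀ g ∈ der P i, ∀ v, (ρ g - 1) v ∈ W i := by
    intro i
    induction i with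
    | zero => exact fun g _ v => Submodule.mem_iSup_of_mem ⟨[], trivial, rfl⟩ ⟨_, rfl⟩
    | succ i ih =>
      let K : Subgroup G :=
        { carrier := {g | ∀ v, (ρ g - 1) v ∈ W (i + 1)}
          one_mem' := fun v => by simp
          mul_mem' := fun {a b} ha hb v => by
            simpa using add_mem (ha (ρ b v)) (hb v)
          inv_mem' := fun {a} ha v => by
            have := neg_mem (ha (ρ a⁻¹ v))
            rwa [LinearMap.sub_apply, ← End.mul_apply, rep_mul_inv, neg_sub] at this }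
      refine show der P (i + 1) ≤ K from commutator_le.2 fun x hx y hy v => ?_
      have := sub_mem (h1 i x hx _ (ih y hy (ρ (x⁻¹ * y⁻¹) v)))
        (h1 i y hy _ (ih x hx (ρ (x⁻¹ * y⁻¹) v)))
      have e : ρ y (ρ x (ρ (x⁻¹ * y⁻¹) v)) = v := by
        rw [← End.mul_apply, ← End.mul_apply, ← map_mul, ← map_mul]; simp
      convert this using 1
      simp only [LinearMap.sub_apply, End.one_apply, map_sub, e, commutatorElement_def]
      simp only [map_mul, End.mul_apply]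
      abel
  refine LinearMap.ext fun v => ?_
  have h3 : W (n + 1) ≤ ⊥ := iSup_le fun l => by rw [h _ l.2.1 l.2.2, LinearMap.range_zero]
  exact h3 (h1 n a ha _ (h2 n b hb v))

/-- A `p`-group has a fixed vector on every nonzero section in characteristic `p`. -/
theorem exists_fixed_mod [Finite G] {p : ℕ} [hp : Fact p.Prime] [CharP k p] (ρ : G →* End k V)
    {X : Subgroup G} (hX : IsPGroup p X) {N M : Submodule k V} (hN : ∀ x ∈ X, ∀ v ∈ N, ρ x v ∈ N)
    (hM : ∀ x ∈ X, ∀ v ∈ M, ρ x v ∈ M) (h : ¬ N ≤ M) :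
    ∃ e ∈ N, e ∉ M ∧ ∀ x ∈ X, ρ x e - e ∈ M := by
  classical
  let S : V → Subgroup G := fun e =>
    { carrier := {x | x ∈ X ∧ ρ x e - e ∈ M}
      one_mem' := ⟨one_mem _, by simp⟩
      mul_mem' := fun {a b} ha hb => ⟨mul_mem ha.1 hb.1, by
        simpa using add_mem (hM a ha.1 _ hb.2) ha.2⟩
      inv_mem' := fun {a} ha => ⟨inv_mem ha.1, by
        have := neg_mem (hM _ (inv_mem ha.1) _ ha.2)
        rwa [map_sub, ← End.mul_apply, rep_inv_mul, neg_sub] at this⟩ }
  obtain ⟨_, ⟨e, ⟨he, he'⟩, rfl⟩, hmax⟩ := WellFounded.has_min (wellFounded_gt (α := Subgroup G))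
    (S '' {e | e ∈ N ∧ e ∉ M}) (Set.Nonempty.image _ (SetLike.not_le_iff_exists.1 h))
  refine ⟨e, he, he', fun x hx => ?_⟩
  by_contra hn
  obtain ⟨y, hy, hyn, hy'⟩ := exists_mem_normalizer_of_lt hX.isNilpotent
    (lt_of_le_of_ne (fun _ h => h.1) fun e' => hn (e'.ge hx).2 : S e < X)
  have key : ∀ i : ℕ, ((ρ y - 1) ^ i : End k V) e ∈ N ∧ S e ≤ S (((ρ y - 1) ^ i : End k V) e) :=
      fun i => by
    induction i with
    | zero => exact ⟨he, le_rfl⟩
    | succ i ih =>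
      rw [pow_succ', End.mul_apply]
      refine ⟨sub_mem (hN y hy _ ih.1) ih.1, fun x hx => ⟨hx.1, ?_⟩⟩
      have h1 := hM y hy _ (ih.2 ((mem_normalizer_iff''.1 hyn x).1 hx)).2
      rw [map_sub, ← End.mul_apply, ← map_mul, ← mul_assoc, ← mul_assoc, mul_inv_cancel, one_mul,
        map_mul] at h1
      convert sub_mem h1 (ih.2 hx).2 using 1
      simp only [LinearMap.sub_apply, End.one_apply, map_sub, End.mul_apply]
      abel
  have hex : ∃ i : ℕ, ((ρ y - 1) ^ (i + 1) : End k V) e ∈ M := by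
    obtain ⟨l, hl⟩ := hX ⟨y, hy⟩
    refine ⟨p ^ l - 1, ?_⟩
    rw [Nat.sub_add_cancel (Nat.one_le_pow _ _ hp.out.pos), sub_one_pow_pow hp.out
      (cast_end_eq_zero p), ← map_pow, show y ^ p ^ l = 1 from congrArg Subtype.val hl]
    simp
  have h0 : ((ρ y - 1) ^ Nat.find hex) e ∉ M := by
    rcases h0 : Nat.find hex with _ | i
    · exact he'
    · exact Nat.find_min hex (by omega)
  refine hmax _ ⟨_, ⟨(key _).1, h0⟩, rfl⟩ (lt_of_le_of_ne (key _).2 fun e' => hy' (e'.ge ⟨hy, ?_⟩))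
  have := Nat.find_spec hex
  rwa [pow_succ'] at this

theorem add_self_of_charTwo [CharP k 2] (v : V) : v + v = 0 := by
  rw [← two_smul k, show (2 : k) = 0 from CharP.cast_eq_zero k 2, zero_smul]

/-- Permutation modules of `2`-groups. -/
theorem exists_op_ne_zero [Finite G] [CharP k 2] (hG : IsPGroup 2 G) (ρ : G →* End k V) (n : ℕ) :
    ∀ (v : V) (φ : V →ₗ[k] k), φ v ≠ 0 → (∀ g, ρ g v = v ∨ φ (ρ g v) = 0) →
      (∃ a ∈ der ⊤ n, ∃ g, ρ a (ρ g v) ≠ ρ g v) →
      ∃ l, Valid ⊤ l ∧ l.length = n + 1 ∧ ∃ g, op ρ l (ρ g v) ≠ 0 := by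
  induction n with
  | zero =>
    rintro v φ - - ⟨a, ha, g, h⟩
    exact ⟨[a], ⟨ha, trivial⟩, rfl, g, by simpa [op, sub_eq_zero] using h⟩
  | succ n ih =>
  rintro v φ h1 h2 ⟨a, ha, g₀, h⟩
  have hm : ∀ a b w, ρ a (ρ b w) = ρ (a * b) w := fun a b w => by rw [map_mul, End.mul_apply]
  let K : Subgroup G :=
    { carrier := {x | ∀ g, ρ x (ρ g v) = ρ g v}
      one_mem' := fun g => by simp
      mul_mem' := fun {a b} ha hb g => by rw [← hm, hb, ha]
      inv_mem' := fun {a} ha g => by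
        conv_lhs => rw [← ha g]
        rw [hm, inv_mul_cancel, map_one, End.one_apply] }
  have : K.Normal := ⟨fun x hx y g => by rw [← hm, ← hm, hm y⁻¹, hx, hm, mul_inv_cancel_left]⟩
  have : (der (⊤ : Subgroup G) (n + 1)).Normal := der_top (G := G) _ ▸ inferInstance
  have : ((der ⊤ (n + 1)).map (QuotientGroup.mk' K)).Normal :=
    Normal.map inferInstance _ (QuotientGroup.mk'_surjective K)
  obtain ⟨_, ⟨z, hz, rfl⟩, hzc, hzo⟩ := H3.exists_central_orderOf_eq_prime (hG.to_quotient K)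
    ((der ⊤ (n + 1)).map (QuotientGroup.mk' K)) fun e => h (by
      rw [Subgroup.map_eq_bot_iff, QuotientGroup.ker_mk'] at e
      exact e ha g₀)
  have z1 : z ∉ K := fun h => by
    rw [QuotientGroup.mk'_apply, (QuotientGroup.eq_one_iff z).2 h] at hzo
    simp at hzo
  have z2 : z * z ∈ K := by
    rw [← QuotientGroup.eq_one_iff, ← QuotientGroup.mk'_apply, map_mul, ← pow_two, ← hzo,
      pow_orderOf_eq_one]
  have z3 : ∀ g w, (∀ x ∈ K, ρ x w = w) → ρ g (ρ z w) = ρ z (ρ g w) := fun g w hw => by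
    have : (z * g)⁻¹ * (g * z) ∈ K := QuotientGroup.eq.1 (mem_center_iff.1 hzc g).symm
    rw [hm, hm, ← mul_inv_cancel_left (z * g) (g * z), ← hm, hw _ this]
  have hv : ∀ x ∈ K, ρ x v = v := fun x hx => by simpa using hx 1
  have z4 : ∀ g, ρ z (ρ g v) ≠ ρ g v := fun g e => z1 fun g' => by
    rw [← inv_mul_cancel_right g' g, ← hm, ← z3 _ _ fun x hx => hx g, e]
  have z5 : ∀ g, ρ g (ρ z v - v) = ρ z (ρ g v) - ρ g v := fun g => by rw [map_sub, z3 g v hv]
  have z6 : ∀ g, φ (ρ g (ρ z v - v)) ≠ 0 → ρ g v = v ∨ ρ g v = ρ z v := fun g hg => by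
    refine (h2 g).imp_right fun e => ?_
    rw [z5, map_sub, e, sub_zero, hm] at hg
    rw [← congrArg (ρ z) ((h2 _).resolve_right hg), hm, ← mul_assoc, ← hm, z2 g]
  have z7 : φ (ρ z v - v) ≠ 0 := by
    rwa [map_sub, (h2 z).resolve_left (by simpa using z4 1), zero_sub, neg_ne_zero]
  obtain ⟨l, l1, l2, g, l3⟩ := ih (ρ z v - v) φ z7 (fun g => or_iff_not_imp_right.2 fun hg => by
    rw [z5]
    rcases z6 g hg with e | e <;> rw [e]
    rw [hm, hv _ z2, sub_eq_iff_eq_add, sub_add_eq_add_sub, add_self_of_charTwo (k := k), zero_sub,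
      eq_neg_iff_add_eq_zero, add_self_of_charTwo (k := k)]) (by
    by_contra hn
    push Not at hn
    have h3 : ∀ x ∈ der ⊤ n, ∀ g, ρ x (ρ g v) = ρ g v ∨ ρ x (ρ g v) = ρ z (ρ g v) := fun x hx g => by
      have e := hn x hx g
      have e' : ρ (g⁻¹ * x * g) (ρ z v - v) = ρ z v - v := by
        rw [← hm, ← hm, e, hm, inv_mul_cancel, map_one, End.one_apply]
      rcases z6 _ (e'.symm ▸ z7) with e1 | e1
      · left
        conv_rhs => rw [← e1]
        rw [hm, hm]; congr 2; group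
      · right
        rw [← z3 g v hv, ← congrArg (ρ g) e1, hm, hm]; congr 2; group
    refine h ((commutator_le.2 fun x hx y hy => ?_ : der ⊤ (n + 1) ≤ K) ha g₀)
    have h4 : ∀ g, ρ x (ρ y (ρ g v)) = ρ y (ρ x (ρ g v)) := fun g => by
      have c := fun a => z3 a (ρ g v) fun x hx => hx g
      rcases h3 x hx g with e1 | e1 <;> rcases h3 y hy g with e2 | e2 <;>
        simp only [e1, e2, c]
    intro g
    have := h4 (x⁻¹ * y⁻¹ * g)
    rw [hm, hm, hm, hm] at this
    rw [hm, commutatorElement_def]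
    convert this using 3 <;> group)
  refine ⟨z :: l, ⟨l2 ▸ hz, l1⟩, congrArg (· + 1) l2, g, fun e => l3 ?_⟩
  have key : ∀ l : List G, (∀ x ∈ K, ρ x (op ρ l (ρ g v)) = op ρ l (ρ g v)) ∧
      op ρ l (ρ z (ρ g v)) = ρ z (op ρ l (ρ g v)) := fun l => by
    induction l with
    | nil => exact ⟨fun x hx => hx g, rfl⟩
    | cons b l ih =>
      simp only [op_cons, End.mul_apply, LinearMap.sub_apply, End.one_apply, map_sub, ih.2,
        z3 b _ ih.1, and_true]
      intro x hx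
      rw [ih.1 x hx, hm, show x * b = b * (b⁻¹ * x * b) by group, ← hm,
        ih.1 _ (Normal.conj_mem' inferInstance x hx b)]
  rw [z5, map_sub, (key l).2]
  exact e

/-- Conjugation action on the linear characters of a normal subgroup. -/
@[reducible] def chAct (T : Subgroup G) [T.Normal] : MulAction G (T →* ℤˣ) where
  smul g χ := χ.comp (MulAut.conjNormal g⁻¹).toMonoidHom
  one_smul χ := MonoidHom.ext fun t => congrArg χ (Subtype.ext (by simp))
  mul_smul a b χ := MonoidHom.ext fun t => congrArg χ (Subtype.ext (by simp [mul_assoc]))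

attribute [local instance] chAct

theorem chAct_apply {T : Subgroup G} [T.Normal] (g : G) (χ : T →* ℤˣ) (t : T) :
    (g • χ) t = χ (MulAut.conjNormal g⁻¹ t) := rfl

theorem op_cw_ne_zero [Finite G] [CharP k 2] (ρ : G →* End k V) {P T : Subgroup G} [T.Normal]
    (hP : IsPGroup 2 P) {W C' : Submodule k V} (hW : ∀ g ∈ P, ∀ v ∈ W, ρ g v ∈ W)
    {χ₀ : T →* ℤˣ} {v : V} (hv : v ∈ W) (hv' : ∀ t : T, χ₀ t = 1 → ρ t v = v)
    (hC : ∀ t : T, χ₀ t = 1 → ∀ y ∈ W, ρ t y - y ∈ C') {l : List G} (hl : Valid P l) {w : G}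
    (hw : w ∈ T) {a : T} (ha : (a : G) = cw l w) (ha1 : χ₀ a ≠ 1) (hvC : ρ a v - v ∉ C') :
    op ρ ((a : G) :: l) ≠ 0 := by
  classical
  have hm : ∀ a b w, ρ a (ρ b w) = ρ (a * b) w := fun a b w => by rw [map_mul, End.mul_apply]
  have hu : ∀ {s s' : ℤˣ}, s ≠ 1 → s' ≠ 1 → s = s' := fun {s s'} h h' =>
    ((Int.units_eq_one_or s).resolve_left h).trans ((Int.units_eq_one_or s').resolve_left h').symm
  let N : (T →* ℤˣ) → Submodule k V := fun χ =>
    { carrier := {v | v ∈ W ∧ ∀ t : T, χ t = 1 → ρ t v = v}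
      zero_mem' := ⟨zero_mem _, fun _ _ => map_zero _⟩
      add_mem' := fun ha hb => ⟨add_mem ha.1 hb.1, fun t ht => by
        rw [map_add, ha.2 t ht, hb.2 t ht]⟩
      smul_mem' := fun c _ ha => ⟨W.smul_mem c ha.1, fun t ht => by rw [map_smul, ha.2 t ht]⟩ }
  have hN : ∀ g ∈ P, ∀ χ, ∀ y ∈ N χ, ρ g y ∈ N (g • χ) := fun g hg χ y hy =>
    ⟨hW g hg y hy.1, fun t ht => by
      conv_rhs => rw [← hy.2 _ ht]
      rw [hm, hm]; congr 2; simp [mul_assoc]⟩
  have hN' : ∀ χ, ∀ y ∈ N χ, ∀ s t : T, χ s ≠ 1 → χ t ≠ 1 → ρ s y = ρ t y := fun χ y hy s t hs ht => by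
    rw [← mul_inv_cancel_left (t : G) s, ← hm,
      show ρ ((t : G)⁻¹ * s) y = y from hy.2 (t⁻¹ * s) (by simp [hu hs ht])]
  let C : Submodule k V := ⨆ t : {t : T // χ₀ t = 1}, W.map (ρ t.1 - 1)
  let M := N χ₀ ⊓ C.comap (ρ a - 1)
  have hM : ∀ x ∈ P ⊓ MulAction.stabilizer G χ₀, ∀ y ∈ M, ρ x y ∈ M := fun x hx y hy => by
    have hx2 : x • χ₀ = χ₀ := hx.2
    refine ⟨hx2 ▸ hN x hx.1 _ y hy.1, ?_⟩
    have h1 : C ≤ C.comap (ρ x) := iSup_le fun t => by
      rintro _ ⟨y, hy, rfl⟩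
      refine Submodule.mem_iSup_of_mem ⟨MulAut.conjNormal x t.1, by
        rw [← DFunLike.congr_fun hx2, chAct_apply]; simpa using t.2⟩ ⟨_, hW x hx.1 y hy, ?_⟩
      simp only [LinearMap.sub_apply, End.one_apply, map_sub, hm]
      simp
    have h2 := h1 hy.2
    have h3 := hN' _ y hy.1 (MulAut.conjNormal x⁻¹ a) a (by rwa [← chAct_apply, hx2]) ha1
    simp only [Submodule.mem_comap, SetLike.mem_coe, LinearMap.sub_apply, End.one_apply, map_sub,
      ← h3, hm] at h2 ⊢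
    simpa [mul_assoc] using h2
  obtain ⟨e, he, he', hfix⟩ := exists_fixed_mod ρ (X := P ⊓ MulAction.stabilizer G χ₀)
    (hP.to_le inf_le_left) (N := N χ₀)
    (fun x hx y hy => (show x • χ₀ = χ₀ from hx.2) ▸ hN x hx.1 _ y hy) hM
    fun h =>
      hvC ((iSup_le fun t => by rintro _ ⟨y, hy, rfl⟩; exact hC _ t.2 y hy : C ≤ C') (h ⟨hv, hv'⟩).2)
  let ind : ℤˣ → k := fun s => if s = 1 then 0 else 1
  have hind : ∀ s s', ind (s * s'⁻¹) = ind s - ind s' := fun s s' => by
    rcases Int.units_eq_one_or s with rfl | rfl <;> rcases Int.units_eq_one_or s' with rfl | rfl <;>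
      simp [ind, CharTwo.neg_eq]
  have := Fintype.ofFinite (T →* ℤˣ)
  let Rel : V → T → Prop := fun x t => ∃ X : (T →* ℤˣ) → V, (∀ χ, X χ ∈ N χ) ∧ x = ∑ χ, X χ ∧
    ∀ g ∈ P, ρ g⁻¹ (X (g • χ₀)) - ind ((g • χ₀) t) • e ∈ M
  obtain ⟨x₀, h₀⟩ : ∃ x, Rel x ⟨w, hw⟩ := by
    refine ⟨_, fun χ => if h : ∃ g ∈ P, g • χ₀ = χ then ind (χ ⟨w, hw⟩) • ρ h.choose e else 0,
      fun χ => ?_, rfl, fun g hg => ?_⟩
    · dsimp only
      split_ifs with h
      · have := hN _ h.choose_spec.1 _ e he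
        rw [h.choose_spec.2] at this
        exact Submodule.smul_mem _ _ this
      · exact zero_mem _
    · have h : ∃ g' ∈ P, g' • χ₀ = g • χ₀ := ⟨g, hg, rfl⟩
      simp only [dif_pos h]
      rw [map_smul, hm, ← smul_sub]
      exact M.smul_mem _ (hfix _ (mem_inf.2 ⟨mul_mem (inv_mem hg) h.choose_spec.1, by
        change _ • _ = _
        rw [mul_smul, h.choose_spec.2, inv_smul_smul]⟩))
  have key : ∀ l, Valid P l → ∀ t : T, (t : G) = cw l w → Rel (op ρ l x₀) t := by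
    intro l
    induction l with
    | nil => exact fun _ t ht => (Subtype.ext ht : t = ⟨w, hw⟩) ▸ h₀
    | cons b l ih =>
      intro hl t ht
      have hb := der_le P _ hl.1
      obtain ⟨X, x1, x2, x3⟩ := ih hl.2 ⟨_, cw_mem_of_norm le_normalizer_of_normal hw hl.2⟩ rfl
      refine ⟨fun χ => ρ b (X (b⁻¹ • χ)) - X χ, fun χ => sub_mem (by
        simpa using hN b hb _ _ (x1 (b⁻¹ • χ))) (x1 χ), ?_, fun g hg => ?_⟩
      · rw [op_cons, End.mul_apply, x2, Finset.sum_sub_distrib, ← map_sum]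
        exact congrArg (fun y => ρ b y - ∑ χ, X χ) (Equiv.sum_comp (MulAction.toPerm b⁻¹) X).symm
      · have e1 : t = MulAut.conjNormal b ⟨_, cw_mem_of_norm le_normalizer_of_normal hw hl.2⟩ *
            ⟨_, cw_mem_of_norm le_normalizer_of_normal hw hl.2⟩⁻¹ := Subtype.ext ht
        have := sub_mem (x3 _ (mul_mem (inv_mem hb) hg)) (x3 g hg)
        rw [e1, map_mul, map_inv (g • χ₀), hind, map_sub, hm, sub_smul]
        convert this using 1
        simp only [mul_smul, mul_inv_rev, inv_inv, chAct_apply, map_mul]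
        abel
  obtain ⟨X, x1, x2, x3⟩ := key l hl a ha
  intro h0
  have h1 := LinearMap.congr_fun h0 x₀
  rw [op_cons, End.mul_apply, x2, map_sum, ← Finset.add_sum_erase _ _ (Finset.mem_univ χ₀),
    LinearMap.zero_apply, add_eq_zero_iff_eq_neg] at h1
  have h2 : X χ₀ ∈ M := ⟨x1 _, by
    change (ρ a - 1) (X χ₀) ∈ C
    rw [h1]
    refine neg_mem (sum_mem fun χ hχ => ?_)
    by_cases h : χ a = 1
    · simp [(x1 χ).2 a h]
    obtain ⟨t, ht, ht'⟩ : ∃ t, χ₀ t = 1 ∧ χ t ≠ 1 := by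
      by_contra hn
      push Not at hn
      refine Finset.ne_of_mem_erase hχ (MonoidHom.ext fun t => ?_)
      by_cases h' : χ₀ t = 1
      · rw [h', hn t h']
      · have := hn (t * a⁻¹) (by simp [hu h' ha1])
        rw [map_mul, map_inv, mul_inv_eq_one] at this
        rw [this, hu h h']
    refine Submodule.mem_iSup_of_mem ⟨t, ht⟩ ⟨_, (x1 χ).1, ?_⟩
    simp [hN' χ _ (x1 χ) t a ht' h]⟩
  have h3 := sub_mem h2 (x3 1 (one_mem _))
  simp only [inv_one, map_one, one_smul, End.one_apply, sub_sub_cancel, ind, if_neg ha1] at h3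
  exact he' h3

end Cfsg.Agent.H6
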