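/-
Weight spaces of the class sums of a class two group of odd prime exponent in characteristic two.
-/
import Cfsg.Agent.H6.DerLen1
import Cfsg.Agent.H1.RepWt

set_option autoImplicit false

open Module Subgroup
open scoped commutatorElement

namespace Cfsg.Agent.H6

open H1

variable {G R : Type*} [Group G] [Group R] [MulDistribMulAction G R] [Fintype R]
  {k V : Type*} [Field k] [AddCommGroup V] [Module k V]

/-- The class sum of `r`, with multiplicity. -/
def cls (τ : R →* End k V) (r : R) : End k V := ∑ s, τ (s * r * s⁻¹)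

/-- A weight space of the class sums. -/
def wt (τ : R →* End k V) (ω : R → k) : Submodule k V := ⨅ r, (cls τ r).eigenspace (ω r)

section

variable {τ : R →* End k V} {ω : R → k}

theorem mem_wt {v : V} : v ∈ wt τ ω ↔ ∀ r, cls τ r v = ω r • v := by simp [wt]

theorem commute_cls (s r : R) : Commute (τ s) (cls τ r) := by
  simp only [Commute, SemiconjBy, cls, Finset.mul_sum, Finset.sum_mul, ← map_mul]
  exact Fintype.sum_equiv (Equiv.mulLeft s) _ _ fun x => by simp [mul_assoc]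

theorem apply_mem_wt {v : V} (hv : v ∈ wt τ ω) (s : R) : τ s v ∈ wt τ ω := mem_wt.2 fun r => by
  rw [← End.mul_apply, ← (commute_cls s r).eq, End.mul_apply, mem_wt.1 hv, map_smul]

theorem commute_cls_cls (s r : R) : Commute (cls τ s) (cls τ r) :=
  Commute.sum_left _ _ _ fun _ _ => commute_cls _ _

theorem iSupIndep_wt (τ : R →* End k V) : iSupIndep (wt τ) := by
  refine (End.independent_iInf_maxGenEigenspace_of_forall_mapsTo (cls τ)
    fun i j φ => End.mapsTo_maxGenEigenspace_of_comm (commute_cls_cls j i) φ).mono fun μ =>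
      iInf_mono fun z => End.eigenspace_le_maxGenEigenspace

theorem exists_wt [IsAlgClosed k] [FiniteDimensional k V] {W : Submodule k V} (h0 : W ≠ ⊥)
    (hW : ∀ r, ∀ v ∈ W, τ r v ∈ W) : ∃ ω, ∃ v ∈ W, v ≠ 0 ∧ v ∈ wt τ ω := by
  obtain ⟨ω, v, h1, h2, h3⟩ := exists_weight_vector (cls τ) h0 (fun r v hv => by
    rw [cls, LinearMap.sum_apply]
    exact sum_mem fun s _ => hW _ v hv) fun i j v _ => LinearMap.congr_fun (commute_cls_cls i j) v
  exact ⟨ω, v, h1, h2, mem_wt.2 h3⟩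

theorem rep_apply_apply {H : Type*} [Group H] (σ : H →* End k V) (a b : H) (v : V) :
    σ a (σ b v) = σ (a * b) v := by rw [map_mul, End.mul_apply]

variable (τ ω) in
/-- The elements commuting with `r` on a weight space. -/
def cm (r : R) : Subgroup R where
  carrier := {s | ∀ y ∈ wt τ ω, τ r (τ s y) = τ s (τ r y)}
  one_mem' := fun y _ => by simp
  mul_mem' := fun {a b} ha hb y hy => by
    rw [← rep_apply_apply, ha _ (apply_mem_wt hy b), hb y hy, rep_apply_apply τ a b]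
  inv_mem' := fun {a} ha y hy => by
    have := congrArg (τ a⁻¹) (ha _ (apply_mem_wt hy a⁻¹))
    simp only [rep_apply_apply, inv_mul_cancel_left, mul_inv_cancel, map_one, End.one_apply] at this ⊢
    exact this.symm

theorem cm_symm {r s : R} (h : s ∈ cm τ ω r) : r ∈ cm τ ω s := fun y hy => (h y hy).symm

theorem mem_cm_of_commute {r s : R} (h : Commute r s) : s ∈ cm τ ω r := fun y _ => by
  rw [rep_apply_apply, h.eq, rep_apply_apply]

end

/-- The standing hypotheses. -/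
structure Ext (ρ : G →* End k V) (τ : R →* End k V) (q : ℕ) : Prop where
  hq : q.Prime
  odd : Odd q
  pow : ∀ r : R, r ^ q = 1
  c2 : ∀ a b : R, ⁅a, b⁆ ∈ center R
  cov : ∀ (g : G) (r : R) (v : V), ρ g (τ r v) = τ (g • r) (ρ g v)

namespace Ext

variable {ρ : G →* End k V} {τ : R →* End k V} {q : ℕ} (H : Ext ρ τ q) {ω : R → k}
include H

theorem sq_pow (a : R) : a ^ ((q + 1) / 2) * a ^ ((q + 1) / 2) = a := by
  obtain ⟨m, hm⟩ := H.odd
  rw [← pow_add, show (q + 1) / 2 + (q + 1) / 2 = q + 1 by omega, pow_succ, H.pow, one_mul]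

theorem eq_one_of_inv {a : R} (h : a⁻¹ = a) : a = 1 := by
  rw [← H.sq_pow a, ← (Commute.refl a).mul_pow]
  nth_rw 1 [← h]
  rw [inv_mul_cancel, one_pow]

theorem apply_mem_wt {v : V} (hv : v ∈ wt τ ω) (g : G) : ρ g v ∈ wt τ fun r => ω (g⁻¹ • r) :=
  mem_wt.2 fun r => by
    rw [← map_smul, ← mem_wt.1 hv, cls, cls, LinearMap.sum_apply, LinearMap.sum_apply, map_sum]
    exact (Fintype.sum_equiv (MulAction.toPerm g) _ _ fun x => by simp [H.cov]).symm

/-- Elements inverted and centralized by an automorphism that is trivial on the centre commute. -/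
theorem commute_of_inv {g : G} (hg : ∀ z ∈ center R, g • z = z) {r s : R} (hr : g • r = r⁻¹)
    (hs : g • s = s) : Commute r s := by
  have h := hg _ (H.c2 r s)
  rw [commutatorElement_def, smul_mul', smul_mul', smul_mul', smul_inv', smul_inv', hr, hs,
    inv_inv] at h
  refine commutatorElement_eq_one_iff_commute.1 (H.eq_one_of_inv ?_)
  rw [← inv_mul_cancel_left r ⁅r, s⁆⁻¹, mem_center_iff.1 (inv_mem (H.c2 r s)), commutatorElement_def,
    ← h]
  rw [h]
  calc r⁻¹ * ((r * s * r⁻¹ * s⁻¹)⁻¹ * r) = (r⁻¹ * s * r * s⁻¹) * (s * (r⁻¹ * r) * s⁻¹) := by group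
    _ = _ := by rw [h]; group

variable [CharP k 2]

theorem sum_inv {X : Finset R} (h1 : 1 ∈ X) (hX : ∀ u ∈ X, u⁻¹ ∈ X) {f : R → V}
    (hf : ∀ u ∈ X, f u⁻¹ = f u) : ∑ u ∈ X, f u = f 1 := by
  classical
  rw [← Finset.add_sum_erase _ _ h1, Finset.sum_involution (fun u _ => u⁻¹)
    (fun u hu => by rw [hf u (Finset.mem_of_mem_erase hu), add_self_of_charTwo (k := k)])
    (fun u hu _ e => Finset.ne_of_mem_erase hu (H.eq_one_of_inv e))
    (fun u hu => Finset.mem_erase.2 ⟨by simpa using Finset.ne_of_mem_erase hu,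
      hX u (Finset.mem_of_mem_erase hu)⟩) fun u _ => inv_inv u, add_zero]

theorem center_apply {z : R} (hz : z ∈ center R) {v : V} (hv : v ∈ wt τ ω) : τ z v = ω z • v := by
  rw [← mem_wt.1 hv, cls, LinearMap.sum_apply]
  simp only [mem_center_iff.1 hz, mul_inv_cancel_right]
  exact (H.sum_inv (k := k) (f := fun _ => τ z v) (Finset.mem_univ 1)
    (fun _ _ => Finset.mem_univ _) fun _ _ => rfl).symm

theorem comm_apply (r s : R) {v : V} (hv : v ∈ wt τ ω) :
    τ r (τ s v) = ω ⁅r, s⁆ • τ s (τ r v) := by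
  rw [← H.center_apply (H.c2 r s) (H6.apply_mem_wt (H6.apply_mem_wt hv r) s), rep_apply_apply,
    rep_apply_apply, rep_apply_apply, commutatorElement_def]
  congr 2; group

theorem ne_one_of_not_mem_cm {r s : R} (h : s ∉ cm τ ω r) : ω ⁅r, s⁆ ≠ 1 := fun e =>
  h fun y hy => by rw [H.comm_apply r s hy, e, one_smul]

theorem comm_pow_apply (r s : R) {v : V} (hv : v ∈ wt τ ω) {ζ : k} (h : τ r v = ζ • v) (i : ℕ) :
    τ r (τ (s ^ i) v) = (ω ⁅r, s⁆ ^ i * ζ) • τ (s ^ i) v := by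
  induction i with
  | zero => simpa using h
  | succ i ih =>
    rw [pow_succ' s, ← rep_apply_apply, H.comm_apply r s (H6.apply_mem_wt hv _), ih, map_smul,
      smul_smul, pow_succ', mul_assoc]

omit [CharP k 2] in
theorem pow_eq_one {r : R} {v : V} (hv : v ≠ 0) {ζ : k} (h : τ r v = ζ • v) : ζ ^ q = 1 := by
  have : ∀ i, τ (r ^ i) v = ζ ^ i • v := fun i => by
    induction i with
    | zero => simp
    | succ i ih => rw [pow_succ, ← rep_apply_apply, h, map_smul, ih, smul_smul, pow_succ']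
  exact smul_left_injective k hv (by simpa [H.pow] using (this q).symm)

theorem eq_zero_of_inv {g : G} {r : R} (hg : g • r = r⁻¹) {y : V} {ζ : k} (hζ : ζ ≠ 1)
    (h1 : τ r y = ζ • y) (h2 : τ r (ρ g y) = ζ • ρ g y) : y = 0 := by
  by_contra h0
  have h3 := H.cov g r y
  rw [hg, h1, map_smul] at h3
  have h4 := congrArg (τ r) h3
  rw [map_smul, h2, smul_smul, rep_apply_apply, mul_inv_cancel, map_one, End.one_apply] at h4
  have h5 : ζ * ζ = 1 := smul_left_injective k (rep_apply_ne_zero ρ g h0) (by simpa using h4)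
  exact hζ (by simpa [CharTwo.neg_eq] using mul_self_eq_one_iff.1 h5)

variable [IsAlgClosed k] [FiniteDimensional k V]

theorem exists_wt_ne {z : R} (hz : z ∈ center R) (h : τ z ≠ 1) :
    ∃ ω, ∃ v ∈ wt τ ω, τ z v ≠ v := by
  obtain ⟨ω, _, ⟨u, rfl⟩, h2, h3⟩ := exists_wt (τ := τ) (W := LinearMap.range (τ z - 1))
    (fun e => h (sub_eq_zero.1 (LinearMap.range_eq_bot.1 e))) (by
      rintro r _ ⟨u, rfl⟩
      exact ⟨τ r u, by simp only [LinearMap.sub_apply, End.one_apply, map_sub, rep_apply_apply,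
        mem_center_iff.1 hz r]⟩)
  refine ⟨ω, _, h3, fun e => h2 ?_⟩
  have h4 : ∀ i, τ (z ^ i) u = u + i • (τ z - 1) u := fun i => by
    induction i with
    | zero => simp
    | succ i ih =>
      rw [pow_succ', ← rep_apply_apply, ih, map_add, map_nsmul, e, succ_nsmul, LinearMap.sub_apply,
        End.one_apply]
      abel
  have h5 := h4 q
  obtain ⟨m, hm⟩ := H.odd
  rwa [H.pow, map_one, End.one_apply, hm, succ_nsmul, mul_comm, mul_smul, two_smul,
    add_self_of_charTwo (k := k), smul_zero, zero_add, left_eq_add] at h5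

omit [IsAlgClosed k] [FiniteDimensional k V] in
theorem wt_stable [Finite G] {P : Subgroup G} (hP : IsPGroup 2 P) {n : ℕ} (hD : DerZero ρ P (n + 1))
    {a : G} (ha : a ∈ der P n) (h0 : wt τ ω ≠ ⊥) : (fun r => ω (a⁻¹ • r)) = ω := by
  by_contra hn
  letI : MulAction G (R → k) := arrowAction
  obtain ⟨e, he, he0, hfix⟩ := exists_fixed_mod ρ (X := P ⊓ MulAction.stabilizer G ω)
    (hP.to_le inf_le_left) (N := wt τ ω) (M := ⊥) (fun x hx v hv =>
      (show (fun r => ω (x⁻¹ • r)) = ω from hx.2) ▸ H.apply_mem_wt hv x) (by simp +contextual)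
    (by simpa using h0)
  obtain ⟨φ, h1, h2⟩ := Submodule.exists_le_ker_of_notMem (p := ⨆ ω' ≠ ω, wt τ ω') (v := e)
    fun h => he0 ((iSupIndep_wt τ ω).le_bot ⟨he, h⟩)
  have h3 : ∀ g, (fun r => ω (g⁻¹ • r)) ≠ ω → φ (ρ g e) = 0 := fun g hg =>
    h2 (Submodule.mem_iSup_of_mem _ (Submodule.mem_iSup_of_mem hg (H.apply_mem_wt he g)))
  rw [← map_subtype_derivedSeries, ← der_top] at ha
  obtain ⟨a, ha, rfl⟩ := ha
  obtain ⟨l, l1, l2, g, l3⟩ := exists_op_ne_zero hP (ρ.comp P.subtype) n e φ h1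
    (fun g => or_iff_not_imp_right.2 fun h => sub_eq_zero.1
      (hfix g (mem_inf.2 ⟨g.2, by_contra fun h' => h (h3 g h')⟩)))
    ⟨a, ha, 1, fun h => h1 (by simpa [h3 a hn] using (congrArg φ h).symm)⟩
  rw [DerZero.comp P.subtype (by rwa [← MonoidHom.range_eq_map, range_subtype]) l l1 l2] at l3
  exact l3 rfl

theorem quad {a a' : G} (hZ : ∀ z ∈ center R, a • z = z) {r r' : R} (h1 : a • r = r⁻¹)
    (h2 : a' • r = r) (h3 : a • r' = r') (h4 : a' • r' = r'⁻¹) (hr : cm τ ω r ≠ ⊤)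
    (hr' : cm τ ω r' ≠ ⊤) : (ρ a - 1) * (ρ a' - 1) ≠ 0 := by
  intro h
  obtain ⟨s, hs, hs'⟩ : ∃ s, s ∉ cm τ ω r ∧ s ∉ cm τ ω r' := by
    obtain ⟨s, hs⟩ := not_forall.1 (mt (eq_top_iff' _).2 hr)
    obtain ⟨s', hs'⟩ := not_forall.1 (mt (eq_top_iff' _).2 hr')
    by_cases c : s ∈ cm τ ω r'
    · by_cases c' : s' ∈ cm τ ω r
      · exact ⟨s * s', mt (mul_mem_cancel_right c').1 hs, mt (mul_mem_cancel_left c).1 hs'⟩
      · exact ⟨s', c', hs'⟩
    · exact ⟨s, hs, c⟩
  have hc := H.commute_of_inv hZ h1 h3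
  obtain ⟨μ, v, hv, hv0, hμ⟩ := exists_weight_vector (fun b : Bool => τ (cond b r r'))
    (W := wt τ ω) (fun e => hs fun y hy => by rw [e] at hy; simp [Submodule.mem_bot k |>.1 hy])
    (fun _ v hv => H6.apply_mem_wt hv _) (by
      rintro (_ | _) (_ | _) v _ <;> simp only [rep_apply_apply, hc.eq, cond])
  have key : ∀ α ζ : k, α ≠ 1 → ¬ (α ^ 0 * ζ = 1 ∧ α ^ 1 * ζ = 1) ∧ ¬ (α ^ 0 * ζ = 1 ∧ α ^ 2 * ζ = 1) ∧
      ¬ (α ^ 1 * ζ = 1 ∧ α ^ 2 * ζ = 1) := fun α ζ hα => by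
    refine ⟨fun h => hα ?_, fun h => hα ?_, fun h => hα ?_⟩
    · linear_combination h.2 - α * h.1
    · simpa [CharTwo.neg_eq] using mul_self_eq_one_iff.1
        (show α * α = 1 by linear_combination h.2 - α ^ 2 * h.1)
    · linear_combination h.2 - α * h.1
  obtain ⟨i, i1, i2⟩ : ∃ i, ω ⁅r, s⁆ ^ i * μ true ≠ 1 ∧ ω ⁅r', s⁆ ^ i * μ false ≠ 1 := by
    have k1 := key _ (μ true) (H.ne_one_of_not_mem_cm hs)
    have k2 := key _ (μ false) (H.ne_one_of_not_mem_cm hs')
    by_contra hn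
    push Not at hn
    have c := fun i => or_iff_not_imp_left.2 (hn i)
    rcases c 0 with c0 | c0 <;> rcases c 1 with c1 | c1 <;> rcases c 2 with c2 | c2 <;>
      first | exact k1.1 ⟨c0, c1⟩ | exact k1.2.1 ⟨c0, c2⟩ | exact k1.2.2 ⟨c1, c2⟩ |
        exact k2.1 ⟨c0, c1⟩ | exact k2.2.1 ⟨c0, c2⟩ | exact k2.2.2 ⟨c1, c2⟩
  have e1 := H.comm_pow_apply r s hv (hμ true) i
  have e2 := H.comm_pow_apply r' s hv (hμ false) i
  have e3 : τ r ((ρ a' - 1) (τ (s ^ i) v)) = (ω ⁅r, s⁆ ^ i * μ true) • (ρ a' - 1) (τ (s ^ i) v) := by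
    rw [← map_smul, ← e1, LinearMap.sub_apply, LinearMap.sub_apply, map_sub, H.cov a' r, h2]
    rfl
  have e4 : ρ a ((ρ a' - 1) (τ (s ^ i) v)) = (ρ a' - 1) (τ (s ^ i) v) :=
    sub_eq_zero.1 (LinearMap.congr_fun h _)
  have e6 := H.eq_zero_of_inv h1 i1 e3 (by rwa [e4])
  have e5 : ρ a' (τ (s ^ i) v) = τ (s ^ i) v := sub_eq_zero.1 e6
  exact rep_apply_ne_zero τ _ hv0 (H.eq_zero_of_inv h4 i2 e2 (by rwa [e5]))

end Ext

end Cfsg.Agent.H6
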