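/-
Elementary abelian `2`-groups acting on a class two group; the inverting operators.
-/
import Cfsg.Agent.H6.DerLen2
import Cfsg.Agent.H1.RepFree

set_option autoImplicit false

open Module Subgroup
open scoped commutatorElement

namespace Cfsg.Agent.H6

open H1

variable {G R : Type*} [Group G] [Group R] [MulDistribMulAction G R] [Fintype R]
  {k V : Type*} [Field k] [AddCommGroup V] [Module k V]

variable (R) in
/-- `T` acts as an elementary abelian `2`-group centralizing the centre. -/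
structure Act (T : Subgroup G) : Prop where
  cen : ∀ t ∈ T, ∀ z ∈ center R, t • z = z
  comm : ∀ s ∈ T, ∀ t ∈ T, ∀ r : R, s • t • r = t • s • r
  sq : ∀ t ∈ T, ∀ r : R, t • t • r = r

/-- Homogeneous elements. -/
def Hom (T : Subgroup G) (u : R) : Prop := ∀ t ∈ T, t • u = u ∨ t • u = u⁻¹

open Classical in
/-- The sum of the elements inverted by `t`. -/
noncomputable def invSum (τ : R →* End k V) (t : G) : End k V := ∑ u with t • u = u⁻¹, τ u

theorem invSum_mem {τ : R →* End k V} {W : Submodule k V} (hW : ∀ r, ∀ v ∈ W, τ r v ∈ W) (t : G)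
    {v : V} (hv : v ∈ W) : invSum τ t v ∈ W := by
  rw [invSum, LinearMap.sum_apply]
  exact sum_mem fun u _ => hW u v hv

namespace Ext

variable {ρ : G →* End k V} {τ : R →* End k V} {q : ℕ} (H : Ext ρ τ q) {ω : R → k}
include H

theorem comm_quot (a b : R ⧸ center R) : a * b = b * a := by
  obtain ⟨a, rfl⟩ := QuotientGroup.mk_surjective a
  obtain ⟨b, rfl⟩ := QuotientGroup.mk_surjective b
  exact commutatorElement_eq_one_iff_mul_comm.1 ((QuotientGroup.eq_one_iff _).2 (H.c2 a b))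

/-- The elements inverted modulo the centre. -/
def negMod (t : G) : Subgroup R where
  carrier := {u | ((t • u : R) : R ⧸ center R) = (u : R ⧸ center R)⁻¹}
  one_mem' := by simp
  mul_mem' := fun {a b} (ha : _ = _) (hb : _ = _) => show _ = _ by
    rw [smul_mul', QuotientGroup.mk_mul, QuotientGroup.mk_mul, ha, hb, mul_inv_rev, H.comm_quot]
  inv_mem' := fun {a} (ha : _ = _) => show _ = _ by
    rw [smul_inv', QuotientGroup.mk_inv, QuotientGroup.mk_inv, ha]

theorem invSum_cov (g t : G) (v : V) : ρ g (invSum τ t v) = invSum τ (g * t * g⁻¹) (ρ g v) := by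
  classical
  simp only [invSum, LinearMap.sum_apply, map_sum, H.cov]
  exact Finset.sum_equiv (MulAction.toPerm g) (fun u => by simp [mul_smul, ← smul_inv'])
    fun u _ => rfl

theorem smul_mem_cm {t : G} (ht : ∀ y ∈ wt τ ω, ρ t⁻¹ y ∈ wt τ ω) {r s : R} (h : s ∈ cm τ ω r) :
    t • s ∈ cm τ ω (t • r) := fun y hy => by
  have := congrArg (ρ t) (h _ (ht y hy))
  simpa only [H.cov, rep_apply_apply ρ, mul_inv_cancel, map_one, End.one_apply] using this

variable {T : Subgroup G} (hT : Act R T)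
include hT

omit H in
theorem smul_congr {s : G} (hs : s ∈ T) {x y : R} (h : (x : R ⧸ center R) = y) :
    ((s • x : R) : R ⧸ center R) = (s • y : R) := by
  rw [QuotientGroup.eq] at h ⊢
  rwa [← smul_inv', ← smul_mul', hT.cen s hs _ h]

theorem smul_eq_of_congr {t : G} (ht : t ∈ T) {u : R} (h : (u : R ⧸ center R) = (t • u : R)) :
    t • u = u := by
  rw [QuotientGroup.eq] at h
  have h1 := hT.cen t ht _ h
  rw [smul_mul', smul_inv', hT.sq t ht] at h1
  exact (inv_mul_eq_one.1 (H.eq_one_of_inv (by rw [mul_inv_rev, inv_inv, h1]))).symm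

theorem smul_mem_negMod {s t : G} (hs : s ∈ T) (ht : t ∈ T) {u : R} (h : u ∈ H.negMod t) :
    s • u ∈ H.negMod t := show _ = _ by
  rw [hT.comm t ht s hs, smul_congr hT hs (y := u⁻¹) h, smul_inv']; rfl

theorem le_closure_hom (X : Subgroup R) : (∀ t ∈ T, ∀ x ∈ X, t • x ∈ X) → center R ≤ X →
    X ≤ closure {u | u ∈ X ∧ Hom T u} := by
  refine subgroup_strong_induction (P := fun X => (∀ t ∈ T, ∀ x ∈ X, t • x ∈ X) → center R ≤ X →
    X ≤ closure {u | u ∈ X ∧ Hom T u}) (fun X ih hX hZ u hu => ?_) X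
  let Xp : G → Subgroup R := fun t => (MulDistribMulAction.toMonoidHom R t).eqLocus (MonoidHom.id R)
  have hv := pow_mem hu ((q + 1) / 2)
  set v := u ^ ((q + 1) / 2)
  have hd : ∀ t ∈ T, t • ((t • v)⁻¹ * v) = ((t • v)⁻¹ * v)⁻¹ := fun t ht => by
    rw [smul_mul', smul_inv', hT.sq t ht, mul_inv_rev, inv_inv]
  by_cases h : ∃ t ∈ T, ¬ X ≤ Xp t ∧ ¬ X ≤ H.negMod t
  · obtain ⟨t, ht, h1, h2⟩ := h
    rw [show u = v * t • v * ((t • v)⁻¹ * v) by
      rw [mul_assoc, mul_inv_cancel_left, H.sq_pow]]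
    have hm : ∀ Y, closure {u | u ∈ X ⊓ Y ∧ Hom T u} ≤ closure {u | u ∈ X ∧ Hom T u} := fun Y =>
      Subgroup.closure_mono fun _ h => ⟨h.1.1, h.2⟩
    refine mul_mem (hm _ (ih (X ⊓ Xp t)
      (lt_of_le_of_ne inf_le_left fun e => h1 (e ▸ inf_le_right)) (fun s hs x hx => ⟨hX s hs x hx.1,
        (hT.comm t ht s hs x).trans (congrArg (s • ·) hx.2)⟩) (le_inf hZ (hT.cen t ht))
      (mem_inf.2 ⟨mul_mem hv (hX t ht v hv), H.smul_eq_of_congr hT ht ?_⟩)))
      (hm _ (ih (X ⊓ H.negMod t)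
      (lt_of_le_of_ne inf_le_left fun e => h2 (e ▸ inf_le_right)) (fun s hs x hx => ⟨hX s hs x hx.1,
        H.smul_mem_negMod hT hs ht hx.2⟩) (le_inf hZ fun z hz => show _ = _ by
          rw [hT.cen t ht z hz, (QuotientGroup.eq_one_iff z).2 hz, inv_one])
      (mem_inf.2 ⟨mul_mem (inv_mem (hX t ht v hv)) hv, congrArg QuotientGroup.mk (hd t ht)⟩)))
    rw [smul_mul', hT.sq t ht, QuotientGroup.mk_mul, QuotientGroup.mk_mul, H.comm_quot]
  push Not at h
  by_cases h0 : ∀ t ∈ T, t • u = u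
  · exact subset_closure ⟨hu, fun t ht => Or.inl (h0 t ht)⟩
  push Not at h0
  obtain ⟨t₀, ht₀, h0⟩ := h0
  have hd' := mul_mem (inv_mem (hX t₀ ht₀ v hv)) hv
  have h1 : ((t₀ • v)⁻¹ * v)⁻¹ * u ∈ center R := by
    rw [← QuotientGroup.eq, QuotientGroup.mk_mul, QuotientGroup.mk_inv,
      show _ = _ from h t₀ ht₀ (fun e => h0 (e hu)) hv, inv_inv, ← QuotientGroup.mk_mul, H.sq_pow]
  rw [← mul_inv_cancel_left ((t₀ • v)⁻¹ * v) u]
  refine mul_mem (subset_closure ⟨hd', fun t ht => or_iff_not_imp_left.2 fun e => ?_⟩)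
    (subset_closure ⟨hZ h1, fun t ht => Or.inl (hT.cen t ht _ h1)⟩)
  have := H.smul_eq_of_congr hT (mul_mem ht ht₀) (u := (t₀ • v)⁻¹ * v) (by
    rw [mul_smul, hd t₀ ht₀, smul_inv', QuotientGroup.mk_inv,
      show _ = _ from h t ht (fun e' => e (e' hd')) hd', inv_inv])
  rw [mul_smul, hd t₀ ht₀, smul_inv'] at this
  exact inv_eq_iff_eq_inv.1 this

theorem hom_induction {p : R → Prop} (h1 : ∀ u, Hom T u → p u)
    (h2 : ∀ u v, p u → p v → p (u * v)) (r : R) : p r := by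
  have := H.le_closure_hom hT ⊤ (fun _ _ _ _ => trivial) le_top (mem_top r)
  rw [← mem_toSubmonoid, closure_toSubmonoid] at this
  induction this using Submonoid.closure_induction with
  | mem x hx =>
    refine h1 x (hx.elim (·.2) fun h t ht => ?_)
    simpa [smul_inv', inv_eq_iff_eq_inv] using h.2 t ht
  | one => exact h1 1 fun t _ => Or.inl (smul_one t)
  | mul x y _ _ hx hy => exact h2 x y hx hy

theorem invSum_apply {t : G} (ht : t ∈ T) (r : R) :
    ∀ v, invSum τ t (τ r v) = τ (t • r) (invSum τ t v) := by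
  classical
  refine H.hom_induction hT (p := fun r => ∀ v, invSum τ t (τ r v) = τ (t • r) (invSum τ t v))
    (fun r hr v => ?_) (fun a b ha hb v => by
      rw [← rep_apply_apply, ha, hb, rep_apply_apply, smul_mul']) r
  simp only [invSum, LinearMap.sum_apply, map_sum, rep_apply_apply]
  rcases hr t ht with e | e <;> rw [e]
  · exact Finset.sum_congr rfl fun u hu => by
      rw [(H.commute_of_inv (hT.cen t ht) (Finset.mem_filter.1 hu).2 e).eq]
  · exact Finset.sum_equiv ((Equiv.mulLeft r).trans (Equiv.mulRight r))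
      (fun u => by simp [e, mul_assoc]) fun u _ => by simp [mul_assoc]

variable [CharP k 2] [IsAlgClosed k] [FiniteDimensional k V]

theorem exists_proj (hω : ∀ t ∈ T, ∀ y ∈ wt τ ω, ρ t y ∈ wt τ ω) {T₀ : Subgroup G} (h₀ : T₀ ≤ T)
    {W : Submodule k V} (hW : W ≤ wt τ ω) (hW0 : W ≠ ⊥) (hWτ : ∀ r, ∀ y ∈ W, τ r y ∈ W)
    (hWρ : ∀ t ∈ T, ∀ y ∈ W, ρ t y ∈ W) :
    ∃ (F : Submodule k V) (π : End k V), F ≠ ⊥ ∧ F ≤ W ∧ (∀ y ∈ F, π y = y) ∧
      (∀ t ∈ T₀, ∀ y ∈ F, invSum τ t y = y) ∧ (∀ t ∈ T₀, ∀ y ∈ W, π (invSum τ t y) = π y) ∧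
      (∀ t ∈ T, ∀ y ∈ F, ρ t y ∈ F) ∧ ∀ r, (∀ t ∈ T₀, t • r = r) → ∀ y ∈ F, τ r y ∈ F := by
  classical
  let Fx : Set R → Submodule k V := fun S =>
    { carrier := {y | y ∈ W ∧ ∀ e ∈ S, τ e y = y}
      zero_mem' := ⟨zero_mem _, fun _ _ => map_zero _⟩
      add_mem' := fun ha hb => ⟨add_mem ha.1 hb.1, fun t ht => by
        rw [map_add, ha.2 t ht, hb.2 t ht]⟩
      smul_mem' := fun c _ ha => ⟨W.smul_mem c ha.1, fun t ht => by rw [map_smul, ha.2 t ht]⟩ }
  obtain ⟨S, ⟨hS, hF0⟩, hmax⟩ := WellFounded.has_min (wellFounded_gt (α := Set R))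
    {S | (∀ u ∈ S, Hom T u ∧ ∃ t ∈ T₀, t • u = u⁻¹) ∧ Fx S ≠ ⊥} ⟨∅, by simp, fun e => hW0 (by
      rw [eq_bot_iff, ← e]; exact fun y hy => ⟨hy, by simp⟩)⟩
  set F := Fx S
  have hE : ∀ e ∈ closure S, ∀ y ∈ F, τ e y = y := fun e he y hy =>
    (closure_le (vecStab τ y)).2 hy.2 he
  have hET : ∀ t ∈ T, ∀ e ∈ closure S, t • e ∈ closure S := fun t ht =>
    (closure_le ((closure S).comap (MulDistribMulAction.toMonoidHom R t))).2 fun e he => by
      change t • e ∈ closure S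
      rcases (hS e he).1 t ht with h | h <;> rw [h]
      exacts [subset_closure he, inv_mem (subset_closure he)]
  let π : End k V := ∑ e with e ∈ closure S, τ e
  have hπ : ∀ y, π y = ∑ e with e ∈ closure S, τ e y := fun y => LinearMap.sum_apply _ _ _
  have hsum : ∀ f : R → V, (∀ e ∈ closure S, f e = f 1) → ∑ e with e ∈ closure S, f e = f 1 :=
    fun f hf => H.sum_inv (k := k) (by simp) (by simp) fun u hu => by
      rw [hf u (by simpa using hu), hf _ (by simpa using hu)]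
  have p1 : ∀ e ∈ closure S, ∀ y, τ e (π y) = π y := fun e he y => by
    simp only [hπ, map_sum, rep_apply_apply]
    exact Finset.sum_equiv (Equiv.mulLeft e) (fun u => by simp [mul_mem_cancel_left he])
      fun _ _ => rfl
  have p2 : ∀ e ∈ closure S, ∀ y, π (τ e y) = π y := fun e he y => by
    simp only [hπ, rep_apply_apply]
    exact Finset.sum_equiv (Equiv.mulRight e) (fun u => by simp [mul_mem_cancel_right he])
      fun _ _ => rfl
  have p3 : ∀ y ∈ W, π y ∈ F := fun y hy =>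
    ⟨hπ y ▸ sum_mem fun e _ => hWτ e y hy, fun e he => p1 e (subset_closure he) y⟩
  have p4 : ∀ y ∈ F, π y = y := fun y hy => by
    rw [hπ, hsum _ fun e he => by rw [hE e he y hy, hE 1 (one_mem _) y hy], hE 1 (one_mem _) y hy]
  let Sp : Subgroup R := ⨅ e ∈ S, cm τ ω e
  have hSp : ∀ {u}, u ∈ Sp ↔ ∀ e ∈ S, u ∈ cm τ ω e := by simp [Sp]
  have p5 : ∀ u ∈ Sp, ∀ y ∈ F, τ u y ∈ F := fun u hu y hy =>
    ⟨hWτ u y hy.1, fun e he => by rw [hSp.1 hu e he y (hW hy.1), hy.2 e he]⟩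
  have p6 : ∀ u ∉ Sp, ∀ y ∈ F, π (τ u y) = 0 := fun u hu y hy => by
    obtain ⟨e, he, h⟩ : ∃ e ∈ S, u ∉ cm τ ω e := by simpa [hSp] using hu
    have := p2 e (subset_closure he) (τ u y)
    rw [H.comm_apply e u (hW hy.1), hy.2 e he, map_smul, ← sub_eq_zero, ← one_smul k (π _),
      smul_smul, mul_one, ← sub_smul] at this
    exact (smul_eq_zero.1 this).resolve_left (sub_ne_zero.2 (H.ne_one_of_not_mem_cm h))
  have p7 : ∀ t ∈ T, ∀ y ∈ F, ρ t y ∈ F := fun t ht y hy => ⟨hWρ t ht y hy.1, fun e he => by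
    rw [← hT.sq t ht e, ← H.cov, hE _ (hET t ht e (subset_closure he)) y hy]⟩
  have p8 : ∀ t ∈ T, ∀ u, t • u = u⁻¹ → ∀ θ : k, (∀ y ∈ F, τ u y = θ • y) → ∀ y ∈ F, τ u y = y :=
    fun t ht u hu θ h y hy => by
      by_cases h1 : θ = 1
      · rw [h y hy, h1, one_smul]
      · rw [H.eq_zero_of_inv hu h1 (h y hy) (h _ (p7 t ht y hy)), map_zero]
  have p9 : ∀ u ∈ Sp, Hom T u → ∀ t ∈ T₀, t • u = u⁻¹ → ∀ y ∈ F, τ u y = y := by
    intro u hu hu' t ht htu
    by_cases h : ∃ s ∈ Sp, s ∉ cm τ ω u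
    · obtain ⟨s, hs, hs'⟩ := h
      obtain ⟨ζ, v, hv, hv0, hζ⟩ := exists_eigenvector_mem hF0 (p5 u hu)
      have := Fact.mk H.hq
      have hη : IsPrimitiveRoot (ω ⁅u, s⁆) q := by
        rw [IsPrimitiveRoot.iff_orderOf]
        exact orderOf_eq_prime (H.pow_eq_one hv0 (H.center_apply (H.c2 u s) (hW hv.1)))
          (H.ne_one_of_not_mem_cm hs')
      have : NeZero q := ⟨H.hq.ne_zero⟩
      have hζ1 := H.pow_eq_one hv0 hζ
      obtain ⟨i, -, hi⟩ := hη.eq_pow_of_pow_eq_one (ξ := ζ⁻¹) (by rw [inv_pow, hζ1, inv_one])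
      have h1 := H.comm_pow_apply u s (hW hv.1) hζ i
      rw [hi, inv_mul_cancel₀ (by rintro rfl; simp [H.hq.ne_zero] at hζ1), one_smul] at h1
      have h2 := p5 _ (pow_mem hs i) v hv
      by_contra hn
      refine hmax (insert u S) ⟨Set.forall_mem_insert.2 ⟨⟨hu', t, ht, htu⟩, hS⟩,
        (Submodule.ne_bot_iff _).2 ⟨_, ⟨h2.1, Set.forall_mem_insert.2 ⟨h1, h2.2⟩⟩,
          rep_apply_ne_zero τ _ hv0⟩⟩ (Set.ssubset_insert fun h => hn fun y hy => hy.2 u h)
    push Not at h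
    refine p8 t (h₀ ht) u htu (∑ e with e ∈ closure S, ω (e * u)) fun y hy => ?_
    have h1 : ∀ s ∈ Sp, π (τ s (π (τ u (τ s⁻¹ y)))) = τ u y := fun s hs => by
      rw [p4 _ (p5 u hu _ (p5 _ (inv_mem hs) y hy)), h _ (inv_mem hs) y (hW hy.1), rep_apply_apply,
        mul_inv_cancel, map_one, End.one_apply, p4 _ (p5 u hu y hy)]
    have h2 : ∀ s ∉ Sp, π (τ s (π (τ u (τ s⁻¹ y)))) = 0 := fun s hs => by
      rw [rep_apply_apply τ u, p6 _ (by rwa [mul_mem_cancel_left hu, inv_mem_iff]) y hy, map_zero,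
        map_zero]
    rw [← h1 1 (one_mem _), ← H.sum_inv (k := k) (f := fun s => π (τ s (π (τ u (τ s⁻¹ y)))))
      (Finset.mem_univ 1) (fun _ _ => Finset.mem_univ _) fun s _ => by
        by_cases hs : s ∈ Sp
        · rw [h1 s hs, h1 _ (inv_mem hs)]
        · rw [h2 s hs, h2 _ (mt inv_mem_iff.1 hs)], ← p4 _ (F.smul_mem _ hy), ← map_sum]
    congr 1
    simp only [Finset.sum_smul, ← mem_wt.1 (hW hy.1), cls, LinearMap.sum_apply, hπ, map_sum,
      rep_apply_apply, mul_assoc]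
    exact Finset.sum_comm
  have p10 : ∀ t ∈ T₀, ∀ u ∈ Sp, t • u = u⁻¹ → ∀ y ∈ F, τ u y = y := by
    intro t ht u hu htu
    let Sc : Subgroup R :=
      { carrier := {u | ∃ θ : k, ∀ y ∈ F, τ u y = θ • y}
        one_mem' := ⟨1, by simp⟩
        mul_mem' := fun ⟨a, ha⟩ ⟨b, hb⟩ => ⟨b * a, fun y hy => by
          rw [← rep_apply_apply, hb y hy, map_smul, ha y hy, smul_smul]⟩
        inv_mem' := fun {u} ⟨a, ha⟩ => ⟨a⁻¹, fun y hy => by
          have := congrArg (τ u⁻¹) (ha y hy)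
          rw [rep_apply_apply, inv_mul_cancel, map_one, End.one_apply, map_smul] at this
          by_cases h : a = 0
          · rw [this, h]; simp
          · rw [eq_inv_smul_iff₀ h, ← this]⟩ }
    obtain ⟨θ, hθ⟩ : u ∈ Sc := (H.le_closure_hom hT (Sp ⊓ H.negMod t)
      (fun s hs x hx => ⟨hSp.2 fun e he => by
        have := H.smul_mem_cm (hω _ (inv_mem hs)) (r := s • e) (s := x) (by
          rcases (hS e he).1 s hs with h | h <;> rw [h]
          exacts [hSp.1 hx.1 e he, cm_symm (inv_mem (cm_symm (hSp.1 hx.1 e he)))])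
        rwa [hT.sq s hs] at this, H.smul_mem_negMod hT hs (h₀ ht) hx.2⟩)
      (le_inf (fun z hz => hSp.2 fun e _ => mem_cm_of_commute (mem_center_iff.1 hz e))
        fun z hz => show _ = _ by
          rw [hT.cen t (h₀ ht) z hz, (QuotientGroup.eq_one_iff z).2 hz, inv_one])).trans
      ((closure_le _).2 fun x hx => by
        rcases hx.2 t (h₀ ht) with h | h
        · have h1 : x * x ∈ center R := by
            have : ((t • x : R) : R ⧸ center R) = _ := hx.1.2
            rw [h] at this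
            rwa [← QuotientGroup.eq_one_iff, QuotientGroup.mk_mul, mul_eq_one_iff_eq_inv]
          have h2 := pow_mem h1 ((q + 1) / 2)
          rw [(Commute.refl x).mul_pow, H.sq_pow] at h2
          exact ⟨_, fun y hy => H.center_apply h2 (hW hy.1)⟩
        · exact ⟨1, fun y hy => by rw [p9 x hx.1.1 hx.2 t ht h y hy, one_smul]⟩)
      (mem_inf.2 ⟨hu, congrArg QuotientGroup.mk htu⟩)
    exact p8 t (h₀ ht) u htu θ hθ
  have p11 : ∀ t ∈ T₀, ∀ y ∈ F, invSum τ t y = y := fun t ht y hy => by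
    have h1 : invSum τ t y ∈ F := ⟨invSum_mem hWτ t hy.1, fun e he => by
      rw [← hT.sq t (h₀ ht) e, ← H.invSum_apply hT (h₀ ht),
        hE _ (hET t (h₀ ht) e (subset_closure he)) y hy]⟩
    rw [← p4 _ h1, invSum, LinearMap.sum_apply _ _ y, map_sum, H.sum_inv (k := k) (by simp)
      (fun u hu => Finset.mem_filter.2 ⟨Finset.mem_univ _, by
        rw [smul_inv', (Finset.mem_filter.1 hu).2]⟩) fun u hu => ?_, map_one, End.one_apply, p4 y hy]
    replace hu := (Finset.mem_filter.1 hu).2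
    by_cases hs : u ∈ Sp
    · rw [p10 t ht u hs hu y hy, p10 t ht _ (inv_mem hs) (by rw [smul_inv', hu]) y hy]
    · rw [p6 u hs y hy, p6 _ (mt inv_mem_iff.1 hs) y hy]
  refine ⟨F, π, hF0, fun _ h => h.1, p4, p11, fun t ht y hy => ?_, p7, fun r hr => p5 r
    (hSp.2 fun e he => ?_)⟩
  · rw [← p4 _ (p3 y hy), ← p11 t ht _ (p3 y hy), hπ y, map_sum, map_sum,
      hsum _ fun e he => by
        rw [H.invSum_apply hT (h₀ ht), p2 _ (hET t (h₀ ht) e he), map_one, End.one_apply], map_one,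
      End.one_apply]
  · obtain ⟨t, ht, h⟩ := (hS e he).2
    exact mem_cm_of_commute (H.commute_of_inv (hT.cen t (h₀ ht)) h (hr t ht))

end Ext

end Cfsg.Agent.H6
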