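/-
Small involutions acting on a finite symplectic group.
-/
import Cfsg.Agent.H1.EAMod

set_option autoImplicit false

namespace Cfsg.Agent.H6

open Subgroup
open scoped commutatorElement

/-- A nondegenerate alternating form on an elementary abelian `q`-group, invariant under `P`. -/
structure Symp (q : ℕ) (P : Type*) {A C : Type*} [Group P] [CommGroup A] [CommMonoid C]
    [MulDistribMulAction P A] (β : A → A → C) : Prop where
  hq : q.Prime
  odd : Odd q
  pow : ∀ a : A, a ^ q = 1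
  mul : ∀ a a' b, β (a * a') b = β a b * β a' b
  one : ∀ b, β 1 b = 1
  self : ∀ a, β a a = 1
  symm : ∀ a b, β a b = 1 → β b a = 1
  nondeg : ∀ a, (∀ b, β a b = 1) → a = 1
  inv : ∀ (g : P) a b, β (g • a) (g • b) = β a b
  faith : ∀ g : P, (∀ a : A, g • a = a) → g = 1

section

variable {P : Type*} [Group P]

/-- The pair `F ≤ T` looks like a special or elementary abelian `2`-group with its Frattini
subgroup, normalized by `h`. -/
structure TF (T F : Subgroup P) (h : P) : Prop where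
  le : F ≤ T
  comm : ∀ s ∈ T, ∀ t ∈ T, ⁅s, t⁆ ∈ F
  sq : ∀ t ∈ T, t * t ∈ F
  inv : ∀ f ∈ F, f * f = 1
  cent : ∀ f ∈ F, ∀ t ∈ T, Commute f t
  nT : h ∈ normalizer (T : Set P)
  nF : h ∈ normalizer (F : Set P)

theorem TF.map {P' : Type*} [Group P'] {T F : Subgroup P} {h : P} (H : TF T F h) (f : P →* P') :
    TF (T.map f) (F.map f) (f h) where
  le := map_mono H.le
  comm := by
    rintro _ ⟨s, hs, rfl⟩ _ ⟨t, ht, rfl⟩
    exact ⟨_, H.comm s hs t ht, map_commutatorElement f s t⟩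
  sq := by
    rintro _ ⟨s, hs, rfl⟩
    exact ⟨_, H.sq s hs, map_mul f s s⟩
  inv := by
    rintro _ ⟨s, hs, rfl⟩
    rw [← map_mul, H.inv s hs, map_one]
  cent := by
    rintro _ ⟨s, hs, rfl⟩ _ ⟨t, ht, rfl⟩
    exact (H.cent s hs t ht).map f
  nT := le_normalizer_map f ⟨h, H.nT, rfl⟩
  nF := le_normalizer_map f ⟨h, H.nF, rfl⟩

theorem TF.subgroupOf {T F Y : Subgroup P} {h : Y} (H : TF T F (h : P)) :
    TF (T.subgroupOf Y) (F.subgroupOf Y) h where
  le := fun _ hx => H.le hx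
  comm := fun s hs t ht => H.comm s hs t ht
  sq := fun s hs => H.sq s hs
  inv := fun s hs => Subtype.ext (H.inv s hs)
  cent := fun s hs t ht => Subtype.ext (H.cent s hs t ht).eq
  nT := H1.mem_normalizer_subgroupOf H.nT
  nF := H1.mem_normalizer_subgroupOf H.nF

theorem TF.of_mem {T F : Subgroup P} {h h' : P} (H : TF T F h) (h1 : h' ∈ normalizer (T : Set P))
    (h2 : h' ∈ normalizer (F : Set P)) : TF T F h' :=
  ⟨H.le, H.comm, H.sq, H.inv, H.cent, h1, h2⟩

theorem TF.le_norm {T F : Subgroup P} {h : P} (H : TF T F h) : T ≤ normalizer (F : Set P) :=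
  H1.le_normalizer_of_le_centralizer fun t ht => mem_centralizer_iff.2 fun f hf =>
    (H.cent f hf t ht).eq

variable (A : Type*) [CommGroup A] [MulDistribMulAction P A]

/-- The elements inverted by `g`. -/
def negSub (g : P) : Subgroup A where
  carrier := {a | g • a = a⁻¹}
  one_mem' := by simp
  mul_mem' := fun {a b} (ha : g • a = a⁻¹) (hb : g • b = b⁻¹) => by
    change g • (a * b) = (a * b)⁻¹
    rw [smul_mul', ha, hb, mul_inv]
  inv_mem' := fun {a} (ha : g • a = a⁻¹) => by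
    change g • a⁻¹ = a⁻¹⁻¹
    rw [smul_inv', ha]

/-- An involution inverting at most `q ^ 2` elements. -/
def SmallInv (q : ℕ) (z : P) : Prop := z * z = 1 ∧ Nat.card (negSub A z) ≤ q ^ 2

variable {A}

theorem mem_negSub {g : P} {a : A} : a ∈ negSub A g ↔ g • a = a⁻¹ := Iff.rfl

theorem smul_mem_negSub {g z : P} {a : A} : g • a ∈ negSub A (g * z * g⁻¹) ↔ a ∈ negSub A z := by
  rw [mem_negSub, mem_negSub, smul_smul, inv_mul_cancel_right, mul_smul, ← smul_inv',
    smul_left_cancel_iff]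

theorem smul_mem_negSub_of_commute {g z : P} (h : Commute g z) {a : A} (ha : a ∈ negSub A z) :
    g • a ∈ negSub A z := by
  have := smul_mem_negSub (g := g) |>.2 ha
  rwa [h.eq, mul_inv_cancel_right] at this

theorem SmallInv.conj [Finite A] {q : ℕ} {z : P} (h : SmallInv A q z) (g : P) :
    SmallInv A q (g * z * g⁻¹) := by
  refine ⟨?_, le_trans (Nat.card_le_card_of_surjective (fun a : negSub A z =>
    (⟨g • (a : A), smul_mem_negSub.2 a.2⟩ : negSub A (g * z * g⁻¹))) fun b =>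
      ⟨⟨g⁻¹ • (b : A), smul_mem_negSub.1 (by rw [smul_inv_smul]; exact b.2)⟩,
        Subtype.ext (smul_inv_smul _ _)⟩) h.2⟩
  calc g * z * g⁻¹ * (g * z * g⁻¹) = g * (z * z) * g⁻¹ := by group
    _ = 1 := by rw [h.1]; group

/-- `s` acts on `U` as `1` or `-1`. -/
def PM (s : P) (U : Subgroup A) : Prop := (∀ u ∈ U, s • u = u) ∨ ∀ u ∈ U, s • u = u⁻¹

theorem PM.mul {s t : P} {U : Subgroup A} (hs : PM s U) (ht : PM t U) : PM (s * t) U := by
  rcases hs with hs | hs <;> rcases ht with ht | ht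
  · exact Or.inl fun u hu => by rw [mul_smul, ht u hu, hs u hu]
  · exact Or.inr fun u hu => by rw [mul_smul, ht u hu, hs _ (inv_mem hu)]
  · exact Or.inr fun u hu => by rw [mul_smul, ht u hu, hs u hu]
  · exact Or.inl fun u hu => by rw [mul_smul, ht u hu, hs _ (inv_mem hu), inv_inv]

theorem PM.inv {s : P} {U : Subgroup A} (hs : PM s U) : PM s⁻¹ U := by
  rcases hs with hs | hs
  · exact Or.inl fun u hu => by rw [inv_smul_eq_iff, hs u hu]
  · exact Or.inr fun u hu => by rw [inv_smul_eq_iff, hs _ (inv_mem hu), inv_inv]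

theorem PM.conj {s t z : P} (hs : PM s (negSub A (t * z * t⁻¹))) :
    PM (t⁻¹ * s * t) (negSub A z) := by
  rcases hs with hs | hs
  · exact Or.inl fun u hu => by rw [mul_smul, mul_smul, hs _ (smul_mem_negSub.2 hu), inv_smul_smul]
  · exact Or.inr fun u hu => by
      rw [mul_smul, mul_smul, hs _ (smul_mem_negSub.2 hu), ← smul_inv', inv_smul_smul]

theorem PM.sq_smul {s g : P} {U : Subgroup A} (hs : PM s U) (hg : ∀ u ∈ U, g • u ∈ U) {u : A}
    (hu : u ∈ U) : (s * g * (s * g)) • u = (g * g) • u ∧ (g * s * (g * s)) • u = (g * g) • u := by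
  simp only [mul_smul]
  rcases hs with hs | hs
  · rw [hs _ (hg u hu), hs _ (hg _ (hg u hu)), hs u hu, hs _ (hg u hu)]
    exact ⟨rfl, rfl⟩
  · rw [hs _ (hg u hu), smul_inv', hs _ (inv_mem (hg _ (hg u hu))), inv_inv, hs u hu, smul_inv',
      hs _ (inv_mem (hg u hu)), inv_inv]
    exact ⟨rfl, rfl⟩

end

namespace Symp

variable {q : ℕ} {P A C : Type*} [Group P] [CommGroup A] [CommMonoid C]
  [MulDistribMulAction P A] {β : A → A → C} (H : Symp q P β)
include H

theorem sq_pow (a : A) : (a ^ ((q + 1) / 2)) ^ 2 = a := by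
  obtain ⟨m, hm⟩ := H.odd
  rw [← pow_mul, show (q + 1) / 2 * 2 = q + 1 by omega, pow_succ, H.pow, one_mul]

theorem eq_one_of_inv {a : A} (h : a = a⁻¹) : a = 1 := by
  rw [← H.sq_pow a, ← pow_mul, mul_comm, pow_mul, pow_two]
  nth_rw 1 [h]
  rw [inv_mul_cancel, one_pow]

theorem decomp {s : P} {U : Subgroup A} (hU : ∀ u ∈ U, s • u ∈ U)
    (hs : ∀ u ∈ U, (s * s) • u = u) {u : A} (hu : u ∈ U) :
    ∃ c ∈ U, s • c = c ∧ ∃ d ∈ U, d ∈ negSub A s ∧ u = c * d := by
  have hv := pow_mem hu ((q + 1) / 2)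
  have e := hs _ hv
  rw [mul_smul] at e
  refine ⟨_, mul_mem hv (hU _ hv), ?_, _, mul_mem hv (inv_mem (hU _ hv)), ?_, ?_⟩
  · rw [smul_mul', e, mul_comm]
  · rw [mem_negSub, smul_mul', smul_inv', e, mul_inv, inv_inv, mul_comm]
  · rw [mul_mul_mul_comm, mul_inv_cancel, mul_one, ← pow_two, H.sq_pow]

theorem pow_left {a b : A} (h : β a b = 1) (n : ℕ) : β (a ^ n) b = 1 := by
  induction n with
  | zero => rw [pow_zero, H.one]
  | succ n ih => rw [pow_succ, H.mul, ih, h, one_mul]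

theorem mul_right {a b c : A} (h1 : β a b = 1) (h2 : β a c = 1) : β a (b * c) = 1 :=
  H.symm _ _ (by rw [H.mul, H.symm _ _ h1, H.symm _ _ h2, one_mul])

theorem orth {g : P} {u c : A} (hu : u ∈ negSub A g) (hc : g • c = c) : β u c = 1 := by
  have e : β u⁻¹ c = β u c := by rw [← mem_negSub.1 hu, ← H.inv g u c, hc]
  have : β (u ^ 2) c = 1 := by
    rw [pow_two, H.mul]
    nth_rw 1 [← e]
    rw [← H.mul, inv_mul_cancel, H.one]
  have h2 := H.pow_left this ((q + 1) / 2)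
  rwa [← pow_mul, mul_comm, pow_mul, H.sq_pow] at h2

theorem nondeg_neg {z : P} (hz : z * z = 1) {u : A} (hu : u ∈ negSub A z)
    (h : ∀ v ∈ negSub A z, β u v = 1) : u = 1 :=
  H.nondeg u fun b => by
    obtain ⟨c, -, hc, d, -, hd, rfl⟩ := H.decomp (s := z) (U := ⊤) (fun _ _ => trivial)
      (fun u _ => by rw [hz, one_smul]) (mem_top b)
    exact H.mul_right (H.orth hu hc) (h d hd)

theorem eq_of_neg_eq {z z' : P} (hz : z * z = 1) (hz' : z' * z' = 1)
    (h : negSub A z = negSub A z') : z = z' := by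
  refine inv_mul_eq_one.1 (H.faith _ fun b => ?_)
  obtain ⟨c, -, hc, d, -, hd, rfl⟩ := H.decomp (s := z) (U := ⊤) (fun _ _ => trivial)
    (fun u _ => by rw [hz, one_smul]) (mem_top b)
  obtain ⟨c', -, hc', d', -, hd', rfl⟩ := H.decomp (s := z') (U := ⊤) (fun _ _ => trivial)
    (fun u _ => by rw [hz', one_smul]) (mem_top c)
  have : d' = 1 := H.nondeg_neg hz' hd' fun v hv => by
    have e1 := H.symm _ _ (H.orth (h ▸ hv : v ∈ negSub A z) hc)
    rwa [H.mul, H.symm _ _ (H.orth hv hc'), one_mul] at e1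
  rw [this, mul_one] at hc ⊢
  rw [mul_smul, inv_smul_eq_iff, smul_mul', smul_mul', hc, hc', mem_negSub.1 hd,
    mem_negSub.1 (h ▸ hd : d ∈ negSub A z')]

theorem neg_ne_bot {z : P} (hz : z * z = 1) (h1 : z ≠ 1) : negSub A z ≠ ⊥ := fun e =>
  h1 (H.eq_of_neg_eq hz (one_mul 1) (e.trans (eq_bot_iff.2 fun a ha =>
    H.eq_one_of_inv (by simpa [mem_negSub] using ha)).symm))

theorem orth_of_mem_zpowers [Finite A] {u v : A} (hv : v ∈ zpowers u) : β u v = 1 := by
  obtain ⟨n, rfl⟩ := mem_powers_iff_mem_zpowers.2 hv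
  exact H.symm _ _ (H.pow_left (H.self u) n)

variable [Finite A]

theorem card_zpowers {u : A} (hu : u ≠ 1) : Nat.card (zpowers u) = q := by
  haveI := Fact.mk H.hq
  rw [Nat.card_zpowers, orderOf_eq_prime (H.pow u) hu]

theorem mul_card_le {X Y : Subgroup A} (h : X < Y) : q * Nat.card X ≤ Nat.card Y := by
  haveI := Fact.mk H.hq
  have hY : IsPGroup q Y := fun a => ⟨1, Subtype.ext (by simpa using H.pow a)⟩
  obtain ⟨n, hn⟩ := IsPGroup.iff_card.1 hY
  obtain ⟨k, -, hk⟩ := (Nat.dvd_prime_pow H.hq).1 (hn ▸ relIndex_dvd_card X Y)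
  rw [← H1.card_mul_relIndex h.le, mul_comm, hk]
  refine Nat.mul_le_mul_left _ (Nat.le_self_pow ?_ q)
  rintro rfl
  exact h.not_ge (relIndex_eq_one.1 hk)

theorem pm {z s : P} (hz : SmallInv A q z) (hU : ∀ u ∈ negSub A z, s • u ∈ negSub A z)
    (hs : ∀ u ∈ negSub A z, (s * s) • u = u) : PM s (negSub A z) := by
  by_contra hn
  obtain ⟨h1, h2⟩ := not_or.1 hn
  push Not at h1 h2
  obtain ⟨u, hu, h1⟩ := h1
  obtain ⟨v, hv, h2⟩ := h2
  obtain ⟨c, -, hc, d, hd, hd', rfl⟩ := H.decomp hU hs hu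
  obtain ⟨c', hc1, hc', d', -, hd2, rfl⟩ := H.decomp hU hs hv
  have hd1 : d ≠ 1 := by rintro rfl; exact h1 (by rwa [mul_one])
  have hc2 : c' ≠ 1 := by rintro rfl; exact h2 (by rwa [one_mul])
  refine hc2 (H.nondeg_neg hz.1 hc1 fun w hw => ?_)
  obtain ⟨c, hc, hcs, e, -, he, rfl⟩ := H.decomp hU hs hw
  refine H.mul_right (H.orth_of_mem_zpowers ?_) (H.symm _ _ (H.orth he hc'))
  by_contra hn
  have h3 : zpowers c' ⊔ zpowers c ≤
      (MulDistribMulAction.toMonoidHom A s).eqLocus (MonoidHom.id A) :=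
    sup_le (zpowers_le.2 hc') (zpowers_le.2 hcs)
  have h4 := H.mul_card_le (lt_of_le_of_ne (le_sup_left (a := zpowers c') (b := zpowers c))
    fun e => hn (e ▸ mem_sup_right (mem_zpowers c)))
  have h5 := H.mul_card_le (lt_of_le_of_ne (le_sup_left (a := zpowers c' ⊔ zpowers c)
    (b := zpowers d)) fun e => hd1 (H.eq_one_of_inv
      ((h3 (e ▸ mem_sup_right (mem_zpowers d))).symm.trans hd')))
  have h6 := (card_le_of_le (sup_le (sup_le (zpowers_le.2 hc1) (zpowers_le.2 hc))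
    (zpowers_le.2 hd))).trans hz.2
  rw [H.card_zpowers hc2] at h4
  have := H.hq.two_le
  nlinarith

theorem eq_of_neg_le {z z' : P} (hz : z * z = 1) (hz' : SmallInv A q z') (h1 : z ≠ 1)
    (h : negSub A z ≤ negSub A z') : z = z' := by
  refine H.eq_of_neg_eq hz hz'.1 (H1.eq_of_le_of_card_le h (hz'.2.trans ?_))
  obtain ⟨⟨u, hu⟩, hu1⟩ := ne_bot_iff_exists_ne_one.1 (H.neg_ne_bot hz h1)
  replace hu1 : u ≠ 1 := fun e => hu1 (Subtype.ext e)
  have h2 := H.mul_card_le (lt_of_le_of_ne (zpowers_le.2 hu) fun e =>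
    hu1 (H.nondeg_neg hz hu fun v hv => H.orth_of_mem_zpowers (e ▸ hv)))
  rwa [H.card_zpowers hu1, ← pow_two] at h2

theorem pm_of_commute {z s : P} (hz : SmallInv A q z) (hc : Commute s z) (hs : s * s = 1) :
    PM s (negSub A z) :=
  H.pm hz (fun _ => smul_mem_negSub_of_commute hc) fun u _ => by rw [hs, one_smul]

theorem fix_of_commute {z z' : P} (hz : SmallInv A q z) (hz' : SmallInv A q z') (h1 : z ≠ 1)
    (hne : z ≠ z') (hc : Commute z' z) : ∀ u ∈ negSub A z, z' • u = u :=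
  (H.pm_of_commute hz hc hz'.1).resolve_right fun h => hne (H.eq_of_neg_le hz.1 hz' h1 h)

/-- Two conjugates commuting with `z` coincide. -/
theorem conj_eq {z t z' : P} (hz : SmallInv A q z) (hz' : SmallInv A q z')
    (h1 : z ≠ t * z * t⁻¹) (h2 : Commute (t * z * t⁻¹) z) (h3 : z ≠ z') (h4 : Commute z' z)
    (h5 : Commute t (z * z')) : t * z * t⁻¹ = z' := by
  have hz1 : z ≠ 1 := by rintro rfl; simp at h1
  have hz2 : t * z * t⁻¹ ≠ 1 := by simpa using hz1
  refine H.eq_of_neg_le (hz.conj t).1 hz' hz2 fun u hu => ?_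
  have e1 := H.fix_of_commute (hz.conj t) hz hz2 h1.symm h2.symm u hu
  have e2 : t⁻¹ • u ∈ negSub A z := smul_mem_negSub.1 (by rwa [smul_inv_smul])
  have e3 : t⁻¹ • u ∈ negSub A (z * z') := by
    rw [mem_negSub, mul_smul, H.fix_of_commute hz hz' hz1 h3 h4 _ e2]
    exact e2
  have e4 := smul_mem_negSub_of_commute h5 e3
  rw [smul_inv_smul, mem_negSub, h4.symm.eq, mul_smul, e1] at e4
  exact e4

variable {h : P} (hz : SmallInv A q (h * h))
include hz

theorem false_of_pm {s : P} (h1 : h * h ≠ 1) (hs : PM s (negSub A (h * h)))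
    (e : s * h * (s * h) = 1) : False := by
  refine H.neg_ne_bot hz.1 h1 (eq_bot_iff.2 fun u hu => H.eq_one_of_inv ?_)
  have := (hs.sq_smul (fun _ => smul_mem_negSub_of_commute ((Commute.refl h).mul_right
    (Commute.refl h))) hu).1
  rwa [e, one_smul, mem_negSub.1 hu] at this

theorem pm_conj {t : P} (h1 : h * h ≠ t * (h * h) * t⁻¹) (h2 : Commute (t * (h * h) * t⁻¹) (h * h))
    (h3 : Commute h (t * (h * h) * t⁻¹)) : PM h (negSub A (t * (h * h) * t⁻¹)) :=
  H.pm (hz.conj t) (fun _ => smul_mem_negSub_of_commute h3)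
    (H.fix_of_commute (hz.conj t) hz (by rintro e; apply h1; simp_all) h1.symm h2.symm)

theorem commute_conj {t : P} (h1 : h * h ≠ t * (h * h) * t⁻¹)
    (h2 : Commute (t * (h * h) * t⁻¹) (h * h))
    (h3 : Commute t (h * (h * h * (t * (h * h) * t⁻¹)) * h⁻¹)) :
    Commute h (t * (h * h) * t⁻¹) := by
  have := H.conj_eq hz ((hz.conj t).conj h) h1 h2 (fun e => h1 (by
    calc h * h = h⁻¹ * (h * h) * h := by group
      _ = _ := by nth_rw 1 [e]; group)) (by
    have := h2.conj h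
    rwa [show h * (h * h) * h⁻¹ = h * h by group] at this) (by
    rwa [show h * h * (h * (t * (h * h) * t⁻¹) * h⁻¹) =
      h * (h * h * (t * (h * h) * t⁻¹)) * h⁻¹ by group])
  exact (mul_inv_eq_iff_eq_mul.1 this.symm)

theorem commute_of_invol {a : P} (ha : a * a = 1) (h1 : Commute a (h * a * h⁻¹))
    (h2 : Commute a (h * h * a * (h * h)⁻¹)) : Commute a (h * h) := by
  by_contra hn
  have hai : a⁻¹ = a := inv_eq_of_mul_eq_one_right ha
  have hzi : (h * h)⁻¹ = h * h := inv_eq_of_mul_eq_one_right hz.1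
  have h3 : Commute a (h⁻¹ * a * h) := by
    have := (h1.conj h⁻¹).symm
    rwa [inv_inv, show h⁻¹ * (h * a * h⁻¹) * h = a by group] at this
  have c1 : h * h ≠ a * (h * h) * a⁻¹ := fun e => hn (mul_inv_eq_iff_eq_mul.1 e.symm)
  have c2 : Commute (a * (h * h) * a⁻¹) (h * h) := by
    have := h2.eq
    rw [hzi] at this
    rw [hai]
    calc a * (h * h) * a * (h * h) = a * (h * h * a * (h * h)) := by group
      _ = h * h * (a * (h * h) * a) := by rw [this]; group
  have c3 := H.commute_conj hz c1 c2 (by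
    have e : h * (h * h * (a * (h * h) * a⁻¹)) * h⁻¹ =
        (h * h * (h * h)) * (h⁻¹ * a * h) * (h * h * (h * h))⁻¹ * (h * h * (h * h)) *
          (h * a * h⁻¹)⁻¹ := by
      simp only [mul_assoc, mul_inv_rev, inv_mul_cancel_left, mul_inv_cancel_left, inv_inv]
    rw [e, hz.1, one_mul, inv_one, mul_one, mul_one]
    exact h3.mul_right h1.inv_right)
  refine H.false_of_pm hz (fun e => c1 (by simp [e])) (H.pm_conj hz c1 c2 c3).inv.conj ?_
  calc a⁻¹ * h⁻¹ * a * h * (a⁻¹ * h⁻¹ * a * h)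
      = a⁻¹ * ((h⁻¹ * a * h) * a⁻¹) * (h⁻¹ * a * h) := by group
    _ = (a * a)⁻¹ * (h⁻¹ * (a * a) * h) := by rw [← h3.inv_left.eq]; group
    _ = 1 := by rw [ha]; group

variable {T F : Subgroup P} (hT : TF T F h)
include hT

theorem commute_F {f : P} (hf : f ∈ F) : Commute f (h * h) :=
  H.commute_of_invol hz (hT.inv f hf)
    (hT.cent f hf _ (hT.le ((mem_normalizer_iff.1 hT.nF f).1 hf)))
    (hT.cent f hf _ (hT.le ((mem_normalizer_iff.1 (mul_mem hT.nF hT.nF) f).1 hf)))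

theorem commute_T_conj {t : P} (ht : t ∈ T) : Commute (t * (h * h) * t⁻¹) (h * h) := by
  by_contra hn
  have hzi : (h * h)⁻¹ = h * h := inv_eq_of_mul_eq_one_right hz.1
  have hz1 : h * h ≠ 1 := fun e => hn (e ▸ Commute.one_right _)
  have cT : ∀ {s}, s ∈ T → h * h * s * (h * h)⁻¹ ∈ T := fun hs =>
    (mem_normalizer_iff.1 (mul_mem hT.nT hT.nT) _).1 hs
  have cT' : ∀ {s}, s ∈ T → h⁻¹ * s * h ∈ T := fun hs =>
    (mem_normalizer_iff''.1 hT.nT _).1 hs
  obtain ⟨b, hb⟩ : ∃ b, b = t * (h * h * t * (h * h)⁻¹)⁻¹ := ⟨_, rfl⟩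
  have hbT : b ∈ T := hb ▸ mul_mem ht (inv_mem (cT ht))
  have hb' : b = t * (h * h) * t⁻¹ * (h * h) := by
    rw [hb, mul_inv_rev, mul_inv_rev (h * h), inv_inv, hzi]; simp only [mul_assoc]
  have hti : (t * (h * h) * t⁻¹)⁻¹ = t * (h * h) * t⁻¹ := by
    rw [← hzi, hzi, mul_inv_rev, mul_inv_rev t, inv_inv, hzi, mul_assoc t]
  have e1 : b * (h * h) * b⁻¹ = b * b * (h * h) := by
    have : h * h * b⁻¹ = b * (h * h) := by
      rw [hb', mul_inv_rev, hzi, hti, ← mul_assoc, hz.1, one_mul, mul_assoc _ (h * h) (h * h),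
        hz.1, mul_one]
    rw [mul_assoc b, this, mul_assoc b b]
  have hbb := H.commute_F hz hT (hT.sq b hbT)
  have c1 : h * h ≠ b * (h * h) * b⁻¹ := fun e => hn (by
    rw [e1] at e
    have e2 : b = b⁻¹ := eq_inv_of_mul_eq_one_right (right_eq_mul.1 e)
    rwa [hb', mul_inv_rev, hzi, hti] at e2)
  have c2 : Commute (b * (h * h) * b⁻¹) (h * h) := e1 ▸ hbb.mul_left (Commute.refl _)
  have c3 := H.commute_conj hz c1 c2 (by
    rw [e1, hbb.eq, ← mul_assoc (h * h), hz.1, one_mul]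
    exact (hT.cent _ ((mem_normalizer_iff.1 hT.nF _).1 (hT.sq b hbT)) b hbT).symm)
  have p1 := (H.pm_conj hz c1 c2 c3).inv.conj
  have hζ := hT.comm _ (inv_mem (cT ht)) _ (mul_mem (inv_mem hbT) (cT' hbT))
  have p2 := H.pm_of_commute hz (H.commute_F hz hT hζ) (hT.inv _ hζ)
  have p3 : PM (h * h) (negSub A (h * h)) := Or.inr fun _ hu => hu
  refine H.false_of_pm hz hz1 ((p2.mul p1).mul p3) ?_
  have e : ⁅(h * h * t * (h * h)⁻¹)⁻¹, b⁻¹ * (h⁻¹ * b * h)⁆ * (b⁻¹ * h⁻¹ * b) * (h * h) * h =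
      t⁻¹ * (h⁻¹ * t * h) * (h * h) * (t⁻¹ * (h⁻¹ * t * h))⁻¹ := by
    rw [hb]
    simp only [commutatorElement_def, mul_assoc, mul_inv_rev, inv_mul_cancel_left,
      mul_inv_cancel_left, inv_inv, inv_mul_cancel, mul_one]
  rw [e]
  exact (hz.conj _).1

variable {k : P} (hk : k ∈ T) (hz' : SmallInv A q (k * h * (k * h)))
include hk hz'

theorem commute_sq : Commute (h * h) (k * h * (k * h)) :=
  H.commute_of_invol hz' hz.1
    (by
      rw [show k * h * (h * h) * (k * h)⁻¹ = k * (h * h) * k⁻¹ by group]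
      exact (H.commute_T_conj hz hT hk).symm)
    (by
      rw [show k * h * (k * h) * (h * h) * (k * h * (k * h))⁻¹ =
        k * (h * k * h⁻¹) * (h * h) * (k * (h * k * h⁻¹))⁻¹ by group]
      exact (H.commute_T_conj hz hT (mul_mem hk ((mem_normalizer_iff.1 hT.nT k).1 hk))).symm)

theorem commute_k : Commute k (h * h) := by
  by_contra hn
  have hzi : (h * h)⁻¹ = h * h := inv_eq_of_mul_eq_one_right hz.1
  have hz1 : h * h ≠ 1 := fun e => hn (e ▸ Commute.one_right _)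
  have c0 := H.commute_sq hz hT hk hz'
  have c1 : h * h ≠ k * (h * h) * k⁻¹ := fun e => hn (mul_inv_eq_iff_eq_mul.1 e.symm)
  have c2 := H.commute_T_conj hz hT hk
  have hkk := H.commute_F hz hT (hT.sq k hk)
  have hne : h * h ≠ k * h * (k * h) := fun e => hn (by
    have e2 : h * k * h⁻¹ = k⁻¹ := by
      calc h * k * h⁻¹ = k⁻¹ * (k * h * (k * h)) * (h * h)⁻¹ := by group
        _ = k⁻¹ := by rw [← e]; group
    calc k * (h * h) = (h * k * h⁻¹)⁻¹ * (h * h) := by rw [e2, inv_inv]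
      _ = h * k⁻¹ * h := by group
      _ = h * h * k := by rw [← e2]; group)
  have p1 : PM (k * h * (k * h)) (negSub A (h * h)) :=
    Or.inl (H.fix_of_commute hz hz' hz1 hne c0.symm)
  have c3 := H.commute_conj hz c1 c2 (by
    have e1 : Commute k (h * h * k * (h * h)) := by
      have e2 : k * (h * h) * k⁻¹ * (k * k) * (h * h) = h * h * (k * (h * h) * k⁻¹ * (k * k)) := by
        rw [mul_assoc _ (k * k), hkk.eq, ← mul_assoc _ (h * h), c2.eq, mul_assoc (h * h)]
      calc k * (h * h * k * (h * h)) = k * (h * h) * k⁻¹ * (k * k) * (h * h) := by group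
        _ = h * h * k * (h * h) * k := by rw [e2]; group
    have e2 : h * (h * h * (k * (h * h) * k⁻¹)) * h⁻¹ = (h * h * k * (h * h))⁻¹ * k := by
      calc h * (h * h * (k * (h * h) * k⁻¹)) * h⁻¹
          = h * h * k⁻¹ * (k * h * (k * h) * (h * h)) * (k * h * (k * h))⁻¹ * k := by group
        _ = _ := by
          rw [← c0.eq, mul_inv_rev _ (h * h), mul_inv_rev (h * h) k, hzi]; group
    rw [e2]
    exact e1.inv_right.mul_right (Commute.refl k))
  have p2 := H.pm_conj hz c1 c2 c3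
  rw [show k * (h * h) * k⁻¹ = k * h * (h * h) * (k * h)⁻¹ by group] at p2
  have e : h⁻¹ * h⁻¹ = h * h := by rw [← mul_inv_rev, hzi]
  refine H.false_of_pm (h := h⁻¹) (e ▸ hz) (e ▸ hz1) (e ▸ p1.mul p2.inv.conj) ?_
  rw [show k * h * (k * h) * ((k * h)⁻¹ * h⁻¹ * (k * h)) * h⁻¹ = k * k by group]
  exact hT.inv _ (hT.sq k hk)

theorem eq_of_fix (h1 : h * h ≠ 1) (hkk : ∀ u ∈ negSub A (h * h), (k * k) • u = u) :
    h * h = k * h * (k * h) :=
  H.eq_of_neg_le hz.1 hz' h1 fun u hu => by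
    rw [mem_negSub, ((H.pm hz (fun _ => smul_mem_negSub_of_commute (H.commute_k hz hT hk hz'))
      hkk).sq_smul (fun _ => smul_mem_negSub_of_commute ((Commute.refl h).mul_right
        (Commute.refl h))) hu).1]
    exact hu

theorem mul_inv_mem {t : P} (ht : ⁅t, h * h⁆ ∈ F) (ht' : t ∈ T) (h1 : ⁅t, h * h⁆ ≠ 1) :
    k * h * (k * h) * (h * h)⁻¹ ∈ F := by
  have hz1 : h * h ≠ 1 := fun e => h1 (by simp [e])
  have ck := H.commute_k hz hT hk hz'
  rcases H.pm_of_commute hz (H.commute_F hz hT (hT.sq k hk)) (hT.inv _ (hT.sq k hk)) with p | p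
  · rw [← H.eq_of_fix hz hT hk hz' hz1 p, mul_inv_cancel]
    exact one_mem _
  have e : t * (h * h) * t⁻¹ = ⁅t, h * h⁆ * (h * h) := by
    rw [commutatorElement_def, inv_mul_cancel_right]
  have cc := H.commute_F hz hT ht
  have c1 : h * h ≠ t * (h * h) * t⁻¹ := fun e' => h1 (right_eq_mul.1 (e'.trans e))
  have c2 := H.commute_T_conj hz hT ht'
  have c3 := H.commute_conj hz c1 c2 (by
    rw [e, cc.eq, ← mul_assoc (h * h), hz.1, one_mul]
    exact (hT.cent _ ((mem_normalizer_iff.1 hT.nF _).1 ht) t ht').symm)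
  have c4 : Commute k (t * (h * h) * t⁻¹) := e ▸ (hT.cent _ ht k hk).symm.mul_right ck
  rw [← H.eq_of_neg_le (hz.conj t).1 hz' (by simpa using hz1) fun u hu => ?_]
  · exact ht
  rw [mem_negSub, ((H.pm_conj hz c1 c2 c3).sq_smul (fun _ => smul_mem_negSub_of_commute c4) hu).2]
  have h2 := p (t⁻¹ • u) (smul_mem_negSub.1 (by rwa [smul_inv_smul]))
  rwa [smul_smul, (hT.cent _ (hT.sq k hk) _ (inv_mem ht')).eq, mul_smul, ← smul_inv',
    smul_left_cancel_iff] at h2

end Symp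

end Cfsg.Agent.H6
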