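/-
The exceptional case of Hall–Higman's Theorem B in characteristic two.
-/
import Cfsg.Agent.H1.HHExc
import Cfsg.Agent.H6.TwoLen1

set_option autoImplicit false

open Module Subgroup
open scoped commutatorElement

namespace Cfsg.Agent.H6

open H1

universe u

variable {G : Type u} [Group G] {k V : Type*} [Field k] [AddCommGroup V] [Module k V]

theorem relIndex_commutator_exc [IsAlgClosed k] [FiniteDimensional k V] [Finite G] {p q : ℕ}
    (hp : p.Prime) (hq : q.Prime) (hqp : q ≠ p) [CharP k p] (ρ : G →* End k V) {R : Subgroup G}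
    (hR : IsPGroup q R) (hc : ⁅R, R⁆ ≤ centralizer (R : Set G)) {g : G}
    (hg : g ∈ normalizer (R : Set G)) {m : ℕ} (hg1 : g ^ p ^ (m + 1) = 1)
    (hz : ⁅R, R⁆ ≤ centralizer (zpowers (g ^ p ^ m) : Set G)) {U : Submodule k V}
    (hRU : ∀ x ∈ R, ∀ u ∈ U, ρ x u ∈ U) (hgU : ∀ u ∈ U, ρ g u ∈ U)
    (hsc : ∀ t ∈ ⁅R, R⁆, ∃ c : k, ∀ u ∈ U, ρ t u = c • u)
    (hr : ∀ u ∈ U, ((ρ g - 1) ^ (p ^ (m + 1) - 1)) u = 0) {D : Subgroup G}
    (hD : ∀ r ∈ R, (∀ s ∈ R, ∀ u ∈ U, ρ ⁅r, s⁆ u = u) → r ∈ D) :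
    ⁅R, zpowers (g ^ p ^ m)⁆ ≤ D ∨ ∃ n e, 1 ≤ n ∧ n ≤ m + 1 ∧ 1 ≤ e ∧ p ^ n = q ^ e + 1 ∧
      D.relIndex ⁅R, zpowers (g ^ p ^ m)⁆ ≤ q ^ (2 * e) := by
  have := Fact.mk hq
  set z := g ^ p ^ m with hzdef
  set S := ⁅R, zpowers z⁆ with hS
  have hzR : zpowers z ≤ normalizer (R : Set G) := zpowers_le.mpr (pow_mem hg _)
  have hSR : S ≤ R := commutator_le_of_le_normalizer hzR
  have hcop : (orderOf z).Coprime q := orderOf_coprime_of_pow_eq_one (p := p) (m := 1)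
    (by rw [hzdef, ← pow_mul, ← pow_add, hg1]) ((Nat.coprime_primes hq hp).mpr hqp)
  have hcop' : (Nat.card (zpowers z)).Coprime (Nat.card R) := by
    rw [Nat.card_zpowers]; exact coprime_card_of_isPGroup hR hcop
  have hgS : g ∈ normalizer (S : Set G) := zpowers_le.mp (le_normalizer_commutator
    (zpowers_le.mpr hg) (le_normalizer_of_le_centralizer (zpowers_le.mpr (by
      rw [centralizer_zpowers', mem_centralizer_singleton_iff]
      exact (Commute.self_pow g _).eq))))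
  have hSq : IsPGroup q S := hR.to_le hSR
  have hqk : (q : k) ≠ 0 := cast_ne_zero_of_prime_ne hp hq hqp
  let σ : S →* End k U := restrictRep (ρ.comp S.subtype) U fun x => hRU x (hSR x.2)
  have hpos : 0 < p ^ (m + 1) := pow_pos hp.pos _
  by_cases hnt : ∃ x ∈ (⊤ : Subgroup S), σ x ≠ 1
  swap
  · push Not at hnt
    refine Or.inl fun r hr' => hD r (hSR hr') fun s hs u hu => ?_
    have h1 : ∀ x ∈ S, ∀ u ∈ U, ρ x u = u := fun x hx u hu =>
      congrArg Subtype.val (LinearMap.congr_fun (hnt ⟨x, hx⟩ trivial) ⟨u, hu⟩)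
    rw [commutatorElement_def, map_mul, map_mul, map_mul, End.mul_apply, End.mul_apply,
      End.mul_apply, h1 _ (inv_mem hr') _ (hRU _ (inv_mem hs) u hu), ← End.mul_apply (ρ s),
      rep_mul_inv, End.one_apply, h1 _ hr' _ hu]
  have hcov : ∀ x, (ρ g).restrict hgU * σ x = σ (conjAutOf hgS x) * (ρ g).restrict hgU := by
    intro x
    ext u
    exact LinearMap.congr_fun (cov_conjAutOf ρ hgS x) u
  obtain ⟨W, h1, h2, h3, h4⟩ := exists_nofix_subspace σ ⊤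
    (by rw [card_top]; exact cast_card_ne_zero_of_isPGroup hq hSq hqk) hnt
  obtain ⟨-, n, e, b1, b2, b3, b4, -, Z, hZ, U', -, hU'0, hU', hZU⟩ := hhb_core hp hq hSq hqk
    (commute_commutator_of_le_centralizer ((commutator_mono hSR hSR).trans
      (hc.trans (centralizer_le hSR)))) hcov (conjAutOf_pow_eq_one hgS (hg1 ▸ one_mem _))
    (fpf_of_commutator_eq hgS (coprime_card_of_isPGroup hSq hcop)
      (commutator_commutator_eq hzR hcop')) h1 h2 (h4 _ _ hcov (by simp))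
    (fun v hv h => h3 v hv fun x _ => h x) (r := p ^ (m + 1) - 1) (by
      ext u
      rw [coe_restrict_sub_one_pow, hr u u.2]; rfl) (by omega)
  have hZD : Z ≤ D.subgroupOf S := by
    intro r hr'
    refine hD r (hSR r.2) fun s hs u hu => ?_
    obtain ⟨s₁, hs₁, s₂, hs₂, rfl⟩ := exists_commutator_mul_centralizer hzR hcop'
      (Or.inl (isSolvable_of_isMulCommutative inferInstance)) hs
    have e1 : ⁅(r : G), s₂⁆ = 1 := mem_bot.mp (commutator_commutator_centralizer_eq_bot hz ▸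
      commutator_mem_commutator r.2 hs₂)
    have e2 : ⁅(r : G), s₁ * s₂⁆ = ⁅(r : G), s₁⁆ := by
      calc ⁅(r : G), s₁ * s₂⁆ = ⁅(r : G), s₁⁆ * (s₁ * ⁅(r : G), s₂⁆ * s₁⁻¹) := by
            simp only [commutatorElement_def]; group
        _ = _ := by rw [e1]; group
    obtain ⟨c, hc'⟩ := hsc _ (commutator_mem_commutator (hSR r.2) (hSR hs₁))
    obtain ⟨u', hu', hu'0⟩ := (Submodule.ne_bot_iff _).mp hU'0
    obtain ⟨d, hd⟩ := (hZU r).mp hr'
    have e3 : σ ⁅r, ⟨s₁, hs₁⟩⁆ u' = u' := by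
      rw [commutatorElement_def, map_mul, map_mul, map_mul, End.mul_apply, End.mul_apply,
        End.mul_apply, hd _ (hU' _ _ (hU' _ _ (hU' _ _ hu'))), ← map_smul,
        ← hd _ (hU' _ _ (hU' _ _ hu')), ← End.mul_apply (σ r), rep_mul_inv, End.one_apply,
        ← End.mul_apply, rep_mul_inv, End.one_apply]
    have e4 : c • (u' : V) = u' := (hc' u' u'.2).symm.trans (congrArg Subtype.val e3)
    have e5 : c = 1 := by
      by_contra h
      refine hu'0 (Subtype.ext ?_)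
      rw [← sub_eq_zero, ← one_smul k (u' : V), smul_smul, mul_one, ← sub_smul] at e4
      simpa [sub_ne_zero.mpr h] using e4
    rw [e2, hc' u hu, e5, one_smul]
  exact Or.inr ⟨n, e, b1, b2, b3, b4, hZ ▸ Nat.le_of_dvd
    (Nat.pos_of_ne_zero index_ne_zero_of_finite) (index_dvd_of_le hZD)⟩

open scoped IsMulCommutative in
/-- The symplectic section of a class two group defined by a linear character of its derived
subgroup. -/
theorem exists_symp_of_char [Finite G] {C : Type*} [CommMonoid C] {q : ℕ} (hq : q.Prime)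
    (hodd : Odd q) {R Y : Subgroup G} (hc : ⁅R, R⁆ ≤ centralizer (R : Set G))
    (hexp : ∀ x ∈ R, ∀ y ∈ R, ⁅x, y⁆ ^ q = 1) (hYR : Y ≤ normalizer (R : Set G)) (χ : G → C)
    (h1 : χ 1 = 1) (hχ : ∀ a ∈ ⁅R, R⁆, ∀ b ∈ ⁅R, R⁆, χ (a * b) = χ a * χ b)
    (hinv : ∀ y ∈ Y, ∀ a ∈ ⁅R, R⁆, χ (y * a * y⁻¹) = χ a) :
    ∃ (A : Type u) (_ : CommGroup A) (_ : Finite A) (P : Type u) (_ : Group P)
      (_ : MulDistribMulAction P A) (β : A → A → C) (ψ : Y →* P) (D : Subgroup G), Symp q P β ∧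
      (∀ r ∈ R, (∀ s ∈ R, χ ⁅r, s⁆ = 1) → r ∈ D) ∧
      (∀ y : Y, ψ y = 1 → ∀ r ∈ R, ∀ s ∈ R, χ ⁅⁅(y : G), r⁆, s⁆ = 1) ∧
      (∀ y : Y, ⁅R, zpowers (y : G)⁆ ≤ D → ψ y = 1) ∧
      ∀ y : Y, Nat.card (negSub A (ψ y)) ≤ D.relIndex ⁅R, zpowers (y : G)⁆ := by
  have hmul : ∀ a ∈ R, ∀ a' ∈ R, ∀ b ∈ R, χ ⁅a * a', b⁆ = χ ⁅a, b⁆ * χ ⁅a', b⁆ :=
    fun a ha a' ha' b hb => by
      rw [commutatorElement_mul_left_of_central (mem_centralizer_iff.mp
        (hc (commutator_mem_commutator ha' hb)) a ha), hχ _ (commutator_mem_commutator ha' hb) _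
        (commutator_mem_commutator ha hb), mul_comm]
  have hsym : ∀ a ∈ R, ∀ b ∈ R, χ ⁅a, b⁆ * χ ⁅b, a⁆ = 1 := fun a ha b hb => by
    rw [← hχ _ (commutator_mem_commutator ha hb) _ (commutator_mem_commutator hb ha),
      ← commutatorElement_inv a, mul_inv_cancel, h1]
  have hsym' : ∀ a ∈ R, ∀ b ∈ R, χ ⁅a, b⁆ = 1 → χ ⁅b, a⁆ = 1 := fun a ha b hb h => by
    rw [← hsym a ha b hb, h, one_mul]
  let D : Subgroup G :=
    { carrier := {a | a ∈ R ∧ ∀ b ∈ R, χ ⁅a, b⁆ = 1}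
      one_mem' := ⟨one_mem _, by simp [h1]⟩
      mul_mem' := fun {a a'} ha ha' => ⟨mul_mem ha.1 ha'.1, fun b hb => by
        rw [hmul a ha.1 a' ha'.1 b hb, ha.2 b hb, ha'.2 b hb, one_mul]⟩
      inv_mem' := fun {a} ha => ⟨inv_mem ha.1, fun b hb => by
        have := hmul a ha.1 _ (inv_mem ha.1) b hb
        rw [mul_inv_cancel, commutatorElement_one_left, h1, ha.2 b hb, one_mul] at this
        exact this.symm⟩ }
  have hZD : ⁅R, R⁆ ≤ D := fun a ha => ⟨commutator_le_self _ ha, fun b hb => by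
    rw [commutatorElement_eq_one_iff_mul_comm.mpr (mem_centralizer_iff.mp (hc ha) b hb).symm, h1]⟩
  have hD' : _root_.commutator R ≤ D.subgroupOf R := by
    rw [subgroupOf, ← map_le_iff_le_comap, map_subtype_commutator]; exact hZD
  have : (D.subgroupOf R).Normal := Normal.of_commutator_le _ hD'
  have : IsMulCommutative (R ⧸ D.subgroupOf R) :=
    Normal.quotient_commutative_iff_commutator_le.mpr hD'
  have hYD : ∀ a : Y, ∀ x ∈ D.subgroupOf R, conjAut hYR a x ∈ D.subgroupOf R := by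
    rintro ⟨g, hg⟩ ⟨a, haR⟩ ⟨-, ha : ∀ b ∈ R, χ ⁅a, b⁆ = 1⟩
    refine ⟨Subtype.property _, fun b hb => ?_⟩
    have e : ⁅g * a * g⁻¹, b⁆ = g * ⁅(a : G), g⁻¹ * b * g⁆ * g⁻¹ := by
      simp only [commutatorElement_def]; group
    change χ ⁅g * a * g⁻¹, b⁆ = 1
    have hb' := conj_mem_of_le_normalizer' hYR hg hb
    rw [e, hinv g hg _ (commutator_mem_commutator haR hb'), ha _ hb']
  let ψ := quotAct (conjAut hYR) _ hYD
  let β : R ⧸ D.subgroupOf R → R ⧸ D.subgroupOf R → C := fun x y =>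
    Quotient.liftOn₂' x y (fun a b => χ ⁅(a : G), (b : G)⁆) fun a b a' b' ha hb => by
      rw [QuotientGroup.leftRel_apply] at ha hb
      change (a : G)⁻¹ * a' ∈ D at ha
      change (b : G)⁻¹ * b' ∈ D at hb
      have e1 : χ ⁅(a' : G), (b' : G)⁆ = χ ⁅(a : G), (b' : G)⁆ := by
        rw [← mul_inv_cancel_left (a : G) a', hmul _ a.2 _ ha.1 _ b'.2, ha.2 _ b'.2, mul_one]
      have e2 : χ ⁅(b' : G), (a : G)⁆ = χ ⁅(b : G), (a : G)⁆ := by
        rw [← mul_inv_cancel_left (b : G) b', hmul _ b.2 _ hb.1 _ a.2, hb.2 _ a.2, mul_one]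
      rw [e1, ← mul_one (χ ⁅(a : G), (b : G)⁆), ← hsym _ b'.2 _ a.2, e2, ← mul_assoc,
        hsym _ a.2 _ b.2, one_mul]
  have hβ : ∀ a b : R, β a b = χ ⁅(a : G), (b : G)⁆ := fun _ _ => rfl
  have H : Symp q ψ.range β := by
    refine ⟨hq, hodd, fun a => ?_, fun a a' b => ?_, fun b => ?_, fun a => ?_, fun a b => ?_,
      fun a h => ?_, ?_, fun g h => Subtype.ext (MulEquiv.ext h)⟩
    · obtain ⟨a, rfl⟩ := QuotientGroup.mk_surjective a
      rw [← QuotientGroup.mk_pow, QuotientGroup.eq_one_iff]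
      refine ⟨(a ^ q).2, fun b hb => ?_⟩
      change χ ⁅(a : G) ^ q, b⁆ = 1
      rw [commutatorElement_pow_left_of_central (mem_centralizer_iff.mp
        (hc (commutator_mem_commutator a.2 hb)) a a.2), hexp _ a.2 _ hb, h1]
    · obtain ⟨a, rfl⟩ := QuotientGroup.mk_surjective a
      obtain ⟨a', rfl⟩ := QuotientGroup.mk_surjective a'
      obtain ⟨b, rfl⟩ := QuotientGroup.mk_surjective b
      exact hmul _ a.2 _ a'.2 _ b.2
    · obtain ⟨b, rfl⟩ := QuotientGroup.mk_surjective b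
      change χ ⁅(1 : G), (b : G)⁆ = 1
      rw [commutatorElement_one_left, h1]
    · obtain ⟨a, rfl⟩ := QuotientGroup.mk_surjective a
      rw [hβ, commutatorElement_self, h1]
    · obtain ⟨a, rfl⟩ := QuotientGroup.mk_surjective a
      obtain ⟨b, rfl⟩ := QuotientGroup.mk_surjective b
      exact hsym' _ a.2 _ b.2
    · obtain ⟨a, rfl⟩ := QuotientGroup.mk_surjective a
      exact (QuotientGroup.eq_one_iff _).2 ⟨a.2, fun b hb => h (QuotientGroup.mk ⟨b, hb⟩)⟩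
    · rintro ⟨_, g, rfl⟩ a b
      obtain ⟨a, rfl⟩ := QuotientGroup.mk_surjective a
      obtain ⟨b, rfl⟩ := QuotientGroup.mk_surjective b
      change χ ⁅(g : G) * a * (g : G)⁻¹, (g : G) * b * (g : G)⁻¹⁆ = χ ⁅(a : G), (b : G)⁆
      rw [← conjugate_commutatorElement, hinv g g.2 _ (commutator_mem_commutator a.2 b.2)]
  refine ⟨R ⧸ D.subgroupOf R, inferInstance, inferInstance, ψ.range, inferInstance, inferInstance,
    β, ψ.rangeRestrict, D, H, fun r hr h => ⟨hr, h⟩, fun y hy r hr s hs => ?_, fun y hy => ?_,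
    fun y => le_trans (card_le_of_le fun a ha => ?_) (card_range_commEnd_quotAct_le hYR hYD y)⟩
  · exact (((quotAct_eq_one_iff _ _ _ y).1 (congrArg Subtype.val hy)) ⟨r, hr⟩).2 s hs
  · refine Subtype.ext ((quotAct_eq_one_iff _ _ _ y).2 fun x => hy ?_)
    rw [commutator_comm]
    exact commutator_mem_commutator (mem_zpowers _) x.2
  · refine ⟨(a ^ ((q + 1) / 2))⁻¹, ?_⟩
    have e : ψ y (a ^ ((q + 1) / 2))⁻¹ = (a ^ ((q + 1) / 2))⁻¹⁻¹ :=
      inv_mem (pow_mem ha ((q + 1) / 2))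
    refine (commEnd_apply (ψ y) _).trans ?_
    rw [e, inv_inv, ← pow_two, H.sq_pow]

variable [IsAlgClosed k] [FiniteDimensional k V] [Finite G] [CharP k 2] (ρ : G →* End k V)
  (hρ : ∀ g, ρ g = 1 → g = 1) {q : ℕ} (hq : q.Prime) (hq2 : q ≠ 2) {P R : Subgroup G}
  (hP : IsPGroup 2 P) (hR : IsPGroup q R) (hPR : P ≤ normalizer (R : Set G))
  (hc : ⁅R, R⁆ ≤ centralizer (R : Set G)) (hexp : ∀ x ∈ R, ∀ y ∈ R, ⁅x, y⁆ ^ q = 1) {m : ℕ}
  (hr : ∀ x ∈ P, (ρ x - 1) ^ (2 ^ (m + 1 + 1) - 1) = 0)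
include hρ hq hq2 hR hPR hr

omit [IsAlgClosed k] in
theorem pow_mem_centralizer_center {x : G} (hx : x ∈ P) :
    x ^ 2 ^ (m + 1) ∈ centralizer ((R ⊓ centralizer (R : Set G) : Subgroup G) : Set G) := by
  have := Fact.mk hq
  by_contra h
  rw [mem_centralizer_iff] at h
  push Not at h
  obtain ⟨t, ht, h⟩ := h
  obtain ⟨_, -, -, ⟨S, hS, -, hS'⟩, -⟩ := hall_higman_B Nat.prime_two ρ
    (coprime_card_of_isPGroup (hR.to_le inf_le_left)
      ((Nat.coprime_primes Nat.prime_two hq).2 hq2.symm)).symm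
    (le_normalizer_inf hPR (le_normalizer_centralizer hPR) hx) (m := m + 1)
    ⟨t, ht, fun h1 => h (commutatorElement_eq_one_iff_mul_comm.mp (hρ _ h1))⟩ (hr x hx)
    (Nat.sub_lt (by positivity) one_pos)
  exact hS' (le_centralizer_iff_isMulCommutative.mp
    (hS.trans (inf_le_right.trans (centralizer_le (hS.trans inf_le_left)))))

include hP hc hexp

open scoped IsMulCommutative in
theorem exists_symp {d : G} (hd : d ∈ P)
    (hdc : d ∈ centralizer ((R ⊓ centralizer (R : Set G) : Subgroup G) : Set G))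
    (hdR : d ∉ centralizer (R : Set G)) :
    ∃ (A : Type u) (_ : CommGroup A) (_ : Finite A) (P' : Type u) (_ : Group P')
      (_ : MulDistribMulAction P' A) (β : A → A → k) (Y : Subgroup G) (ψ : Y →* P'),
      Symp q P' β ∧ P ⊓ centralizer ((⁅R, R⁆ : Subgroup G) : Set G) ≤ Y ∧
      (∀ hd : d ∈ Y, ψ ⟨d, hd⟩ ≠ 1) ∧ (∀ y : Y, (y : G) ∈ centralizer (R : Set G) → ψ y = 1) ∧
      ∀ x ∈ P, ∀ hx : x ^ 2 ^ (m + 1) ∈ Y, SmallInv A q (ψ ⟨_, hx⟩) ∧ (ψ ⟨_, hx⟩ ≠ 1 → x ^ 2 ^ m ∈ Y) := by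
  classical
  have := Fact.mk hq
  have hp := Nat.prime_two
  have hpE : ((2 : ℕ) : End k V) = 0 := cast_end_eq_zero 2
  have hpos : ∀ n, 0 < 2 ^ n := fun n => by positivity
  have hexp' : ∀ x ∈ P, x ^ 2 ^ (m + 1 + 1) = 1 := fun x hx => hρ _ (by
    rw [map_pow, ← sub_eq_zero, ← sub_one_pow_pow hp hpE, ← Nat.sub_add_cancel (hpos (m + 1 + 1)),
      pow_succ, hr x hx, zero_mul])
  have hPQc : (Nat.card P).Coprime (Nat.card R) := (coprime_card_of_isPGroup hP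
    (coprime_card_of_isPGroup hR ((Nat.coprime_primes hp hq).2 hq2.symm)).symm).symm
  set Z := ⁅R, R⁆ with hZ
  have hZR : Z ≤ R := commutator_le_self _
  have hZc : IsMulCommutative Z := le_centralizer_iff_isMulCommutative.mp
    (hc.trans (centralizer_le hZR))
  have hPZ : P ≤ normalizer (Z : Set G) := le_normalizer_commutator hPR hPR
  have hzZ : ∀ x ∈ P, x ^ 2 ^ (m + 1) ∈ centralizer (Z : Set G) := fun x hx =>
    centralizer_le (le_inf hZR hc) (pow_mem_centralizer_center ρ hρ hq hq2 hR hPR hr hx)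
  have hcR : ∀ r ∈ R, ⁅d, r⁆ ∈ R := fun r hr =>
    mul_mem (conj_mem_of_le_normalizer hPR hd hr) (inv_mem hr)
  obtain ⟨r, hrR, s, hsR, ht⟩ : ∃ r ∈ R, ∃ s ∈ R, ⁅⁅d, r⁆, s⁆ ≠ 1 := by
    by_contra h
    push Not at h
    refine hdR (zpowers_le.mp (le_centralizer_of_commutator_le (zpowers_le.mpr (hPR hd))
      (coprime_of_le hPQc (zpowers_le.mpr hd) le_rfl) (H := R ⊓ centralizer (R : Set G))
      (commutator_zpowers_le (le_normalizer_inf hPR (le_normalizer_centralizer hPR) hd)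
        fun r hr => ?_) (zpowers_le.mpr hdc)))
    rw [← commutatorElement_inv]
    exact inv_mem (mem_inf.mpr ⟨hcR r hr, mem_centralizer_iff.mpr fun s hs =>
      (commutatorElement_eq_one_iff_mul_comm.mp (h r hr s hs)).symm⟩)
  set t := ⁅⁅d, r⁆, s⁆ with htdef
  have htZ : t ∈ Z := commutator_mem_commutator (hcR r hrR) hsR
  have hqk : (q : k) ≠ 0 := cast_ne_zero_of_prime_ne hp hq hq2
  obtain ⟨W₀, h1, h2, h3, -⟩ := exists_nofix_subspace (ρ.comp Z.subtype) (zpowers ⟨t, htZ⟩)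
    (cast_card_ne_zero_of_isPGroup hq ((hR.to_le hZR).to_subgroup _) hqk)
    ⟨_, mem_zpowers _, fun h => ht (hρ _ h)⟩
  obtain ⟨μ, v, hv, hv0, hμ⟩ := exists_weight_vector (ρ.comp Z.subtype) h1 h2 fun i j v _ => by
    rw [← End.mul_apply, ← map_mul, mul_comm, map_mul, End.mul_apply]
  let U : Submodule k V := ⨅ z : Z, (ρ z).eigenspace (μ z)
  have hU : ∀ {u}, u ∈ U ↔ ∀ z : Z, ρ z u = μ z • u := by
    intro u; simp [U]
  have hvU : v ∈ U := hU.mpr hμ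
  have hCU : ∀ g ∈ centralizer (Z : Set G), ∀ u ∈ U, ρ g u ∈ U := fun g hg u hu => hU.mpr fun z => by
    rw [← End.mul_apply, ← map_mul, mem_centralizer_iff.mp hg z z.2, map_mul, End.mul_apply,
      hU.mp hu, map_smul]
  have hRU : ∀ g ∈ R, ∀ u ∈ U, ρ g u ∈ U := fun g hg => hCU g (le_centralizer_iff.mp hc hg)
  let Y : Subgroup G :=
    { carrier := {g | g ∈ P ∧ ∀ u ∈ U, ρ g u ∈ U}
      one_mem' := ⟨one_mem _, by simp⟩
      mul_mem' := fun ha hb => ⟨mul_mem ha.1 hb.1, fun u hu => by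
        rw [map_mul]; exact ha.2 _ (hb.2 u hu)⟩
      inv_mem' := fun {a} ha => ⟨inv_mem ha.1, fun u hu => by
        rw [inv_eq_of_mul_eq_one_right (show a * a ^ (2 ^ (m + 1 + 1) - 1) = 1 by
          rw [← pow_succ', Nat.sub_add_cancel (hpos _), hexp' a ha.1]), map_pow]
        exact pow_apply_mem ha.2 _ hu⟩ }
  have hYP : Y ≤ P := fun _ h => h.1
  let χ : G → k := fun a => if h : a ∈ Z then μ ⟨a, h⟩ else 1
  have hχ : ∀ a ∈ Z, ∀ u ∈ U, ρ a u = χ a • u := fun a ha u hu => by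
    simp only [χ, dif_pos ha]
    exact hU.mp hu ⟨a, ha⟩
  have hχ' : ∀ a ∈ Z, ∀ c, ρ a v = c • v → χ a = c := fun a ha c h =>
    smul_left_injective k hv0 ((hχ a ha v hvU).symm.trans h)
  obtain ⟨A, _, _, P', _, _, β, ψ, D, H, a1, a2, a3, a4⟩ := exists_symp_of_char hq
    (hq.odd_of_ne_two hq2) hc hexp (hYP.trans hPR) χ (hχ' 1 (one_mem _) 1 (by simp))
    (fun a ha b hb => hχ' _ (mul_mem ha hb) _ (by
      rw [map_mul, End.mul_apply, hχ b hb v hvU, map_smul, hχ a ha v hvU, smul_smul, mul_comm]))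
    (fun y hy a ha => hχ' _ (conj_mem_of_le_normalizer hPZ hy.1 ha) _ (by
      rw [map_mul, map_mul, End.mul_apply, End.mul_apply, hχ a ha _ ((inv_mem hy).2 v hvU),
        map_smul, ← End.mul_apply, rep_mul_inv, End.one_apply]))
  refine ⟨A, _, ‹_›, P', _, _, β, Y, ψ, H, fun g hg => ⟨hg.1, hCU g hg.2⟩, fun hd h => ?_,
    fun y hy => a3 y ((commutator_eq_bot_iff_le_centralizer'.2 (zpowers_le.2 hy)).trans_le bot_le),
    fun x hx hxY => ?_⟩
  · have h4 : ρ t v = v := by rw [hχ t htZ v hvU, a2 _ h r hrR s hsR, one_smul]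
    exact hv0 (h3 v hv fun a ha => by
      obtain ⟨n, rfl⟩ := mem_powers_iff_mem_zpowers.mpr ha
      rw [map_pow, End.pow_apply]
      exact Function.iterate_fixed h4 n)
  obtain ⟨_, -, ht, -, b1, b2⟩ := exists_weight_orbit (ρ.comp Z.subtype)
    (MulAut.toPerm Z (conjAutOf (hPZ hx))) (ρ x) (cov_conjAutOf ρ (hPZ hx)) (hpos (m + 1))
    (by rw [← map_pow, conjAutOf_pow_eq_one _ (hzZ x hx), map_one]) μ
  obtain ⟨j, hj, rfl⟩ := (Nat.dvd_prime_pow hp).mp ht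
  have hh : x ^ 2 ^ j ∈ Y := ⟨pow_mem hx _, fun u hu => hU.mpr (by
    rw [map_pow]; exact b1 u (hU.mp hu))⟩
  have e1 : (x ^ 2 ^ j) ^ 2 ^ (m + 1 - j) = x ^ 2 ^ (m + 1) := by
    rw [← pow_mul, ← pow_add, Nat.add_sub_cancel' hj]
  have e2 : 2 ^ j * 2 ^ (m + 1 - j + 1) = 2 ^ (m + 1 + 1) := by rw [← pow_add]; congr 1; omega
  have hb := relIndex_commutator_exc hp hq hq2 ρ hR hc (hPR hh.1) (m := m + 1 - j)
    (by rw [← pow_mul, e2, hexp' x hx])
    (by rw [e1]; exact le_centralizer_iff.mp (zpowers_le.mpr (hzZ x hx))) hRU hh.2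
    (fun t ht => ⟨μ ⟨t, ht⟩, fun u hu => hU.mp hu ⟨t, ht⟩⟩) (fun u hu => by
      have hu' : ((ρ (x ^ 2 ^ j) - 1) ^ (2 ^ (m + 1 - j + 1) - 1) : End k V) u ∈ U :=
        pow_apply_mem (fun w hw => U.sub_mem (hh.2 w hw) hw) _ hu
      simpa using b2 (fun _ => _) (fun _ => hU.mp hu') (by
        rw [← LinearMap.sum_apply, geom_sum_eq_sub_one_pow hp hpE, map_pow,
          ← sub_one_pow_pow hp hpE, ← pow_mul, ← End.mul_apply, ← pow_add,
          show 2 ^ j - 1 + 2 ^ j * (2 ^ (m + 1 - j + 1) - 1) = 2 ^ (m + 1 + 1) - 1 by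
            rw [Nat.mul_sub, e2, mul_one]
            have := hpos j
            have := Nat.pow_le_pow_right hp.pos (show j ≤ m + 1 + 1 by omega)
            omega, hr x hx]
        rfl) 0 (hpos j)) (D := D) fun r hr h => a1 r hr fun s hs =>
          hχ' _ (commutator_mem_commutator hr hs) _ (by rw [h s hs v hvU, one_smul])
  rw [e1] at hb
  have hz : ψ ⟨_, hxY⟩ * ψ ⟨_, hxY⟩ = 1 := by
    rw [← map_mul, ← map_one ψ]
    refine congrArg ψ (Subtype.ext ?_)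
    change x ^ 2 ^ (m + 1) * x ^ 2 ^ (m + 1) = 1
    rw [← pow_two, ← pow_mul, ← pow_succ, hexp' x hx]
  rcases hb with hb | ⟨n, e, c1, c2, c3, c4, c5⟩
  · refine ⟨⟨hz, (a4 _).trans ?_⟩, fun h => (h (a3 _ hb)).elim⟩
    rw [relIndex_eq_one.2 hb]
    exact Nat.one_le_pow _ _ hq.pos
  have : e = 1 ∧ 2 ≤ n := by
    rcases prime_pow_eq_prime_pow_add_one hp hq c1 c3 c4 with h | h | h
    · exact ⟨h.2.1, h.2.2.1.two_le⟩
    · exact (hq2 h.1).elim
    · exact (hq2 ((Nat.prime_dvd_prime_iff_eq hq hp).1 (hq.dvd_of_dvd_pow (n := 3)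
        (h.2 ▸ dvd_pow_self q (by omega) : q ∣ 8)))).elim
  obtain ⟨rfl, hn⟩ := this
  refine ⟨⟨hz, (a4 _).trans c5⟩, fun _ => ?_⟩
  rw [show 2 ^ m = 2 ^ j * 2 ^ (m - j) by rw [← pow_add]; congr 1; omega, pow_mul]
  exact pow_mem hh _

variable {T F : Subgroup G} (hTP : T ≤ P) (hTF : ∀ y ∈ P, TF T F y)
  (hTZ : T ≤ centralizer ((⁅R, R⁆ : Subgroup G) : Set G))
include hTP hTF hTZ

theorem exists_symp' {d : G} (hd : d ∈ P)
    (hdc : d ∈ centralizer ((R ⊓ centralizer (R : Set G) : Subgroup G) : Set G))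
    (hdR : d ∉ centralizer (R : Set G)) :
    ∃ (P' : Type u) (_ : Group P') (Y : Subgroup G) (ψ : Y →* P') (hTY : T ≤ Y)
      (hz : ∀ x ∈ P, x ^ 2 ^ (m + 1) ∈ Y), (∀ hd : d ∈ Y, ψ ⟨d, hd⟩ ≠ 1) ∧
      (∀ y : Y, (y : G) ∈ centralizer (R : Set G) → ψ y = 1) ∧
      ∀ x (hx : x ∈ P) x' (hx' : x' ∈ P) k (hk : k ∈ T), x' ^ 2 ^ m = k * x ^ 2 ^ m →
        Commute (ψ ⟨k, hTY hk⟩) (ψ ⟨_, hz x hx⟩) ∧
        (ψ ⟨_, hz x hx⟩ ≠ 1 → ψ ⟨k, hTY hk⟩ * ψ ⟨k, hTY hk⟩ = 1 →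
          ψ ⟨_, hz x hx⟩ = ψ ⟨_, hz x' hx'⟩) ∧
        ∀ t (ht : t ∈ T), ⁅t, x ^ 2 ^ (m + 1)⁆ ∈ F →
          ¬ Commute (ψ ⟨t, hTY ht⟩) (ψ ⟨_, hz x hx⟩) →
          Commute (ψ ⟨_, hz x' hx'⟩ * (ψ ⟨_, hz x hx⟩)⁻¹) (ψ ⟨t, hTY ht⟩) := by
  obtain ⟨A, _, _, P', _, _, β, Y, ψ, H, h1, h2, h3, h4⟩ :=
    exists_symp ρ hρ hq hq2 hP hR hPR hc hexp hr hd hdc hdR
  have hTY : T ≤ Y := (le_inf hTP hTZ).trans h1
  have hz : ∀ x ∈ P, x ^ 2 ^ (m + 1) ∈ Y := fun x hx => h1 (mem_inf.2 ⟨pow_mem hx _,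
    centralizer_le (le_inf (commutator_le_self _) hc)
      (pow_mem_centralizer_center ρ hρ hq hq2 hR hPR hr hx)⟩)
  refine ⟨P', _, Y, ψ, hTY, hz, h2, h3, fun x hx x' hx' k hk e => ?_⟩
  by_cases h0 : ψ ⟨_, hz x hx⟩ = 1
  · exact ⟨h0 ▸ Commute.one_right _, fun h => (h h0).elim, fun t ht _ h =>
      (h (h0 ▸ Commute.one_right _)).elim⟩
  obtain ⟨s1, hh⟩ := h4 x hx (hz x hx)
  replace hh := hh h0
  have s2 := (h4 x' hx' (hz x' hx')).1
  have e1 : ψ ⟨_, hz x hx⟩ = ψ ⟨_, hh⟩ * ψ ⟨_, hh⟩ := by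
    rw [← map_mul]
    exact congrArg ψ (Subtype.ext (by simp [pow_succ, pow_mul]))
  have e2 : ψ ⟨_, hz x' hx'⟩ = ψ ⟨k, hTY hk⟩ * ψ ⟨_, hh⟩ * (ψ ⟨k, hTY hk⟩ * ψ ⟨_, hh⟩) := by
    rw [← map_mul, ← map_mul]
    exact congrArg ψ (Subtype.ext (by simp [pow_succ, pow_mul, e]))
  rw [e1] at s1 h0 ⊢
  rw [e2] at s2 ⊢
  have hT := (TF.subgroupOf (Y := Y) (h := ⟨_, hh⟩) (hTF _ (pow_mem hx _))).map ψ
  have hk' : ψ ⟨k, hTY hk⟩ ∈ (T.subgroupOf Y).map ψ := ⟨_, hk, rfl⟩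
  refine ⟨H.commute_k s1 hT hk' s2, fun _ h => H.eq_of_fix s1 hT hk' s2 h0 fun u _ => by
    rw [h, one_smul], fun t ht h h' => hT.cent _ (H.mul_inv_mem s1 hT hk' s2 ?_ ⟨_, ht, rfl⟩
      fun h'' => h' (commutatorElement_eq_one_iff_commute.1 h'')) _ ⟨_, ht, rfl⟩⟩
  rw [← e1, ← map_commutatorElement]
  exact ⟨_, h, rfl⟩

variable {x x' k : G} (hx : x ∈ P) (hx' : x' ∈ P) (hk : k ∈ T) (e : x' ^ 2 ^ m = k * x ^ 2 ^ m)
include hx hx' hk e

theorem excA : ⁅k, x ^ 2 ^ (m + 1)⁆ ∈ centralizer (R : Set G) := by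
  by_contra hn
  have h1 := pow_mem_centralizer_center ρ hρ hq hq2 hR hPR hr hx
  obtain ⟨P', _, Y, ψ, hTY, hz, a1, -, a3⟩ := exists_symp' ρ hρ hq hq2 hP hR hPR hc hexp hr hTP hTF
    hTZ (commutator_le_self _ (commutator_mem_commutator (hTP hk) (pow_mem hx _)))
    (mul_mem (conj_mem_of_le_normalizer (le_normalizer_centralizer (le_normalizer_inf hPR
      (le_normalizer_centralizer hPR))) (hTP hk) h1) (inv_mem h1)) hn
  refine a1 (commutator_le_self _ (commutator_mem_commutator (hTY hk) (hz x hx))) ?_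
  rw [← commutatorElement_eq_one_iff_commute.2 (a3 x hx x' hx' k hk e).1, ← map_commutatorElement]
  rfl

theorem excB (h : ∀ t ∈ T, ⁅t, x ^ 2 ^ (m + 1)⁆ ∈ F) (h' : ∀ t ∈ T, ⁅t, x' ^ 2 ^ (m + 1)⁆ ∈ F)
    {t : G} (ht : t ∈ T) :
    ⁅x' ^ 2 ^ (m + 1) * (x ^ 2 ^ (m + 1))⁻¹, t⁆ ∈ centralizer (R : Set G) := by
  by_contra hn
  have h1 := mul_mem (pow_mem_centralizer_center ρ hρ hq hq2 hR hPR hr hx')
    (inv_mem (pow_mem_centralizer_center ρ hρ hq hq2 hR hPR hr hx))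
  obtain ⟨P', _, Y, ψ, hTY, hz, a1, -, a3⟩ := exists_symp' ρ hρ hq hq2 hP hR hPR hc hexp hr hTP hTF
    hTZ (commutator_le_self _ (commutator_mem_commutator
      (mul_mem (pow_mem hx' _) (inv_mem (pow_mem hx _))) (hTP ht))) (by
      rw [commutatorElement_def, mul_assoc, mul_assoc, ← mul_assoc t]
      exact mul_mem h1 (conj_mem_of_le_normalizer (le_normalizer_centralizer (le_normalizer_inf hPR
        (le_normalizer_centralizer hPR))) (hTP ht) (inv_mem h1))) hn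
  refine a1 (commutator_le_self _ (commutator_mem_commutator
    (mul_mem (hz x' hx') (inv_mem (hz x hx))) (hTY ht))) ?_
  have : Commute (ψ ⟨_, hz x' hx'⟩ * (ψ ⟨_, hz x hx⟩)⁻¹) (ψ ⟨t, hTY ht⟩) := by
    by_cases c1 : Commute (ψ ⟨t, hTY ht⟩) (ψ ⟨_, hz x hx⟩)
    · by_cases c2 : Commute (ψ ⟨t, hTY ht⟩) (ψ ⟨_, hz x' hx'⟩)
      · exact (c2.mul_right c1.inv_right).symm
      · have := ((a3 x' hx' x hx k⁻¹ (inv_mem hk) (by rw [e, inv_mul_cancel_left])).2.2 t ht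
          (h' t ht) c2).inv_left
        rwa [mul_inv_rev, inv_inv] at this
    · exact (a3 x hx x' hx' k hk e).2.2 t ht (h t ht) c1
  rw [← commutatorElement_eq_one_iff_commute.2 this, ← map_inv, ← map_mul, ← map_commutatorElement]
  rfl

theorem excC (h : F ≤ centralizer (R : Set G)) :
    x' ^ 2 ^ (m + 1) * (x ^ 2 ^ (m + 1))⁻¹ ∈ centralizer (R : Set G) := by
  by_contra hn
  obtain ⟨P', _, Y, ψ, hTY, hz, a1, a2, a3⟩ := exists_symp' ρ hρ hq hq2 hP hR hPR hc hexp hr hTP hTF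
    hTZ (mul_mem (pow_mem hx' _) (inv_mem (pow_mem hx _)))
    (mul_mem (pow_mem_centralizer_center ρ hρ hq hq2 hR hPR hr hx')
      (inv_mem (pow_mem_centralizer_center ρ hρ hq hq2 hR hPR hr hx))) hn
  refine a1 (mul_mem (hz x' hx') (inv_mem (hz x hx))) ?_
  have hkk : ∀ k (hk : k ∈ T), ψ ⟨k, hTY hk⟩ * ψ ⟨k, hTY hk⟩ = 1 := fun k hk => by
    rw [← map_mul]
    exact a2 _ (h ((hTF x hx).sq k hk))
  have : ψ ⟨_, hz x hx⟩ = ψ ⟨_, hz x' hx'⟩ := by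
    by_cases c1 : ψ ⟨_, hz x hx⟩ = 1
    · by_contra c2
      exact c2 ((a3 x' hx' x hx k⁻¹ (inv_mem hk) (by rw [e, inv_mul_cancel_left])).2.1
        (fun h => c2 (c1.trans h.symm)) (hkk _ (inv_mem hk))).symm
    · exact (a3 x hx x' hx' k hk e).2.1 c1 (hkk _ hk)
  rw [← mul_inv_cancel (ψ ⟨_, hz x hx⟩)]
  nth_rw 1 [this]
  rw [← map_inv, ← map_mul]
  rfl

end Cfsg.Agent.H6
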