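/-
Reduction of `p`-length bounds to minimal sections.
-/
import Cfsg.Agent.H1.PExp
import Cfsg.Agent.H1.Small

set_option autoImplicit false

open Module Subgroup
open scoped commutatorElement

namespace Cfsg.Agent.H6

open H1

universe u

variable {G : Type u} [Group G]

theorem pLengthLE_quotient_inf [Finite G] {p m : ℕ} (hp : p.Prime) (K₁ K₂ : Subgroup G) [K₁.Normal]
    [K₂.Normal] (h₁ : PLengthLE p m (G ⧸ K₁)) (h₂ : PLengthLE p m (G ⧸ K₂)) :
    PLengthLE p m (G ⧸ (K₁ ⊓ K₂)) := by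
  have h : PLengthLE p m ((G ⧸ K₁) × (G ⧸ K₂)) := by
    rw [L.pLengthLE_iff hp] at h₁ h₂ ⊢
    simpa using h₁.prod h₂
  refine L.PLengthLE.of_mulEquiv hp (QuotientGroup.quotientMulEquivOfEq ?_)
    (L.PLengthLE.of_injective hp (QuotientGroup.kerLift_injective
      ((QuotientGroup.mk' K₁).prod (QuotientGroup.mk' K₂))) h)
  rw [MonoidHom.ker_prod, QuotientGroup.ker_mk', QuotientGroup.ker_mk']

theorem exists_least_pLengthLE [Finite G] {p : ℕ} (hp : p.Prime) (m : ℕ) :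
    ∃ (K : Subgroup G) (_ : K.Normal), PLengthLE p m (G ⧸ K) ∧
      ∀ (K' : Subgroup G) [K'.Normal], PLengthLE p m (G ⧸ K') → K ≤ K' := by
  obtain ⟨K, ⟨hK, h⟩, hmin⟩ := WellFounded.has_min (wellFounded_lt (α := Subgroup G))
    {K | ∃ _ : K.Normal, PLengthLE p m (G ⧸ K)} ⟨⊤, inferInstance,
      L.PLengthLE.mono hp m.zero_le ((L.pLengthLE_zero_iff hp).2 (by simp))⟩
  refine ⟨K, hK, h, fun K' _ h' => ?_⟩
  by_contra hn
  exact hmin (K ⊓ K') ⟨inferInstance, pLengthLE_quotient_inf hp K K' h h'⟩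
    (lt_of_le_of_ne inf_le_left fun e => hn (e ▸ inf_le_right))

theorem exists_mul_pow_eq {T : Subgroup G} {w x : G} (hw : w ∈ T)
    (hx : x ∈ normalizer (T : Set G)) (n : ℕ) : ∃ k ∈ T, (w * x) ^ n = k * x ^ n := by
  induction n with
  | zero => exact ⟨1, one_mem _, by simp⟩
  | succ n ih =>
    obtain ⟨k, hk, e⟩ := ih
    refine ⟨k * (x ^ n * w * (x ^ n)⁻¹), mul_mem hk ((mem_normalizer_iff.1 (pow_mem hx n) w).1 hw),
      ?_⟩
    rw [pow_succ, e, pow_succ]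
    group

theorem inf_pPrimeCore_ne_bot [Finite G] {p : ℕ} (hp : p.Prime) (hG : IsPSolvable p G)
    (h : pCore p G = ⊥) {K : Subgroup G} [K.Normal] (hK : K ≠ ⊥) : K ⊓ pPrimeCore p G ≠ ⊥ :=
  fun e => hK (by
    rw [← e, inf_of_le_left ((L.le_centralizer_of_normal_of_inf_eq_bot e).trans
      (L.centralizer_pPrimeCore_le hp hG h))])

/-- To bound the `p`-length it suffices to bound the `p`-lengths of the groups induced on the
Frattini quotients of suitable minimal `p`-subgroups. -/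
theorem pLengthLE_succ_of_minimal [Finite G] {p : ℕ} (hp : p.Prime) (hG : IsPSolvable p G) {m : ℕ}
    (H : ∀ B T Y : Subgroup G, IsPGroup p T → B ≤ normalizer (T : Set G) → Y ≤ B →
      B ≤ normalizer (Y : Set G) → (Nat.card Y).Coprime p → ⁅T, Y⁆ ≠ ⊥ →
      (∀ U : Subgroup G, U < T → B ≤ normalizer (U : Set G) → ⁅U, Y⁆ = ⊥) →
      ∃ (K : Subgroup B) (_ : K.Normal), PLengthLE p m (B ⧸ K) ∧
        ∀ b ∈ K, ∀ t ∈ T, ⁅t, (b : G)⁆ ∈ ⁅T, T⁆) : PLengthLE p (m + 1) G := by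
  have := Fact.mk hp
  set f := QuotientGroup.mk' (pPrimeCore p G) with hf
  have hG1 := L.IsPSolvable.quotient hp hG (pPrimeCore p G)
  set S := pCore p (G ⧸ pPrimeCore p G) with hS
  have hSp : IsPGroup p S := L.isPGroup_pCore p
  have hG2 := L.IsPSolvable.quotient hp hG1 S
  set g := QuotientGroup.mk' S with hg
  refine pLengthLE_succ_of_std hp (QuotientGroup.mk'_surjective (pPrimeCore p G)) rfl ?_
  obtain ⟨S₀, -, hS₀, hS₀f⟩ := exists_isPGroup_map_eq f (Q := ⊤)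
    (by rw [map_top_of_surjective _ (QuotientGroup.mk'_surjective _)]; exact le_top) hSp
  have hN : (normalizer (S₀ : Set G)).map f = ⊤ := by
    rw [hf, ← normalizer_map_mk' _ (coprime_card_of_isPGroup hS₀ (L.coprime_card_pPrimeCore p)).symm
      (Or.inl (isSolvable_of_isPGroup hS₀)), ← hf, hS₀f]
    exact normalizer_eq_top S
  have hg1 : ∀ x, g x = 1 ↔ x ∈ S := QuotientGroup.eq_one_iff
  have hL : (S.relIndex ((pPrimeCore p _).comap g)).Coprime p := by
    rw [L.relIndex_eq_card_map_mk', map_comap_eq_self_of_surjective (QuotientGroup.mk'_surjective _)]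
    exact L.coprime_card_pPrimeCore p
  obtain ⟨Q, q1, -, q3, q4⟩ := exists_complement_frattini (T := S)
    (M := (pPrimeCore p _).comap g) (fun x hx => by
      rw [mem_comap, (hg1 x).2 hx]; exact one_mem _)
    (isSolvable_of_isPGroup hSp) (coprime_card_of_isPGroup hSp hL).symm
  have hQ : (Nat.card Q).Coprime p := q3 ▸ hL
  set B := normalizer (S₀ : Set G) ⊓ (normalizer (Q : Set (G ⧸ pPrimeCore p G))).comap f with hB
  let π : B →* _ := (g.comp f).comp B.subtype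
  have hπ : Function.Surjective π := by
    intro y
    obtain ⟨y, rfl⟩ := QuotientGroup.mk'_surjective S y
    obtain ⟨n, hn, h⟩ := q4 y
    obtain ⟨x, hx, e⟩ : n * y ∈ (normalizer (S₀ : Set G)).map f := hN ▸ mem_top _
    refine ⟨⟨x, hx, by rwa [← e] at h⟩, ?_⟩
    change g (f x) = _
    rw [e, map_mul, (hg1 n).2 hn, one_mul]
  obtain ⟨K, _, hK, hmin⟩ := exists_least_pLengthLE (G := B) hp m
  suffices h : K ≤ π.ker from
    L.PLengthLE.of_surjective hp (QuotientGroup.lift_surjective_of_surjective K π hπ h) hK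
  by_contra hn
  have : (K.map π).Normal := Normal.map inferInstance π hπ
  obtain ⟨⟨_, ⟨x, hx, rfl⟩, hx2⟩, hx1⟩ := ne_bot_iff_exists_ne_one.1 (inf_pPrimeCore_ne_bot hp hG2
    (L.pCore_quotient_pCore hp) fun e => hn ((map_eq_bot_iff K).1 e))
  replace hx1 : π x ≠ 1 := fun e => hx1 (Subtype.ext e)
  set Y := K.map B.subtype ⊓ Q.comap f with hY
  have hBY : B ≤ normalizer (Y : Set G) := le_normalizer_inf
    (by rintro b hb; exact mem_normalizer_fintype (by
      rintro _ ⟨y, hy, rfl⟩; exact ⟨_, Normal.conj_mem inferInstance y hy ⟨b, hb⟩, rfl⟩)) (inf_le_right.trans (le_normalizer_comap f))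
  have hYp : (Nat.card Y).Coprime p := by
    refine Nat.Coprime.coprime_dvd_left (card_dvd_of_le inf_le_right) ?_
    rw [hf, L.card_comap_mk']
    exact hQ.mul_left (L.coprime_card_pPrimeCore p)
  have hnt : ⁅S₀, Y⁆ ≠ ⊥ := by
    intro e
    obtain ⟨y, hy, s, hs, e1⟩ := mem_sup_of_normal_right.1 (q1 ▸ hx2 : f x ∈ Q ⊔ S)
    obtain ⟨a, ha⟩ := hSp ⟨s, hs⟩
    obtain ⟨z, hz, e2⟩ := exists_mul_pow_eq hy (x := s) (by
      rw [eq_inv_mul_of_mul_eq e1]
      exact mul_mem (inv_mem (le_normalizer hy)) x.2.2) (p ^ a)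
    rw [e1, show s ^ p ^ a = 1 from congrArg Subtype.val ha, mul_one, ← map_pow] at e2
    have h1 : (x : G) ^ p ^ a ∈ centralizer (S₀ : Set G) :=
      commutator_eq_bot_iff_le_centralizer'.1 e (mem_inf.2 ⟨⟨_, pow_mem hx _, rfl⟩, by
        rw [mem_comap, e2]; exact hz⟩)
    have h2 : f ((x : G) ^ p ^ a) ∈ S := L.centralizer_pCore_le hp hG1
      (L.pPrimeCore_quotient_pPrimeCore hp) (by
        rw [← hS, ← hS₀f, mem_centralizer_iff]
        rintro _ ⟨t, ht, rfl⟩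
        rw [← map_mul, mem_centralizer_iff.1 h1 t ht, map_mul])
    exact hx1 (eq_one_of_mem_pPrimeCore (k := a) (by
      rw [← map_pow]; exact (hg1 _).2 h2) hx2)
  obtain ⟨T, hT, hBT, hnt', hmin'⟩ := exists_minimal_nontrivial (B := B) inf_le_left hnt
  obtain ⟨K', _, k1, k2⟩ := H B T Y (hS₀.to_le hT) hBT (inf_le_left.trans (map_subtype_le _)) hBY
    hYp hnt' hmin'
  refine hnt' (commutator_eq_bot_iff_le_centralizer'.2 (le_centralizer_of_commutator_le_commutator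
    (hS₀.to_le hT).isNilpotent ((inf_le_left.trans (map_subtype_le _)).trans hBT)
    (coprime_card_of_isPGroup (hS₀.to_le hT) hYp) (commutator_le.2 ?_)))
  rintro t ht _ ⟨⟨b, hb, rfl⟩, -⟩
  exact k2 b (hmin K' k1 hb) t ht

open scoped IsMulCommutative in
/-- The representation on the Frattini quotient of a minimal `p`-subgroup. -/
theorem exists_section_rep [Finite G] {p : ℕ} [hp : Fact p.Prime] {B T Y : Subgroup G}
    (hT : IsPGroup p T) (hBT : B ≤ normalizer (T : Set G)) (hYB : Y ≤ B)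
    (hBY : B ≤ normalizer (Y : Set G)) (hY : (Nat.card Y).Coprime p) (hnt : ⁅T, Y⁆ ≠ ⊥)
    (hmin : ∀ U : Subgroup G, U < T → B ≤ normalizer (U : Set G) → ⁅U, Y⁆ = ⊥) :
    ∃ (W : Type u) (_ : AddCommGroup W) (_ : Module (ZMod p) W) (_ : Finite W)
      (σ : B →* End (ZMod p) W) (π : G → W), (∀ s ∈ T, ∀ t ∈ T, π (s * t) = π s + π t) ∧
      (∀ t ∈ T, π t = 0 ↔ t ∈ ⁅T, T⁆) ∧ (∀ w, ∃ t ∈ T, π t = w) ∧
      (∀ b : B, ∀ t ∈ T, σ b (π t) = π (b * t * (b : G)⁻¹)) ∧ pCore p (B ⧸ σ.ker) = ⊥ := by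
  classical
  have hF := minimal_frattini_eq hT hBT hYB hBY hY hnt hmin
  have hD' : _root_.commutator T ≤ ⁅T, T⁆.subgroupOf T := by
    rw [subgroupOf, ← map_le_iff_le_comap, map_subtype_commutator]
  have : (⁅T, T⁆.subgroupOf T).Normal := Normal.of_commutator_le _ hD'
  have : IsMulCommutative (T ⧸ ⁅T, T⁆.subgroupOf T) :=
    Normal.quotient_commutative_iff_commutator_le.mpr hD'
  have hW : ∀ v : T ⧸ ⁅T, T⁆.subgroupOf T, v ^ p = 1 := fun v => by
    obtain ⟨v, rfl⟩ := QuotientGroup.mk_surjective v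
    rw [← QuotientGroup.mk_pow, QuotientGroup.eq_one_iff]
    exact (hF ▸ pow_mem_frattiniOf hT v.2 : (v : G) ^ p ∈ ⁅T, T⁆)
  let φ := quotAct (conjAut hBT) (⁅T, T⁆.subgroupOf T) fun a x hx =>
    conj_mem_of_le_normalizer (le_normalizer_commutator hBT hBT) a.2 hx
  let π : G → EA _ hW := fun t => if h : t ∈ T then eaOf hW (QuotientGroup.mk ⟨t, h⟩) else 0
  have hπ : ∀ t (h : t ∈ T), π t = eaOf hW (QuotientGroup.mk ⟨t, h⟩) := fun t h => dif_pos h
  have h1 : ∀ s ∈ T, ∀ t ∈ T, π (s * t) = π s + π t := fun s hs t ht => by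
    rw [hπ _ (mul_mem hs ht), hπ s hs, hπ t ht]; rfl
  have h2 : ∀ t ∈ T, π t = 0 ↔ t ∈ ⁅T, T⁆ := fun t ht => by
    rw [hπ t ht, eaOf_eq_zero, QuotientGroup.eq_one_iff]; rfl
  have h3 : ∀ w, ∃ t ∈ T, π t = w := fun w => by
    obtain ⟨w, rfl⟩ := (eaOf hW).surjective w
    obtain ⟨v, rfl⟩ := QuotientGroup.mk_surjective w
    exact ⟨v, v.2, hπ _ _⟩
  have h4 : ∀ b : B, ∀ t ∈ T, autRep hW φ b (π t) = π (b * t * (b : G)⁻¹) := fun b t ht => by
    rw [hπ _ (conj_mem_of_le_normalizer hBT b.2 ht), hπ t ht]; rfl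
  refine ⟨EA _ hW, inferInstance, inferInstance, inferInstance, autRep hW φ, π, h1, h2, h3, h4, ?_⟩
  set σ := autRep hW φ
  set X := pCore p (B ⧸ σ.ker)
  let U : Subgroup G :=
    { carrier := {t | t ∈ T ∧ ∀ x ∈ X, kerRep σ x (π t) = π t}
      one_mem' := ⟨one_mem _, fun x _ => by rw [(h2 1 (one_mem _)).2 (one_mem _), map_zero]⟩
      mul_mem' := fun {a b} ha hb => ⟨mul_mem ha.1 hb.1, fun x hx => by
        rw [h1 a ha.1 b hb.1, map_add, ha.2 x hx, hb.2 x hx]⟩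
      inv_mem' := fun {a} ha => ⟨inv_mem ha.1, fun x hx => by
        have e : π a⁻¹ = -π a := eq_neg_of_add_eq_zero_left (by
          rw [← h1 _ (inv_mem ha.1) a ha.1, inv_mul_cancel, (h2 1 (one_mem _)).2 (one_mem _)])
        rw [e, map_neg, ha.2 x hx]⟩ }
  have hBU : B ≤ normalizer (U : Set G) := fun b hb => mem_normalizer_fintype fun t ht =>
    ⟨conj_mem_of_le_normalizer hBT hb ht.1, fun x hx => by
      have e := ht.2 _ (Normal.conj_mem' inferInstance x hx ((⟨b, hb⟩ : B) : B ⧸ σ.ker))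
      rw [← h4 ⟨b, hb⟩ t ht.1, ← kerRep_mk σ ⟨b, hb⟩]
      nth_rw 2 [← e]
      rw [← End.mul_apply, ← End.mul_apply, ← map_mul, ← map_mul, ← mul_assoc, ← mul_assoc,
        mul_inv_cancel, one_mul]⟩
  by_cases hU : U < T
  · exfalso
    letI : MulAction X (EA _ hW) := MulAction.compHom _ ((kerRep σ).comp X.subtype)
    have hnt' : Nontrivial (T ⧸ ⁅T, T⁆.subgroupOf T) := by
      rw [QuotientGroup.nontrivial_iff, Ne, subgroupOf_eq_top]
      exact (hF ▸ frattiniOf_lt fun e => hnt (by rw [e, commutator_bot_left])).not_ge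
    obtain ⟨v, hv, hv0⟩ := (L.isPGroup_pCore p : IsPGroup p X).exists_fixed_point_of_prime_dvd_card_of_fixed_point
      (EA _ hW) (by
        rw [card_EA]
        obtain ⟨n, hn0, hn⟩ := (hT.to_quotient _).nontrivial_iff_card.1 hnt'
        exact hn ▸ dvd_pow_self p hn0.ne') (a := 0) fun x => map_zero (kerRep σ x)
    obtain ⟨t, ht, rfl⟩ := h3 v
    exact hv0 ((h2 t ht).2 (minimal_le_commutator hT hBT hYB hBY hY hnt hmin hU hBU
      ⟨ht, fun x hx => hv ⟨x, hx⟩⟩)).symm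
  · refine eq_bot_iff.2 fun x hx => kerRep_eq_one σ x (LinearMap.ext fun w => ?_)
    obtain ⟨t, ht, rfl⟩ := h3 w
    exact ((eq_of_le_of_not_lt (fun _ h => h.1) hU).ge ht).2 x hx

/-- A minimal `q`-subgroup on which `T` acts nontrivially. -/
theorem exists_minimal_q [Finite G] [Group.IsSolvable G] {p : ℕ} (hp : p.Prime)
    (hO : pCore p G = ⊥) {B T : Subgroup G} (hT : IsPGroup p T) (hT1 : T ≠ ⊥) :
    ∃ q : ℕ, q.Prime ∧ q ≠ p ∧ ∃ R : Subgroup G, IsPGroup q R ∧ B ≤ normalizer (R : Set G) ∧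
      ⁅R, T⁆ ≠ ⊥ ∧ ∀ U : Subgroup G, U < R → B ≤ normalizer (U : Set G) → ⁅U, T⁆ = ⊥ := by
  obtain ⟨q, hq⟩ : ∃ q : Nat.Primes, ⁅pCore q G, T⁆ ≠ ⊥ := by
    by_contra hn
    push Not at hn
    refine hT1 (eq_bot_iff.2 (hO ▸ L.le_pCore_of_le_fittingSubgroup hp hT
      (le_trans ?_ L.centralizer_fittingSubgroup_le)))
    rw [le_centralizer_iff, L.fittingSubgroup_eq_iSup_pCore]
    exact iSup_le fun q => commutator_eq_bot_iff_le_centralizer.1 (hn q)
  obtain ⟨R, h1, h2, h3, h4⟩ := exists_minimal_nontrivial (B := B) le_normalizer_of_normal hq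
  refine ⟨q, q.2, fun e => hq ?_, R, (L.isPGroup_pCore q).to_le h1, h2, h3, h4⟩
  rw [e, hO, commutator_bot_left]

end Cfsg.Agent.H6
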