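/-
The `2`-length of a solvable group is at most the `2`-exponent.
-/
import Cfsg.Agent.H6.TwoLen2
import Cfsg.Agent.H6.TwoLen3

set_option autoImplicit false

open Module Subgroup
open scoped commutatorElement

namespace Cfsg.Agent.H6

open H1

universe u

theorem geom_sum_section {G W : Type*} [Group G] [AddCommGroup W] {p : ℕ} [Module (ZMod p) W]
    {B T : Subgroup G} (hBT : B ≤ normalizer (T : Set G)) (σ : B →* End (ZMod p) W) (π : G → W)
    (h0 : π 1 = 0) (h1 : ∀ s ∈ T, ∀ t ∈ T, π (s * t) = π s + π t)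
    (h4 : ∀ b : B, ∀ t ∈ T, σ b (π t) = π (b * t * (b : G)⁻¹)) (x : B) {w : G} (hw : w ∈ T)
    (n : ℕ) : ∃ k ∈ T, (w * x) ^ n = k * (x : G) ^ n ∧
      π k = (∑ i ∈ Finset.range n, σ x ^ i) (π w) := by
  induction n with
  | zero => exact ⟨1, one_mem _, by simp, by simp [h0]⟩
  | succ n ih =>
    obtain ⟨k, hk, e, e'⟩ := ih
    have hw' := conj_mem_of_le_normalizer hBT (x ^ n).2 hw
    refine ⟨_, mul_mem hk hw', ?_, ?_⟩
    · rw [pow_succ, e, pow_succ, coe_pow]
      group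
    · rw [h1 _ hk _ hw', e', ← h4 _ _ hw, Finset.sum_range_succ, LinearMap.add_apply, map_pow]

theorem tf_of_minimal {G : Type*} [Group G] [Finite G] {B T Y : Subgroup G}
    (hT : IsPGroup 2 T) (hBT : B ≤ normalizer (T : Set G)) (hYB : Y ≤ B)
    (hBY : B ≤ normalizer (Y : Set G)) (hY : (Nat.card Y).Coprime 2) (hnt : ⁅T, Y⁆ ≠ ⊥)
    (hmin : ∀ U : Subgroup G, U < T → B ≤ normalizer (U : Set G) → ⁅U, Y⁆ = ⊥) {y : G}
    (hy : y ∈ normalizer (T : Set G)) : TF T ⁅T, T⁆ y := by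
  have hF := minimal_frattini_eq hT hBT hYB hBY hY hnt hmin
  have hc := minimal_class_two hT hBT hYB hBY hY hnt hmin
  refine ⟨commutator_le_self _, fun s hs t ht => commutator_mem_commutator hs ht,
    fun t ht => pow_two t ▸ hF ▸ pow_mem_frattiniOf hT ht, fun f hf => ?_,
    fun f hf t ht => (mem_centralizer_iff.1 (hc hf) t ht).symm, hy,
    le_normalizer_commutator le_rfl le_rfl hy⟩
  have hf' := hf
  rw [Subgroup.commutator_def] at hf'
  induction hf' using closure_induction with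
  | mem x hx =>
    obtain ⟨a, ha, b, hb, rfl⟩ := hx
    exact pow_two ⁅a, b⁆ ▸ minimal_commutator_pow hT hBT hYB hBY hY hnt hmin a ha b hb
  | one => exact one_mul 1
  | mul a b ha hb iha ihb =>
    rw [mul_assoc, ← mul_assoc b, ← mem_centralizer_iff.1 (hc hb) a (commutator_le_self _ ha),
      mul_assoc, ihb hb, mul_one, iha ha]
  | inv a ha ih => rw [← mul_inv_rev, ih ha, inv_one]

theorem pLengthLE_of_rep (m : ℕ) : ∀ (G : Type u) [Group G] [Finite G] [Group.IsSolvable G]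
    (V : Type u) [AddCommGroup V] [Module (ZMod 2) V] [Finite V] (ρ : G →* End (ZMod 2) V),
    pCore 2 G = ⊥ → (∀ g, ρ g = 1 → g = 1) →
    (∀ (y : G) (l : ℕ), y ^ 2 ^ l = 1 → (ρ y - 1) ^ (2 ^ (m + 1) - 1) = 0) → PLengthLE 2 m G := by
  have hp := Nat.prime_two
  induction m with
  | zero =>
    intro G _ _ _ V _ _ _ ρ _ hρ hr
    exact (L.pLengthLE_zero_iff hp).2 (PExpLE.coprime hp fun y l hy => by
      simpa using hρ y (by simpa [sub_eq_zero] using hr y l hy))
  | succ m ih =>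
  intro G _ _ _ V _ _ _ ρ hO hρ hr
  refine pLengthLE_succ_of_minimal hp (L.isPSolvable_of_isSolvable hp)
    fun B T Y hT hBT hYB hBY hY hnt hmin => ?_
  obtain ⟨W, _, _, _, σ, π, h1, h2, h3, h4, h5⟩ := exists_section_rep hT hBT hYB hBY hY hnt hmin
  obtain ⟨q, hq, hq2, R, hR, hBR, hnt', hmin'⟩ := exists_minimal_q hp hO (B := B ⊔ T) hT
    fun e => hnt (by rw [e, commutator_bot_left])
  have := Fact.mk hq
  have hBT' : B ⊔ T ≤ normalizer (T : Set G) := sup_le hBT le_normalizer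
  have hTq : (Nat.card T).Coprime q :=
    (coprime_card_of_isPGroup hT ((Nat.coprime_primes hq hp).2 hq2)).symm
  have hc := minimal_class_two hR hBR le_sup_right hBT' hTq hnt' hmin'
  have hexp := minimal_commutator_pow hR hBR le_sup_right hBT' hTq hnt' hmin'
  have hTZ : T ≤ centralizer ((⁅R, R⁆ : Subgroup G) : Set G) :=
    commutator_eq_bot_iff_le_centralizer'.1 (minimal_frattini_eq hR hBR le_sup_right hBT' hTq hnt'
      hmin' ▸ minimal_frattini_commutator hBR hnt' hmin')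
  have hC : ∀ t ∈ T, t ∈ centralizer (R : Set G) → t ∈ ⁅T, T⁆ := fun t ht ht' =>
    minimal_le_commutator hT hBT hYB hBY hY hnt hmin (U := T ⊓ centralizer (R : Set G))
      (lt_of_le_of_ne inf_le_left fun e => hnt' (commutator_eq_bot_iff_le_centralizer'.2
        (e ▸ inf_le_right))) (le_normalizer_inf hBT (le_normalizer_centralizer
          (le_sup_left.trans hBR))) (mem_inf.2 ⟨ht, ht'⟩)
  have h0 : π 1 = 0 := (h2 1 (one_mem _)).2 (one_mem _)
  have hE : ((2 : ℕ) : End (ZMod 2) W) = 0 := cast_end_eq_zero 2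
  have hsub : ∀ b : B, ∀ t ∈ T, (σ b - 1) (π t) = π ⁅(b : G), t⁆ := fun b t ht => by
    have := h1 _ (mul_mem (conj_mem_of_le_normalizer hBT b.2 ht) (inv_mem ht)) t ht
    rw [inv_mul_cancel_right] at this
    rw [LinearMap.sub_apply, h4 b t ht, this, End.one_apply, add_sub_cancel_right,
      commutatorElement_def]
  let ρ' := baseChangeRep (AlgebraicClosure (ZMod 2)) ρ
  have hρ' : ∀ g, ρ' g = 1 → g = 1 := fun g hg => hρ g ((baseChangeRep_eq_one_iff _ _ _).1 hg)
  have key : ∀ (x : B) (l : ℕ), x ^ 2 ^ l = 1 → (σ x - 1) ^ (2 ^ (m + 1) - 1) = 0 := by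
    intro x l hx
    set P := zpowers (x : G) ⊔ T
    have hP : IsPGroup 2 P := (isPGroup_zpowers_of_pow_eq_one
      (congrArg Subtype.val hx)).to_sup_of_normal_right' hT (zpowers_le.2 (hBT x.2))
    have hPB : P ≤ B ⊔ T := sup_le_sup_right (zpowers_le.2 x.2) _
    have hr' : ∀ y ∈ P, (ρ' y - 1) ^ (2 ^ (m + 1 + 1) - 1) = 0 := fun y hy => by
      obtain ⟨l, hl⟩ := hP ⟨y, hy⟩
      have := congrArg (End.baseChangeHom (ZMod 2) (AlgebraicClosure (ZMod 2)) _)
        (hr y l (congrArg Subtype.val hl))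
      rwa [map_pow, map_sub, map_one, map_zero] at this
    have hTF : ∀ y ∈ P, TF T ⁅T, T⁆ y := fun y hy =>
      tf_of_minimal hT hBT hYB hBY hY hnt hmin (hBT' (hPB hy))
    have hxP : (x : G) ∈ P := mem_sup_left (mem_zpowers _)
    have hA : (σ x - 1) ^ (2 ^ (m + 1) + (2 ^ m - 1)) = 0 := LinearMap.ext fun w => by
      obtain ⟨w, hw, rfl⟩ := h3 w
      obtain ⟨k, hk, e1, e2⟩ := geom_sum_section hBT σ π h0 h1 h4 x hw (2 ^ m)
      have a1 := excA ρ' hρ' hq hq2 hP hR (hPB.trans hBR) hc hexp hr' le_sup_right hTF hTZ hxP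
        (mul_mem (mem_sup_right hw) hxP) hk e1
      rw [← commutatorElement_inv, inv_mem_iff] at a1
      rw [pow_add, End.mul_apply, ← geom_sum_eq_sub_one_pow hp hE, ← e2, sub_one_pow_pow hp hE,
        ← map_pow, hsub _ k hk]
      have hm := mul_mem (conj_mem_of_le_normalizer hBT (x ^ 2 ^ (m + 1)).2 hk) (inv_mem hk)
      exact (h2 _ hm).2 (hC _ hm a1)
    have hz : σ (x ^ 2 ^ (m + 1)) = 1 := by
      by_contra hn
      obtain ⟨y, hy, hy1⟩ := exists_commutator_ne_one_of_pCore_eq_bot hp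
        (L.isPSolvable_of_isSolvable hp) h5 (z := (x : B ⧸ σ.ker) ^ 2 ^ (m + 1)) (k := l)
        (by rw [← pow_mul, mul_comm, pow_mul, ← QuotientGroup.mk_pow, hx]; simp)
        fun e => hn ((QuotientGroup.eq_one_iff _).1 e)
      obtain ⟨r, hr, hr2, -, n, e, c1, c2, c3, c4, c5⟩ := hall_higman_B hp (kerRep σ)
        (L.coprime_card_pPrimeCore 2) (le_normalizer_of_normal (mem_top (x : B ⧸ σ.ker)))
        ⟨y, hy, fun h => hy1 (kerRep_eq_one σ _ h)⟩ hA (by
          have : 0 < 2 ^ m := by positivity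
          rw [pow_succ, pow_succ]; omega)
      have hn2 : 2 ≤ n := by
        by_contra h
        obtain rfl : n = 1 := by omega
        have := Nat.pow_le_pow_left hr.two_le e
        have := Nat.pow_le_pow_right (n := 2) two_pos c3
        omega
      rw [Nat.mul_sub, ← pow_add, Nat.sub_add_cancel c2, mul_one] at c5
      have := Nat.pow_le_pow_right (n := 2) two_pos (show m + 1 + 1 - n ≤ m by omega)
      have : 0 < 2 ^ m := by positivity
      rw [pow_succ, pow_succ] at c5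
      omega
    have hzF : ∀ t ∈ T, ⁅t, (x : G) ^ 2 ^ (m + 1)⁆ ∈ ⁅T, T⁆ := fun t ht => by
      rw [← commutatorElement_inv, inv_mem_iff]
      refine (h2 _ (mul_mem (conj_mem_of_le_normalizer hBT (x ^ 2 ^ (m + 1)).2 ht)
        (inv_mem ht))).1 ?_
      have := hsub (x ^ 2 ^ (m + 1)) t ht
      rw [hz, sub_self] at this
      exact this.symm
    refine LinearMap.ext fun w => ?_
    obtain ⟨w, hw, rfl⟩ := h3 w
    obtain ⟨k, hk, e1⟩ := exists_mul_pow_eq hw (hBT x.2) (2 ^ m)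
    obtain ⟨k', hk', e2, e3⟩ := geom_sum_section hBT σ π h0 h1 h4 x hw (2 ^ (m + 1))
    rw [← geom_sum_eq_sub_one_pow hp hE, ← e3]
    refine (h2 _ hk').2 ?_
    have e4 : (w * x) ^ 2 ^ (m + 1) * ((x : G) ^ 2 ^ (m + 1))⁻¹ = k' := by
      rw [e2, mul_inv_cancel_right]
    by_cases hF : ⁅T, T⁆ ≤ centralizer (R : Set G)
    · exact hC _ hk' (e4 ▸ excC ρ' hρ' hq hq2 hP hR (hPB.trans hBR) hc hexp hr' le_sup_right hTF hTZ
        hxP (mul_mem (mem_sup_right hw) hxP) hk e1 hF)
    have hzF' : ∀ t ∈ T, ⁅t, (w * x) ^ 2 ^ (m + 1)⁆ ∈ ⁅T, T⁆ := fun t ht => by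
      rw [e2, show ⁅t, k' * (x : G) ^ 2 ^ (m + 1)⁆ =
        ⁅t, k'⁆ * (k' * ⁅t, (x : G) ^ 2 ^ (m + 1)⁆ * k'⁻¹) by
          simp only [commutatorElement_def]; group]
      exact mul_mem (commutator_mem_commutator ht hk') (conj_mem_of_le_normalizer
        (le_normalizer_commutator le_normalizer le_normalizer) hk' (hzF t ht))
    have hB := fun t ht => excB ρ' hρ' hq hq2 hP hR (hPB.trans hBR) hc hexp hr' le_sup_right hTF hTZ
      hxP (mul_mem (mem_sup_right hw) hxP) hk e1 hzF hzF' (t := t) ht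
    rw [e4] at hB
    have hn := le_normalizer_centralizer hBR
    let U : Subgroup G :=
      { carrier := {u | u ∈ T ∧ ∀ t ∈ T, ⁅u, t⁆ ∈ centralizer (R : Set G)}
        one_mem' := ⟨one_mem _, fun t _ => by simp⟩
        mul_mem' := fun {a b} ha hb => ⟨mul_mem ha.1 hb.1, fun t ht => by
          rw [show ⁅a * b, t⁆ = a * ⁅b, t⁆ * a⁻¹ * ⁅a, t⁆ by
            simp only [commutatorElement_def]; group]
          exact mul_mem (conj_mem_of_le_normalizer hn (mem_sup_right ha.1) (hb.2 t ht)) (ha.2 t ht)⟩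
        inv_mem' := fun {a} ha => ⟨inv_mem ha.1, fun t ht => by
          rw [show ⁅a⁻¹, t⁆ = a⁻¹ * ⁅a, t⁆⁻¹ * a by simp only [commutatorElement_def]; group]
          exact conj_mem_of_le_normalizer' hn (mem_sup_right ha.1) (inv_mem (ha.2 t ht))⟩ }
    refine minimal_le_commutator hT hBT hYB hBY hY hnt hmin (U := U)
      (lt_of_le_of_ne (fun _ h => h.1) fun e => hF (commutator_le.2 fun a ha => (e.ge ha).2))
      (fun b hb => mem_normalizer_fintype fun u hu =>
        ⟨conj_mem_of_le_normalizer hBT hb hu.1, fun t ht => ?_⟩) ⟨hk', hB⟩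
    rw [show ⁅b * u * b⁻¹, t⁆ = b * ⁅u, b⁻¹ * t * b⁆ * b⁻¹ by
      simp only [commutatorElement_def]; group]
    exact conj_mem_of_le_normalizer hn (mem_sup_left hb)
      (hu.2 _ (conj_mem_of_le_normalizer' hBT hb ht))
  refine ⟨σ.ker, inferInstance, ih _ W (kerRep σ) h5 (kerRep_eq_one σ) fun y l hy => ?_,
    fun b hb t ht => ?_⟩
  · obtain ⟨x, rfl, l, hx⟩ := exists_lift_pElement (QuotientGroup.mk'_surjective _) hp hy
    exact key x l hx
  · rw [← commutatorElement_inv, inv_mem_iff]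
    refine (h2 _ (mul_mem (conj_mem_of_le_normalizer hBT b.2 ht) (inv_mem ht))).1 ?_
    have := hsub b t ht
    rw [MonoidHom.mem_ker.1 hb, sub_self] at this
    exact this.symm

open scoped IsMulCommutative in
/-- The `2`-length of a finite solvable group is at most its `2`-exponent. -/
theorem pLengthLE_two_of_exponent {G : Type u} [Group G] [Finite G] [Group.IsSolvable G] {e : ℕ}
    (hexp : PExpLE 2 e G) : PLengthLE 2 e G := by
  have hp := Nat.prime_two
  rcases e with _ | m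
  · exact (L.pLengthLE_zero_iff hp).2 (hexp.coprime hp)
  obtain ⟨H, _, _, f, hf, h1, h2, h3, h4⟩ := exists_std hp (L.isPSolvable_of_isSolvable (G := G) hp)
  have : Group.IsSolvable H := Group.isSolvable_of_surjective hf
  have := h3.1
  have hV := pow_eq_one_of_isElementaryAbelian h3
  have hexp' := hexp.of_surjective hp hf
  refine pLengthLE_succ_of_std hp hf h4 (pLengthLE_of_rep m _ _ (stdRep hV)
    (L.pCore_quotient_pCore hp)
    (fun g => eq_one_of_stdRep_eq_one hV (L.centralizer_pCore_le hp h1 h2)) fun x l hl => ?_)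
  obtain ⟨g, rfl, l', hl'⟩ := exists_lift_pElement (QuotientGroup.mk'_surjective _) hp hl
  rw [← geom_sum_eq_sub_one_pow hp (cast_end_eq_zero 2)]
  exact stdRep_geom_sum_eq_zero hV (g := g) fun v hv => by
    obtain ⟨l, hl⟩ := exists_mul_pow_eq_one (L.isPGroup_pCore 2) hv hl'
    rw [hexp' _ _ hl, hexp' _ _ hl']

end Cfsg.Agent.H6
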