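/-
The `2`-length of a solvable group is at most the derived length of a Sylow `2`-subgroup.
-/
import Cfsg.Agent.H6.DerLen3
import Cfsg.Agent.H6.TwoLen4

set_option autoImplicit false

open Module Subgroup
open scoped commutatorElement

namespace Cfsg.Agent.H6

open H1

namespace Ext

variable {G R : Type*} [Group G] [Group R] [MulDistribMulAction G R] [Fintype R]
  {k V : Type*} [Field k] [AddCommGroup V] [Module k V]
  {ρ : G →* End k V} {τ : R →* End k V} {q : ℕ} (H : Ext ρ τ q) (hτ : ∀ r, τ r = 1 → r = 1)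
include H hτ

theorem smul_eq_of_rep_eq {g g' : G} (h : ρ g = ρ g') (r : R) : g • r = g' • r := by
  refine (inv_mul_eq_one.1 (hτ _ (LinearMap.ext fun v => ?_))).symm
  have := H.cov g r (ρ g⁻¹ v)
  rw [h, H.cov, ← h, ← End.mul_apply (ρ g), rep_mul_inv, End.one_apply] at this
  rw [← rep_apply_apply, ← this, rep_apply_apply, inv_mul_cancel, map_one]

variable [CharP k 2] [IsAlgClosed k] [FiniteDimensional k V]

theorem eq_one_of_wt {z : R} (hz : z ∈ center R) (h : ∀ ω, ∀ v ∈ wt τ ω, τ z v = v) : z = 1 :=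
  hτ z (by_contra fun hn => let ⟨ω, v, h1, h2⟩ := H.exists_wt_ne hz hn; h2 (h ω v h1))

theorem op_cw_ne_zero [Finite G] {P T : Subgroup G} [T.Normal] (hP : IsPGroup 2 P) (hTP : T ≤ P)
    (hT : Act R T) (hω : ∀ ω, ∀ t ∈ T, ∀ y ∈ wt τ ω, ρ t y ∈ wt τ ω) {l : List G} (hl : Valid P l)
    {w : G} (hw : w ∈ T) (hnt : ∃ r : R, cw l w • r ≠ r) : op ρ (cw l w :: l) ≠ 0 := by
  classical
  have ha := cw_mem_of_norm le_normalizer_of_normal hw hl
  set a := cw l w with ha'
  obtain ⟨r, hr, har⟩ : ∃ r : R, Hom T r ∧ a • r ≠ r := by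
    by_contra hn
    push Not at hn
    obtain ⟨r, h⟩ := hnt
    exact h (H.hom_induction hT hn (fun u v hu hv => by rw [smul_mul', hu, hv]) r)
  obtain ⟨s, hs, hrs⟩ : ∃ s : R, Hom T s ∧ ¬ Commute r s := by
    by_contra hn
    push Not at hn
    exact har (hT.cen a ha r (mem_center_iff.2 fun u =>
      (H.hom_induction hT hn (fun u v hu hv => hu.mul_right hv) u).symm.eq))
  obtain ⟨ω, v₀, hv₀, hv₀'⟩ := H.exists_wt_ne (H.c2 r s)
    fun e => hrs (commutatorElement_eq_one_iff_commute.1 (hτ _ e))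
  have hr1 : r⁻¹ ≠ r := fun e => har (by rw [H.eq_one_of_inv e, smul_one])
  let χ₀ : T →* ℤˣ := MonoidHom.mk' (fun t => if (t : G) • r = r then 1 else -1) fun x y => by
    rw [coe_mul, mul_smul]
    rcases hr x x.2 with h1 | h1 <;> rcases hr y y.2 with h2 | h2 <;>
      simp [h1, h2, smul_inv', hr1]
  have hχ : ∀ t : T, χ₀ t = 1 ↔ (t : G) • r = r := fun t => by simp [χ₀]
  let V₁ : Submodule k V := ⨅ t ∈ T, LinearMap.ker (ρ t - invSum τ t)
  have hV : ∀ {v}, v ∈ V₁ ↔ ∀ t ∈ T, ρ t v = invSum τ t v := by simp [V₁, sub_eq_zero]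
  have hV1 : ∀ u, ∀ v ∈ V₁, τ u v ∈ V₁ := fun u v hv => hV.2 fun t ht => by
    rw [H.cov, hV.1 hv t ht, H.invSum_apply hT ht]
  have hV2 : ∀ g, ∀ v ∈ V₁, ρ g v ∈ V₁ := fun g v hv => hV.2 fun t ht => by
    have := congrArg (ρ g) (hV.1 hv _ (Normal.conj_mem' inferInstance t ht g))
    rw [H.invSum_cov, rep_apply_apply] at this
    rw [rep_apply_apply]
    simpa [mul_assoc] using this
  have hW0 : V₁ ⊓ wt τ ω ≠ ⊥ := by
    obtain ⟨F, π, f1, f2, -, f4, -, f6, -⟩ := H.exists_proj hT (hω ω) le_rfl le_rfl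
      (fun e => hv₀' (by rw [e] at hv₀; simp [Submodule.mem_bot k |>.1 hv₀]))
      (fun r y hy => H6.apply_mem_wt hy r) (hω ω)
    obtain ⟨e, he, he0, hfix⟩ := exists_fixed_mod ρ (hP.to_le hTP) (N := F) (M := ⊥) f6
      (by simp +contextual) (by simpa using f1)
    exact (Submodule.ne_bot_iff _).2 ⟨e, ⟨hV.2 fun t ht => by
      rw [f4 t ht e he, sub_eq_zero.1 (hfix t ht)], f2 he⟩, he0⟩
  obtain ⟨F, π, f1, f2, f3, f4, f5, f6, f7⟩ := H.exists_proj hT (hω ω)
    (T₀ := T ⊓ MulAction.stabilizer G r) inf_le_left inf_le_right hW0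
    (fun u y hy => ⟨hV1 u y hy.1, H6.apply_mem_wt hy.2 u⟩)
    fun t ht y hy => ⟨hV2 t y hy.1, hω ω t ht y hy.2⟩
  obtain ⟨v, hv, hav⟩ : ∃ v ∈ F, ρ a v ≠ v := by
    by_contra hn
    push Not at hn
    obtain ⟨y, hy, hy0⟩ := (Submodule.ne_bot_iff _).1 f1
    have h1 : ∀ y ∈ F, τ r y = y := fun y hy => by
      have := H.cov a r y
      rw [hn _ (f7 r (fun t ht => ht.2) y hy), hn y hy, (hr a ha).resolve_left har] at this
      have h2 : r * r ∈ vecStab τ y := show _ = _ by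
        rw [← rep_apply_apply, this, rep_apply_apply, mul_inv_cancel, map_one, End.one_apply]
      have h3 := pow_mem h2 ((q + 1) / 2)
      rwa [(Commute.refl r).mul_pow, H.sq_pow] at h3
    have h2 := H.comm_apply r s (f2 hy).2
    rw [h1 y hy, h1 _ (f7 s (fun t ht => (hs t ht.1).resolve_right fun e =>
      hrs (H.commute_of_inv (hT.cen t ht.1) e ht.2).symm) y hy)] at h2
    refine hv₀' ?_
    rw [H.center_apply (H.c2 r s) hv₀, smul_left_injective k (rep_apply_ne_zero τ s hy0)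
      (h2.symm.trans (one_smul k _).symm), one_smul]
  have hW : ∀ {p : V → Prop}, (∀ ω', ∀ y ∈ V₁ ⊓ wt τ ω', p y) → p 0 → (∀ x y, p x → p y → p (x + y)) →
      ∀ y ∈ ⨆ ω', V₁ ⊓ wt τ ω', p y := 
    fun {p} h1 h2 h3 y hy => Submodule.iSup_induction _ (motive := p) hy h1 h2 h3
  refine H6.op_cw_ne_zero ρ hP (W := ⨆ ω', V₁ ⊓ wt τ ω')
    (C' := (LinearMap.ker π ⊓ wt τ ω) ⊔ ⨆ ω' ≠ ω, wt τ ω') (χ₀ := χ₀) (v := v) (a := ⟨a, ha⟩)
    (fun g _ => hW (fun ω' y hy => Submodule.mem_iSup_of_mem _ ⟨hV2 g y hy.1, H.apply_mem_wt hy.2 g⟩)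
      (by simp) fun x y hx hy => by rw [map_add]; exact add_mem hx hy)
    (Submodule.mem_iSup_of_mem ω (f2 hv))
    (fun t ht => by rw [hV.1 (f2 hv).1 t t.2, f4 t ⟨t.2, (hχ t).1 ht⟩ v hv])
    (fun t ht => hW (fun ω' y hy => ?_) (by simp) fun x y hx hy => by
      rw [map_add, add_sub_add_comm]; exact add_mem hx hy) hl hw ha' (mt (hχ _).1 har) fun h => ?_
  · have h1 := sub_mem (hω ω' t t.2 y hy.2) hy.2
    by_cases e : ω' = ω
    · subst e
      exact Submodule.mem_sup_left ⟨show _ = _ by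
        rw [map_sub, hV.1 hy.1 t t.2, f5 t ⟨t.2, (hχ t).1 ht⟩ y hy, sub_self], h1⟩
    · exact Submodule.mem_sup_right (Submodule.mem_iSup_of_mem _ (Submodule.mem_iSup_of_mem e h1))
  · obtain ⟨c, hc, d, hd, e⟩ := Submodule.mem_sup.1 h
    have h1 := sub_mem (f6 a ha v hv) hv
    have h2 : d = 0 := (iSupIndep_wt τ ω).le_bot
      ⟨eq_sub_of_add_eq' e ▸ sub_mem (f2 h1).2 hc.2, hd⟩
    rw [h2, add_zero] at e
    exact hav (sub_eq_zero.1 ((f3 _ h1).symm.trans (e ▸ hc.1)))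

theorem not_derZero [Finite G] {P T : Subgroup G} [T.Normal] (hP : IsPGroup 2 P) (hTP : T ≤ P)
    (hsq : ∀ t ∈ T, t * t ∈ ⁅T, T⁆) (hc : ⁅T, T⁆ ≤ centralizer (T : Set G))
    (hnt : ∃ t ∈ T, ∃ r : R, t • r ≠ r) {l : List G} (hl : Valid P l) {w : G} (hw : w ∈ T)
    (hmin : ∀ U : Subgroup G, U.Normal → cw l w ∈ U → T ≤ U) : ¬ DerZero ρ P (l.length + 1) := by
  intro hD
  have ha := cw_mem_of_norm le_normalizer_of_normal hw hl
  have ha' := hl.cw_mem (hTP hw)
  set a := cw l w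
  let S : Subgroup G :=
    { carrier := {g | ∀ ω, wt τ ω ≠ ⊥ → ∀ r, ω (g • r) = ω r}
      one_mem' := fun ω _ r => by simp
      mul_mem' := fun ha hb ω h r => by rw [mul_smul, ha ω h, hb ω h]
      inv_mem' := fun ha ω h r => by rw [← ha ω h, smul_inv_smul] }
  have hS : T ≤ S := hmin S ⟨fun x hx g ω h r => by
    obtain ⟨y, hy, hy0⟩ := (Submodule.ne_bot_iff _).1 h
    simpa [mul_smul] using hx _ ((Submodule.ne_bot_iff _).2
      ⟨_, H.apply_mem_wt hy g⁻¹, rep_apply_ne_zero ρ _ hy0⟩) (g⁻¹ • r)⟩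
    (inv_mem_iff.1 fun ω h => congrFun (H.wt_stable hP hD ha' h))
  have hω : ∀ ω, ∀ t ∈ T, ∀ y ∈ wt τ ω, ρ t y ∈ wt τ ω := fun ω t ht y hy => by
    by_cases h : y = 0
    · simp [h]
    · exact funext (hS (inv_mem ht) ω ((Submodule.ne_bot_iff _).2 ⟨y, hy, h⟩)) ▸ H.apply_mem_wt hy t
  have hZ : ∀ t ∈ T, ∀ z ∈ center R, t • z = z := fun t ht z hz => by
    have hz' : t • z ∈ center R := mem_center_iff.2 fun u => by
      rw [← smul_inv_smul t u, ← smul_mul', ← smul_mul', mem_center_iff.1 hz]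
    refine (inv_mul_eq_one.1 (H.eq_one_of_wt hτ (mul_mem (inv_mem hz) hz') fun ω v hv => ?_)).symm
    by_cases h : v = 0
    · simp [h]
    rw [← rep_apply_apply, H.center_apply hz' hv, hS ht ω ((Submodule.ne_bot_iff _).2 ⟨v, hv, h⟩),
      ← H.center_apply hz hv, rep_apply_apply, inv_mul_cancel, map_one, End.one_apply]
  have h2 : (2 : End k V) = 0 := cast_end_eq_zero 2
  have hA : Act R (der P l.length ⊓ T) := ⟨fun t ht => hZ t ht.2, fun s hs t ht r => by
      rw [← mul_smul, ← mul_smul]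
      refine H.smul_eq_of_rep_eq hτ ?_ r
      rw [map_mul, map_mul, ← sub_eq_zero, ← sub_self (0 : End k V)]
      nth_rw 1 [← hD.mul_eq_zero hs.1 ht.1, ← hD.mul_eq_zero ht.1 hs.1]
      noncomm_ring, fun t ht r => by
      rw [← mul_smul, H.smul_eq_of_rep_eq hτ (g' := 1) ?_ r, one_smul]
      rw [map_mul, map_one, ← sub_eq_zero, ← hD.mul_eq_zero ht.1 ht.1, ← sub_eq_zero,
        ← mul_zero (ρ t - 1), ← h2]
      noncomm_ring⟩
  have key : ∀ t ∈ T, ∀ b ∈ der P l.length ⊓ T, ∀ r : R, b • r = r⁻¹ → (t * b * t⁻¹) • r = r →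
      b • r = r := fun t ht b hb r h1 h3 => by
    have e : t⁻¹ * b * t = t * b * t⁻¹ := by
      rw [show t⁻¹ * b * t = t⁻¹ * (b * (t * t)) * t⁻¹ by group,
        mem_centralizer_iff.1 (hc (hsq t ht)) b hb.2]
      group
    refine hZ b hb.2 r (mem_center_iff.2 fun u => (commutatorElement_eq_one_iff_mul_comm.1
      (H.eq_one_of_wt hτ (H.c2 r u) fun ω v hv => ?_)).symm)
    have h4 : cm τ ω r = ⊤ := by
      by_contra h
      refine H.quad (hZ b hb.2) (r' := t • r) h1 h3 ?_ ?_ h (fun h' => h ((eq_top_iff' _).2 fun s => ?_))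
        (hD.mul_eq_zero hb.1 (conj_mem_of_le_normalizer (le_normalizer_der le_normalizer _) (hTP ht) hb.1))
      · rw [← mul_smul, ← mul_inv_cancel_left t (b * t), ← mul_assoc t⁻¹, e, mul_smul, h3]
      · rw [← mul_smul, inv_mul_cancel_right, mul_smul, h1, smul_inv']
      · simpa using H.smul_mem_cm (t := t⁻¹) (by simpa using hω ω t ht) (h'.ge (mem_top (t • s)))
    have := h4.ge (mem_top u) _ (H6.apply_mem_wt hv (r⁻¹ * u⁻¹))
    simpa [rep_apply_apply, commutatorElement_def, mul_assoc, -map_mul] using this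
  let K := (MulDistribMulAction.toMulAut G R).ker
  have hK : ∀ {g}, g ∈ K ↔ ∀ r : R, g • r = r := by simp [K, MulEquiv.ext_iff]
  let U : Subgroup G :=
    { carrier := {u | ∀ t ∈ T, ∀ r : R, t • u • r = u • t • r}
      one_mem' := fun t _ r => by simp
      mul_mem' := fun ha hb t ht r => by rw [mul_smul, mul_smul, ha t ht, hb t ht]
      inv_mem' := fun ha t ht r => by rw [eq_inv_smul_iff, ← ha t ht, smul_inv_smul] }
  have hTU : T ≤ U := hmin U ⟨fun u hu g t ht r => by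
    simpa [mul_smul, inv_smul_eq_iff] using hu _ (Normal.conj_mem' ‹_› t ht g) (g⁻¹ • r)⟩
    (fun t ht r => by
    have hb : t⁻¹ * a * t ∈ der P l.length ⊓ T :=
      ⟨conj_mem_of_le_normalizer' (le_normalizer_der le_normalizer _) (hTP ht) ha', Normal.conj_mem' ‹_› a ha t⟩
    refine (congrArg (t • ·) (H.hom_induction hA (p := fun r => a • r = (t⁻¹ * a * t) • r)
      (fun u hu => ?_) (fun u v hu hv => by rw [smul_mul', smul_mul', hu, hv]) r)).trans
      (by simp [mul_smul])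
    rcases hu a ⟨ha', ha⟩ with h1 | h1 <;> rcases hu _ hb with h3 | h3
    · rw [h1, h3]
    · rw [h1, key t ht _ hb u h3 (by simpa [mul_assoc] using h1)]
    · rw [h3, key _ (inv_mem ht) a ⟨ha', ha⟩ u h1 (by rwa [inv_inv])]
    · rw [h1, h3])
  refine H.op_cw_ne_zero hτ hP hTP ⟨hZ, fun s hs t ht => hTU ht s hs, fun t ht r => ?_⟩ hω hl hw
    ?_ (hD _ ⟨ha', hl⟩ rfl)
  · rw [← mul_smul]
    refine hK.1 ((commutator_le.2 fun x hx y hy => hK.2 fun r => ?_ : ⁅T, T⁆ ≤ K) (hsq t ht)) r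
    rw [commutatorElement_def, mul_smul, mul_smul, mul_smul, hTU hy x hx, smul_inv_smul,
      smul_inv_smul]
  · by_contra hn
    push Not at hn
    obtain ⟨t, ht, r, h⟩ := hnt
    exact h (hK.1 (hmin K inferInstance (hK.2 hn) ht) r)

end Ext

theorem cw_mem_of_derZero {G k V : Type*} [Group G] [Finite G] [Field k] [AddCommGroup V]
    [Module k V] [CharP k 2] [IsAlgClosed k] [FiniteDimensional k V] {ρ : G →* End k V}
    (hρ : ∀ g, ρ g = 1 → g = 1) {Γ P T R : Subgroup G} {q : ℕ} (hq : q.Prime) (hq2 : q ≠ 2)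
    (hP : IsPGroup 2 P) (hTP : T ≤ P) (hPΓ : P ≤ Γ) (hΓT : Γ ≤ normalizer (T : Set G))
    (hΓR : Γ ≤ normalizer (R : Set G)) (hexp : ∀ r ∈ R, r ^ q = 1)
    (hc2 : ⁅R, R⁆ ≤ centralizer (R : Set G)) (hsq : ∀ t ∈ T, t * t ∈ ⁅T, T⁆)
    (hc : ⁅T, T⁆ ≤ centralizer (T : Set G)) (hnt : ⁅R, T⁆ ≠ ⊥)
    (hmin : ∀ U < T, Γ ≤ normalizer (U : Set G) → U ≤ ⁅T, T⁆) {l : List G} (hl : Valid P l)
    {w : G} (hw : w ∈ T) (hD : DerZero ρ P (l.length + 1)) : cw l w ∈ ⁅T, T⁆ := by
  by_contra hn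
  letI : MulDistribMulAction Γ R := MulDistribMulAction.compHom R (conjAut hΓR)
  have hs : ∀ (g : Γ) (r : R), ((g • r : R) : G) = g * r * (g : G)⁻¹ := fun _ _ => rfl
  have := Fintype.ofFinite R
  have hT := hTP.trans hPΓ
  rw [← map_subgroupOf_eq_of_le hPΓ] at hl hD
  obtain ⟨l, hl₀, rfl⟩ := hl.exists_map
  have := normal_subgroupOf_of_le_normalizer hΓT
  have hF : ∀ {x : Γ}, x ∈ ⁅T.subgroupOf Γ, T.subgroupOf Γ⁆ ↔ (x : G) ∈ ⁅T, T⁆ := by
    intro x
    rw [← mem_map_iff_mem Γ.subtype_injective, map_commutator, map_subgroupOf_eq_of_le hT]; rfl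
  refine Ext.not_derZero (ρ := ρ.comp Γ.subtype) (τ := ρ.comp R.subtype) (q := q)
    ⟨hq, hq.odd_of_ne_two hq2, fun r => Subtype.ext (hexp r r.2), fun a b => mem_center_iff.2 fun c =>
      Subtype.ext (mem_centralizer_iff.1 (hc2 (commutator_mem_commutator a.2 b.2)) c c.2),
      fun g r v => by simp [hs, rep_apply_apply, -map_mul]⟩ (fun r h => Subtype.ext (hρ _ h))
    (T := T.subgroupOf Γ) (hP.comap_subtype (K := Γ)) (comap_mono hTP) (fun t ht => hF.2 (hsq t ht))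
    (fun x hx => mem_centralizer_iff.2 fun t ht =>
      Subtype.ext (mem_centralizer_iff.1 (hc (hF.1 hx)) t ht)) ?_ hl₀ (w := ⟨w, hT hw⟩) hw
    (fun U hU ha => ?_) (List.length_map _ ▸ hD).comp
  · by_contra h
    push Not at h
    exact hnt (commutator_eq_bot_iff_le_centralizer'.2 fun t ht => mem_centralizer_iff.2 fun r hr =>
      (mul_inv_eq_iff_eq_mul.1 (congrArg Subtype.val (h ⟨t, hT ht⟩ ht ⟨r, hr⟩))).symm)
  · by_contra h
    refine hn (hmin (T ⊓ U.map Γ.subtype) (lt_of_le_of_ne inf_le_left fun e => h fun t ht =>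
      (mem_map_iff_mem Γ.subtype_injective).1 (e.ge ht).2) (le_normalizer_inf hΓT fun g hg =>
        mem_normalizer_fintype ?_) ⟨?_, _, ha, map_cw _ _ _⟩)
    · rintro _ ⟨u, hu, rfl⟩
      exact ⟨_, hU.conj_mem u hu ⟨g, hg⟩, rfl⟩
    · exact cw_mem_of_norm (hPΓ.trans hΓT) hw (map_subgroupOf_eq_of_le hPΓ ▸ hl)

universe u

theorem pLengthLE_of_derZero (d : ℕ) : ∀ (G : Type u) [Group G] [Finite G] [Group.IsSolvable G]
    (V : Type u) [AddCommGroup V] [Module (ZMod 2) V] [Finite V] (ρ : G →* End (ZMod 2) V),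
    pCore 2 G = ⊥ → (∀ g, ρ g = 1 → g = 1) →
    (∀ P : Subgroup G, IsPGroup 2 P → DerZero ρ P (d + 1)) → PLengthLE 2 d G := by
  have hp := Nat.prime_two
  induction d with
  | zero =>
    intro G _ _ _ V _ _ _ ρ _ hρ hr
    exact (L.pLengthLE_zero_iff hp).2 (PExpLE.coprime hp fun y l hy => by
      have := hr _ (isPGroup_zpowers_of_pow_eq_one hy) [y] ⟨mem_zpowers y, trivial⟩ rfl
      simpa using hρ y (by simpa [op, sub_eq_zero] using this))
  | succ d ih =>
  intro G _ _ _ V _ _ _ ρ hO hρ hr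
  refine pLengthLE_succ_of_minimal hp (L.isPSolvable_of_isSolvable hp)
    fun B T Y hT hBT hYB hBY hY hnt hmin => ?_
  obtain ⟨W, _, _, _, σ, π, h1, h2, h3, h4, h5⟩ := exists_section_rep hT hBT hYB hBY hY hnt hmin
  obtain ⟨q, hq, hq2, R, hR, hBR, hnt', hmin'⟩ := exists_minimal_q hp hO (B := B ⊔ T) hT
    fun e => hnt (by rw [e, commutator_bot_left])
  have := Fact.mk hq
  have hBT' : B ⊔ T ≤ normalizer (T : Set G) := sup_le hBT le_normalizer
  have hTq : (Nat.card T).Coprime q :=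
    (coprime_card_of_isPGroup hT ((Nat.coprime_primes hq hp).2 hq2)).symm
  have hsub : ∀ b : B, ∀ t ∈ T, (σ b - 1) (π t) = π ⁅(b : G), t⁆ := fun b t ht => by
    have := h1 _ (mul_mem (conj_mem_of_le_normalizer hBT b.2 ht) (inv_mem ht)) t ht
    rw [inv_mul_cancel_right] at this
    rw [LinearMap.sub_apply, h4 b t ht, this, End.one_apply, add_sub_cancel_right,
      commutatorElement_def]
  refine ⟨σ.ker, inferInstance, ih _ W (kerRep σ) h5 (kerRep_eq_one σ) fun P₀ hP₀ l₀ hl₀ hl' => ?_,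
    fun b hb t ht => ?_⟩
  · obtain ⟨P, -, hP, rfl⟩ := exists_isPGroup_map_eq (QuotientGroup.mk' σ.ker) (Q := ⊤)
      (by rw [map_top_of_surjective _ (QuotientGroup.mk'_surjective _)]; exact le_top) hP₀
    obtain ⟨l, hl, rfl⟩ := hl₀.exists_map
    have hPB := map_subtype_le P
    have hP' := (hP.map B.subtype).to_sup_of_normal_right' hT (hPB.trans hBT)
    refine LinearMap.ext fun w => ?_
    obtain ⟨w, hw, rfl⟩ := h3 w
    have key : ∀ l, Valid P l → op σ l (π w) = π (cw (l.map B.subtype) w) := fun l hl => by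
      induction l with
      | nil => rfl
      | cons b l ih =>
        rw [op_cons, End.mul_apply, ih hl.2, hsub b _ (cw_mem_of_norm (hPB.trans hBT) hw (hl.2.map _))]
        rfl
    rw [op_map]
    refine (key l hl).trans ((h2 _ (cw_mem_of_norm (hPB.trans hBT) hw (hl.map _))).2 ?_)
    refine cw_mem_of_derZero (ρ := baseChangeRep (AlgebraicClosure (ZMod 2)) ρ)
      (fun g hg => hρ g ((baseChangeRep_eq_one_iff _ _ _).1 hg)) hq hq2 hP' le_sup_right
      (sup_le_sup_right hPB _) hBT' hBR (minimal_exponent hR hBR le_sup_right hBT' hTq hnt' hmin' hq2)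
      (minimal_class_two hR hBR le_sup_right hBT' hTq hnt' hmin')
      (tf_of_minimal hT hBT hYB hBY hY hnt hmin (one_mem _)).sq
      (minimal_class_two hT hBT hYB hBY hY hnt hmin) hnt' (fun U hU hBU =>
        minimal_le_commutator hT hBT hYB hBY hY hnt hmin hU (le_sup_left.trans hBU))
      ((hl.map _).mono le_sup_left) hw fun l' a1 a2 => ?_
    have := map_op (B := End _ (TensorProduct (ZMod 2) (AlgebraicClosure (ZMod 2)) V)) ρ
      (End.baseChangeHom (ZMod 2) (AlgebraicClosure (ZMod 2)) V).toRingHom l'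
    rw [hr _ hP' l' a1 (by simpa [← hl'] using a2)] at this
    exact this.symm.trans (RingHom.map_zero _)
  · rw [← commutatorElement_inv, inv_mem_iff]
    refine (h2 _ (mul_mem (conj_mem_of_le_normalizer hBT b.2 ht) (inv_mem ht))).1 ?_
    have := hsub b t ht
    rw [MonoidHom.mem_ker.1 hb, sub_self] at this
    exact this.symm

open scoped IsMulCommutative in
/-- The `2`-length of a finite solvable group is at most the derived length of its Sylow
`2`-subgroups. -/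
theorem pLengthLE_two_of_der {G : Type u} [Group G] [Finite G] [Group.IsSolvable G] {d : ℕ}
    (hd : ∀ P : Subgroup G, IsPGroup 2 P → der P d = ⊥) : PLengthLE 2 d G := by
  have hp := Nat.prime_two
  rcases d with _ | d
  · exact (L.pLengthLE_zero_iff hp).2 (PExpLE.coprime hp fun y l hy => by
      simpa using hd _ (isPGroup_zpowers_of_pow_eq_one hy))
  obtain ⟨H, _, _, f, hf, h1, h2, h3, h4⟩ := exists_std hp (L.isPSolvable_of_isSolvable (G := G) hp)
  have : Group.IsSolvable H := Group.isSolvable_of_surjective hf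
  have := h3.1
  have hV := pow_eq_one_of_isElementaryAbelian h3
  refine pLengthLE_succ_of_std hp hf h4 (pLengthLE_of_derZero d _ _ (stdRep hV)
    (L.pCore_quotient_pCore hp)
    (fun g => eq_one_of_stdRep_eq_one hV (L.centralizer_pCore_le hp h1 h2)) fun P₀ hP₀ l₀ hl₀ hl' => ?_)
  obtain ⟨P, -, hP, rfl⟩ := exists_isPGroup_map_eq (QuotientGroup.mk' (pCore 2 H)) (Q := ⊤)
    (by rw [map_top_of_surjective _ (QuotientGroup.mk'_surjective _)]; exact le_top) hP₀
  obtain ⟨l, hl, rfl⟩ := hl₀.exists_map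
  obtain ⟨S, -, hS, e⟩ := exists_isPGroup_map_eq f (Q := ⊤)
    (by rw [map_top_of_surjective _ hf]; exact le_top)
    (hP.to_sup_of_normal_right (L.isPGroup_pCore 2))
  refine LinearMap.ext fun v => ?_
  obtain ⟨v, rfl⟩ := (eaOf hV).surjective v
  have key : ∀ l : List H, ∃ w : pCore 2 H, (w : H) = cw l v ∧
      op (stdRep hV) (l.map (QuotientGroup.mk' _)) (eaOf hV v) = eaOf hV w := fun l => by
    induction l with
    | nil => exact ⟨v, rfl, rfl⟩
    | cons b l ih =>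
      obtain ⟨w, e1, e2⟩ := ih
      obtain ⟨w', e3, e4⟩ := stdRep_sub_one_apply hV b w
      exact ⟨w', by rw [e3, e1]; rfl, by rw [List.map_cons, op_cons, End.mul_apply, e2]; exact e4⟩
  obtain ⟨w, e1, e2⟩ := key l
  have := (hl.mono (Q := P ⊔ pCore 2 H) le_sup_left).cw_mem (mem_sup_right v.2)
  rw [← e, ← map_der, ← List.length_map (QuotientGroup.mk' (pCore 2 H)), hl', hd S hS,
    Subgroup.map_bot, ← e1] at this
  exact e2.trans ((eaOf_eq_zero hV).2 (Subtype.ext this))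

end Cfsg.Agent.H6
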