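import Cfsg.Agent.H6.Level
import Cfsg.Agent.H8.FCStruct

/-! Finite subgroups of division rings that are not solvable. -/

set_option autoImplicit false

namespace Cfsg.Agent.H6

open H8

section ring

variable {D : Type*} [DivisionRing D]

theorem false_of_quat {i j a b c : D} (h2 : (2 : D) ≠ 0) (ii : i * i = -1) (jj : j * j = -1)
    (ij : j * i = -(i * j)) (ai : Commute a i) (aj : Commute a j) (bi : Commute b i)
    (bj : Commute b j) (ci : Commute c i) (cj : Commute c j) (ab : Commute a b) (ac : Commute a c)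
    (bc : Commute b c) (hc : c ≠ 0) (h : a ^ 2 + b ^ 2 + c ^ 2 = 0) : False := by
  have hw : (a * i + b * j) * (a * i + b * j) = c * c := by
    have e1 : a * i * (a * i) = -(a * a) := by
      rw [mul_assoc, ← mul_assoc i, ← ai.eq, mul_assoc, ii, mul_neg_one, mul_neg]
    have e2 : b * j * (b * j) = -(b * b) := by
      rw [mul_assoc, ← mul_assoc j, ← bj.eq, mul_assoc, jj, mul_neg_one, mul_neg]
    have e3 : a * i * (b * j) = a * b * (i * j) := by
      rw [mul_assoc, ← mul_assoc i, ← bi.eq, mul_assoc, mul_assoc]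
    have e4 : b * j * (a * i) = -(a * b * (i * j)) := by
      rw [mul_assoc, ← mul_assoc j, ← aj.eq, mul_assoc, ij, ← mul_assoc, ← ab.eq, mul_neg]
    rw [add_mul, mul_add, mul_add, e1, e2, e3, e4]
    linear_combination (norm := noncomm_ring) -h
  have hk : i * j * (a * i + b * j) = -((a * i + b * j) * (i * j)) := by
    have e1 : i * j * (a * i) = -(a * i * (i * j)) := by
      rw [← mul_assoc, ← (ai.mul_right aj).eq, mul_assoc, mul_assoc, ij, mul_neg, mul_neg,
        mul_assoc]
    have e2 : i * j * (b * j) = -(b * j * (i * j)) := by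
      rw [← mul_assoc, ← (bi.mul_right bj).eq, mul_assoc b j, ← mul_assoc j, ij, neg_mul, mul_neg,
        neg_neg, mul_assoc]
    rw [mul_add, add_mul, e1, e2, neg_add]
  have hcw : Commute (a * i + b * j) c :=
    (ac.mul_left ci.symm).add_left (bc.mul_left cj.symm)
  have hi0 : i ≠ 0 := fun e => by simp [e] at ii
  have hj0 : j ≠ 0 := fun e => by simp [e] at jj
  have hck := (ci.mul_right cj).eq
  refine mul_ne_zero h2 (mul_ne_zero hc (mul_ne_zero hi0 hj0)) ?_
  rcases hcw.mul_self_eq_mul_self_iff.1 hw with e | e <;> rw [e] at hk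
  · linear_combination (norm := noncomm_ring) hk + hck
  · linear_combination (norm := noncomm_ring) -hk + hck

theorem false_of_quat_root [CharZero D] {i j ζ s : D} (ii : i * i = -1) (jj : j * j = -1)
    (ij : j * i = -(i * j)) {p : ℕ} (hp : p.Prime) (hp2 : p ≠ 2) (h1 : ζ ≠ 1) (hζ : ζ ^ p = 1)
    (hs : s ^ 2 = 5) (zi : Commute ζ i) (zj : Commute ζ j) (si : Commute s i) (sj : Commute s j)
    (zs : Commute ζ s) : False := by
  let T : Subring D := Subring.centralizer {i, j, ζ, s}
  let R := Subring.center T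
  let ι : R →+* D := T.subtype.comp R.subtype
  have hι : Function.Injective ι := Subtype.val_injective.comp Subtype.val_injective
  have mem : ∀ x ∈ ({ζ, s} : Set D), ∃ y : R, ι y = x := by
    intro x hx
    have hT : x ∈ T := by
      rintro y (rfl | rfl | rfl | rfl) <;> rcases hx with rfl | rfl
      exacts [zi.symm, si.symm, zj.symm, sj.symm, rfl, zs, zs.symm, rfl]
    refine ⟨⟨⟨x, hT⟩, Subring.mem_center_iff.2 fun y => Subtype.ext (y.2 x ?_).symm⟩, rfl⟩
    rcases hx with rfl | rfl <;> simp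
  obtain ⟨z, hz⟩ := mem ζ (by simp)
  obtain ⟨t, ht⟩ := mem s (by simp)
  rw [← hz] at h1 hζ
  rw [← ht] at hs
  haveI : CharZero R := ι.charZero
  let K := FractionRing R
  have hK := IsFractionRing.injective R K
  haveI : CharZero K := charZero_of_injective_algebraMap hK
  obtain ⟨a, b, hab⟩ := exists_sq_add_sq_eq_neg_one (K := K) hp hp2 (ζ := algebraMap R K z)
    (s := algebraMap R K t) (fun e => h1 (by rw [hK (e.trans (map_one _).symm), map_one]))
    (by rw [← map_pow, hι ((map_pow ι z p).trans (hζ.trans (map_one ι).symm)), map_one])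
    (by rw [← map_pow, hι ((map_pow ι t 2).trans (hs.trans (map_ofNat ι 5).symm)), map_ofNat])
  obtain ⟨a1, a2, ha, rfl⟩ := IsFractionRing.div_surjective (A := R) a
  obtain ⟨b1, b2, hb, rfl⟩ := IsFractionRing.div_surjective (A := R) b
  have ha0 := nonZeroDivisors.ne_zero ha
  have hb0 := nonZeroDivisors.ne_zero hb
  have ha' : algebraMap R K a2 ≠ 0 := (map_ne_zero_iff _ hK).2 ha0
  have hb' : algebraMap R K b2 ≠ 0 := (map_ne_zero_iff _ hK).2 hb0
  have e : (a1 * b2) ^ 2 + (b1 * a2) ^ 2 + (a2 * b2) ^ 2 = 0 := hK (by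
    simp only [map_add, map_mul, map_pow, map_zero]
    have e1 := div_mul_cancel₀ (algebraMap R K a1) ha'
    have e2 := div_mul_cancel₀ (algebraMap R K b1) hb'
    rw [← e1, ← e2]
    generalize algebraMap R K a1 / algebraMap R K a2 = x at hab
    generalize algebraMap R K b1 / algebraMap R K b2 = y at hab
    linear_combination (algebraMap R K a2 * algebraMap R K b2) ^ 2 * hab)
  have ci : ∀ y : R, Commute (ι y) i := fun y => (y.1.2 i (by simp)).symm
  have cj : ∀ y : R, Commute (ι y) j := fun y => (y.1.2 j (by simp)).symm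
  have cc : ∀ y y' : R, Commute (ι y) (ι y') := fun y y' => (Commute.all y y').map ι
  exact false_of_quat (a := ι (a1 * b2)) (b := ι (b1 * a2)) two_ne_zero ii jj ij (ci _) (cj _)
    (ci _) (cj _) (ci _) (cj _) (cc _ _) (cc _ _) (cc _ _) ((map_ne_zero_iff _ hι).2 (mul_ne_zero ha0 hb0))
    (by rw [← map_pow, ← map_pow, ← map_pow, ← map_add, ← map_add, e, map_zero])

theorem false_of_anti [CharZero D] {x s : D} (xx : x * x = -1) (hs : s ^ 2 = 5)
    (xs : x * s = -(s * x)) : False := by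
  have h1 : (1 + s) * x * ((1 + s) * x) = 2 * 2 := by
    have : x * (1 + s) = (1 - s) * x := by rw [mul_add, xs]; noncomm_ring
    rw [mul_assoc, ← mul_assoc x, this, mul_assoc, xx, show (2 : D) * 2 = 5 - 1 by norm_num, ← hs]
    noncomm_ring
  have hs0 : s ≠ 0 := fun h => by
    rw [h, zero_pow two_ne_zero] at hs
    exact absurd hs.symm (by norm_num)
  have h3 : s * ((1 + s) * x) = -((1 + s) * x * s) := by
    rw [mul_assoc, xs]; noncomm_ring
  have h4 : (2 : D) * 2 * s ≠ 0 := mul_ne_zero (mul_ne_zero two_ne_zero two_ne_zero) hs0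
  rcases (Commute.ofNat_right ((1 + s) * x) 2).mul_self_eq_mul_self_iff.1 h1 with h | h <;>
    rw [h] at h3 <;> apply h4
  · linear_combination (norm := noncomm_ring) h3
  · linear_combination (norm := noncomm_ring) -h3

theorem lit_eq' (n : ℕ) [n.AtLeastTwo] : (ofNat(n) : D) = (OfNat.ofNat n : ℕ) • (1 : D) := by
  simp only [nsmul_eq_mul, Nat.cast_ofNat, mul_one]

end ring

section check

/-- Entries of a matrix. -/
abbrev E5 := ZMod 5 × ZMod 5 × ZMod 5 × ZMod 5

/-- Product of matrices given by entries. -/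
def mm5 (x y : E5) : E5 := (x.1 * y.1 + x.2.1 * y.2.2.1, x.1 * y.2.1 + x.2.1 * y.2.2.2,
  x.2.2.1 * y.1 + x.2.2.2 * y.2.2.1, x.2.2.1 * y.2.1 + x.2.2.2 * y.2.2.2)

/-- The entries. -/
def ent5 (M : SL25) : E5 := (M 0 0, M 0 1, M 1 0, M 1 1)

theorem ent5_mul (M N : SL25) : ent5 (M * N) = mm5 (ent5 M) (ent5 N) := by
  simp only [ent5, mm5, sl25_mul]

theorem ent5_inj {M N : SL25} : ent5 M = ent5 N ↔ M = N := by
  simp only [ent5, sl25_ext, Prod.mk.injEq]

theorem exists_ent5 {a b c d : ZMod 5} (h : a * d - b * c = 1) :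
    ∃ M : SL25, ent5 M = (a, b, c, d) :=
  ⟨⟨!![a, b; c, d], by rw [Matrix.det_fin_two_of, h]⟩, rfl⟩

theorem chk5_one : ∀ a b c d : ZMod 5, a * d - b * c = 1 →
    mm5 (a, b, c, d) (mm5 (a, b, c, d) (a, b, c, d)) = (1, 0, 0, 1) → (a, b, c, d) = (1, 0, 0, 1) ∨
      ∃ e f g h : ZMod 5, e * h - f * g = 1 ∧
        mm5 (e, f, g, h) (a, b, c, d) = mm5 (3, 4, 3, 1) (e, f, g, h) := by
  decide +kernel

theorem chk5_two : ∀ a b c d : ZMod 5, a * d - b * c = 1 →
    mm5 (a, b, c, d) (mm5 (a, b, c, d) (a, b, c, d)) = (1, 0, 0, 1) →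
    (let u := mm5 (3, 4, 3, 1) (a, b, c, d); mm5 u (mm5 (mm5 u u) (mm5 u u)) = (4, 0, 0, 4)) →
      (a, b, c, d) = (2, 1, 3, 2) ∨ (a, b, c, d) = (0, 1, 4, 4) ∨ (a, b, c, d) = (4, 3, 3, 0) ∨
      ∃ e f g h : ZMod 5, e * h - f * g = 1 ∧
        mm5 (e, f, g, h) (1, 3, 2, 2) = mm5 (mm5 (3, 4, 3, 1) (a, b, c, d)) (e, f, g, h) := by
  decide +kernel

theorem sl25_conj_S1 {M : SL25} (h : M ^ 3 = 1) (h1 : M ≠ 1) : ∃ N : SL25, N * M * N⁻¹ = icS1 := by
  rw [pow_three, ← ent5_inj, ent5_mul, ent5_mul] at h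
  rcases chk5_one _ _ _ _ (ic_det M) h with e | ⟨e, f, g, k, hd, e'⟩
  · exact absurd (ent5_inj.1 (show ent5 M = ent5 1 from e)) h1
  · obtain ⟨N, hN⟩ := exists_ent5 hd
    refine ⟨N, mul_inv_eq_iff_eq_mul.2 (ent5_inj.1 ?_)⟩
    rw [ent5_mul, ent5_mul, hN]
    exact e'

theorem sl25_u5 : (icS1 * icS2) ^ 5 = zz5 := by
  rw [show ∀ u : SL25, u ^ 5 = u * (u * u * (u * u)) from fun u => by
    simp only [pow_succ, pow_zero, one_mul, mul_assoc], ← ent5_inj]
  simp only [ent5_mul]
  decide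

theorem sl25_dich {M : SL25} (h : M ^ 3 = 1) (h5 : (icS1 * M) ^ 5 = zz5) :
    (∃ k : ℕ, icS1 ^ k * M = icS2 * icS1 ^ k) ∨
      ∃ N : SL25, icS1 * M = N * (icS1 * icS2) ^ 3 * N⁻¹ := by
  rw [pow_three, ← ent5_inj, ent5_mul, ent5_mul] at h
  rw [show ∀ u : SL25, u ^ 5 = u * (u * u * (u * u)) from fun u => by
    simp only [pow_succ, pow_zero, one_mul, mul_assoc], ← ent5_inj] at h5
  simp only [ent5_mul] at h5
  have e0 : ent5 M = (M 0 0, M 0 1, M 1 0, M 1 1) := rfl
  rcases chk5_two _ _ _ _ (ic_det M) h h5 with e | e | e | ⟨e, f, g, k, hd, e'⟩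
  · refine Or.inl ⟨0, ent5_inj.1 ?_⟩
    rw [pow_zero, one_mul, mul_one, e0, e]
    rfl
  · refine Or.inl ⟨2, ent5_inj.1 ?_⟩
    rw [sq, ent5_mul, ent5_mul, ent5_mul, ent5_mul, e0, e]
    decide
  · refine Or.inl ⟨1, ent5_inj.1 ?_⟩
    rw [pow_one, ent5_mul, ent5_mul, e0, e]
    decide
  · obtain ⟨N, hN⟩ := exists_ent5 hd
    refine Or.inr ⟨N, eq_mul_inv_iff_mul_eq.2 (ent5_inj.1 ?_)⟩
    have : ent5 ((icS1 * icS2) ^ 3) = (1, 3, 2, 2) := by
      rw [pow_three]
      simp only [ent5_mul]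
      decide
    rw [ent5_mul, ent5_mul, ent5_mul, hN, this]
    exact e'.symm

theorem sl25_quat : ∃ i j : SL25, i * i = zz5 ∧ j * j = zz5 ∧ j * i = zz5 * (i * j) := by
  obtain ⟨i, hi⟩ := exists_ent5 (a := 2) (b := 0) (c := 0) (d := 3) (by decide)
  obtain ⟨j, hj⟩ := exists_ent5 (a := 0) (b := 1) (c := 4) (d := 0) (by decide)
  refine ⟨i, j, ?_, ?_, ?_⟩ <;> rw [← ent5_inj] <;> simp only [ent5_mul, hi, hj] <;> decide

theorem sl25_u_ne : icS1 * icS2 ≠ zz5 := by
  rw [Ne, ← ent5_inj, ent5_mul]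
  decide

end check

section main

variable {G D : Type*} [Group G] [DivisionRing D] {ρ : G →* D}

theorem isFC_of_divisionRing [Finite G] [Nontrivial G] (hρ : Function.Injective ρ) : IsFC G := by
  have hn : ∀ a : G, a ≠ 1 → (MonoidAlgebra.lift ℤ D G ρ).toRingHom (nrm ℤ a) = 0 := by
    intro a ha
    have h1 := congrArg (MonoidAlgebra.lift ℤ D G ρ) (of_mul_nrm ℤ a)
    rw [map_mul, MonoidAlgebra.lift_of] at h1
    have h2 : ρ a - 1 ≠ 0 := sub_ne_zero.2 fun e => ha (hρ (e.trans (map_one ρ).symm))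
    change MonoidAlgebra.lift ℤ D G ρ (nrm ℤ a) = 0
    exact (mul_eq_zero.1 (by rw [sub_mul, h1, one_mul, sub_self])).resolve_left h2
  have hr : ∀ r : ℤ, (r : MonoidAlgebra ℤ G) ∈ normIdeal ℤ G → (r : D) = 0 := fun r hr => by
    have := normIdeal_le_ker ℤ _ hn hr
    rwa [RingHom.mem_ker, map_intCast] at this
  obtain ⟨l, hl, h1, h2⟩ : ∃ l : ℕ, l.Prime ∧ ¬ l ∣ Nat.card G ∧
      ∀ r : ℤ, (r : D) = 0 → (l : ℤ) ∣ r := by
    obtain ⟨p, hp⟩ := CharP.exists D
    rcases CharP.char_is_prime_or_zero D p with h | rfl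
    · refine ⟨p, h, fun hd => ?_, fun r => (CharP.intCast_eq_zero_iff D p r).1⟩
      haveI := Fact.mk h
      obtain ⟨x, hx⟩ := exists_prime_orderOf_dvd_card' p hd
      have h3 : (ρ x - 1) ^ p = 0 := by
        rw [sub_pow_char_of_commute p (Commute.one_right _), ← map_pow, ← hx, pow_orderOf_eq_one,
          map_one, one_pow, sub_self]
      rw [hρ ((sub_eq_zero.1 (pow_eq_zero_iff h.ne_zero |>.1 h3)).trans (map_one ρ).symm),
        orderOf_one] at hx
      exact h.ne_one hx.symm
    · haveI := CharP.charP_to_charZero D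
      obtain ⟨l, hl1, hl⟩ := Nat.exists_infinite_primes (Nat.card G + 1)
      exact ⟨l, hl, fun h => absurd (Nat.le_of_dvd Nat.card_pos h) (by omega), fun r h => by
        rw [Int.cast_eq_zero.1 h]; exact dvd_zero _⟩
  obtain ⟨V, _, _, _, σ, -, hσ⟩ := exists_rep_of_normIdeal (A := G)
    ((Nat.Prime.coprime_iff_not_dvd hl).2 h1) hl.ne_zero fun r hr' hd => by
      have := (Int.dvd_iff_dvd_of_dvd_sub hd).1 (h2 r (hr r hr'))
      exact hl.one_lt.ne' (by exact_mod_cast Int.eq_one_of_dvd_one (by positivity) this)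
  exact isFC_of_rep σ hσ

theorem surjective_of_divisionRing [Finite G] (hρ : Function.Injective ρ) {f : SL25 →* G}
    (hf : Function.Injective f) [hN : f.range.Normal] : Function.Surjective f := by
  have inj : ∀ {M N : SL25}, ρ (f M) = ρ (f N) → M = N := fun h => hf (hρ h)
  have pm : ∀ g : G, g * g = 1 → g = 1 ∨ ρ g = -1 := fun g hg =>
    (mul_self_eq_one_iff.1 (by rw [← map_mul, hg, map_one])).imp_left
      fun e => hρ (e.trans (map_one ρ).symm)
  have hz : ρ (f zz5) = -1 := (pm _ (by rw [← map_mul, zz5_sq, map_one])).resolve_left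
    fun e => zz5_ne_one (hf (e.trans (map_one f).symm))
  have h2 : (2 : D) ≠ 0 := fun e => zz5_ne_one (inj (by
    rw [hz, map_one, map_one]; linear_combination (norm := noncomm_ring [lit_eq']) -e))
  obtain ⟨i, j, ii, jj, ij⟩ := sl25_quat
  have ii' : ρ (f i) * ρ (f i) = -1 := by rw [← map_mul, ← map_mul, ii, hz]
  have jj' : ρ (f j) * ρ (f j) = -1 := by rw [← map_mul, ← map_mul, jj, hz]
  have ij' : ρ (f j) * ρ (f i) = -(ρ (f i) * ρ (f j)) := by
    rw [← map_mul, ← map_mul, ij, map_mul, map_mul, hz, map_mul, map_mul, neg_one_mul]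
  haveI : CharZero D := by
    obtain ⟨p, hp⟩ := CharP.exists D
    rcases eq_or_ne p 0 with rfl | h0
    · exact CharP.charP_to_charZero D
    · haveI := NeZero.mk h0
      obtain ⟨a, b, h⟩ := CharP.sq_add_sq D p (-1)
      exact (false_of_quat h2 ii' jj' ij' (Nat.cast_commute a _) (Nat.cast_commute a _)
        (Nat.cast_commute b _) (Nat.cast_commute b _) (Commute.one_left _) (Commute.one_left _)
        (Nat.cast_commute a _) (Nat.cast_commute a _) (Nat.cast_commute b _) one_ne_zero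
        (by rw [h]; simp)).elim
  have sq3 : ∀ M : SL25, orderOf M = 3 → ρ (f M) * ρ (f M) = -1 - ρ (f M) := fun M hM => by
    have h1 : ρ (f M) - 1 ≠ 0 := sub_ne_zero.2 fun e => by
      rw [inj (e.trans (by rw [map_one, map_one] : (1 : D) = ρ (f 1))), orderOf_one] at hM
      omega
    have h3 : ρ (f M) ^ 3 = 1 := by rw [← map_pow, ← map_pow, ← hM, pow_orderOf_eq_one]; simp
    refine mul_left_cancel₀ h1 ?_
    linear_combination (norm := noncomm_ring) h3
  have ha := sq3 _ orderOf_icS1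
  have hb := sq3 _ orderOf_icS2
  set a := ρ (f icS1) with had
  set b := ρ (f icS2) with hbd
  set u := ρ (f (icS1 * icS2)) with hu
  have hab : u = a * b := by rw [hu, map_mul, map_mul]
  have u5 : u ^ 5 = -1 := by rw [hu, ← map_pow, ← map_pow, sl25_u5, hz]
  have u4 : u ^ 4 - u ^ 3 + u ^ 2 - u + 1 = 0 := by
    have h1 : u + 1 ≠ 0 := fun e => sl25_u_ne (inj (by rw [hz]; exact eq_neg_of_add_eq_zero_left e))
    refine mul_left_cancel₀ h1 ?_
    linear_combination (norm := noncomm_ring) u5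
  have hτ : u - u ^ 4 = 1 + a + b + a * b + b * a := by
    have h0 : u ≠ 0 := fun e => by simp [e] at u5
    have h1 : (1 + b) * (1 + a) * u = 1 := by
      have e1 : (1 + a) * a = -1 := by rw [add_mul, ha]; noncomm_ring
      have e2 : (1 + b) * b = -1 := by rw [add_mul, hb]; noncomm_ring
      rw [hab, mul_assoc, ← mul_assoc (1 + a), e1, neg_one_mul, mul_neg, e2, neg_neg]
    have h3 : -u ^ 4 = (1 + b) * (1 + a) := mul_right_cancel₀ h0 (by
      rw [h1, neg_mul, ← pow_succ, u5, neg_neg])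
    rw [sub_eq_add_neg, h3, hab]
    noncomm_ring
  set s := 2 * (u - u ^ 4) - 1 with hs
  have s2 : s ^ 2 = 5 := by
    rw [hs]
    linear_combination (norm := noncomm_ring [lit_eq']) 4 * u4 + 4 * (u ^ 3 - 2) * u5
  have sL : ∀ M : SL25, Commute (ρ (f M)) s := by
    have ha' : ∀ x, a * (a * x) = -x - a * x := fun x => by rw [← mul_assoc, ha]; noncomm_ring
    have hb' : ∀ x, b * (b * x) = -x - b * x := fun x => by rw [← mul_assoc, hb]; noncomm_ring
    have c1 : Commute a s := by
      rw [hs, hτ]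
      change _ * _ = _ * _
      noncomm_ring [ha, hb, ha', hb', lit_eq']
    have c2 : Commute b s := by
      rw [hs, hτ]
      change _ * _ = _ * _
      noncomm_ring [ha, hb, ha', hb', lit_eq']
    exact ic_ind _ (by simp) (fun M h => by rw [map_mul, map_mul]; exact h.mul_left c1)
      fun M h => by rw [map_mul, map_mul]; exact h.mul_left c2
  have cent : ∀ c : G, (∀ M, Commute c (f M)) → c * c = 1 := by
    intro c hc
    have cs : Commute (ρ c) s := by
      have := (hc (icS1 * icS2)).map ρ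
      exact ((Commute.ofNat_right _ 2).mul_right (this.sub_right (this.pow_right 4))).sub_right
        (Commute.one_right _)
    by_contra hne
    obtain ⟨p, hp, k, hk⟩ := Nat.exists_prime_and_dvd (mt orderOf_eq_one_iff.1 hne)
    have hk0 : k ≠ 0 := fun e => (orderOf_pos (c * c)).ne' (by rw [hk, e, mul_zero])
    have h1 : (c * c) ^ k ≠ 1 := fun e => by
      have := Nat.le_of_dvd (Nat.pos_of_ne_zero hk0) (orderOf_dvd_of_pow_eq_one e)
      have := hp.two_le
      have := Nat.pos_of_ne_zero hk0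
      nlinarith
    have h3 : ((c * c) ^ k) ^ p = 1 := by rw [← pow_mul, mul_comm, ← hk, pow_orderOf_eq_one]
    have cm : ∀ M, Commute (ρ (c ^ k)) (ρ (f M)) := fun M => ((hc M).pow_left k).map ρ
    rcases eq_or_ne p 2 with rfl | hp2
    · have h4 := (pm _ (by rw [← sq, h3])).resolve_left h1
      rw [(Commute.refl c).mul_pow, map_mul] at h4
      exact false_of_quat h2 ii' jj' ij' (cm i) (cm j) (Commute.zero_left _) (Commute.zero_left _)
        (Commute.one_left _) (Commute.one_left _) (Commute.zero_right _) (Commute.one_right _)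
        (Commute.one_right _) one_ne_zero (by rw [sq, h4]; simp)
    · have cm' : ∀ M, Commute (ρ ((c * c) ^ k)) (ρ (f M)) := fun M =>
        (((hc M).mul_left (hc M)).pow_left k).map ρ
      exact false_of_quat_root ii' jj' ij' hp hp2 (fun e => h1 (hρ (e.trans (map_one ρ).symm)))
        (by rw [← map_pow, h3, map_one]) s2 (cm' i) (cm' j) (sL i).symm (sL j).symm
        (by rw [map_pow, map_mul]; exact (cs.mul_left cs).pow_left k)
  have conj : ∀ (g : G) (M : SL25), ∃ N, f N = g * f M * g⁻¹ := fun g M =>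
    hN.conj_mem _ ⟨M, rfl⟩ g
  have dich : ∀ g : G, Commute g (f icS1) →
      (∃ k : ℕ, f icS1 ^ k * g * (f icS1 ^ k * g) = 1) ∨ ρ g * s = -(s * ρ g) := by
    intro g hg
    obtain ⟨M, hM⟩ := conj g icS2
    have e1 : f (icS1 * M) = g * f (icS1 * icS2) * g⁻¹ := by
      rw [map_mul, map_mul, hM, ← mul_assoc g, hg.eq]
      group
    have zc : g * f zz5 * g⁻¹ = f zz5 := hρ (by
      rw [map_mul, map_mul, hz, mul_neg_one, neg_mul, ← map_mul, mul_inv_cancel, map_one])
    rcases sl25_dich (M := M) (hf (by rw [map_pow, hM, conj_pow, ← map_pow, icS2_cube]; simp))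
      (hf (by rw [map_pow, e1, conj_pow, ← map_pow, sl25_u5, zc])) with ⟨k, hk⟩ | ⟨N, hk⟩
    · refine Or.inl ⟨k, cent _ (ic_ind _ (by simp) (fun N h => ?_) fun N h => ?_)⟩
      · rw [map_mul]
        exact h.mul_right (((Commute.refl _).pow_left k).mul_left hg)
      · rw [map_mul]
        refine h.mul_right ?_
        have := congrArg f hk
        rw [map_mul, map_mul, map_pow, hM] at this
        change _ * _ = _ * _
        rw [← mul_assoc, ← this]
        group
    · right
      have e2 : ∀ n : ℕ, ρ g * u ^ n = ρ (f N) * u ^ (3 * n) * ρ (f N⁻¹) * ρ g := fun n => by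
        rw [hu, ← map_pow, ← map_pow ρ, ← map_mul, ← map_mul, ← map_mul, ← map_mul]
        congr 1
        rw [← mul_inv_eq_iff_eq_mul, ← conj_pow, ← e1, hk, pow_mul, ← map_pow, ← map_pow,
          ← map_pow, ← map_mul, ← map_mul, conj_pow]
      have e3 : 2 * (u ^ (3 * 1) - u ^ (3 * 4)) - 1 = -s := by
        rw [hs, show 3 * 1 = 3 from rfl, show 3 * 4 = 12 from rfl]
        linear_combination (norm := noncomm_ring [lit_eq']) -2 * u4 - 2 * (u ^ 7 - u ^ 2) * u5
      have e4 : ρ (f N) * ρ (f N⁻¹) = 1 := by rw [← map_mul, ← map_mul]; simp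
      have e5 : ρ (f N) * -s * ρ (f N⁻¹) = -s := by
        rw [(sL N).neg_right.eq, mul_assoc, e4, mul_one]
      rw [← neg_mul, ← e5, ← e3, hs]
      have e6 := e2 1
      rw [pow_one] at e6
      linear_combination (norm := noncomm_ring [lit_eq']) 2 * e6 - 2 * e2 4 + e4 * ρ g
  have hs0 : s ≠ 0 := fun h => by
    rw [h, zero_pow two_ne_zero] at s2
    exact absurd s2.symm (by norm_num)
  have nanti : ∀ g : G, ρ g * s = -(s * ρ g) → ¬ Commute (ρ g) s := fun g h hc => by
    refine mul_ne_zero h2 (mul_ne_zero hs0 (fun e => ?_ : ρ g ≠ 0)) ?_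
    · simpa [e] using (map_mul ρ g g⁻¹)
    · linear_combination (norm := noncomm_ring) h - hc.eq
  have key : ∀ g : G, Commute g (f icS1) → g ∈ f.range := by
    intro g hg
    rcases dich g hg with ⟨k, hk⟩ | h
    · refine (f.range.mul_mem_cancel_left (pow_mem (show f icS1 ∈ f.range from ⟨_, rfl⟩) k)).1 ?_
      rcases pm _ hk with e | e
      · rw [e]; exact one_mem _
      · exact ⟨zz5, hρ (hz.trans e.symm)⟩
    exfalso
    have h3 : ρ (g ^ 3) * s = -(s * ρ (g ^ 3)) := by
      rw [pow_three, map_mul, map_mul, mul_assoc, mul_assoc, h, mul_neg, ← mul_assoc (ρ g) s, h,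
        neg_mul, neg_neg, ← mul_assoc, ← mul_assoc, h]
      noncomm_ring
    rcases dich (g * g) (hg.mul_left hg) with ⟨k, hk⟩ | h'
    · have h4 : (g ^ 3 * g ^ 3) * (g ^ 3 * g ^ 3) = 1 := by
        have c := ((hg.mul_left hg).pow_right k).symm
        have e : f icS1 ^ 3 = 1 := by rw [← map_pow, icS1_cube, map_one]
        have := congrArg (· ^ 3) hk
        simp only [one_pow] at this
        rw [(Commute.refl _).mul_pow, c.mul_pow, ← pow_mul, mul_comm k, pow_mul, e, one_pow,
          one_mul, (Commute.refl _).mul_pow] at this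
        exact this
      rcases pm _ h4 with e | e
      · refine nanti _ h3 ?_
        rcases pm _ e with e' | e' <;> rw [e']
        · simp
        · exact Commute.neg_one_left s
      · exact false_of_anti (by rw [← map_mul, e]) s2 h3
    · refine nanti _ h' ?_
      change _ * _ = _ * _
      rw [map_mul, mul_assoc, h, mul_neg, ← mul_assoc, h]
      noncomm_ring
  intro g
  obtain ⟨M, hM⟩ := conj g icS1
  obtain ⟨N, hN'⟩ := sl25_conj_S1 (M := M)
    (hf (by rw [map_pow, hM, conj_pow, ← map_pow, icS1_cube]; simp)) fun e => by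
      rw [e, map_one, eq_comm, conj_eq_one_iff, map_eq_one_iff f hf] at hM
      simpa [hM] using orderOf_icS1
  refine (f.range.mul_mem_cancel_left ⟨N, rfl⟩).1 (key (f N * g) ?_)
  change _ * _ = _ * _
  conv_rhs => rw [← hN', map_mul, map_mul, hM, map_inv]
  group

theorem nonempty_equiv_SL25 [Finite G] (hρ : Function.Injective ρ) (hs : ¬ Group.IsSolvable G) :
    Nonempty (G ≃* SL25) := by
  haveI : Nontrivial G := by
    by_contra h
    rw [not_nontrivial_iff_subsingleton] at h
    exact hs inferInstance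
  obtain ⟨f, hf, hN⟩ := (isFC_of_divisionRing hρ).exists_SL25 hs
  exact ⟨(MulEquiv.ofBijective f ⟨hf, surjective_of_divisionRing hρ hf⟩).symm⟩

end main

end Cfsg.Agent.H6
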