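/-
Groups with no class size divisible by four are solvable.
-/
import Cfsg.Agent.H6.Induction
import Cfsg.Agent.H9.FixCount
import Cfsg.Agent.H9.ClassSize
import Cfsg.Agent.H5.Misc
import Cfsg.Agent.L.SimpleRed

set_option autoImplicit false

namespace Cfsg.Agent.H6

open Subgroup

universe u

theorem isSolvable_of_not_four_dvd
    (hFT : ∀ (G : Type u) [Group G] [Finite G], Odd (Nat.card G) → Group.IsSolvable G)
    (G : Type u) [Group G] [Finite G] (h : ∀ x : G, ¬ 4 ∣ (centralizer ({x} : Set G)).index) :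
    Group.IsSolvable G := by
  refine L.isSolvable_of_closed
    (P := fun G _ _ => ∀ x : G, ¬ 4 ∣ (centralizer ({x} : Set G)).index) ?_ ?_ ?_ G h
  · intro G _ _ N _ h x h4
    exact h x (h4.trans (H9.index_centralizer_subgroup_dvd N x))
  · intro G _ _ N _ h x h4
    obtain ⟨x, rfl⟩ := QuotientGroup.mk_surjective x
    exact h x (h4.trans (H9.index_centralizer_mk_dvd N x))
  intro G _ _ _ h hns
  haveI : Fact (Nat.Prime 2) := ⟨Nat.prime_two⟩
  obtain ⟨t, ht⟩ := exists_prime_orderOf_dvd_card' (G := G) 2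
    (even_iff_two_dvd.1 (Nat.not_odd_iff_even.1 fun ho => hns (hFT G ho)))
  have hG : commutator G = ⊤ := by
    rcases (inferInstance : (commutator G).Normal).eq_bot_or_eq_top with e | e
    · exact (hns ⟨1, by rwa [derivedSeries_one]⟩).elim
    · exact e
  refine hns (H5.isSolvable_of_simple_of_mem_center (x := t) (by rintro rfl; simp at ht) ?_)
  rw [← H9.index_centralizer_eq_one_iff, index_eq_one]
  refine eq_top_of_forall_exists_conj_mem _ fun x => ?_
  have h4 := H9.four_dvd_of_sq_eq_one (Ω := G ⧸ centralizer ({x} : Set G)) hG (t := t)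
    (by rw [← ht, pow_orderOf_eq_one])
  rcases (MulAction.fixedBy (G ⧸ centralizer ({x} : Set G)) t).eq_empty_or_nonempty with e | ⟨ω, e⟩
  · rw [e, Set.ncard_empty] at h4
    exact (h x h4).elim
  obtain ⟨g, rfl⟩ := QuotientGroup.mk_surjective ω
  have e1 : ((t * g : G) : G ⧸ centralizer ({x} : Set G)) = g := e
  have e2 := mem_centralizer_singleton_iff.1 (QuotientGroup.eq.1 e1.symm)
  refine ⟨g⁻¹, mem_centralizer_singleton_iff.2 ?_⟩
  calc g⁻¹⁻¹ * x * g⁻¹ * t = g * (x * (g⁻¹ * (t * g))) * g⁻¹ := by group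
    _ = t * (g⁻¹⁻¹ * x * g⁻¹) := by rw [← e2]; group

end Cfsg.Agent.H6
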