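import Cfsg.Agent.H6.PowOrbit1
import Cfsg.Agent.H6.FixProd
import Cfsg.Agent.H6.PiElem
import Cfsg.Agent.H3.RankOne
import Cfsg.Agent.H8.PrimeDegree
import Cfsg.Agent.H8.ThompsonTransfer
import Cfsg.Agent.H9.ClassSize

/-!
A coprime linear group all of whose orbits have `p`-power length is solvable.
-/

set_option autoImplicit false

namespace Cfsg.Agent.H6

open Subgroup H1 H9
open scoped Pointwise commutatorElement

universe u v

theorem le_of_card_eq_sq {H : Type*} [Group H] [Finite H] {p : ℕ} (hp : p.Prime)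
    {E S : Subgroup H} (hE : Nat.card E = p ^ 2) {a b : H} (ha : a ∈ E) (hb : b ∈ E)
    (ha1 : orderOf a = p) (hab : b ∉ zpowers a) (haS : a ∈ S) (hbS : b ∈ S) : E ≤ S := by
  have h1 : zpowers a < E ⊓ S := lt_of_le_of_ne (zpowers_le.2 ⟨ha, haS⟩) fun h =>
    hab (h ▸ mem_inf.2 ⟨hb, hbS⟩)
  have h2 := card_lt_of_lt h1
  obtain ⟨k, hk, h3⟩ := (Nat.dvd_prime_pow hp).1 (hE ▸ card_dvd_of_le (inf_le_left : E ⊓ S ≤ E))
  rw [Nat.card_zpowers, ha1, h3] at h2
  have h4 : 1 < k := (Nat.pow_lt_pow_iff_right hp.one_lt).1 (by rwa [pow_one])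
  refine inf_eq_left.1 (eq_of_le_of_card_le inf_le_left ?_)
  rw [hE, h3, show k = 2 by omega]

section

variable {H V : Type*} [Group H] [CommGroup V] {φ : H →* MulAut V}

theorem smul_fixedSub_zpowers (x g : H) :
    φ x • fixedSub φ (zpowers g) = fixedSub φ (zpowers (x * g * x⁻¹)) := by
  ext v
  rw [mem_pointwise_smul_iff_inv_smul_mem, mem_fixedSub_zpowers, mem_fixedSub_zpowers,
    map_mul, map_mul, map_inv, MulAut.mul_apply, MulAut.mul_apply]
  exact MulEquiv.eq_symm_apply (φ x)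

theorem fixedSub_eq_bot (hφ : φ.ker = ⊥) {P : Subgroup H}
    (hirr : ∀ U : Subgroup V, (∀ x ∈ P, ∀ u ∈ U, φ x u ∈ U) → U = ⊥ ∨ U = ⊤)
    {E : Subgroup H} (hE : P ≤ normalizer (E : Set H)) (h : E ≠ ⊥) : fixedSub φ E = ⊥ := by
  refine (hirr _ fun x hx u hu => mem_fixedSub.2 fun b hb => ?_).resolve_right fun h1 => h ?_
  · conv_rhs => rw [← mem_fixedSub.1 hu _ (conj_mem_of_le_normalizer' hE hx hb)]
    simp
  · rw [eq_bot_iff, ← hφ]
    exact fun b hb => MulEquiv.ext fun u => mem_fixedSub.1 (h1 ▸ mem_top u) b hb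

theorem exists_blocks_of_elementary [Finite H] [Finite V] [Nontrivial V] {p : ℕ} [hp : Fact p.Prime]
    (hV : (Nat.card V).Coprime p) (hφ : φ.ker = ⊥) {P : Subgroup H} (hP : IsPGroup p P)
    (htr : ∀ h v, ∃ x ∈ P, φ h v = φ x v)
    (hirr : ∀ U : Subgroup V, (∀ x ∈ P, ∀ u ∈ U, φ x u ∈ U) → U = ⊥ ∨ U = ⊤)
    {E : Subgroup H} (hEP : E ≤ P) (hPE : P ≤ normalizer (E : Set H))
    (hE : IsElementaryAbelian p E) (hc : Nat.card E = p ^ 2) :
    ∃ W T : Subgroup V, W ≠ ⊤ ∧ Blocks φ P W T := by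
  have hE1 : E ≠ ⊥ := fun h => by
    rw [h, card_bot] at hc
    exact (Nat.one_lt_pow two_ne_zero hp.1.one_lt).ne hc
  obtain ⟨e, he, he1, hW⟩ : ∃ e ∈ E, e ≠ 1 ∧ fixedSub φ (zpowers e) ≠ ⊥ := by
    by_contra h
    push Not at h
    refine bot_ne_top (aut_eq_top_of_forall_fixed (φ.comp E.subtype)
      (by rw [hc]; exact hV.symm.pow_left 2) hE.1
      (H3.not_isCyclic_of_isElementaryAbelian hp.1 hE (by
        rw [hc]; exact lt_self_pow₀ hp.1.one_lt one_lt_two)) (H := ⊥) fun a ha g hg => ?_)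
    rw [← h a a.2 fun h1 => ha (Subtype.ext h1)]
    exact mem_fixedSub_zpowers.2 hg
  have ho : ∀ a ∈ E, a ≠ 1 → orderOf a = p := fun a ha ha1 => orderOf_eq_prime (hE.2 a ha) ha1
  have hd : ∀ a ∈ E, ∀ b ∈ E, a ≠ 1 → b ∉ zpowers a → ∀ v, φ a v = v → φ b v = v → v = 1 := by
    intro a ha b hb ha1 hab v h1 h2
    rw [← mem_bot, ← fixedSub_eq_bot hφ hirr hPE hE1]
    exact mem_fixedSub.2 (le_of_card_eq_sq hp.1 hc ha hb (ho a ha ha1) hab (S := stab φ v) h1 h2)
  obtain ⟨⟨w, hw⟩, hw1⟩ := ne_bot_iff_exists_ne_one.1 hW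
  have hw1 : w ≠ 1 := fun h => hw1 (Subtype.ext h)
  haveI := hP.isNilpotent
  obtain ⟨⟨z, hzE, hz⟩, hz1⟩ := ne_bot_iff_exists_ne_one.1
    (L.inf_centralizer_ne_bot_of_isNilpotent hEP hPE hE1)
  have hz1 : z ≠ 1 := fun h => hz1 (Subtype.ext h)
  have hze : z ∉ zpowers e := fun h => hw1 (by
    rw [← mem_bot, ← fixedSub_eq_bot hφ hirr (E := zpowers z) (le_normalizer_of_le_centralizer
      (le_centralizer_iff.1 (zpowers_le.2 hz))) (zpowers_ne_bot.2 hz1)]
    exact mem_fixedSub.2 fun b hb => mem_fixedSub.1 hw b (zpowers_le.2 h hb))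
  refine ⟨fixedSub φ (zpowers e), MonoidHom.range (commEnd (φ e)), fun h => he1 ?_, htr, hW,
    fun x hx y hy h => ?_, ?_, fun y hy h => ?_⟩
  · rw [← mem_bot, ← hφ]
    exact MulEquiv.ext fun u => mem_fixedSub_zpowers.1 (h ▸ mem_top u)
  · rw [smul_fixedSub_zpowers] at h
    have h1 : y * e * y⁻¹ ∈ zpowers e := by
      by_contra h1
      exact hw1 (hd e he _ (conj_mem_of_le_normalizer hPE hy he) he1 h1 w
        (mem_fixedSub_zpowers.1 hw) (mem_fixedSub_zpowers.1 (h ▸ hw)))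
    obtain ⟨k, hk⟩ := h1
    obtain ⟨j, hj⟩ := hP ⟨y, hy⟩
    have h2 := H3.dvd_exp_sub_one hp.1 hk.symm (ho e he he1).symm.dvd (congrArg Subtype.val hj)
    rw [← ho e he he1, ← H3.zpow_eq_self_iff_dvd] at h2
    have h3 := le_of_card_eq_sq hp.1 hc he hzE (ho e he he1) hze (S := centralizer {y})
      (mem_centralizer_singleton_iff.2 (mul_inv_eq_iff_eq_mul.1 (hk.symm.trans h2)).symm)
      (mem_centralizer_singleton_iff.2 (mem_centralizer_iff.1 hz y hy).symm)
    rw [smul_fixedSub_zpowers, smul_fixedSub_zpowers, ← mem_centralizer_singleton_iff.1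
      (h3 (conj_mem_of_le_normalizer hPE hx he)), mul_inv_cancel_right]
  · refine eq_bot_iff.2 fun v hv => eq_one_of_fixed_of_mem_range (n := p) ?_ hV hv.2
      (mem_fixedSub_zpowers.1 hv.1)
    rw [← map_pow, hE.2 e he, map_one]
  · rw [smul_fixedSub_zpowers] at h ⊢
    have h1 := conj_mem_of_le_normalizer hPE hy he
    have h2 : y * e * y⁻¹ ∉ zpowers e := fun h2 => h (by
      rw [eq_of_le_of_card_le (zpowers_le.2 h2) (by
        rw [Nat.card_zpowers, Nat.card_zpowers]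
        exact ((MulAut.conj y).orderOf_eq e).ge)])
    generalize y * e * y⁻¹ = e' at h1 h2
    have h3 : Commute (φ e') (φ e) := by
      rw [Commute, SemiconjBy, ← map_mul, ← map_mul]
      haveI := hE.1
      exact congrArg φ (congrArg Subtype.val (mul_comm' (⟨e', h1⟩ : E) ⟨e, he⟩))
    let f : fixedSub φ (zpowers e') → fixedSub φ (zpowers e') := fun v => ⟨commEnd (φ e) v, by
      rw [mem_fixedSub_zpowers, commEnd_comm h3, mem_fixedSub_zpowers.1 v.2]⟩
    have hf : Function.Injective f := fun a b hab => by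
      have h4 : commEnd (φ e) a = commEnd (φ e) b := congrArg Subtype.val hab
      refine Subtype.ext (mul_inv_eq_one.1 (hd e he e' h1 he1 h2 _ (mem_ker_commEnd.1 ?_)
        (mem_fixedSub_zpowers.1 (mul_mem a.2 (inv_mem b.2)))))
      change commEnd (φ e) _ = 1
      rw [map_mul, map_inv, h4, mul_inv_cancel]
    intro v hv
    obtain ⟨a, ha⟩ := Finite.surjective_of_injective hf ⟨v, hv⟩
    exact ⟨a, congrArg Subtype.val ha⟩

theorem exists_blocks_of_index_two [Finite V] {P : Subgroup H}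
    (htr : ∀ h v, ∃ x ∈ P, φ h v = φ x v)
    (hirr : ∀ U : Subgroup V, (∀ x ∈ P, ∀ u ∈ U, φ x u ∈ U) → U = ⊥ ∨ U = ⊤)
    {N : Subgroup P} (hN : N.index = 2) {y : P} (hy : y ∉ N) {W : Subgroup V} (h1 : W ≠ ⊥)
    (h2 : W ≠ ⊤) (hW : ∀ a ∈ N, φ (a : P) • W = W) : Blocks φ P W (φ y • W) := by
  haveI := normal_of_index_eq_two hN
  have k1 : ∀ a ∈ N, φ (a : P) • φ y • W = φ y • W := by
    intro a ha
    conv_rhs => rw [← hW _ (Normal.conj_mem' inferInstance a ha y)]
    simp [← mul_smul, ← mul_assoc]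
  have k2 : ∀ g : P, g ∉ N → φ g • W = φ y • W ∧ φ g • φ y • W = W := by
    intro g hg
    constructor
    · rw [← k1 (g * y⁻¹) ((mul_mem_iff_of_index_two hN).2 (by simp [hg, hy]))]
      simp [← mul_smul]
    · conv_rhs => rw [← hW (g * y) ((mul_mem_iff_of_index_two hN).2 (by simp [hg, hy]))]
      simp [← mul_smul]
  have k3 : W ⊓ φ y • W = ⊥ := by
    refine (hirr _ fun x hx u hu => ?_).resolve_right fun h => h2 (eq_top_iff.2
      (h.ge.trans inf_le_left))
    have k : ∀ U : Subgroup V, u ∈ U → φ x u ∈ φ x • U := fun U hU =>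
      smul_mem_pointwise_smul _ _ _ hU
    by_cases h : (⟨x, hx⟩ : P) ∈ N
    · exact ⟨hW _ h ▸ k _ hu.1, k1 _ h ▸ k _ hu.2⟩
    · exact ⟨(k2 _ h).2 ▸ k _ hu.2, (k2 _ h).1 ▸ k _ hu.1⟩
  refine ⟨htr, h1, fun x hx g hg h => ?_, k3, fun g hg h => ?_⟩
  · have h3 : (⟨g, hg⟩ : P) ∈ N := by
      by_contra h3
      rw [← (k2 _ h3).1, h, inf_idem] at k3
      exact h1 k3
    by_cases h4 : (⟨x, hx⟩ : P) ∈ N
    · rw [hW _ h4, h]
    · rw [(k2 _ h4).1, k1 _ h3]
  · exact (k2 ⟨g, hg⟩ fun h3 => h (hW _ h3)).1.le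

theorem stab_comm_of_card_le [Finite H] [Finite V] {q : ℕ} (hq : q.Prime) (hV : ∀ v : V, v ^ q = 1)
    (hH : ¬ q ∣ Nat.card H) (hφ : φ.ker = ⊥) (hc : Nat.card V ≤ q ^ 2) {v : V} (hv : v ≠ 1) :
    ∀ a ∈ stab φ v, ∀ b ∈ stab φ v, a * b = b * a := by
  haveI := Fact.mk hq
  obtain ⟨m, hm⟩ := (show IsPGroup q V from fun v => ⟨1, by simpa using hV v⟩).exists_card_eq
  have h1 : Nat.card (V ⧸ zpowers v) ∣ q := by
    have h1 := card_eq_card_quotient_mul_card_subgroup (zpowers v)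
    rw [Nat.card_zpowers, orderOf_eq_prime (hV v) hv] at h1
    rw [hm, Nat.pow_le_pow_iff_right hq.one_lt] at hc
    refine Nat.dvd_of_mul_dvd_mul_right hq.pos ?_
    rw [← h1, hm, ← pow_two]
    exact pow_dvd_pow q hc
  haveI := isCyclic_of_card_dvd_prime h1
  have h2 : ∀ a : stab φ v, ∀ x ∈ zpowers v, (φ.comp (stab φ v).subtype) a x = x := by
    rintro a _ ⟨k, rfl⟩
    rw [map_zpow]
    exact congrArg (· ^ k) a.2
  set ψ := quotAct (φ.comp (stab φ v).subtype) (zpowers v) fun a x hx => (h2 a x hx).symm ▸ hx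
  intro a ha b hb
  have h3 : ⁅(⟨a, ha⟩ : stab φ v), (⟨b, hb⟩ : stab φ v)⁆ ∈ ψ.ker := by
    rw [MonoidHom.mem_ker, map_commutatorElement, commutatorElement_eq_one_iff_mul_comm]
    exact (IsCyclic.mulAutMulEquiv _).injective (by rw [map_mul, map_mul, mul_comm])
  rw [← commutatorElement_eq_one_iff_mul_comm, ← mem_bot, ← hφ]
  refine MulEquiv.ext fun g => aut_trivial_of_trivial_on_sections
    ((φ.comp (stab φ v).subtype).comp ψ.ker.subtype) ?_ (N := zpowers v) (fun c g => ?_)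
    (fun c => h2 c) ⟨_, h3⟩ g
  · rw [hm]
    exact ((hq.coprime_iff_not_dvd.2 fun h => hH (h.trans ((card_subgroup_dvd_card _).trans
      (card_subgroup_dvd_card _)))).symm).pow_right m
  · rw [mul_comm]
    exact (quotAct_eq_one_iff _ _ _ _).1 c.2 g

end

/-- The theorem of Burnside and Schur on regular cyclic subgroups of prime power order. -/
def BurnsideSchur : Prop :=
  ∀ {Ω : Type v} [Fintype Ω] [DecidableEq Ω] (p m : ℕ), p.Prime → 2 ≤ m →
    Fintype.card Ω = p ^ m → ∀ (G : Subgroup (Equiv.Perm Ω)), MulAction.IsPretransitive G Ω →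
    ¬ MulAction.IsMultiplyPretransitive G Ω 2 → ∀ g : G, orderOf g = p ^ m →
    ¬ MulAction.IsPretransitive (Subgroup.normalClosure ({g ^ (p ^ (m - 1))} : Set G)) Ω

theorem cyclic_case (hBS : BurnsideSchur.{v}) {H : Type u} {V : Type v} [Group H] [Finite H]
    [CommGroup V] [Finite V] [Nontrivial V] {φ : H →* MulAut V} {p q : ℕ} [hp : Fact p.Prime]
    (hp2 : p ≠ 2) (hq : q.Prime) (hV : ∀ v : V, v ^ q = 1) (hH : ¬ q ∣ Nat.card H)
    (hφ : φ.ker = ⊥) {g : H} {a : ℕ} (hg : orderOf g = p ^ a)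
    (htr : ∀ h v, ∃ x ∈ zpowers g, φ h v = φ x v)
    (hirr : ∀ U : Subgroup V, (∀ x ∈ zpowers g, ∀ u ∈ U, φ x u ∈ U) → U = ⊥ ∨ U = ⊤) :
    Group.IsSolvable H ∨ ∃ K : Subgroup H, K.Normal ∧ K ≠ ⊥ ∧ K ≠ ⊤ := by
  classical
  have hsr : ∀ x ∈ zpowers g, ∀ v, φ x v = v → x = 1 ∨ v = 1 := by
    intro x hx v hv
    refine or_iff_not_imp_left.2 fun h => ?_
    rw [← mem_bot, ← fixedSub_eq_bot hφ hirr (E := zpowers x) (le_normalizer_of_le_centralizer
      (le_centralizer_iff.1 (zpowers_le.2 ?_))) (zpowers_ne_bot.2 h)]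
    · exact mem_fixedSub_zpowers.2 hv
    · exact fun y hy => commute_of_mem_zpowers hy hx
  obtain ⟨v, hv⟩ := exists_ne (1 : V)
  letI : MulAction H V := MulAction.compHom V φ
  have hΩ : Nat.card (MulAction.orbit H v) = p ^ a := by
    rw [← hg, ← Nat.card_zpowers]
    refine (Nat.card_congr (Equiv.ofBijective (fun x : zpowers g =>
      (⟨φ x v, x, rfl⟩ : MulAction.orbit H v)) ⟨fun x y h => ?_, ?_⟩)).symm
    · have h1 : φ x v = φ y v := congrArg Subtype.val h
      refine Subtype.ext (inv_mul_eq_one.1 ((hsr _ (mul_mem (inv_mem y.2) x.2) v ?_).resolve_right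
        hv)).symm
      rw [map_mul, MulAut.mul_apply, h1, map_inv, MulAut.inv_apply_self]
    · rintro ⟨_, h, rfl⟩
      obtain ⟨x, hx, h1⟩ := htr h v
      exact ⟨⟨x, hx⟩, Subtype.ext h1.symm⟩
  haveI : FaithfulSMul H (MulAction.orbit H v) := by
    refine faithfulSMul_iff.2 fun h hh => ?_
    obtain h1 | h1 := hirr (closure (MulAction.orbit H v)) (fun x _ u hu => by
      have : (closure (MulAction.orbit H v)).map (φ x : V →* V) ≤ closure (MulAction.orbit H v) := by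
        rw [MonoidHom.map_closure]
        refine closure_mono ?_
        rintro _ ⟨w, hw, rfl⟩
        exact MulAction.mem_orbit_of_mem_orbit x hw
      exact this ⟨u, hu, rfl⟩)
    · exact (hv (mem_bot.1 (h1 ▸ subset_closure (MulAction.mem_orbit_self v)))).elim
    · rw [← mem_bot, ← hφ]
      have : closure (MulAction.orbit H v) ≤ fixedSub φ (zpowers h) := (closure_le _).2
        fun w hw => mem_fixedSub_zpowers.2 (congrArg Subtype.val (hh ⟨w, hw⟩))
      exact MulEquiv.ext fun u => mem_fixedSub_zpowers.1 (this (h1 ▸ mem_top u))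
  obtain rfl | ha := Nat.eq_zero_or_pos a
  · haveI := (Nat.card_eq_one_iff_unique.1 hΩ).1
    haveI : Subsingleton H := ⟨fun x y => FaithfulSMul.eq_of_smul_eq_smul
      (α := MulAction.orbit H v) fun _ => Subsingleton.elim _ _⟩
    exact Or.inl inferInstance
  have hg1 : g ≠ 1 := fun h => by
    rw [h, orderOf_one] at hg
    exact (Nat.one_lt_pow ha.ne' hp.1.one_lt).ne hg
  have hodd : ∀ x : H, Odd (orderOf x) → ∀ w, φ x (φ x w) = w → φ x w = w := by
    intro x hx w hw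
    refine (zpowers_le (H := stab φ w) (g := x ^ 2)).2 ?_
      (mem_zpowers_pow_iff.2 (Nat.coprime_two_left.2 hx))
    rwa [mem_stab, pow_two, map_mul]
  have h2t : ¬ ∀ {a b c d : MulAction.orbit H v}, a ≠ b → c ≠ d → ∃ h : H, h • a = c ∧ h • b = d := by
    intro h
    have h1 : φ g v ≠ v := fun h1 => (hsr g (mem_zpowers g) v h1).elim hg1 hv
    obtain ⟨t, h2, h3⟩ := h (a := ⟨v, MulAction.mem_orbit_self v⟩) (b := ⟨φ g v, g, rfl⟩)
      (c := ⟨φ g v, g, rfl⟩) (d := ⟨v, MulAction.mem_orbit_self v⟩)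
      (fun h => h1 (congrArg Subtype.val h).symm) (fun h => h1 (congrArg Subtype.val h))
    replace h2 : φ t v = φ g v := congrArg Subtype.val h2
    replace h3 : φ t (φ g v) = v := congrArg Subtype.val h3
    obtain ⟨x, hx, h4⟩ := htr t (v * (φ g v)⁻¹)
    rw [map_mul, map_inv, h2, h3, ← inv_inv (φ g v * v⁻¹), mul_inv_rev, inv_inv] at h4
    have h5 := hodd x (Odd.of_dvd_nat ((hp.1.odd_of_ne_two hp2).pow (n := a))
      (hg ▸ orderOf_dvd_of_mem_zpowers hx)) (v * (φ g v)⁻¹) (by rw [← h4, map_inv, ← h4, inv_inv])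
    have h6 : orderOf (v * (φ g v)⁻¹) = 2 := by
      refine orderOf_eq_prime ?_ fun h => h1 (mul_inv_eq_one.1 h).symm
      rw [pow_two, ← inv_eq_iff_mul_eq_one, h4, h5]
    obtain rfl : 2 = q := (Nat.prime_dvd_prime_iff_eq Nat.prime_two hq).1
      (h6 ▸ orderOf_dvd_of_pow_eq_one (hV _))
    refine h1 (h2.symm.trans (hodd t (Odd.of_dvd_nat (Nat.odd_iff.2 (by omega))
      (orderOf_dvd_natCard t)) v (by rw [h2, h3])))
  obtain rfl | ha2 := eq_or_lt_of_le (Nat.one_le_of_lt ha)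
  · rw [pow_one] at hΩ hg
    obtain h | h := H8.two_trans_or_derivedSeries hΩ hg
    · exact (h2t (MulAction.is_two_pretransitive_iff.1 h)).elim
    · exact Or.inl ⟨⟨2, h⟩⟩
  haveI := Fintype.ofFinite (MulAction.orbit H v)
  set f := MulAction.toPermHom H (MulAction.orbit H v) with hf
  have htr' : MulAction.IsPretransitive f.range (MulAction.orbit H v) := ⟨fun x y => by
    obtain ⟨t, ht⟩ := MulAction.exists_smul_eq H x y
    exact ⟨f.rangeRestrict t, ht⟩⟩
  have h1 := hBS p a hp.1 ha2 (Nat.card_eq_fintype_card.symm.trans hΩ) f.range htr' (fun h => h2t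
    fun h1 h2 => by
      obtain ⟨⟨_, t, rfl⟩, ht⟩ := MulAction.is_two_pretransitive_iff.1 h h1 h2
      exact ⟨t, ht⟩) (f.rangeRestrict g) (by
    rw [orderOf_injective _ (MonoidHom.rangeRestrict_injective_iff.2
      MulAction.toPerm_injective), hg])
  refine Or.inr ⟨normalClosure {g ^ p ^ (a - 1)}, inferInstance, fun h => ?_, fun h => h1 ?_⟩
  · refine pow_ne_one_of_lt_orderOf (n := p ^ (a - 1)) (pow_ne_zero _ hp.1.ne_zero) ?_
      (mem_bot.1 (h ▸ subset_normalClosure (Set.mem_singleton _)))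
    rw [hg]
    exact Nat.pow_lt_pow_right hp.1.one_lt (by omega)
  · have h2 := map_normalClosure {g ^ p ^ (a - 1)} f.rangeRestrict f.rangeRestrict_surjective
    rw [h, Set.image_singleton, map_pow, map_top_of_surjective _ f.rangeRestrict_surjective] at h2
    refine ⟨fun x y => ?_⟩
    obtain ⟨t, ht⟩ := htr'.exists_smul_eq x y
    exact ⟨⟨t, h2 ▸ mem_top t⟩, ht⟩

theorem le_ker_of_orbits_aux (hBS : BurnsideSchur.{v}) {p q : ℕ} [hp : Fact p.Prime] (hq : q.Prime)
    (hpq : p ≠ q) (n : ℕ) : ∀ (H : Type u) [Group H] [Finite H] (V : Type v) [CommGroup V]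
    [Finite V] (φ : H →* MulAut V), Nat.card H + Nat.card V = n → (∀ v : V, v ^ q = 1) →
    ¬ q ∣ Nat.card H → (∀ v, ∃ k, (stab φ v).index = p ^ k) →
    ∀ D : Subgroup H, ⁅D, D⁆ = D → D ≤ φ.ker := by
  induction n using Nat.strong_induction_on with
  | _ n ih =>
  intro H _ _ V _ _ φ hn hV hH horb
  have hdvd : ∀ {a k : ℕ}, a ∣ p ^ k → ∃ j, a = p ^ j := fun h =>
    ((Nat.dvd_prime_pow hp.1).1 h).imp fun _ h => h.2
  by_cases hφ : φ.ker = ⊥
  swap
  · intro D hD
    have h1 := ih _ (hn ▸ Nat.add_lt_add_right (L.card_quotient_lt φ.ker hφ) _) (H ⧸ φ.ker) V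
      (QuotientGroup.kerLift φ) rfl hV (fun h => hH (h.trans φ.ker.card_quotient_dvd_card))
      (fun v => by
        obtain ⟨k, hk⟩ := horb v
        refine ⟨k, ?_⟩
        rw [← hk, ← index_comap_of_surjective _ (QuotientGroup.mk'_surjective φ.ker)]
        rfl) (D.map (QuotientGroup.mk' φ.ker)) (by rw [← map_commutator, hD])
    exact fun d hd => h1 ⟨d, hd, rfl⟩
  suffices h : Group.IsSolvable H from fun D hD => (eq_bot_of_perfect hD).le.trans bot_le
  obtain _ | _ := subsingleton_or_nontrivial V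
  · haveI : Subsingleton (MulAut V) := ⟨fun _ _ => MulEquiv.ext fun _ => Subsingleton.elim _ _⟩
    haveI : Subsingleton H := ((MonoidHom.ker_eq_bot_iff φ).1 hφ).subsingleton
    infer_instance
  haveI := Fact.mk hq
  obtain ⟨m, hm⟩ := (show IsPGroup q V from fun v => ⟨1, by simpa using hV v⟩).exists_card_eq
  have hcop : (Nat.card H).Coprime (Nat.card V) := by
    rw [hm]; exact (hq.coprime_iff_not_dvd.2 hH).symm.pow_right m
  have hVp : (Nat.card V).Coprime p := by
    rw [hm]; exact ((Nat.coprime_primes hq hp.1).2 hpq.symm).pow_left m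
  obtain ⟨P⟩ : Nonempty (Sylow p H) := inferInstance
  have htr : ∀ h v, ∃ x ∈ (P : Subgroup H), φ h v = φ x v := by
    intro h v
    obtain ⟨k, hk⟩ := horb v
    obtain ⟨x, hx, s, hs, rfl⟩ := exists_mul_eq_of_coprime_index (H := (P : Subgroup H))
      (K := stab φ v) (by
        rw [hk]; exact (hp.1.coprime_iff_not_dvd.2 P.not_dvd_index).symm.pow_right k) h
    exact ⟨x, hx, by rw [map_mul, MulAut.mul_apply, mem_stab.1 hs]⟩
  have hres : ∀ (K : Subgroup H) (W : Subgroup V) (hW : ∀ a : K, ∀ x ∈ W, φ a x ∈ W),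
      (K ≠ ⊤ ∨ W ≠ ⊤) → (∀ w ∈ W, ∃ k, (stab φ w).relIndex K = p ^ k) →
      ∀ D : Subgroup H, D ≤ K → ⁅D, D⁆ = D → ∀ d ∈ D, ∀ w ∈ W, φ d w = w := by
    intro K W hW hne h1 D hDK hD d hd w hw
    have h0 : Nat.card K + Nat.card W < n := by
      have h3 := K.card_le_card_group
      have h4 := W.card_le_card_group
      obtain h | h := hne
      · have := card_lt_of_lt h.lt_top
        rw [card_top] at this
        omega
      · have := card_lt_of_lt h.lt_top
        rw [card_top] at this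
        omega
    have h2 := ih _ h0 K W (restrictAut (φ.comp K.subtype) W hW) rfl
      (fun v => Subtype.ext (hV v)) (fun h => hH (h.trans K.card_subgroup_dvd_card))
      (fun v => by
        obtain ⟨k, hk⟩ := h1 v v.2
        refine ⟨k, hk ▸ congrArg index (Subgroup.ext fun a => Subtype.ext_iff)⟩)
      (D.subgroupOf K) (by rw [← subgroupOf_commutator hDK hDK, hD])
    exact congrArg Subtype.val (DFunLike.congr_fun (h2 (show (⟨d, hDK hd⟩ : K) ∈ _ from hd))
      ⟨w, hw⟩)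
  by_cases hirr : ∀ U : Subgroup V, (∀ x ∈ (P : Subgroup H), ∀ u ∈ U, φ x u ∈ U) → U = ⊥ ∨ U = ⊤
  swap
  · push Not at hirr
    obtain ⟨U, hU, h1, h2⟩ := hirr
    have hU' : ∀ h, ∀ u ∈ U, φ h u ∈ U := fun h u hu => by
      obtain ⟨x, hx, h3⟩ := htr h u
      exact h3 ▸ hU x hx u hu
    refine isSolvable_of_forall_perfect fun D hD => ?_
    have h3 := ih _ (hn ▸ Nat.add_lt_add_left (L.card_quotient_lt U h1) _) H (V ⧸ U)
      (quotAct φ U hU') rfl (fun v => by
        obtain ⟨v, rfl⟩ := QuotientGroup.mk_surjective v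
        rw [← QuotientGroup.mk_pow, hV, QuotientGroup.mk_one]) hH (fun v => by
        obtain ⟨v, rfl⟩ := QuotientGroup.mk_surjective v
        obtain ⟨k, hk⟩ := horb v
        exact hdvd (hk ▸ index_dvd_of_le (show stab φ v ≤ stab (quotAct φ U hU') (v : V ⧸ U) from
          fun a ha => by rw [mem_stab, quotAct_mk, mem_stab.1 ha]))) D hD
    rw [eq_bot_iff, ← hφ]
    intro d hd
    refine MulEquiv.ext fun g => aut_trivial_of_trivial_on_sections (φ.comp D.subtype)
      (hcop.coprime_dvd_left D.card_subgroup_dvd_card) (N := U) (fun c g => ?_)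
      (fun c => hres ⊤ U (fun a => hU' a) (Or.inr h2) (fun w _ => by
        rw [relIndex_top_right]; exact horb w) D le_top hD c c.2) ⟨d, hd⟩ g
    rw [mul_comm]
    exact (quotAct_eq_one_iff _ _ _ _).1 (h3 c.2) g
  have hO : pPrimeCore p H = ⊥ := by
    rw [eq_bot_iff, ← hφ]
    refine fun x hx => MulEquiv.ext fun v => ?_
    obtain ⟨k, hk⟩ := horb v
    exact H7.le_of_normal_of_coprime_index (C := stab φ v) (by
      rw [hk]; exact (L.coprime_card_pPrimeCore p).pow_right k) hx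
  have hblk : ∀ W T : Subgroup V, W ≠ ⊤ → Blocks φ P W T → Group.IsSolvable H := by
    intro W T hW hB
    obtain ⟨⟨w, hw⟩, hw1⟩ := ne_bot_iff_exists_ne_one.1 hB.ne
    have hw1 : w ≠ 1 := fun h => hw1 (Subtype.ext h)
    obtain ⟨k, hk⟩ := horb w
    obtain ⟨j, hj⟩ := hdvd (hk ▸ index_dvd_of_le (hB.stab_le hw hw1))
    haveI := hB.isSolvable_quotient hp.1 hj
    refine isSolvable_of_forall_perfect fun D hD => ?_
    have h1 := le_ker_of_perfect (QuotientGroup.mk' (sstab φ W).normalCore) hD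
    rw [QuotientGroup.ker_mk'] at h1
    obtain h2 | h2 := hirr (⨅ t : H, fixedSub φ (D.map (MulAut.conj t).toMonoidHom))
      (fun x _ u hu => mem_iInf.2 fun t => mem_fixedSub.2 fun b hb => by
        have h3 := mem_fixedSub.1 (mem_iInf.1 hu (x⁻¹ * t)) (x⁻¹ * b * x)
          (mem_map_conj.2 (by simpa [mul_assoc] using mem_map_conj.1 hb))
        conv_rhs => rw [← h3]
        simp)
    · refine (hw1 (mem_bot.1 (h2 ▸ mem_iInf.2 fun t => mem_fixedSub.2 fun b hb => ?_))).elim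
      refine hres (sstab φ W) W (fun a x hx => ?_) (Or.inr hW) (fun u hu => ?_) _
        ((map_conj_le_of_mem_normalizer h1 (le_normalizer_of_normal (mem_top t))).trans
          (normalCore_le _)) (by rw [← map_commutator, hD]) b hb w hw
      · exact (mem_sstab.1 a.2).le (smul_mem_pointwise_smul _ _ _ hx)
      · by_cases hu1 : u = 1
        · exact ⟨0, relIndex_eq_one.2 fun a _ => by rw [mem_stab, hu1, map_one]⟩
        · obtain ⟨k, hk⟩ := horb u
          exact hdvd (hk ▸ relIndex_dvd_index_of_le (hB.stab_le hu hu1))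
    · rw [eq_bot_iff, ← hφ]
      refine fun d hd => MulEquiv.ext fun v => ?_
      exact mem_fixedSub.1 (mem_iInf.1 (h2.ge (mem_top v)) 1) d (by rwa [map_conj_one])
  by_cases hA : ∀ A : Subgroup (P : Subgroup H), A.Normal → IsMulCommutative A → IsCyclic A
  swap
  · push Not at hA
    obtain ⟨A, _, h1, h2⟩ := hA
    obtain ⟨E, _, -, h3, h4⟩ := H3.exists_normal_elementary_sq_le P.isPGroup' A h1 h2
    haveI := h3.1
    obtain ⟨W, T, h5, h6⟩ := exists_blocks_of_elementary hVp hφ P.isPGroup' htr hirr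
      (E := E.map (P : Subgroup H).subtype) (map_subtype_le _) (H2.le_normalizer_map_subtype _)
      ⟨inferInstance, by rintro _ ⟨a, ha, rfl⟩; rw [← map_pow, h3.2 a ha, map_one]⟩
      (by rw [card_map_of_injective (subtype_injective _), h4])
    exact hblk W T h5 h6
  obtain hc | ⟨rfl, n, x, y, hn2, hx, hi, hy, hxy⟩ := H3.normal_abelian_cyclic_cases P.isPGroup' hA
  · by_cases hp2 : p = 2
    · subst hp2
      exact isSolvable_of_isPGroup (isPGroup_of_hasNPC (H8.hasNPC_two_of_isCyclic P hc) hO)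
    obtain ⟨g, hg⟩ := (Subgroup.isCyclic_iff_exists_zpowers_eq_top _).1 hc
    obtain ⟨a, ha⟩ := P.isPGroup'.exists_card_eq
    rw [← hg, Nat.card_zpowers] at ha
    obtain h | ⟨K, _, h1, h2⟩ := cyclic_case hBS hp2 hq hV hH hφ ha (hg ▸ htr) (hg ▸ hirr)
    · exact h
    haveI : Group.IsSolvable K := isSolvable_of_forall_perfect fun D hD => by
      rw [← Subgroup.map_eq_bot_iff_of_injective _ K.subtype_injective, eq_bot_iff, ← hφ]
      refine fun d hd => MulEquiv.ext fun v => hres K ⊤ (fun _ _ _ => trivial) (Or.inl h2)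
        (fun w _ => ?_) _ (map_subtype_le _) (by rw [← map_commutator, hD]) d hd v trivial
      obtain ⟨k, hk⟩ := horb w
      exact hdvd (hk ▸ H9.relIndex_dvd_index_of_normal_right _ _)
    exact isSolvable_of_isCyclic_sylow P hc hO K h1
  by_cases hx2 : ∀ U : Subgroup V, (∀ u ∈ U, φ x u ∈ U) → U = ⊥ ∨ U = ⊤
  swap
  · push Not at hx2
    obtain ⟨W, h1, h2, h3⟩ := hx2
    refine hblk W _ h3 (exists_blocks_of_index_two htr hirr hi hy h2 h3 fun a ha => ?_)
    refine (zpowers_le (H := (sstab φ W).subgroupOf P) (g := x)).2 ?_ ha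
    refine eq_of_le_of_card_le ?_ (Nat.card_congr (equivSMul (φ x) W).toEquiv).le
    rintro _ ⟨u, hu, rfl⟩
    exact h1 u hu
  obtain ⟨e, he1, he2⟩ : ∃ e : ℕ, y * x * y⁻¹ = x ^ e ∧ 2 ^ (n - 1) ∣ e + 1 := by
    have h1 : x⁻¹ = x ^ (2 ^ n - 1) := by
      rw [inv_eq_iff_mul_eq_one, ← pow_succ', Nat.sub_add_cancel Nat.one_le_two_pow, ← hx,
        pow_orderOf_eq_one]
    have h2 : 2 ^ (n - 1) ∣ 2 ^ n - 1 + 1 := by
      rw [Nat.sub_add_cancel Nat.one_le_two_pow]
      exact pow_dvd_pow 2 (by omega)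
    obtain h | h | h := hxy
    · exact ⟨_, h.2.trans h1, h2⟩
    · exact ⟨_, h.2.trans h1, h2⟩
    · exact ⟨_, h.2.2, by rw [Nat.sub_add_cancel Nat.one_le_two_pow]⟩
  set ψ := φ.comp (P : Subgroup H).subtype with hψ
  have hψi : Function.Injective ψ := ((MonoidHom.ker_eq_bot_iff φ).1 hφ).comp (subtype_injective _)
  obtain ⟨j, hj⟩ := exists_pow_eq_pow_of_irr hq hV (σ := ψ x) (τ := ψ y) (e := e)
    (by rw [← map_inv, ← map_mul, ← map_mul, he1, map_pow]) hx2
  rw [pow_eq_pow_iff_modEq, orderOf_injective ψ hψi, hx] at hj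
  have h1 := two_pow_dvd_sq_sub_one (j := j) (hq.odd_of_ne_two hpq.symm) hn2
    (((hj.of_dvd (pow_dvd_pow 2 (by omega))).add_right 1).dvd_iff dvd_rfl |>.1 he2)
  have h2 := H2.card_le_of_irreducible_aut hq two_pos hV (ψ x) (by
    conv_rhs => rw [← pow_one (ψ x)]
    rw [pow_eq_pow_iff_modEq, orderOf_injective ψ hψi, hx]
    exact ((Nat.modEq_iff_dvd' (Nat.one_le_pow _ _ hq.pos)).2 h1).symm) hx2
  obtain ⟨v, hv⟩ := exists_ne (1 : V)
  obtain ⟨k, hk⟩ := horb v
  exact isSolvable_of_comm_of_index hp.1 _ (stab_comm_of_card_le hq hV hH hφ h2 hv) hk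

/-- A `q'`-group acting on an elementary abelian `q`-group with orbits of `p`-power length induces
a solvable group of automorphisms. -/
theorem le_ker_of_orbits (hBS : BurnsideSchur.{v}) {p q : ℕ} (hp : p.Prime) (hq : q.Prime)
    (hpq : p ≠ q) {H : Type u} [Group H] [Finite H] {V : Type v} [CommGroup V]
    [Finite V] (φ : H →* MulAut V) (hV : ∀ v : V, v ^ q = 1) (hH : ¬ q ∣ Nat.card H)
    (h : ∀ v, ∃ k, (stab φ v).index = p ^ k) {D : Subgroup H} (hD : ⁅D, D⁆ = D) : D ≤ φ.ker :=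
  haveI := Fact.mk hp
  le_ker_of_orbits_aux hBS hq hpq _ H V φ rfl hV hH h D hD

end Cfsg.Agent.H6
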