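import Mathlib.NumberTheory.Bertrand
import Mathlib.Tactic.NormNum.Prime

/-!
Two primes differing by at least three between `m / 2` and `m`.
-/

set_option autoImplicit false

namespace Cfsg.Agent.H6

open Nat

theorem exists_prime_pair_of_large {n : ℕ} (hn : 512 ≤ n) :
    ∃ p q : ℕ, p.Prime ∧ q.Prime ∧ n < p ∧ p + 3 ≤ q ∧ q ≤ 2 * n := by
  by_contra hcon
  push Not at hcon
  have n2_pos : 1 ≤ 2 * n := by omega
  let T := {p ∈ Finset.range (2 * n + 1) | p.Prime ∧ n < p}
  have hT : T.card ≤ 3 := by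
    rcases T.eq_empty_or_nonempty with h | h
    · simp [h]
    · have h1 := Finset.mem_filter.mp (T.min'_mem h)
      have : T ⊆ Finset.Ico (T.min' h) (T.min' h + 3) := by
        intro q hq
        have h2 := Finset.mem_filter.mp hq
        refine Finset.mem_Ico.mpr ⟨T.min'_le q hq, ?_⟩
        by_contra h3
        have h4 := hcon _ q h1.2.1 h2.2.1 h1.2.2 (by omega)
        have h5 := Finset.mem_range.mp h2.1
        omega
      simpa using Finset.card_le_card this
  let S := {p ∈ Finset.range (2 * n / 3 + 1) | Nat.Prime p}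
  let f x := x ^ n.centralBinom.factorization x
  have hf : ∀ p, f p ≤ 2 * n := fun p => pow_factorization_choose_le (by omega)
  have hf1 : ∀ p, 1 ≤ f p := fun p => by
    by_cases hp : p.Prime
    · exact Nat.one_le_pow _ _ hp.pos
    · simp [f, factorization_eq_zero_of_not_prime _ hp]
  have h1 : centralBinom n ≤ (∏ p ∈ S, f p) * ∏ p ∈ T, f p := by
    rw [← n.prod_pow_factorization_centralBinom, ← Finset.prod_union_inter]
    refine le_trans ?_ (Nat.le_mul_of_pos_right _ (Finset.prod_pos fun p _ => hf1 p))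
    rw [← Finset.prod_filter_of_ne (p := fun p => p ∈ S ∪ T)]
    · exact Finset.prod_le_prod_of_subset_of_one_le' (fun p hp => (Finset.mem_filter.mp hp).2)
        fun p _ _ => hf1 p
    · intro p hp h
      have hpp : p.Prime := by
        by_contra hpp
        exact h (by rw [factorization_eq_zero_of_not_prime _ hpp, Nat.pow_zero])
      rw [Finset.mem_union]
      by_cases h2 : n < p
      · exact Or.inr (Finset.mem_filter.mpr ⟨hp, hpp, h2⟩)
      · refine Or.inl (Finset.mem_filter.mpr ⟨Finset.mem_range.mpr ?_, hpp⟩)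
        by_contra h3
        exact h (by rw [factorization_centralBinom_of_two_mul_self_lt_three_mul (by omega)
          (by omega) (by omega), Nat.pow_zero])
  have hs : 6 ≤ sqrt (2 * n) := by rw [le_sqrt]; omega
  have h2 : ∏ p ∈ S, f p ≤ (2 * n) ^ (sqrt (2 * n) - 3) * 4 ^ (2 * n / 3) := by
    rw [← Finset.prod_filter_mul_prod_filter_not S (· ≤ sqrt (2 * n))]
    apply mul_le_mul'
    · refine (Finset.prod_le_prod' fun p _ => hf p).trans ?_
      rw [Finset.prod_const]
      refine pow_right_mono₀ n2_pos ?_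
      have h3 : ({1, 4, 6} : Finset ℕ) ⊆ Finset.Icc 1 (sqrt (2 * n)) := by
        intro x hx
        simp only [Finset.mem_insert, Finset.mem_singleton] at hx
        rw [Finset.mem_Icc]
        omega
      have h4 : (Finset.Icc 1 (sqrt (2 * n)) \ {1, 4, 6}).card = sqrt (2 * n) - 3 := by
        rw [Finset.card_sdiff_of_subset h3, card_Icc, Nat.add_sub_cancel]
        rfl
      refine (Finset.card_le_card fun x hx => ?_).trans h4.le
      obtain ⟨h5, h6⟩ := Finset.mem_filter.1 hx
      have h7 := (Finset.mem_filter.1 h5).2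
      refine Finset.mem_sdiff.mpr ⟨Finset.mem_Icc.mpr ⟨h7.one_lt.le, h6⟩, ?_⟩
      simp only [Finset.mem_insert, Finset.mem_singleton]
      rintro (rfl | rfl | rfl) <;> norm_num at h7
    · refine le_trans ?_ (primorial_le_four_pow (2 * n / 3))
      refine (Finset.prod_le_prod' fun p hp => (?_ : f p ≤ p)).trans ?_
      · obtain ⟨h1, h2⟩ := Finset.mem_filter.1 hp
        refine (pow_right_mono₀ (Finset.mem_filter.1 h1).2.one_lt.le ?_).trans (pow_one p).le
        exact Nat.factorization_choose_le_one (sqrt_lt'.mp <| not_le.1 h2)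
      refine Finset.prod_le_prod_of_subset_of_one_le' (Finset.filter_subset _ _) ?_
      exact fun p hp _ => (Finset.mem_filter.1 hp).2.one_lt.le
  have h3 : ∏ p ∈ T, f p ≤ (2 * n) ^ 3 :=
    (Finset.prod_le_pow_card _ _ _ fun p _ => hf p).trans (pow_right_mono₀ n2_pos hT)
  have h4 : centralBinom n ≤ (2 * n) ^ sqrt (2 * n) * 4 ^ (2 * n / 3) := by
    refine h1.trans ((Nat.mul_le_mul h2 h3).trans (le_of_eq ?_))
    rw [mul_right_comm, ← pow_add, Nat.sub_add_cancel (by omega)]
  have h5 := Nat.four_pow_lt_mul_centralBinom n (by omega)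
  have h6 := bertrand_main_inequality hn
  rw [mul_assoc] at h6
  exact absurd (h5.trans_le (Nat.mul_le_mul_left n h4)) (not_lt.mpr h6)

theorem exists_prime_pair {m : ℕ} (hm : 17 ≤ m) :
    ∃ p q : ℕ, p.Prime ∧ q.Prime ∧ m < 2 * p ∧ p + 3 ≤ q ∧ q ≤ m := by
  by_cases h : 1024 ≤ m
  · obtain ⟨p, q, hp, hq, h1, h2, h3⟩ := exists_prime_pair_of_large (n := m / 2) (by omega)
    exact ⟨p, q, hp, hq, by omega, h2, by omega⟩
  by_cases h1 : 701 ≤ m
  · exact ⟨691, 701, by norm_num, by norm_num, by omega, by omega, h1⟩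
  by_cases h2 : 359 ≤ m
  · exact ⟨353, 359, by norm_num, by norm_num, by omega, by omega, h2⟩
  by_cases h3 : 191 ≤ m
  · exact ⟨181, 191, by norm_num, by norm_num, by omega, by omega, h3⟩
  by_cases h4 : 101 ≤ m
  · exact ⟨97, 101, by norm_num, by norm_num, by omega, by omega, h4⟩
  by_cases h5 : 59 ≤ m
  · exact ⟨53, 59, by norm_num, by norm_num, by omega, by omega, h5⟩
  by_cases h6 : 37 ≤ m
  · exact ⟨31, 37, by norm_num, by norm_num, by omega, by omega, h6⟩
  by_cases h7 : 23 ≤ m
  · exact ⟨19, 23, by norm_num, by norm_num, by omega, by omega, h7⟩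
  · exact ⟨13, 17, by norm_num, by norm_num, by omega, by omega, hm⟩

end Cfsg.Agent.H6
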