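/-
Groups whose class sizes are not divisible by squares.
-/
import Cfsg.Agent.FT.BG01
import Cfsg.Agent.H9.ClassSize
import Cfsg.Agent.L.SimpleRed
import Cfsg.Agent.H3.PBasic
import Cfsg.Agent.H6.ZAction
import Cfsg.Prelude.Def_SolvableStructure

set_option autoImplicit false

namespace Cfsg.Agent.H6

open Subgroup Cfsg Cfsg.Agent Cfsg.Agent.FT
open scoped commutatorElement

universe u

variable {G : Type u} [Group G] [Finite G]

theorem inf_le_of_not_sq_dvd {p : ℕ} (hp : p.Prime) {P X Y : Subgroup G} (hP : IsPGroup p P)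
    (hX : ¬ P ≤ X) (h : ¬ p ^ 2 ∣ (X ⊓ Y).relIndex P) : P ⊓ X ≤ Y := by
  have key : ∀ A B : Subgroup G, B ≤ P → ¬ B ≤ A → p ∣ A.relIndex B := fun A B hB hA => by
    obtain ⟨n, hn⟩ := exists_card_eq_pow hp (hP.to_le hB)
    obtain ⟨k, -, hk⟩ := (Nat.dvd_prime_pow hp).1 (hn ▸ relIndex_dvd_card' A B)
    rw [hk]
    refine dvd_pow_self p ?_
    rintro rfl
    exact hA (relIndex_eq_one.1 hk)
  by_contra hn
  apply h
  rw [← inf_relIndex_right, inf_comm X, inf_assoc, ← relIndex_mul_relIndex _ (X ⊓ P) P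
    inf_le_right inf_le_right, inf_relIndex_right, inf_relIndex_right, pow_two]
  exact Nat.mul_dvd_mul (key _ _ inf_le_right (by rwa [inf_comm])) (key _ _ le_rfl hX)

structure Kn (p : ℕ) (V B : Subgroup G) : Prop where
  hp : p.Prime
  pg : IsPGroup p V
  norm : B ≤ 𝐍(V)
  bb : ⁅B, B⁆ ≤ 𝐂(V)
  bv : ⁅B, V⁆ ≤ 𝐂(V)
  idx : ∀ a ∈ B, ¬ p ^ 2 ∣ 𝐂[a].relIndex V

namespace Kn

variable {p : ℕ} {V B : Subgroup G} (h : Kn p V B)

/-- The map `v ↦ [a, v]`. -/
def hom (a : B) : V →* G :=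
  MonoidHom.mk' (fun v => ⁅(a : G), (v : G)⁆) fun v w => by
    have := mem_cent.1 (h.bv (commutator_mem_commutator a.2 w.2)) v v.2
    calc ⁅(a : G), ((v * w : V) : G)⁆ = ⁅(a : G), (v : G)⁆ * (v * ⁅(a : G), (w : G)⁆) * (v : G)⁻¹ := by
          simp only [commutatorElement_def, coe_mul]; group
      _ = _ := by rw [this]; group

theorem mem_range {a : B} {x : G} : x ∈ (h.hom a).range ↔ ∃ v ∈ V, ⁅(a : G), v⁆ = x :=
  ⟨fun ⟨v, e⟩ => ⟨v, v.2, e⟩, fun ⟨v, hv, e⟩ => ⟨⟨v, hv⟩, e⟩⟩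

theorem range_eq_bot_iff {a : B} : (h.hom a).range = ⊥ ↔ V ≤ 𝐂[(a : G)] :=
  ⟨fun e v hv => mem_cent1_iff_commute.2 (commutatorElement_eq_one_iff_commute.1
      (mem_bot.1 (e ▸ h.mem_range.2 ⟨v, hv, rfl⟩))),
    fun e => eq_bot_iff.2 fun x hx => by
      obtain ⟨v, hv, rfl⟩ := h.mem_range.1 hx
      exact commutatorElement_eq_one_iff_commute.2 (mem_cent1_iff_commute.1 (e hv))⟩

theorem card_range {a : B} (ha : (h.hom a).range ≠ ⊥) : 𝐨((h.hom a).range) = p := by
  have e : (h.hom a).ker = 𝐂[(a : G)].subgroupOf V := by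
    ext v
    exact commutatorElement_eq_one_iff_commute.trans mem_cent1_iff_commute.symm
  have h1 := h.idx a a.2
  have h2 := relIndex_dvd_card' 𝐂[(a : G)] V
  rw [relIndex, ← e, index_ker] at h1 h2
  obtain ⟨n, hn⟩ := exists_card_eq_pow h.hp h.pg
  obtain ⟨k, -, hk⟩ := (Nat.dvd_prime_pow h.hp).1 (hn ▸ h2)
  rw [hk] at h1 ⊢
  rcases k with _ | _ | k
  · exact (ha (card_eq_one.1 hk)).elim
  · simp
  · exact (h1 (pow_dvd_pow p (by omega))).elim

theorem prime_card {a : B} (ha : (h.hom a).range ≠ ⊥) : 𝐨((h.hom a).range).Prime := by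
  rw [h.card_range ha]
  exact h.hp

theorem conj_mem_range {a : B} {b x : G} (hb : b ∈ B) (hx : x ∈ (h.hom a).range) :
    b * x * b⁻¹ ∈ (h.hom a).range := by
  obtain ⟨v, hv, rfl⟩ := h.mem_range.1 hx
  have hw := (mem_normalizer_iff.1 (h.norm hb) v).1 hv
  refine h.mem_range.2 ⟨_, hw, ?_⟩
  have := mem_cent.1 (h.bb (commutator_mem_commutator (inv_mem a.2) hb)) _ hw
  calc ⁅(a : G), b * v * b⁻¹⁆ = a * (b * v * b⁻¹ * ⁅(a : G)⁻¹, b⁆) * ⁅(a : G)⁻¹, b⁆⁻¹ * (a : G)⁻¹ *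
        (b * v * b⁻¹)⁻¹ := by simp only [commutatorElement_def]; group
    _ = _ := by rw [this]; simp only [commutatorElement_def]; group

theorem cent_le {a b : B} (ha : (h.hom a).range ≠ ⊥)
    (hab : (h.hom a).range ⊓ (h.hom b).range = ⊥) : V ⊓ 𝐂[(a : G)] ≤ 𝐂[(b : G)] := by
  refine inf_le_of_not_sq_dvd h.hp h.pg (mt h.range_eq_bot_iff.2 ha) fun hd =>
    h.idx _ (mul_mem a.2 b.2) (hd.trans ?_)
  rw [← inf_relIndex_right 𝐂[(a : G) * b]]
  refine relIndex_dvd_of_le_left _ fun v hv => ?_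
  have e1 := commutatorElement_eq_one_iff_commute.2 (mem_cent1_iff_commute.1 hv.1)
  have e2 : ⁅(a : G), v⁆ = (a * ⁅(b : G), v⁆ * (a : G)⁻¹)⁻¹ * ⁅(a : G) * b, v⁆ := by
    simp only [commutatorElement_def]; group
  have e3 : ⁅(a : G), v⁆ = 1 := mem_bot.1 (hab ▸ mem_inf.2 ⟨h.mem_range.2 ⟨v, hv.2, rfl⟩, by
    rw [e2, e1, mul_one]
    exact inv_mem (h.conj_mem_range a.2 (h.mem_range.2 ⟨v, hv.2, rfl⟩))⟩)
  refine ⟨mem_cent1_iff_commute.2 (commutatorElement_eq_one_iff_commute.1 e3),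
    mem_cent1_iff_commute.2 (commutatorElement_eq_one_iff_commute.1 ?_)⟩
  rw [e1, e3, mul_one, eq_comm, inv_eq_one] at e2
  simpa using e2

theorem card_dvd (H : ∀ a b : B, (h.hom a).range ≠ ⊥ → (h.hom b).range ≠ ⊥ →
    (h.hom a).range ⊓ (h.hom b).range ≠ ⊥) : 𝐨(⁅B, V⁆) ∣ p := by
  by_cases h1 : ∀ a : B, (h.hom a).range = ⊥
  · rw [comm_eq_bot_iff.2 fun a ha => mem_cent_iff_cent1.2 (h.range_eq_bot_iff.1 (h1 ⟨a, ha⟩)),
      card_bot]
    exact one_dvd _
  push Not at h1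
  obtain ⟨a, ha⟩ := h1
  rw [← h.card_range ha]
  refine FT.card_dvd_of_le (commutator_le.2 fun b hb v hv => ?_)
  have h2 : ⁅b, v⁆ ∈ (h.hom ⟨b, hb⟩).range := h.mem_range.2 ⟨v, hv, rfl⟩
  by_cases h3 : (h.hom ⟨b, hb⟩).range = ⊥
  · rw [h3, mem_bot] at h2
    rw [h2]
    exact one_mem _
  · exact ((inf_eq_bot_or_le_of_card_prime (h.prime_card h3) _).resolve_left
      (H _ _ h3 ha)) h2

theorem card_dvd_of_self (h : Kn p V V) : 𝐨(⁅V, V⁆) ∣ p := by
  refine h.card_dvd fun a b ha hb hab => ?_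
  obtain ⟨g, hg, hga⟩ := SetLike.not_le_iff_exists.1 (mt h.range_eq_bot_iff.2 ha)
  have hgb : g ∉ 𝐂[(b : G)] := fun e => hga (h.cent_le hb (by rwa [inf_comm]) ⟨hg, e⟩)
  have key : ∀ c : V, g ∉ 𝐂[(c : G)] → (h.hom c).range ≠ ⊥ →
      (h.hom c).range = (h.hom ⟨g, hg⟩).range := fun c hc hc1 => by
    have h1 : ⁅(c : G), g⁆ ∈ (h.hom ⟨g, hg⟩).range := by
      rw [← commutatorElement_inv]
      exact inv_mem (h.mem_range.2 ⟨c, c.2, rfl⟩)
    have h2 : ⁅(c : G), g⁆ ≠ 1 := fun e =>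
      hc (mem_cent1_iff_commute.2 (commutatorElement_eq_one_iff_commute.1 e))
    rw [← zpowers_eq_of_card_prime (h.prime_card hc1) (h.mem_range.2 ⟨g, hg, rfl⟩) h2,
      zpowers_eq_of_card_prime (h.prime_card fun e => h2 (mem_bot.1 (e ▸ h1))) h1 h2]
  rw [key a hga ha, key b hgb hb, inf_idem, ← key a hga ha] at hab
  exact ha hab

theorem card_dvd_of_fix (H : ∀ a : B, (h.hom a).range ≤ 𝐂(B) → (h.hom a).range = ⊥) :
    𝐨(⁅B, V⁆) ∣ p := by
  have hV : ∀ a : B, (h.hom a).range ≤ V := fun a x hx => by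
    obtain ⟨v, hv, rfl⟩ := h.mem_range.1 hx
    exact comm_le_right_iff.2 h.norm (commutator_mem_commutator a.2 hv)
  have key : ∀ a b : B, (h.hom a).range ⊓ (h.hom b).range = ⊥ → (h.hom a).range ≤ 𝐂[(b : G)] :=
    fun a b hab x hx => mem_cent1_iff_commute.2 (commutatorElement_eq_one_iff_commute.1
      (mem_bot.1 (hab ▸ mem_inf.2 ⟨mul_mem (h.conj_mem_range b.2 hx) (inv_mem hx),
        h.mem_range.2 ⟨x, hV a hx, rfl⟩⟩)))
  refine h.card_dvd fun a b ha hb hab => ha (H a (cent_comm.1 fun c hc => ?_))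
  refine mem_cent_iff_cent1.2 ?_
  rcases inf_eq_bot_or_le_of_card_prime (h.prime_card ha) (h.hom ⟨c, hc⟩).range with e | e
  · exact key a ⟨c, hc⟩ e
  · have h1 : (h.hom ⟨c, hc⟩).range ≠ ⊥ := fun e1 => ha (eq_bot_iff.2 (e1 ▸ e))
    rw [(eq_bot_or_eq_of_card_prime (h.prime_card h1) e).resolve_left ha] at hab ⊢
    exact (le_inf (hV _) (key _ _ hab)).trans (h.cent_le hb (by rwa [inf_comm]))

end Kn

/-- All class sizes are square-free. -/
def SqF (G : Type u) [Group G] : Prop := ∀ x : G, Squarefree 𝐂[x].index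

namespace SqF

variable (h : SqF G)
include h

omit [Finite G] in
theorem quotient (N : Subgroup G) [N.Normal] : SqF (G ⧸ N) := fun x => by
  obtain ⟨x, rfl⟩ := QuotientGroup.mk_surjective x
  exact (h x).squarefree_of_dvd (H9.index_centralizer_mk_dvd N x)

theorem not_dvd {p : ℕ} (hp : p.Prime) (V : Subgroup G) [V.Normal] (x : G) :
    ¬ p ^ 2 ∣ 𝐂[x].relIndex V := fun hd =>
  Nat.squarefree_iff_prime_squarefree.1 (h x) p hp
    (pow_two p ▸ hd.trans (H9.relIndex_dvd_index_of_normal_right _ V))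

theorem der_le_cent (hs : Group.IsSolvable G) {V : Subgroup G} (hV : L.IsMinNormal V) :
    ⁅(⊤ : Subgroup G), ⊤⁆ ≤ 𝐂(V) := by
  haveI := hV.1
  by_cases h1 : ⊤ ≤ 𝐂(V)
  · exact le_top.trans h1
  obtain ⟨B, ⟨hB, hB1⟩, hmin⟩ := (wellFounded_lt (α := Subgroup G)).has_min
    {B | B.Normal ∧ ¬ B ≤ 𝐂(V)} ⟨⊤, inferInstance, h1⟩
  obtain ⟨p, hp, hVp⟩ := hV.exists_isPGroup
  have hVc := isMulComm_iff_le_cent.1 hV.isMulCommutative_of_isSolvable
  have k : Kn p V B := ⟨hp, hVp, le_normalizer_of_normal, by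
    by_contra hn
    exact hmin _ ⟨inferInstance, hn⟩ (Group.IsSolvable.commutator_lt_of_ne_bot (by
      rintro rfl
      exact hB1 bot_le)), (commutator_le_right B V).trans hVc, fun a _ => h.not_dvd hp V a⟩
  have h2 := k.card_dvd_of_fix fun a ha => eq_bot_iff.2 fun x hx => by
    have : V ⊓ 𝐂(B) = ⊥ := (hV.inf_eq_bot_or_le _).resolve_right fun e => hB1 (cent_comm.1 e)
    rw [← this]
    refine ⟨?_, ha hx⟩
    obtain ⟨v, hv, rfl⟩ := k.mem_range.1 hx
    exact commutator_le_right B V (commutator_mem_commutator a.2 hv)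
  rw [(hV.2.2 _ inferInstance (commutator_le_right B V)).resolve_left
    fun e => hB1 (comm_eq_bot_iff.1 e)] at h2
  haveI : IsCyclic V := isCyclic_of_card_dvd_prime (hp := ⟨hp⟩) h2
  exact commutator_le_centralizer_of_isCyclic le_normalizer_of_normal le_normalizer_of_normal

end SqF

theorem SqF.isNilpotent_der (G : Type u) [Group G] [Finite G] :
    SqF G → Group.IsSolvable G → Group.IsNilpotent (_root_.commutator G) := by
  refine L.induction_on_card (P := fun G _ _ => SqF G → Group.IsSolvable G →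
    Group.IsNilpotent (_root_.commutator G)) G fun G _ _ ih h hs => ?_
  rcases subsingleton_or_nontrivial G with hG | hG
  · infer_instance
  obtain ⟨V, hV⟩ := L.exists_isMinNormal (G := G)
  haveI := hV.1
  refine L.isNilpotent_of_map_mk'_of_le_centralizer V _ (h.der_le_cent hs hV) ?_
  rw [_root_.commutator_def, map_commutator,
    map_top_of_surjective _ (QuotientGroup.mk'_surjective V)]
  exact ih _ (L.card_quotient_lt V hV.2.1) (h.quotient V) inferInstance

theorem der_le_of_not_sq_dvd {p : ℕ} (hp : p.Prime) {P X : Subgroup G} (hP : IsPGroup p P)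
    (h : ¬ p ^ 2 ∣ X.relIndex P) : ⁅P, P⁆ ≤ X := by
  haveI := Fact.mk hp
  obtain ⟨n, hn⟩ := exists_card_eq_pow hp hP
  obtain ⟨k, -, hk⟩ := (Nat.dvd_prime_pow hp).1 (hn ▸ relIndex_dvd_card' X P)
  rcases k with _ | _ | k
  · exact (commutator_le_self P).trans (relIndex_eq_one.1 hk)
  · rw [zero_add, pow_one] at hk
    haveI := H3.normal_of_index_eq_prime hP hk
    rw [← map_subtype_commutator]
    exact map_le_iff_le_comap.2 (H3.commutator_le_of_index_prime (M := X.subgroupOf P)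
      ((show (X.subgroupOf P).index = p from hk).symm ▸ hp))
  · exact (h (hk ▸ pow_dvd_pow p (by omega))).elim

theorem comm_eq_one_of_coprime {P : Subgroup G} {a g : G} (hc : (orderOf a).Coprime 𝐨(P))
    (h1 : ⁅a, g⁆ ∈ P) (h2 : ⁅a, g⁆ ∈ 𝐂[a]) : ⁅a, g⁆ = 1 := by
  have := H1.commutatorElement_pow_left_of_central (mem_cent1_iff_commute.1 h2) (orderOf a)
  rw [pow_orderOf_eq_one, commutatorElement_one_left] at this
  exact orderOf_eq_one_iff.1 (Nat.eq_one_of_dvd_coprimes hc (orderOf_dvd_of_pow_eq_one this.symm)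
    (orderOf_dvd_card_of_mem h1))

theorem SqF.card_der_dvd (h : SqF G) {p : ℕ} (hp : p.Prime)
    (hD : IsPGroup p (_root_.commutator G)) : 𝐨(_root_.commutator G) ∣ p := by
  obtain ⟨P, hP, hDP⟩ := exists_isSyl_ge hp hD le_top
  have hPn : ⊤ ≤ 𝐍(P) := comm_le_left_iff.1 ((commutator_mono le_top le_rfl).trans hDP)
  haveI : P.Normal := normalizer_eq_top_iff.1 (eq_top_iff.2 hPn)
  have hH := (isSyl_iff_hall hp).1 hP
  obtain ⟨A, hA⟩ := exists_sdProd_of_hall (hall_isHallIn hH) hPn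
  have hAA : ⁅A, A⁆ = ⊥ := eq_bot_iff.2 (hA.disj ▸ le_inf
    ((commutator_mono le_top le_top).trans hDP) (commutator_le_self A))
  have hAc : ∀ a ∈ A, (orderOf a).Coprime 𝐨(P) := fun a ha =>
    ((hA.relIndex_left ▸ hall_coprime hH).symm.coprime_dvd_left (orderOf_dvd_card_of_mem ha))
  by_cases hc : A ≤ 𝐂(P)
  · have hPP : ⁅P, P⁆ ≤ 𝐂(P) := cent_comm.1 fun z hz => mem_cent_iff_cent1.2
      (der_le_of_not_sq_dvd hp hP.pgrp (h.not_dvd hp P z))
    have k : Kn p P P := ⟨hp, hP.pgrp, le_normalizer, hPP, hPP, fun a _ => h.not_dvd hp P a⟩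
    refine (FT.card_dvd_of_le (hA.der_le le_normalizer_of_normal le_rfl ?_ ?_)).trans
      k.card_dvd_of_self
    · rw [comm_eq_bot_iff.2 (cent_comm.1 hc)]
      exact bot_le
    · rw [hAA]
      exact bot_le
  obtain ⟨a, ha, ha1⟩ := SetLike.not_le_iff_exists.1 hc
  rw [mem_cent_iff_cent1] at ha1
  have hPP : P ≤ 𝐂(P) := by
    have h1 : P ⊓ 𝐂[a] ≤ 𝐂(P ⊓ 𝐂[a]) := fun y hy => mem_cent_iff_cent1.2
      (inf_le_of_not_sq_dvd hp hP.pgrp ha1 (by
        rw [← H9.centralizer_mul_of_coprime (mem_cent1_iff_commute.1 hy.2)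
          ((hAc a ha).coprime_dvd_right (orderOf_dvd_card_of_mem hy.1))]
        exact h.not_dvd hp P _))
    obtain ⟨g, hg, hga⟩ := SetLike.not_le_iff_exists.1 ha1
    have hd : ⁅a, g⁆ ∈ P := commutator_le_right A P (commutator_mem_commutator ha hg)
    have hda : ⁅a, g⁆ ∉ 𝐂[a] := fun e => hga (mem_cent1_iff_commute.2
      (commutatorElement_eq_one_iff_commute.1 (comm_eq_one_of_coprime (hAc a ha) hd e)))
    have hmax : ∀ Y : Subgroup G, P ⊓ 𝐂[a] ≤ Y → ⁅a, g⁆ ∈ Y → P ≤ Y := fun Y h1 h2 => by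
      by_contra hn
      refine hda (inf_le_of_not_sq_dvd hp hP.pgrp hn (fun hd => h.not_dvd hp P a (hd.trans ?_))
        ⟨hd, h2⟩)
      rw [← inf_relIndex_left P 𝐂[a]]
      exact relIndex_dvd_of_le_left _ (le_inf h1 inf_le_right)
    have h2 : ⁅a, g⁆ ∈ 𝐂(P ⊓ 𝐂[a]) := mem_cent.2 fun c hc => by
      have e1 := mem_cent1.1 hc.2
      have e2 := mem_cent1.1 (mul_mem (der_le_of_not_sq_dvd hp hP.pgrp (h.not_dvd hp P a)
        (commutator_mem_commutator (inv_mem hg) hc.1)) hc.2)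
      calc c * ⁅a, g⁆ = a * c * g * a⁻¹ * g⁻¹ := by
            rw [e1]; simp only [commutatorElement_def]; group
        _ = a * g * a⁻¹ * (a * (⁅g⁻¹, c⁆ * c)) * a⁻¹ * g⁻¹ := by
            simp only [commutatorElement_def]; group
        _ = ⁅a, g⁆ * c := by rw [e2]; simp only [commutatorElement_def]; group
    exact hmax _ (cent_comm.1 (hmax _ h1 h2))
      (mem_cent_iff_cent1.2 (hmax _ (mem_cent_iff_cent1.1 h2) (self_mem_cent1 _)))
  have k : Kn p P A := ⟨hp, hP.pgrp, le_normalizer_of_normal, hAA ▸ bot_le,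
    (commutator_le_right A P).trans hPP, fun a _ => h.not_dvd hp P a⟩
  refine (FT.card_dvd_of_le (hA.der_le ?_ ?_ (commutator_comm _ _).le ?_)).trans
    (k.card_dvd_of_fix fun b hb => eq_bot_iff.2 fun x hx => ?_)
  · rw [← hA.sup]
    exact sup_le ((cent_comm.1 ((commutator_le_right A P).trans hPP)).trans (cent_le_norm _))
      (H1.le_normalizer_commutator le_normalizer le_normalizer_of_normal)
  · rw [comm_eq_bot_iff.2 hPP]
    exact bot_le
  · rw [hAA]
    exact bot_le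
  · obtain ⟨v, hv, rfl⟩ := k.mem_range.1 hx
    exact comm_eq_one_of_coprime (hAc b b.2)
      (commutator_le_right A P (commutator_mem_commutator b.2 hv)) (cent_le_cent1 b.2 (hb hx))

theorem SqF.squarefree_der (h : SqF G) (hn : Group.IsNilpotent (_root_.commutator G)) :
    Squarefree 𝐨(_root_.commutator G) := by
  refine Nat.squarefree_iff_prime_squarefree.2 fun p hp hd => ?_
  have hH := hall_piCoreOf_of_isNilpotent hn {p}ᶜ
  set N := piCoreOf {p}ᶜ (_root_.commutator G)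
  haveI : N.Normal := normal_iff_top_le.2
    (le_normalizer_of_normal.trans (norm_le_norm_hall_of_isNilpotent hn hH))
  have e : 𝐨(_root_.commutator (G ⧸ N)) = N.relIndex (_root_.commutator G) := by
    rw [_root_.commutator_def, ← map_top_of_surjective _ (QuotientGroup.mk'_surjective N),
      ← map_commutator, ← relIndex_ker, QuotientGroup.ker_mk']
    rfl
  have h1 := (H1.isPiHallOf_iff.1 hH).2.2
  rw [compl_compl] at h1
  obtain ⟨k, hk⟩ := (L.isPiNum_singleton_iff hp index_ne_zero_of_finite).1 h1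
  have h2 := (h.quotient N).card_der_dvd hp (isPGroup_of_card_eq (e.trans hk))
  rw [e] at h2
  rw [← relIndex_bot_left, ← relIndex_mul_relIndex ⊥ N _ bot_le (hall_le hH),
    relIndex_bot_left] at hd
  exact (isPi_compl_singleton_iff' hp).1 (hall_isPi hH)
    (Nat.dvd_of_mul_dvd_mul_right hp.pos (hd.trans (Nat.mul_dvd_mul_left _ h2)))

theorem fitting_eq_cent_der (hc : IsCyclic (_root_.commutator G))
    (hs : Squarefree 𝐨(_root_.commutator G)) : fittingSubgroup G = 𝐂(_root_.commutator G) := by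
  have hn : Group.IsNilpotent (_root_.commutator G) := isNilpotent_of_isMulComm inferInstance
  refine le_antisymm (cent_comm.1 (le_of_forall_exists_isSyl_le fun p hp hd => ?_))
    (L.le_fittingSubgroup inferInstance ?_)
  · have hP := isSyl_pCoreOf_of_isNilpotent hp hn
    refine ⟨_, hP, (inf_eq_bot_or_le_of_card_prime ?_ _).resolve_left (inf_center_ne_bot
      inferInstance ⟨hP.le.trans (L.le_fittingSubgroup inferInstance hn), le_top.trans
        (le_normalizer_of_normal.trans (hP.norm_le_of_isNilpotent hp hn))⟩ (hP.ne_bot hp hd))⟩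
    rw [hP.card_eq_pow_factorization hp, Nat.factorization_eq_one_of_squarefree hs hp hd, pow_one]
    exact hp
  · refine L.isNilpotent_of_map_mk'_of_le_centralizer (_root_.commutator G) _ le_rfl ?_
    haveI : IsMulCommutative (G ⧸ _root_.commutator G) :=
      Normal.quotient_commutative_iff_commutator_le.2 le_rfl
    exact isNilpotent_of_isMulComm inferInstance

inductive SChain : Subgroup G → Prop
  | bot : SChain ⊥
  | step (H : Subgroup G) (g : G) : SChain H → (H ⊔ zpowers g).Normal → SChain (H ⊔ zpowers g)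

omit [Finite G] in
theorem SChain.exists_chain {K : Subgroup G} (h : SChain K) :
    ∃ (n : ℕ) (H : Fin (n + 1) → Subgroup G), H 0 = ⊥ ∧ H (Fin.last n) = K ∧ (∀ i, (H i).Normal) ∧
      ∀ i : Fin n, ∃ g : G, H i.succ = H i.castSucc ⊔ zpowers g := by
  induction h with
  | bot => exact ⟨0, fun _ => ⊥, rfl, rfl, fun _ => inferInstance, fun i => i.elim0⟩
  | step K g _ hn ih =>
    obtain ⟨n, H, h0, h1, h2, h3⟩ := ih
    refine ⟨n + 1, Fin.snoc H (K ⊔ zpowers g), ?_, Fin.snoc_last _ _, fun i => ?_, fun i => ?_⟩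
    · rw [← Fin.castSucc_zero, Fin.snoc_castSucc, h0]
    · refine Fin.lastCases ?_ (fun i => ?_) i
      · rwa [Fin.snoc_last]
      · rw [Fin.snoc_castSucc]
        exact h2 i
    · refine Fin.lastCases ?_ (fun i => ?_) i
      · exact ⟨g, by rw [Fin.succ_last, Fin.snoc_last, Fin.snoc_castSucc, h1]⟩
      · rw [Fin.succ_castSucc, Fin.snoc_castSucc, Fin.snoc_castSucc]
        exact h3 i

theorem isSupersolvable_of_isCyclic_der (hc : IsCyclic (_root_.commutator G)) :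
    IsSupersolvable G := by
  obtain ⟨z, hz⟩ := isCyclic_iff_zpowers.1 hc
  have h0 : SChain (_root_.commutator G) := by
    have := SChain.step ⊥ z SChain.bot (by rw [bot_sup_eq, hz]; infer_instance)
    rwa [bot_sup_eq, hz] at this
  obtain ⟨K, ⟨hK, hK1⟩, hmax⟩ := (wellFounded_gt (α := Subgroup G)).has_min
    {K | SChain K ∧ _root_.commutator G ≤ K} ⟨_, h0, le_rfl⟩
  have : K = ⊤ := eq_top_iff.2 fun g _ => by
    by_contra hg
    refine hmax _ ⟨SChain.step K g hK (normal_iff_top_le.2 (le_norm_of_der_le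
      (hK1.trans le_sup_left) le_top)), hK1.trans le_sup_left⟩ ?_
    exact lt_of_le_of_ne le_sup_left fun e => hg (e ▸ mem_sup_right (mem_zpowers g))
  exact (this ▸ hK).exists_chain

end Cfsg.Agent.H6
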