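import Cfsg.Agent.H2.Radical
import Cfsg.Agent.H1.Coprime

/-!
Subnormalizers of `p`-subgroups (Casolo).
-/

set_option autoImplicit false

namespace Cfsg.Agent.H6

open Subgroup Finset

section weights

variable {α : Type*} [PartialOrder α] [Fintype α]

open scoped Classical in
/-- The weight function with sum one above every point of `S`. -/
noncomputable def wt (S : Set α) : α → ℤ :=
  (wellFounded_gt (α := α)).fix fun a f =>
    1 - ∑ b : α, if h : b ∈ S ∧ a < b then f b h.2 else 0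

open scoped Classical in
theorem wt_eq (S : Set α) (a : α) :
    wt S a = 1 - ∑ b : α, if b ∈ S ∧ a < b then wt S b else 0 := by
  rw [wt, WellFounded.fix_eq]
  simp only [dite_eq_ite]

open scoped Classical in
theorem sum_split (S : Set α) (w : α → ℤ) {a : α} (ha : a ∈ S) :
    ∑ b : α, (if b ∈ S ∧ a ≤ b then w b else 0) =
      w a + ∑ b : α, if b ∈ S ∧ a < b then w b else 0 := by
  rw [← Finset.add_sum_erase _ _ (mem_univ a),
    ← Finset.add_sum_erase _ (fun b => if b ∈ S ∧ a < b then w b else 0) (mem_univ a)]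
  rw [if_pos ⟨ha, le_rfl⟩, if_neg (fun h => lt_irrefl _ h.2), zero_add]
  congr 1
  refine Finset.sum_congr rfl fun b hb => ?_
  have := (Finset.mem_erase.1 hb).1
  simp only [lt_iff_le_and_ne, ne_eq, this.symm, not_false_eq_true, and_true]

open scoped Classical in
theorem sum_wt (S : Set α) {a : α} (ha : a ∈ S) :
    ∑ b : α, (if b ∈ S ∧ a ≤ b then wt S b else 0) = 1 := by
  rw [sum_split S _ ha, wt_eq S a, sub_add_cancel]

open scoped Classical in
theorem eq_wt (S : Set α) (w : α → ℤ) (r : α)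
    (h : ∀ a ∈ S, r ≤ a → ∑ b : α, (if b ∈ S ∧ a ≤ b then w b else 0) = 1) :
    ∀ a ∈ S, r ≤ a → w a = wt S a := by
  intro a
  induction a using (wellFounded_gt (α := α)).induction with
  | _ a ih =>
    intro ha hr
    have h1 := h a ha hr
    rw [sum_split S _ ha] at h1
    rw [wt_eq, ← h1, eq_sub_iff_add_eq, add_right_inj]
    refine Finset.sum_congr rfl fun b _ => ?_
    split_ifs with hb
    · exact (ih b hb.2 hb.1 (hr.trans hb.2.le)).symm
    · rfl

open scoped Classical in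
theorem wt_local (S T : Set α) (φ : α → α) (r : α) (hr : r ∈ T) (hTS : T ⊆ S)
    (h1 : ∀ b ∈ S, r ≤ b → φ b ∈ T) (h2 : ∀ b ∈ S, ∀ a ∈ T, a ≤ φ b ↔ a ≤ b)
    (h3 : ∀ b ∈ S, r ≤ b → φ b = r → b = r) : wt S r = wt T r := by
  have h := eq_wt T (fun t => ∑ b : α, if (b ∈ S ∧ r ≤ b) ∧ φ b = t then wt S b else 0) r
    ?_ r hr le_rfl
  · rw [← h, Finset.sum_eq_single r]
    · rw [if_pos ⟨⟨hTS hr, le_rfl⟩, le_antisymm
        ((h2 r (hTS hr) _ (h1 r (hTS hr) le_rfl)).1 le_rfl) ((h2 r (hTS hr) r hr).2 le_rfl)⟩]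
    · intro b _ hb
      exact if_neg fun h' => hb (h3 b h'.1.1 h'.1.2 h'.2)
    · simp
  · intro a ha hra
    rw [← sum_wt S (hTS ha)]
    have : ∀ t : α, (if t ∈ T ∧ a ≤ t then
        ∑ b : α, (if (b ∈ S ∧ r ≤ b) ∧ φ b = t then wt S b else 0) else 0) =
        ∑ b : α, if φ b = t then (if b ∈ S ∧ a ≤ b then wt S b else 0) else 0 := by
      intro t
      split_ifs with ht
      · refine Finset.sum_congr rfl fun b _ => ?_
        by_cases h4 : φ b = t
        · subst h4
          by_cases h5 : b ∈ S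
          · have h6 := (h2 b h5 a ha).1 ht.2
            simp [h5, h6, hra.trans h6]
          · simp [h5]
        · simp [h4]
      · refine (Finset.sum_eq_zero fun b _ => ?_).symm
        split_ifs with h4 h5
        · subst h4
          exact (ht ⟨h1 b h5.1 (hra.trans h5.2), (h2 b h5.1 a ha).2 h5.2⟩).elim
        · rfl
        · rfl
    rw [Finset.sum_congr rfl fun t _ => this t, Finset.sum_comm]
    simp

end weights

variable {G : Type*} [Group G]

theorem card_smul_pred {X : Type*} [MulAction G X] [Finite G] (x : X) (q : X → Prop) :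
    Nat.card {g : G // q (g • x)} =
      Nat.card {y : X // y ∈ MulAction.orbit G x ∧ q y} * Nat.card (MulAction.stabilizer G x) := by
  classical
  have hc : ∀ y : {y : X // y ∈ MulAction.orbit G x ∧ q y}, ∃ g : G, g • x = y := fun y => y.2.1
  choose c hc using hc
  rw [← Nat.card_prod]
  refine (Nat.card_congr (Equiv.ofBijective (fun z : {y : X // y ∈ MulAction.orbit G x ∧ q y} ×
    MulAction.stabilizer G x => (⟨c z.1 * z.2, by
      rw [mul_smul, z.2.2, hc]; exact z.1.2.2⟩ : {g : G // q (g • x)})) ⟨?_, ?_⟩)).symm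
  · rintro ⟨y, s⟩ ⟨y', s'⟩ h
    have h1 : c y * s = c y' * s' := congrArg Subtype.val h
    have h2 : y = y' := by
      apply Subtype.ext
      rw [← hc, ← hc, ← s.2, ← mul_smul, h1, mul_smul, s'.2, s.2]
    subst h2
    rw [mul_right_inj] at h1
    rw [Subtype.ext h1]
  · rintro ⟨g, hg⟩
    refine ⟨⟨⟨g • x, ⟨g, rfl⟩, hg⟩, ⟨(c ⟨g • x, ⟨g, rfl⟩, hg⟩)⁻¹ * g, ?_⟩⟩, Subtype.ext ?_⟩
    · rw [MulAction.mem_stabilizer_iff, mul_smul, inv_smul_eq_iff, hc]
    · simp

variable [Finite G] {p : ℕ} [hp : Fact p.Prime]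

theorem subnormal_iff {H : Subgroup G} (hH : IsPGroup p H) (g : G) :
    (H.subgroupOf (H ⊔ zpowers g)).IsSubnormal ↔
      ∃ R : Subgroup G, IsPGroup p R ∧ H ≤ R ∧ g ∈ normalizer (R : Set G) := by
  constructor
  · intro h
    have h1 : H2.SnIn (H ⊔ zpowers g) H := H2.snIn_iff.2 ⟨le_sup_left, h⟩
    exact ⟨pCoreOf p (H ⊔ zpowers g), H2.isPGroup_pCoreOf p _, h1.le_pCoreOf hH,
      H2.le_normalizer_pCoreOf p _ (mem_sup_right (mem_zpowers g))⟩
  · rintro ⟨R, hR, hHR, hg⟩
    have h1 : H2.SnIn (normalizer (R : Set G)) R := H2.SnIn.of_normal le_normalizer le_rfl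
    have h2 : H2.SnIn (normalizer (R : Set G)) H := H2.snIn_of_le_fittingOf
      (hHR.trans (h1.le_fittingOf hR.isNilpotent))
    exact (H2.snIn_iff.1 (h2.mono le_sup_left
      (sup_le (hHR.trans le_normalizer) (zpowers_le.2 hg)))).2

/-- Maximal `p`-subgroups of `K`. -/
def MaxP (p : ℕ) (K Q : Subgroup G) : Prop :=
  Maximal (fun Q : Subgroup G => IsPGroup p Q ∧ Q ≤ K) Q

omit [Finite G] hp in
theorem maxP_map (K : Subgroup G) (P : Sylow p K) : MaxP p K ((P : Subgroup K).map K.subtype) := by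
  refine ⟨⟨P.isPGroup'.map _, map_subtype_le _⟩, fun Q hQ h => ?_⟩
  rw [← P.is_maximal' (hQ.1.comap_subtype) (map_le_iff_le_comap.1 h)]
  exact (map_subgroupOf_eq_of_le hQ.2).ge

omit [Finite G] hp in
theorem MaxP.exists_sylow {K Q : Subgroup G} (h : MaxP p K Q) :
    ∃ P : Sylow p K, (P : Subgroup K).map K.subtype = Q := by
  obtain ⟨P, hP⟩ := (h.1.1.comap_subtype (K := K)).exists_le_sylow
  have h1 : Q ≤ (P : Subgroup K).map K.subtype :=
    (map_subgroupOf_eq_of_le h.1.2).ge.trans (map_mono hP)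
  exact ⟨P, le_antisymm (h.2 (maxP_map K P).1 h1) h1⟩

theorem card_normalizer_mul_card_sylow (P : Sylow p G) :
    Nat.card (normalizer ((P : Subgroup G) : Set G)) * Nat.card (Sylow p G) = Nat.card G := by
  rw [P.card_eq_index_normalizer, P.coe_coe, card_mul_index]

open scoped Classical in
theorem sum_maxP [Fintype (Subgroup G)] (K : Subgroup G) :
    ∑ Q : Subgroup G, (if MaxP p K Q then (Nat.card ↥(K ⊓ normalizer (Q : Set G)) : ℤ) else 0) =
      Nat.card K := by
  haveI := Fintype.ofFinite (Sylow p K)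
  have h1 : ∑ P : Sylow p K, Nat.card (normalizer ((P : Subgroup K) : Set K)) = Nat.card K := by
    have h2 : 0 < Nat.card (Sylow p K) := Nat.card_pos
    refine Nat.eq_of_mul_eq_mul_right h2 ?_
    rw [Finset.sum_mul, Finset.sum_congr rfl fun P _ => card_normalizer_mul_card_sylow P]
    simp [mul_comm]
  rw [← Finset.sum_filter, ← h1, Nat.cast_sum]
  refine (Finset.sum_bij (fun (P : Sylow p K) _ => (P : Subgroup K).map K.subtype)
    (fun P _ => by simp [maxP_map]) (fun P _ Q _ h => Sylow.ext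
      (map_injective K.subtype_injective h)) (fun Q hQ => ?_) fun P _ => ?_).symm
  · obtain ⟨P, hP⟩ := (mem_filter.1 hQ).2.exists_sylow
    exact ⟨P, mem_univ _, hP⟩
  · congr 1
    rw [← card_map_of_injective K.subtype_injective]
    congr 2
    conv_lhs => rw [← comap_map_eq_self_of_injective K.subtype_injective (P : Subgroup K)]
    rw [← subgroupOf, ← subgroupOf_normalizer_eq (map_subtype_le _), subgroupOf_map_subtype,
      inf_comm]

/-- The `p`-subgroups of `K` normalized by `g`. -/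
def PS (p : ℕ) (K : Subgroup G) (g : G) : Set (Subgroup G) :=
  {Q | IsPGroup p Q ∧ Q ≤ K ∧ g ∈ normalizer (Q : Set G)}

theorem eq_of_inf_normalizer_eq {R Q : Subgroup G} (hQ : IsPGroup p Q) (h : R ≤ Q)
    (h1 : Q ⊓ normalizer (R : Set G) ≤ R) : Q = R := by
  by_contra hne
  obtain ⟨x, hx, hx1, hx2⟩ := H1.exists_mem_normalizer_of_lt hQ.isNilpotent
    (lt_of_le_of_ne h (Ne.symm hne))
  exact hx2 (h1 ⟨hx, hx1⟩)

theorem wt_PS [Fintype (Subgroup G)] {K R : Subgroup G} {g : G} (hR : R ∈ PS p K g) :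
    wt (PS p K g) R = wt (PS p (K ⊓ normalizer (R : Set G)) g) R := by
  refine wt_local _ _ (fun Q => Q ⊓ normalizer (R : Set G)) R
    ⟨hR.1, le_inf hR.2.1 le_normalizer, hR.2.2⟩
    (fun Q hQ => ⟨hQ.1, hQ.2.1.trans inf_le_left, hQ.2.2⟩)
    (fun Q hQ _ => ⟨hQ.1.to_inf_left, inf_le_inf_right _ hQ.2.1,
      inf_normalizer_le_normalizer_inf ⟨hQ.2.2, le_normalizer hR.2.2⟩⟩)
    (fun Q _ A hA => ⟨fun h => h.trans inf_le_left, fun h => le_inf h (hA.2.1.trans inf_le_right)⟩)
    (fun Q hQ h1 h2 => eq_of_inf_normalizer_eq hQ.1 h1 h2.le)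

open scoped Classical in
theorem sum_wt_PS [Fintype G] [Fintype (Subgroup G)] (R : Subgroup G) :
    ∀ K : Subgroup G, IsPGroup p R → R ≤ K →
    ∑ g : G, (if g ∈ K ⊓ normalizer (R : Set G) then wt (PS p K g) R else 0) =
      if MaxP p K R then (Nat.card ↥(K ⊓ normalizer (R : Set G)) : ℤ) else 0 := by
  induction R using (wellFounded_gt (α := Subgroup G)).induction with
  | _ R ih =>
    intro K hR hRK
    set K' := K ⊓ normalizer (R : Set G) with hK'
    have h1 : ∀ g : G, (if g ∈ K' then wt (PS p K g) R else 0) =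
        (if g ∈ K' then 1 else 0) - ∑ Q : Subgroup G, if IsPGroup p Q ∧ Q ≤ K' ∧ R < Q then
          (if g ∈ K' ⊓ normalizer (Q : Set G) then wt (PS p K' g) Q else 0) else 0 := by
      intro g
      split_ifs with hg
      · rw [wt_PS ⟨hR, hRK, hg.2⟩, wt_eq]
        congr 1
        refine Finset.sum_congr rfl fun Q _ => ?_
        rw [← ite_and]
        refine if_congr ⟨fun h => ⟨⟨h.1.1, h.1.2.1, h.2⟩, hg, h.1.2.2⟩,
          fun h => ⟨⟨h.1.1, h.1.2.1, h.2.2⟩, h.1.2.2⟩⟩ rfl rfl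
      · simp [hg]
    rw [Finset.sum_congr rfl fun g _ => h1 g, Finset.sum_sub_distrib, Finset.sum_comm]
    have h2 : ∑ g : G, (if g ∈ K' then (1 : ℤ) else 0) = Nat.card K' := by
      simp [Fintype.card_subtype]
    have h3 : ∀ Q : Subgroup G, ∑ g : G, (if IsPGroup p Q ∧ Q ≤ K' ∧ R < Q then
          (if g ∈ K' ⊓ normalizer (Q : Set G) then wt (PS p K' g) Q else 0) else 0) =
        if R < Q ∧ MaxP p K' Q then (Nat.card ↥(K' ⊓ normalizer (Q : Set G)) : ℤ) else 0 := by
      intro Q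
      by_cases hQ : IsPGroup p Q ∧ Q ≤ K' ∧ R < Q
      · simp only [if_pos hQ]
        rw [ih Q hQ.2.2 K' hQ.1 hQ.2.1]
        simp [hQ.2.2]
      · simp only [if_neg hQ]
        rw [if_neg fun h => hQ ⟨h.2.1.1, h.2.1.2, h.1⟩, Finset.sum_const_zero]
    rw [h2, Finset.sum_congr rfl fun Q _ => h3 Q]
    split_ifs with hm
    · rw [Finset.sum_eq_zero, sub_zero]
      intro Q _
      exact if_neg fun h => h.1.not_ge (hm.2 ⟨h.2.1.1, h.2.1.2.trans inf_le_left⟩ h.1.le)
    · rw [sub_eq_zero, ← sum_maxP (p := p) K']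
      refine Finset.sum_congr rfl fun Q _ => if_congr ⟨fun h => ⟨?_, h⟩, fun h => h.2⟩ rfl rfl
      have h4 : R ≤ Q := le_sup_right.trans (h.2 (y := Q ⊔ R) ⟨h.1.1.to_sup_of_normal_right' hR
        (h.1.2.trans inf_le_right), sup_le h.1.2 (le_inf hRK le_normalizer)⟩ le_sup_left)
      refine lt_of_le_of_ne h4 ?_
      rintro rfl
      refine hm ⟨⟨hR, hRK⟩, fun T hT hRT => (eq_of_inf_normalizer_eq hT.1 hRT ?_).le⟩
      exact h.2 ⟨hT.1.to_inf_left, inf_le_inf_right _ hT.2⟩ (le_inf hRT le_normalizer)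

/-- **Casolo**: the subnormalizer of a `p`-subgroup `H` has `λ(H) * |N(P)|` elements. -/
theorem card_subnormalizer {H : Subgroup G} (hH : IsPGroup p H) (P : Sylow p G) :
    Nat.card {g : G // (H.subgroupOf (H ⊔ zpowers g)).IsSubnormal} =
      Nat.card {Q : Sylow p G // H ≤ (Q : Subgroup G)} *
        Nat.card (normalizer ((P : Subgroup G) : Set G)) := by
  classical
  haveI := Fintype.ofFinite G
  haveI := Fintype.ofFinite (Subgroup G)
  haveI := Fintype.ofFinite (Sylow p G)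
  have h1 : ∀ g : G, (if (H.subgroupOf (H ⊔ zpowers g)).IsSubnormal then (1 : ℤ) else 0) =
      ∑ R : Subgroup G, if IsPGroup p R ∧ H ≤ R then
        (if g ∈ ⊤ ⊓ normalizer (R : Set G) then wt (PS p ⊤ g) R else 0) else 0 := by
    intro g
    split_ifs with hg
    · obtain ⟨R, hR1, hR2, hR3⟩ := (subnormal_iff hH g).1 hg
      obtain ⟨R₀, -, hR₀⟩ := exists_minimal_le_of_wellFoundedLT
        (fun R : Subgroup G => IsPGroup p R ∧ H ≤ R ∧ g ∈ normalizer (R : Set G)) R
        ⟨hR1, hR2, hR3⟩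
      rw [← sum_wt (PS p ⊤ g) (a := R₀) ⟨hR₀.1.1, le_top, hR₀.1.2.2⟩]
      refine Finset.sum_congr rfl fun Q _ => ?_
      rw [← ite_and]
      refine if_congr ⟨fun h => ⟨⟨h.1.1, hR₀.1.2.1.trans h.2⟩, trivial, h.1.2.2⟩,
        fun h => ⟨⟨h.1.1, le_top, h.2.2⟩, ?_⟩⟩ rfl rfl
      exact (hR₀.2 (y := R₀ ⊓ Q) ⟨hR₀.1.1.to_inf_left, le_inf hR₀.1.2.1 h.1.2,
        inf_normalizer_le_normalizer_inf ⟨hR₀.1.2.2, h.2.2⟩⟩ inf_le_left).trans inf_le_right
    · refine (Finset.sum_eq_zero fun Q _ => ?_).symm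
      rw [← ite_and]
      exact if_neg fun h => hg ((subnormal_iff hH g).2 ⟨Q, h.1.1, h.1.2, h.2.2⟩)
  have h2 : (Nat.card {g : G // (H.subgroupOf (H ⊔ zpowers g)).IsSubnormal} : ℤ) =
      ∑ g : G, (if (H.subgroupOf (H ⊔ zpowers g)).IsSubnormal then (1 : ℤ) else 0) := by
    simp [Fintype.card_subtype]
  have h3 : ∀ R : Subgroup G, ∑ g : G, (if IsPGroup p R ∧ H ≤ R then
        (if g ∈ ⊤ ⊓ normalizer (R : Set G) then wt (PS p ⊤ g) R else 0) else 0) =
      if H ≤ R ∧ MaxP p ⊤ R then (Nat.card (normalizer (R : Set G)) : ℤ) else 0 := by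
    intro R
    by_cases hR : IsPGroup p R ∧ H ≤ R
    · simp only [if_pos hR]
      rw [sum_wt_PS R ⊤ hR.1 le_top, top_inf_eq]
      simp [hR.2]
    · simp only [if_neg hR]
      rw [if_neg fun h => hR ⟨h.2.1.1, h.1⟩, Finset.sum_const_zero]
  rw [Finset.sum_congr rfl fun g _ => h1 g, Finset.sum_comm,
    Finset.sum_congr rfl fun R _ => h3 R, ← Finset.sum_filter] at h2
  have h4 : ∑ R : Subgroup G with H ≤ R ∧ MaxP p ⊤ R, (Nat.card (normalizer (R : Set G)) : ℤ) =
      ∑ Q ∈ univ.filter (fun Q : Sylow p G => H ≤ (Q : Subgroup G)),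
        (Nat.card (normalizer ((P : Subgroup G) : Set G)) : ℤ) := by
    refine (Finset.sum_bij (fun (Q : Sylow p G) _ => (Q : Subgroup G)) (fun Q hQ => ?_)
      (fun P _ Q _ h => Sylow.ext h) (fun R hR => ?_) fun Q _ => ?_).symm
    · exact mem_filter.2 ⟨mem_univ _, (mem_filter.1 hQ).2, ⟨Q.isPGroup', le_top⟩,
        fun T hT h => (Q.is_maximal' hT.1 h).le⟩
    · obtain ⟨-, h5, h6⟩ := mem_filter.1 hR
      exact ⟨⟨R, h6.1.1, fun hT h => le_antisymm (h6.2 ⟨hT, le_top⟩ h) h⟩,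
        mem_filter.2 ⟨mem_univ _, h5⟩, rfl⟩
    · congr 1
      have h2 : 0 < Nat.card (Sylow p G) := Nat.card_pos
      refine Nat.eq_of_mul_eq_mul_right h2 ?_
      rw [card_normalizer_mul_card_sylow, card_normalizer_mul_card_sylow]
  rw [h4, Finset.sum_const, nsmul_eq_mul] at h2
  rw [Nat.card_eq_fintype_card (α := {Q : Sylow p G // H ≤ (Q : Subgroup G)}),
    Fintype.card_subtype]
  exact_mod_cast h2

theorem card_conj_le_sylow (H : Subgroup G) (P : Sylow p G) :
    Nat.card {g : G // H.map (MulAut.conj g).toMonoidHom ≤ P} =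
      Nat.card {Q : Sylow p G // H ≤ (Q : Subgroup G)} *
        Nat.card (normalizer ((P : Subgroup G) : Set G)) := by
  have h := card_smul_pred (G := G) P (fun Q => H ≤ (Q : Subgroup G))
  rw [P.stabilizer_eq_normalizer, Sylow.orbit_eq_top] at h
  simp only [Set.top_eq_univ, Set.mem_univ, true_and] at h
  rw [P.coe_coe, ← h]
  refine Nat.card_congr ((Equiv.inv G).subtypeEquiv fun g => ?_)
  rw [H1.map_conj_le_iff]
  refine forall₂_congr fun x _ => ?_
  rw [Equiv.inv_apply, Sylow.coe_subgroup_smul, mem_pointwise_smul_iff_inv_smul_mem]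
  simp

omit hp in
theorem card_conj_le (H P : Subgroup G) :
    Nat.card {g : G // H.map (MulAut.conj g).toMonoidHom ≤ P} =
      Nat.card {K : Subgroup G // K ≤ P ∧ ∃ g : G, K = H.map (MulAut.conj g).toMonoidHom} *
        Nat.card (normalizer (H : Set G)) := by
  letI : MulAction G (Subgroup G) :=
    { smul := fun g K => K.map (MulAut.conj g).toMonoidHom
      one_smul := H1.map_conj_one
      mul_smul := fun g h K => (H1.map_conj_map_conj K g h).symm }
  have h := card_smul_pred (G := G) H (fun K => K ≤ P)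
  have h1 : MulAction.stabilizer G H = normalizer (H : Set G) :=
    Subgroup.ext fun g => H1.map_conj_eq_self_iff
  rw [h1] at h
  refine h.trans ?_
  congr 1
  exact Nat.card_congr (Equiv.subtypeEquivRight fun K =>
    ⟨fun ⟨⟨g, h1⟩, h2⟩ => ⟨h2, g, h1.symm⟩, fun ⟨h2, g, h1⟩ => ⟨⟨g, h1.symm⟩, h2⟩⟩)

end Cfsg.Agent.H6
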