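import Cfsg.Agent.H6.Subnorm

/-!
Counting the conjugates of a `p`-subgroup inside `P ⊔ A` along a chain of normal subgroups.
-/

set_option autoImplicit false

namespace Cfsg.Agent.H6

open Subgroup

variable {G : Type*} [Group G]

/-- The number of `g` with `g H g⁻¹ ≤ T`. -/
noncomputable def cnt (H T : Subgroup G) : ℕ :=
  Nat.card {g : G // H.map (MulAut.conj g).toMonoidHom ≤ T}

/-- The elements of `B` centralizing `H` modulo `A`. -/
def secC (H A B : Subgroup G) [A.Normal] : Subgroup G :=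
  B ⊓ (centralizer ((H.map (QuotientGroup.mk' A) : Subgroup (G ⧸ A)) : Set (G ⧸ A))).comap
    (QuotientGroup.mk' A)

theorem mem_secC {H A B : Subgroup G} [A.Normal] {u : G} :
    u ∈ secC H A B ↔ u ∈ B ∧ ∀ h ∈ H, h * u * h⁻¹ * u⁻¹ ∈ A := by
  rw [secC, mem_inf, mem_comap, mem_centralizer_iff]
  refine and_congr_right fun _ => ⟨fun h1 h hh => ?_, ?_⟩
  · rw [← QuotientGroup.eq_one_iff]
    have := h1 _ ⟨h, hh, rfl⟩
    simp only [QuotientGroup.mk'_apply] at this
    simp [this]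
  · rintro h1 _ ⟨h, hh, rfl⟩
    have := (QuotientGroup.eq_one_iff _).2 (h1 h hh)
    simp only [QuotientGroup.mk_mul, QuotientGroup.mk_inv,
      mul_inv_eq_iff_eq_mul, one_mul] at this
    exact this

theorem le_secC {H A B : Subgroup G} [hA : A.Normal] (h : A ≤ B) : A ≤ secC H A B :=
  fun u hu => mem_secC.2 ⟨h hu, fun x _ => A.mul_mem (hA.conj_mem u hu x) (A.inv_mem hu)⟩

theorem cnt_top (H : Subgroup G) : cnt H ⊤ = Nat.card G :=
  Nat.card_congr (Equiv.subtypeUnivEquiv fun _ => le_top)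

variable [Finite G] {p : ℕ} [hp : Fact p.Prime]

theorem inf_le_of_coprime_relIndex {P A B : Subgroup G} [A.Normal] (hP : IsPGroup p P)
    (hc : (A.relIndex B).Coprime p) : P ⊓ B ≤ A := by
  intro x hx
  obtain ⟨k, hk⟩ := hP ⟨x, hx.1⟩
  have h1 : x ^ p ^ k = 1 := congrArg Subtype.val hk
  have h2 : x ^ A.relIndex B ∈ A := pow_relIndex_mem A hx.2
  have h3 := (QuotientGroup.eq_one_iff _).2 h2
  rw [← QuotientGroup.eq_one_iff, ← orderOf_eq_one_iff]
  refine Nat.eq_one_of_dvd_coprimes (hc.pow_right k) (orderOf_dvd_of_pow_eq_one ?_)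
    (orderOf_dvd_of_pow_eq_one ?_)
  · rwa [QuotientGroup.mk_pow] at h3
  · rw [← QuotientGroup.mk_pow, h1, QuotientGroup.mk_one]

theorem sup_inf_le_of_coprime_relIndex {P A B : Subgroup G} [A.Normal] (hP : IsPGroup p P)
    (hAB : A ≤ B) (hc : (A.relIndex B).Coprime p) : (P ⊔ A) ⊓ B ≤ A := by
  rw [inf_comm, H1.dedekind_right le_normalizer_of_normal hAB, inf_comm]
  exact sup_le (inf_le_of_coprime_relIndex hP hc) le_rfl

theorem card_sup_mul_of_coprime {P A B : Subgroup G} [A.Normal] [B.Normal] (hP : IsPGroup p P)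
    (hAB : A ≤ B) (hc : (A.relIndex B).Coprime p) :
    Nat.card (P ⊔ B : Subgroup G) * Nat.card A = Nat.card (P ⊔ A : Subgroup G) * Nat.card B := by
  have h := H1.card_sup_mul_card_inf (A := P ⊔ A) (N := B) le_normalizer_of_normal
  rwa [sup_assoc, sup_eq_right.2 hAB, le_antisymm (sup_inf_le_of_coprime_relIndex hP hAB hc)
    (le_inf le_sup_right hAB)] at h

theorem sylow_sup_eq_of_pow (P : Sylow p G) {A B : Subgroup G} [A.Normal] [B.Normal]
    (hAB : A ≤ B) {m : ℕ} (hc : A.relIndex B = p ^ m) :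
    (P : Subgroup G) ⊔ A = (P : Subgroup G) ⊔ B := by
  refine le_antisymm (sup_le_sup_left hAB _) ?_
  rw [← relIndex_eq_one]
  have h1 : ((P : Subgroup G) ⊔ A).relIndex ((P : Subgroup G) ⊔ B) ∣ p ^ m := by
    have h2 := H1.card_sup_mul_card_inf (A := (P : Subgroup G) ⊔ A) (N := B)
      le_normalizer_of_normal
    rw [sup_assoc, sup_eq_right.2 hAB,
      ← H1.card_mul_relIndex (sup_le_sup_left hAB (P : Subgroup G)), mul_assoc,
      Nat.mul_right_inj Nat.card_pos.ne', inf_comm,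
      ← H1.card_mul_relIndex (inf_le_left : B ⊓ _ ≤ B), mul_comm,
      Nat.mul_right_inj Nat.card_pos.ne'] at h2
    rw [h2, ← hc]
    exact relIndex_dvd_of_le_left _ (le_inf hAB le_sup_right)
  obtain ⟨k, -, hk⟩ := (Nat.dvd_prime_pow hp.1).1 h1
  obtain rfl | hk0 := Nat.eq_zero_or_pos k
  · simpa using hk
  refine (P.not_dvd_index ((hk ▸ dvd_pow_self p hk0.ne').trans ?_)).elim
  exact (relIndex_dvd_index_of_le (sup_le_sup_left hAB _)).trans (index_dvd_of_le le_sup_left)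

theorem cnt_mul_of_coprime (P : Sylow p G) {H A B : Subgroup G} [hA : A.Normal] [hB : B.Normal]
    (hH : IsPGroup p H) (hAB : A ≤ B) (hc : (A.relIndex B).Coprime p) :
    cnt H ((P : Subgroup G) ⊔ A) * Nat.card B =
      cnt H ((P : Subgroup G) ⊔ B) * Nat.card (secC H A B) := by
  have hex : ∀ g : {g : G // H.map (MulAut.conj g).toMonoidHom ≤ (P : Subgroup G) ⊔ B},
      ∃ n ∈ B, ∀ h ∈ H, n * g * h * (n * g)⁻¹ ∈ (P : Subgroup G) := by
    rintro ⟨g, hg⟩
    obtain ⟨y, hy, h1⟩ := H1.exists_conj_le_sylow P.isPGroup' (fun h => P.not_dvd_index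
      (h.trans (relIndex_dvd_index_of_le le_sup_left))) hg (hH.map _)
    obtain ⟨x, hx, b, hb, rfl⟩ := (H1.mem_sup_iff_of_le_normalizer le_normalizer_of_normal).1 hy
    rw [H1.map_conj_map_conj, H1.map_conj_le_iff] at h1
    refine ⟨b, hb, fun h hh => ?_⟩
    have := (P : Subgroup G).mul_mem ((P : Subgroup G).mul_mem (inv_mem hx) (h1 h hh)) hx
    convert this using 1
    group
  choose n hn1 hn2 using hex
  rw [cnt, cnt, ← Nat.card_prod, ← Nat.card_prod]
  refine (Nat.card_congr (Equiv.ofBijective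
    (fun z : {g : G // H.map (MulAut.conj g).toMonoidHom ≤ (P : Subgroup G) ⊔ B} × secC H A B =>
      ((⟨n z.1 * z.1 * z.2, ?_⟩, ⟨n z.1 * z.1 * z.2 * (z.1 : G)⁻¹, ?_⟩) :
        {g : G // H.map (MulAut.conj g).toMonoidHom ≤ (P : Subgroup G) ⊔ A} × B))
      ⟨?_, ?_⟩)).symm
  · rw [H1.map_conj_le_iff]
    intro h hh
    have h1 := hA.conj_mem _ (A.inv_mem ((mem_secC.1 z.2.2).2 h hh)) (n z.1 * z.1)
    have h2 := mul_mem (mem_sup_right (S := (P : Subgroup G)) h1) (mem_sup_left (hn2 z.1 h hh))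
    convert h2 using 1
    group
  · have := B.mul_mem (hn1 z.1) (hB.conj_mem _ (mem_secC.1 z.2.2).1 z.1)
    convert this using 1
    group
  · rintro ⟨g, c⟩ ⟨g', c'⟩ h
    have h1 : n g * g * c = n g' * g' * c' := congrArg (fun z => (z.1 : G)) h
    have h2 : n g * g * c * (g : G)⁻¹ = n g' * g' * c' * (g' : G)⁻¹ :=
      congrArg (fun z => (z.2 : G)) h
    rw [h1, mul_right_inj, inv_inj] at h2
    obtain rfl : g = g' := Subtype.ext h2
    rw [mul_right_inj] at h1
    rw [Subtype.ext h1]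
  · rintro ⟨⟨g, hg⟩, ⟨m, hm⟩⟩
    rw [H1.map_conj_le_iff] at hg
    have h1 : H.map (MulAut.conj (m⁻¹ * g)).toMonoidHom ≤ (P : Subgroup G) ⊔ B := by
      rw [H1.map_conj_le_iff]
      intro h hh
      have h2 := mem_sup_right (S := (P : Subgroup G)) hm
      have := mul_mem (mul_mem (inv_mem h2) (sup_le_sup_left hAB _ (hg h hh))) h2
      convert this using 1
      group
    set g₀ := n ⟨_, h1⟩ * (m⁻¹ * g) with hg₀
    have h3 : g * g₀⁻¹ ∈ B := by
      have := B.mul_mem hm (B.inv_mem (hn1 ⟨_, h1⟩))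
      convert this using 1
      rw [hg₀]
      group
    refine ⟨⟨⟨_, h1⟩, ⟨g₀⁻¹ * g, mem_secC.2 ⟨?_, fun h hh => ?_⟩⟩⟩, ?_⟩
    · have := hB.conj_mem _ h3 g₀⁻¹
      convert this using 1
      group
    · have h4 : g₀ * h * g₀⁻¹ * (g * h⁻¹ * g⁻¹) ∈ A := by
        refine sup_inf_le_of_coprime_relIndex P.isPGroup' hAB hc
          (mem_inf.2 ⟨mul_mem (mem_sup_left (hn2 ⟨_, h1⟩ h hh)) (hg _ (inv_mem hh)), ?_⟩)
        have := B.mul_mem (hB.conj_mem _ h3 (g₀ * h * g₀⁻¹)) (B.inv_mem h3)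
        convert this using 1
        group
      have := hA.conj_mem _ h4 g₀⁻¹
      convert this using 1
      group
    · ext
      · simp [hg₀, mul_assoc]
      · simp [hg₀, mul_assoc]

end Cfsg.Agent.H6
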