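import Cfsg.Agent.H6.ZAction
import Cfsg.Agent.H1.Hall
import Cfsg.Agent.H3.RankOne

/-!
Hall subgroups with the trivial intersection property.
-/

set_option autoImplicit false
set_option linter.style.haveILetI false

namespace Cfsg.Agent.H6

open Subgroup

variable {G : Type*} [Group G]

theorem mem_normalizer_of_TI {H : Subgroup G} (hTI : IsTISubset (H : Set G)) {x g : G}
    (hx : x ∈ H) (hx1 : x ≠ 1) (hg : g * x * g⁻¹ ∈ H) : g ∈ normalizer (H : Set G) := by
  by_contra h
  exact hx1 (hTI g h x hx hg)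

theorem normalizer_le_of_TI {H P : Subgroup G} (hTI : IsTISubset (H : Set G)) (hPH : P ≤ H)
    (hP : P ≠ ⊥) : normalizer (P : Set G) ≤ normalizer (H : Set G) := by
  obtain ⟨⟨x, hx⟩, hx1⟩ := (Subgroup.ne_bot_iff_exists_ne_one).mp hP
  exact fun g hg => mem_normalizer_of_TI hTI (hPH hx) (fun h => hx1 (Subtype.ext h))
    (hPH ((mem_normalizer_iff.mp hg x).mp hx))

theorem centralizer_le_of_TI {H : Subgroup G} (hTI : IsTISubset (H : Set G)) {x : G}
    (hx : x ∈ H) (hx1 : x ≠ 1) : centralizer ({x} : Set G) ≤ normalizer (H : Set G) :=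
  fun g hg => mem_normalizer_of_TI hTI hx hx1 (by
    rwa [mem_centralizer_singleton_iff.mp hg, mul_inv_cancel_right])

theorem coprime_index_of_TI [Finite G] {H : Subgroup G} (hTI : IsTISubset (H : Set G))
    (hHall : (Nat.card H).Coprime (H.relIndex (normalizer (H : Set G)))) :
    (Nat.card H).Coprime H.index := by
  refine Nat.coprime_of_dvd fun p hp h1 h2 => ?_
  haveI := Fact.mk hp
  obtain ⟨P, hPH, hP, hPi⟩ := H1.exists_sylow_le p H
  have hP1 : P ≠ ⊥ := by
    rintro rfl
    rw [relIndex_bot_left] at hPi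
    exact hPi h1
  have h3 : ¬ p ∣ P.relIndex (normalizer (H : Set G)) := by
    rw [← relIndex_mul_relIndex P H _ hPH le_normalizer]
    exact fun h => (hp.dvd_mul.mp h).elim hPi fun h =>
      hp.one_lt.ne' (Nat.eq_one_of_dvd_coprimes hHall h1 h)
  have h4 := H1.not_dvd_relIndex_of_normalizer (G := ⊤) le_top hP (by
    rw [top_inf_eq]
    refine fun h => h3 (h.trans ?_)
    rw [← relIndex_mul_relIndex P _ _ le_normalizer (normalizer_le_of_TI hTI hPH hP1)]
    exact dvd_mul_right _ _)
  rw [relIndex_top_right] at h4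
  exact h4 (h2.trans (index_dvd_of_le hPH))

theorem isPiHall_of_coprime {H : Subgroup G} (h : (Nat.card H).Coprime H.index) :
    IsPiHall {q | q ∣ Nat.card H} H :=
  ⟨fun _ _ h => h, fun _ hp h1 h2 => hp.one_lt.ne' (Nat.eq_one_of_dvd_coprimes h h1 h2)⟩

theorem eq_bot_of_normal_le_TI {H N : Subgroup G} (hTI : IsTISubset (H : Set G)) (hnn : ¬ H.Normal)
    [N.Normal] (h : N ≤ H) : N = ⊥ := by
  by_contra hne
  have := normalizer_le_of_TI hTI h hne
  rw [normalizer_eq_top, top_le_iff, normalizer_eq_top_iff] at this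
  exact hnn this

theorem piSep_of_chain [Finite G] {H : Subgroup G}
    (hsep : ∃ (n : ℕ) (M : Fin (n + 1) → Subgroup G), M 0 = ⊥ ∧ M (Fin.last n) = ⊤ ∧ Monotone M ∧
      (∀ i, (M i).Normal) ∧ ∀ i : Fin n, (∀ q : ℕ, q.Prime →
        q ∣ (M i.castSucc).relIndex (M i.succ) → q ∣ Nat.card H) ∨
        ((M i.castSucc).relIndex (M i.succ)).Coprime (Nat.card H)) :
    L.PiSep {q | q ∣ Nat.card H} G := by
  obtain ⟨n, M, h0, h1, h2, h3, h4⟩ := hsep
  refine L.piSep_iff_chain.mpr ⟨n, M, h0, h1, h2, h3, fun i => (h4 i).imp id fun h => ?_⟩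
  exact fun q hq h5 h6 => hq.one_lt.ne' (Nat.eq_one_of_dvd_coprimes h h5 h6)

section Structure

variable [Finite G] {π : Set ℕ} {H : Subgroup G} (hTI : IsTISubset (H : Set G)) (hnn : ¬ H.Normal)
  (hH : IsPiHall π H) (hsep : L.PiSep π G)

include hTI hnn hH in
theorem piCore_eq_bot_of_TI : piCore π G = ⊥ :=
  eq_bot_of_normal_le_TI hTI hnn
    (L.le_of_isPiSubgroup_of_index (L.isPiSubgroup_piCore π) hH.2)

include hTI hnn hH hsep in
theorem centralizer_piCore_le_of_TI : centralizer (piCore πᶜ G : Set G) ≤ piCore πᶜ G :=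
  L.centralizer_piCore_le hsep.compl (by rw [compl_compl]; exact piCore_eq_bot_of_TI hTI hnn hH)

omit [Finite G] in
theorem inf_normalizer_le_centralizer {O H : Subgroup G} [O.Normal] (h : H ⊓ O = ⊥) :
    O ⊓ normalizer (H : Set G) ≤ centralizer (H : Set G) := by
  rw [H1.inf_normalizer_eq_inf_centralizer le_normalizer_of_normal h]
  exact inf_le_right

include hH in
theorem inf_piCore_eq_bot_of_hall : H ⊓ piCore πᶜ G = ⊥ :=
  L.IsPiSubgroup.disjoint hH.1 (L.isPiSubgroup_piCore _)

include hTI hH in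
theorem piCore_inf_centralizer_le_of_TI {x : G} (hx : x ∈ H) (hx1 : x ≠ 1) :
    piCore πᶜ G ⊓ centralizer ({x} : Set G) ≤ centralizer (H : Set G) :=
  (inf_le_inf_left _ (centralizer_le_of_TI hTI hx hx1)).trans
    (inf_normalizer_le_centralizer (inf_piCore_eq_bot_of_hall hH))

include hTI hnn hH hsep in
theorem not_piCore_le_centralizer_of_TI : ¬ piCore πᶜ G ≤ centralizer (H : Set G) := by
  intro h
  have h1 : H ≤ piCore πᶜ G :=
    (le_centralizer_iff.mp h).trans (centralizer_piCore_le_of_TI hTI hnn hH hsep)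
  have h2 := inf_piCore_eq_bot_of_hall hH
  rw [inf_eq_left.mpr h1] at h2
  exact hnn (h2 ▸ inferInstance)

include hTI hnn hH hsep in
theorem isCyclic_of_comm_le_of_TI {A : Subgroup G} (hA : IsMulCommutative A) (hAH : A ≤ H) :
    IsCyclic A := by
  by_contra hnc
  refine not_piCore_le_centralizer_of_TI hTI hnn hH hsep
    (H1.le_of_forall_centralizer_le hA hnc le_normalizer_of_normal
      (L.IsPiSubgroup.coprime (L.IsPiSubgroup.mono hAH hH.1) (L.isPiSubgroup_piCore _))
      fun a ha ha1 => piCore_inf_centralizer_le_of_TI hTI hH (hAH ha) ha1)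

include hTI hnn hH hsep in
theorem piCore_sup_normalizer_of_TI : piCore πᶜ G ⊔ normalizer (H : Set G) = ⊤ := by
  set O := piCore πᶜ G with hO
  have hHO : H ⊓ O = ⊥ := inf_piCore_eq_bot_of_hall hH
  have hne : O ≠ ⊤ := fun h => by
    rw [h, inf_top_eq] at hHO
    exact hnn (hHO ▸ inferInstance)
  haveI : Nontrivial (G ⧸ O) := QuotientGroup.nontrivial_iff.mpr hne
  have h1 : piCore π (G ⧸ O) ≠ ⊥ :=
    (hsep.quotient O).piCore_ne_bot.resolve_right (not_not.mpr (L.piCore_quotient_piCore _))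
  obtain ⟨p, hp, hpd⟩ := Nat.exists_prime_and_dvd (fun h => h1 (Subgroup.card_eq_one.mp h))
  haveI := Fact.mk hp
  have hpπ : p ∈ π := L.isPiSubgroup_piCore π p hp hpd
  let W := (piCore π (G ⧸ O)).comap (QuotientGroup.mk' O)
  have hW : W ≤ H ⊔ O := by
    have h2 : piCore π (G ⧸ O) ≤ H.map (QuotientGroup.mk' O) :=
      L.le_of_isPiSubgroup_of_index (L.isPiSubgroup_piCore π)
        (H1.isPiHall_map_of_surjective hH (QuotientGroup.mk'_surjective O)).2
    refine (comap_mono h2).trans ?_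
    rw [comap_map_eq, QuotientGroup.ker_mk']
  obtain ⟨P, hPH, hP, hPi⟩ := H1.exists_sylow_le p (H ⊓ W)
  have hHW := H1.isPiHall_inf_normal hH W
  have hPi' : ¬ p ∣ P.relIndex W := by
    rw [← relIndex_mul_relIndex P _ W hPH inf_le_right]
    exact fun h => (hp.dvd_mul.mp h).elim hPi (hHW.2.2 p hp hpπ)
  have hP1 : P ≠ ⊥ := by
    rintro rfl
    rw [relIndex_bot_left, L.card_comap_mk'] at hPi'
    exact hPi' (hpd.mul_right _)
  rw [eq_top_iff]
  intro g _
  obtain ⟨w, hw, hwg⟩ := H1.frattini_argument (hPH.trans inf_le_right) hP hPi' (x := g)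
    (le_normalizer_of_normal (mem_top g))
  have h2 : w ∈ O ⊔ normalizer (H : Set G) := by
    rw [sup_comm]
    exact sup_le_sup_right le_normalizer _ (hW hw)
  exact (mul_mem_cancel_left h2).mp
    (mem_sup_right (normalizer_le_of_TI hTI (hPH.trans inf_le_left) hP1 hwg))

include hTI hnn hH hsep in
theorem isZGroup_of_TI (h2 : ∀ P : Sylow 2 H, IsMulCommutative (P : Subgroup H)) :
    IsZGroup H := by
  have key : ∀ A : Subgroup H, IsMulCommutative A → IsCyclic A := fun A hA =>
    isCyclic_of_surjective _ (A.equivMapOfInjective _ H.subtype_injective).symm.surjective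
      (hH := isCyclic_of_comm_le_of_TI hTI hnn hH hsep inferInstance (map_subtype_le A))
  refine ⟨fun p hp P => ?_⟩
  haveI := Fact.mk hp
  by_cases hp2 : p = 2
  · subst hp2
    exact key _ (h2 P)
  · refine H3.isCyclic_of_normal_abelian_cyclic hp2 P.isPGroup' fun A _ hA => ?_
    exact isCyclic_of_surjective _
      (A.equivMapOfInjective _ (P : Subgroup H).subtype_injective).symm.surjective
      (hH := key _ inferInstance)

end Structure

end Cfsg.Agent.H6
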