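import Cfsg.Agent.H9.FrobAction
import Cfsg.Agent.H9.FrobKernel
import Cfsg.Agent.H9.ClassSize
import Cfsg.Agent.H1.PAction
import Cfsg.Agent.H1.Section
import Cfsg.Agent.H7.AutPGroup
import Cfsg.Agent.L.MinNormal

/-! A partition of a group by self-normalizing TI subgroups is trivial; consequences for coprime
actions in which all non-identity elements have the same fixed points. -/

set_option autoImplicit false
set_option linter.style.haveILetI false

namespace Cfsg.Agent.H6

open Subgroup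

universe u

theorem exists_eq_top_of_partition {K ι : Type*} [Group K] [Finite K] [Nonempty ι]
    (D : ι → Subgroup K) (ha : ∀ k : K, k ≠ 1 → ∃ i, k ∈ D i)
    (hb : ∀ i, ∀ g h : K, h ∈ D i → h ≠ 1 → g * h * g⁻¹ ∈ D i → g ∈ D i)
    (hc : ∀ i j, ∀ x : K, x ≠ 1 → x ∈ D i → x ∈ D j → D i ≤ D j)
    (hd : ∀ i, ∀ g : K, ∃ j, ∀ x, x ∈ D j ↔ g * x * g⁻¹ ∈ D i) : ∃ i, D i = ⊤ := by
  by_contra hne
  push Not at hne
  rcases subsingleton_or_nontrivial K with hK | hK
  · obtain ⟨i⟩ := ‹Nonempty ι›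
    exact hne i (Subsingleton.elim _ _)
  have hF : ∀ i, ∀ x ∈ D i, x ≠ 1 → IsFrobeniusComplement (D i) := fun i x hx hx1 =>
    H9.isFrobeniusComplement_iff.2 ⟨fun h => hx1 (by rwa [h, mem_bot] at hx), hne i, hb i⟩
  have hidx : ∀ i, IsFrobeniusComplement (D i) → 2 * (D i).index ≤ Nat.card K := by
    intro i h
    rw [← (D i).card_mul_index]
    refine Nat.mul_le_mul_right _ ?_
    exact (one_lt_card_iff_ne_bot _).2 (H9.frob_ne_bot h)
  obtain ⟨y₀, hy₀⟩ := exists_ne (1 : K)
  obtain ⟨i, hi⟩ := ha y₀ hy₀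
  have h1 := hF i y₀ hi hy₀
  have h2 := H9.card_frobeniusKernel h1
  obtain ⟨y, hy, hy1⟩ : ∃ y ∈ frobeniusKernel (D i), y ≠ 1 := by
    have h3 : 1 < (frobeniusKernel (D i)).ncard := by
      rw [← Nat.card_coe_set_eq, h2]
      exact one_lt_index_of_ne_top (hne i)
    obtain ⟨a, ha, b, hb, hab⟩ := (Set.one_lt_ncard (Set.toFinite _)).1 h3
    by_cases h : a = 1
    · exact ⟨b, hb, fun h' => hab (h.trans h'.symm)⟩
    · exact ⟨a, ha, h⟩
  obtain ⟨j, hj⟩ := ha y hy1
  have h4 := hF j y hj hy1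
  have h5 := H9.card_frobeniusKernel h4
  have hcov : frobeniusKernel (D j) ∪ (frobeniusKernel (D i) \ {1}) = Set.univ := by
    rw [Set.eq_univ_iff_forall]
    intro x
    by_cases hx : x ∈ frobeniusKernel (D j)
    · exact Or.inl hx
    obtain ⟨hx1, g, hg⟩ := H9.not_mem_frobeniusKernel.1 hx
    refine Or.inr ⟨?_, hx1⟩
    by_contra hx'
    obtain ⟨-, g', hg'⟩ := H9.not_mem_frobeniusKernel.1 hx'
    obtain ⟨a, ha⟩ := hd j g
    obtain ⟨b, hb⟩ := hd i g'
    have h6 := hc a b x hx1 ((ha x).2 hg) ((hb x).2 hg')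
    have h7 : g⁻¹ * y * g ∈ D a := (ha _).2 (by simpa [mul_assoc] using hj)
    have h8 := (hb _).1 (h6 h7)
    exact H9.not_mem_frobeniusKernel.2 ⟨hy1, g' * g⁻¹, by simpa [mul_assoc] using h8⟩ hy
  have h9 := Set.ncard_union_le (frobeniusKernel (D j)) (frobeniusKernel (D i) \ {1})
  rw [hcov, Set.ncard_univ, Set.ncard_sdiff_singleton_of_mem (H9.one_mem_frobeniusKernel _),
    ← Nat.card_coe_set_eq, ← Nat.card_coe_set_eq, h2, h5] at h9
  have h10 := hidx i h1
  have h11 := hidx j h4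
  have h12 : 0 < (D i).index := Nat.pos_of_ne_zero index_ne_zero_of_finite
  omega

variable {G : Type u} [Group G] [Finite G]

/-- If all non-identity elements of `H` have the same centralizer in `N` (coprime action), then
`H` normalizes a Sylow `r`-subgroup of `N`. -/
theorem exists_invariant_sylow_of_centralizer_le {H N : Subgroup G}
    (hHN : H ≤ normalizer (N : Set G)) (hcop : (Nat.card H).Coprime (Nat.card N))
    (hC : ∀ h ∈ H, h ≠ 1 → N ⊓ centralizer ({h} : Set G) ≤ centralizer (H : Set G))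
    (r : ℕ) [Fact r.Prime] :
    ∃ R : Subgroup G, R ≤ N ∧ IsPGroup r R ∧ ¬ r ∣ R.relIndex N ∧ H ≤ normalizer (R : Set G) := by
  let ι := {R : Subgroup G // R ≤ N ∧ IsPGroup r R ∧ ¬ r ∣ R.relIndex N}
  haveI : Nonempty ι := by
    obtain ⟨R, h⟩ := H1.exists_sylow_le r N
    exact ⟨⟨R, h⟩⟩
  have hz : ∀ h : H, zpowers (h : G) ≤ H := fun h => zpowers_le.2 h.2
  have hsol : ∀ h : G, Group.IsSolvable (zpowers h) ∨ Group.IsSolvable N := fun h =>
    Or.inl (H1.isSolvable_of_isMulCommutative inferInstance)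
  -- two Sylow subgroups normalized by `h ≠ 1` are conjugate by an element centralizing `H`
  have hconj : ∀ (R S : ι) (h : H), h ≠ 1 → (h : G) ∈ normalizer (R.1 : Set G) →
      (h : G) ∈ normalizer (S.1 : Set G) → ∃ c ∈ N ⊓ centralizer (H : Set G),
        S.1.map (MulAut.conj c).toMonoidHom = R.1 := by
    intro R S h h1 hR hS
    obtain ⟨c, hc, hc'⟩ := H1.invariant_sylow_conj ((hz h).trans hHN)
      (H1.coprime_of_le hcop (hz h) le_rfl) (hsol h) R.2.1 R.2.2.1 R.2.2.2 (zpowers_le.2 hR)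
      S.2.1 S.2.2.1 S.2.2.2 (zpowers_le.2 hS)
    refine ⟨c, ⟨hc.1, hC h h.2 (fun h' => h1 (Subtype.ext h')) ⟨hc.1, ?_⟩⟩, hc'⟩
    exact centralizer_le (Set.singleton_subset_iff.2 (mem_zpowers _)) hc.2
  have hmapι : ∀ (R : ι) (g : H), ∃ S : ι, S.1 = R.1.map (MulAut.conj (g : G)).toMonoidHom := by
    intro R g
    refine ⟨⟨_, H1.map_conj_le_of_mem_normalizer R.2.1 (hHN g.2), R.2.2.1.map _, ?_⟩, rfl⟩
    have := H1.relIndex_map_conj R.1 N g
    rw [H1.map_conj_eq_self_iff.2 (hHN g.2)] at this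
    rw [this]
    exact R.2.2.2
  obtain ⟨R, hR⟩ := exists_eq_top_of_partition
    (fun R : ι => (normalizer (R.1 : Set G)).subgroupOf H) (fun k hk => by
      obtain ⟨R, h1, h2, h3, h4⟩ := H1.exists_invariant_sylow ((hz k).trans hHN)
        (H1.coprime_of_le hcop (hz k) le_rfl) (hsol k) r
      exact ⟨⟨R, h1, h2, h3⟩, h4 (mem_zpowers _)⟩)
    (fun R g h hh h1 hg => by
      rw [mem_subgroupOf] at hh hg ⊢
      obtain ⟨S, hS⟩ := hmapι R g⁻¹
      obtain ⟨c, hc, hc'⟩ := hconj R S h h1 hh (by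
        rw [hS, H1.normalizer_map_conj, H1.mem_map_conj]
        simpa using hg)
      rw [hS, H1.map_conj_map_conj, H1.map_conj_eq_self_iff] at hc'
      have hcg : Commute c ((g⁻¹ : H) : G) := (hc.2 _ (g⁻¹).2).symm
      have h2 := H9.mem_zpowers_mul_of_coprime' hcg (Nat.Coprime.coprime_dvd_left
        (N.orderOf_dvd_natCard hc.1) (Nat.Coprime.coprime_dvd_right
          (H.orderOf_dvd_natCard (g⁻¹).2) hcop.symm))
      have h3 := (zpowers_le.2 hc') h2
      rwa [coe_inv, inv_mem_iff] at h3)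
    (fun R S x hx1 hR hS y hy => by
      rw [mem_subgroupOf] at hR hS hy ⊢
      obtain ⟨c, hc, hc'⟩ := hconj S R x hx1 hS hR
      rw [← hc', H1.normalizer_map_conj, H1.mem_map_conj, mul_assoc, hc.2 y y.2]
      simpa using hy)
    (fun R g => by
      obtain ⟨S, hS⟩ := hmapι R g⁻¹
      refine ⟨S, fun x => ?_⟩
      rw [mem_subgroupOf, mem_subgroupOf, hS, H1.normalizer_map_conj, H1.mem_map_conj]
      simp)
  exact ⟨R.1, R.2.1, R.2.2.1, R.2.2.2, subgroupOf_eq_top.1 hR⟩

/-- A coprime nontrivial action in which all non-identity elements have the same fixed points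
yields a fixed-point-free action on a section. -/
theorem exists_isFrobAction_of_centralizer_le {H N : Subgroup G}
    (hHN : H ≤ normalizer (N : Set G)) (hcop : (Nat.card H).Coprime (Nat.card N))
    (hC : ∀ h ∈ H, h ≠ 1 → N ⊓ centralizer ({h} : Set G) ≤ centralizer (H : Set G))
    (hnt : ¬ N ≤ centralizer (H : Set G)) :
    ∃ (V : Type u) (_ : Group V) (_ : Finite V) (_ : Nontrivial V) (φ : H →* MulAut V),
      H9.IsFrobAction φ := by
  obtain ⟨r, hr, R, hRN, hR, hHR, hRC⟩ : ∃ r : ℕ, r.Prime ∧ ∃ R : Subgroup G, R ≤ N ∧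
      IsPGroup r R ∧ H ≤ normalizer (R : Set G) ∧ ¬ R ≤ centralizer (H : Set G) := by
    by_contra hcon
    push Not at hcon
    refine hnt (inf_eq_left.1 ?_)
    rw [inf_comm, inf_eq_right, ← relIndex_eq_one]
    by_contra h1
    obtain ⟨r, hr, hd⟩ := Nat.exists_prime_and_dvd h1
    haveI := Fact.mk hr
    obtain ⟨R, h2, h3, h4, h5⟩ := exists_invariant_sylow_of_centralizer_le hHN hcop hC r
    apply h4
    rw [← inf_relIndex_right] at hd
    exact hd.trans (relIndex_dvd_of_le_left N (le_inf (hcon r hr R h2 h3 h5) h2))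
  haveI := Fact.mk hr
  have hnt' : ⁅R, H⁆ ≠ ⊥ := fun h => hRC (commutator_eq_bot_iff_le_centralizer.1 h)
  obtain ⟨T, hTR, hHT, hT1, hTmin⟩ := H1.exists_minimal_nontrivial hHR hnt'
  have hT : IsPGroup r T := hR.to_le hTR
  have hTne : T ≠ ⊥ := by
    rintro rfl
    exact hT1 (commutator_bot_left _)
  have hHr : (Nat.card H).Coprime r := by
    obtain ⟨k, hk⟩ := IsPGroup.iff_card.1 hT
    have h1 := H1.coprime_of_le hcop le_rfl (hTR.trans hRN)
    rw [hk] at h1
    refine Nat.Coprime.coprime_dvd_right (dvd_pow_self r ?_) h1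
    rintro rfl
    exact hTne (card_eq_one.1 (by simpa using hk))
  have hcen := H1.minimal_centralizer_le hT hHT le_rfl le_normalizer hHr hT1 hTmin
  haveI : Group.IsNilpotent T := hT.isNilpotent
  refine ⟨T ⧸ commutator T, inferInstance, inferInstance, ?_,
    (H7.quotAut (commutator T)).comp (H1.conjAut hHT), ?_⟩
  · rw [QuotientGroup.nontrivial_iff]
    intro h
    have h1 := L.commutator_lt_of_isNilpotent (N := T) (K := T) le_rfl le_normalizer hTne
    rw [← map_subtype_commutator, h, ← MonoidHom.range_eq_map, range_subtype] at h1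
    exact lt_irrefl _ h1
  · intro a ha n hn
    obtain ⟨x, rfl⟩ := QuotientGroup.mk_surjective n
    have hmem : ∀ y : T, y ∈ commutator T ↔ (y : G) ∈ ⁅T, T⁆ := fun y => by
      rw [← map_subtype_commutator]
      exact ⟨fun h => ⟨y, h, rfl⟩, fun ⟨z, hz, h⟩ => (Subtype.ext h : z = y) ▸ hz⟩
    have hz : zpowers (a : G) ≤ H := zpowers_le.2 a.2
    have hTT : ⁅T, T⁆ ≤ T := commutator_le_self T
    obtain ⟨m, hm, hmx⟩ := H1.exists_mul_mem_centralizer (A := zpowers (a : G)) (N := ⁅T, T⁆)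
      (hz.trans (H1.le_normalizer_commutator hHT hHT))
      (H1.coprime_of_le hcop hz (hTT.trans (hTR.trans hRN)))
      (Or.inl (H1.isSolvable_of_isMulCommutative inferInstance)) (g := x) (by
        rintro _ ⟨i, rfl⟩
        have h1 : (H7.quotAut (commutator T)).comp (H1.conjAut hHT) (a ^ i) (x : T ⧸ commutator T)
            = x := by
          rw [map_zpow]
          exact MulAction.mem_stabilizer_iff.1 ((MulAction.stabilizer (MulAut (T ⧸ commutator T))
            (x : T ⧸ commutator T)).zpow_mem hn i)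
        rw [MonoidHom.comp_apply, H7.quotAut_mk, QuotientGroup.eq_iff_div_mem, div_eq_mul_inv,
          hmem] at h1
        exact h1)
    have h2 : m * x ∈ ⁅T, T⁆ := hcen ⟨T.mul_mem (hTT hm) x.2, hC a a.2
      (fun h => ha (Subtype.ext h)) ⟨hRN (hTR (T.mul_mem (hTT hm) x.2)),
        centralizer_le (Set.singleton_subset_iff.2 (mem_zpowers _)) hmx⟩⟩
    rw [QuotientGroup.eq_one_iff, hmem]
    exact (mul_mem_cancel_left hm).1 h2

end Cfsg.Agent.H6
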