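/-
A finite `2`-solvable group is solvable.
-/
import Cfsg.Agent.FT.Final
import Cfsg.Agent.H1.PStd

set_option autoImplicit false

namespace Cfsg.Agent.H6

theorem isSolvable_of_isPSolvable_two {G : Type*} [Group G] [Finite G] (hG : IsPSolvable 2 G) :
    Group.IsSolvable G := by
  obtain ⟨n, H, h0, h1, -, h3, h4⟩ := hG
  have key : ∀ i, Group.IsSolvable (H i) := fun i => by
    induction i using Fin.induction with
    | zero => rw [h0]; infer_instance
    | succ i ih =>
      have := h3 i.castSucc
      refine L.isSolvable_of_map_mk' (H i.castSucc) _ ?_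
      rcases h4 i with ⟨m, h⟩ | h <;> rw [L.relIndex_eq_card_map_mk'] at h
      · exact H1.isSolvable_of_isPGroup (IsPGroup.of_card h)
      · exact FT.feit_thompson _ (Nat.coprime_two_right.1 h)
  have := key (Fin.last n)
  rw [h1] at this
  exact Group.isSolvable_of_surjective (f := (⊤ : Subgroup G).subtype) fun x => ⟨⟨x, trivial⟩, rfl⟩

end Cfsg.Agent.H6
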